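import Mathlib
import Cfsg.Prelude.Def_Characters
import Cfsg.Prelude.Def_Blocks
import Cfsg.Agent.Helper7.MatRep
import Cfsg.Agent.Helper25.CharMore
import Cfsg.Agent.Helper25.CharArith

/-!
# Frobenius–Schur indicators (lead)

* `fs_rep_int`, `fs_int`: the Frobenius–Schur indicator `|G|⁻¹ ∑ χ(g²)` of a character is an
  integer (trace of averaging idempotent on `V ⊗ V` minus twice the trace of its antisymmetric
  part).
* `card_sq_one`: `#{x | x² = 1} = ∑_χ ν(χ) χ(1)`.
* `twist`: product of an irreducible character with a linear character, `twistAction`.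
* `card_le_degree_sq`: a group of linear characters fixing `χ` has order at most `χ(1)²`.
-/

set_option autoImplicit false

namespace Cfsg.Agent.Lead.FS

open scoped Matrix Kronecker
open Cfsg Cfsg.Agent.Helper25 Cfsg.Agent.Helper7

/-- The trace of an idempotent complex matrix is a natural number. -/
theorem trace_idem_nat {ι : Type*} [Fintype ι] [DecidableEq ι] (M : Matrix ι ι ℂ)
    (hM : M * M = M) : ∃ r : ℕ, M.trace = r := by
  have hf : IsIdempotentElem (Matrix.toLin' M) := by
    show Matrix.toLin' M * Matrix.toLin' M = Matrix.toLin' M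
    rw [Module.End.mul_eq_comp, ← Matrix.toLin'_mul, hM]
  obtain ⟨p, hp⟩ := (LinearMap.isProj_iff_isIdempotentElem _).mpr hf
  exact ⟨Module.finrank ℂ p, by rw [← Matrix.trace_toLin'_eq, hp.trace]⟩

/-- The swap matrix on pairs. -/
def swapM (ι : Type*) [DecidableEq ι] : Matrix (ι × ι) (ι × ι) ℂ :=
  fun a b => if a.1 = b.2 ∧ a.2 = b.1 then 1 else 0

theorem kron_mul_swap {ι : Type*} [Fintype ι] [DecidableEq ι] (A : Matrix ι ι ℂ) (a b : ι × ι) :
    ((A ⊗ₖ A) * swapM ι) a b = A a.1 b.2 * A a.2 b.1 := by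
  rw [Matrix.mul_apply, Fintype.sum_eq_single (b.2, b.1)]
  · simp [swapM, Matrix.kroneckerMap_apply]
  · intro c hc
    have : ¬ (c.1 = b.2 ∧ c.2 = b.1) := fun h => hc (Prod.ext h.1 h.2)
    simp [swapM, this]

theorem swap_mul_kron {ι : Type*} [Fintype ι] [DecidableEq ι] (A : Matrix ι ι ℂ) (a b : ι × ι) :
    (swapM ι * (A ⊗ₖ A)) a b = A a.2 b.1 * A a.1 b.2 := by
  rw [Matrix.mul_apply, Fintype.sum_eq_single (a.2, a.1)]
  · simp [swapM, Matrix.kroneckerMap_apply]
  · intro c hc
    have : ¬ (a.1 = c.2 ∧ a.2 = c.1) := fun h => hc (Prod.ext h.2.symm h.1.symm)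
    simp [swapM, this]

theorem swap_comm {ι : Type*} [Fintype ι] [DecidableEq ι] (A : Matrix ι ι ℂ) :
    swapM ι * (A ⊗ₖ A) = (A ⊗ₖ A) * swapM ι := by
  ext a b
  rw [kron_mul_swap, swap_mul_kron, mul_comm]

theorem swap_sq {ι : Type*} [Fintype ι] [DecidableEq ι] : swapM ι * swapM ι = 1 := by
  ext a b
  rw [Matrix.mul_apply, Fintype.sum_eq_single (a.2, a.1)]
  · by_cases hab : a = b
    · subst hab
      simp [swapM]
    · rw [Matrix.one_apply_ne hab]
      have : ¬ (a.2 = b.2 ∧ a.1 = b.1) := fun h => hab (Prod.ext h.2 h.1)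
      simp [swapM, this]
  · intro c hc
    have : ¬ (a.1 = c.2 ∧ a.2 = c.1) := fun h => hc (Prod.ext h.2.symm h.1.symm)
    simp [swapM, this]

theorem trace_kron_swap {ι : Type*} [Fintype ι] [DecidableEq ι] (A : Matrix ι ι ℂ) :
    ((A ⊗ₖ A) * swapM ι).trace = (A * A).trace := by
  simp only [Matrix.trace, Matrix.diag_apply, kron_mul_swap]
  rw [Fintype.sum_prod_type]
  simp only [Matrix.mul_apply]

variable {G : Type*} [Group G]

/-- Averaging a multiplicative family of matrices gives an idempotent. -/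
theorem avg_idem [Fintype G] {ι : Type*} [Fintype ι] [DecidableEq ι]
    (B : G → Matrix ι ι ℂ) (hB : ∀ g h, B (g * h) = B g * B h) :
    (((Nat.card G : ℂ)⁻¹) • ∑ g, B g) * (((Nat.card G : ℂ)⁻¹) • ∑ g, B g) =
      ((Nat.card G : ℂ)⁻¹) • ∑ g, B g := by
  have hc : (Nat.card G : ℂ) ≠ 0 := card_ne_zero
  have h1 : ∀ g, B g * ∑ h, B h = ∑ h, B h := by
    intro g
    rw [Finset.mul_sum]
    simp_rw [← hB]
    exact Fintype.sum_equiv (Equiv.mulLeft g) _ _ (fun h => rfl)
  rw [Matrix.smul_mul, Matrix.mul_smul, smul_smul, Finset.sum_mul,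
    Finset.sum_congr rfl (fun g _ => h1 g), Finset.sum_const, Finset.card_univ,
    ← Nat.cast_smul_eq_nsmul ℂ, smul_smul, Nat.card_eq_fintype_card]
  congr 1
  field_simp

/-- The Frobenius–Schur indicator of a character is an integer. -/
theorem fs_rep_int [Fintype G] {n : ℕ} (ρ : Representation ℂ G (Fin n → ℂ)) :
    ∃ z : ℤ, (Nat.card G : ℂ)⁻¹ * ∑ g : G, ρ.character (g * g) = z := by
  classical
  set A : G → Matrix (Fin n) (Fin n) ℂ := repMat ρ with hA
  set B : G → Matrix (Fin n × Fin n) (Fin n × Fin n) ℂ := fun g => A g ⊗ₖ A g with hB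
  have hBmul : ∀ g h, B (g * h) = B g * B h := by
    intro g h
    simp only [hB, hA, repMat_mul]
    exact Matrix.mul_kronecker_mul _ _ _ _
  set c : ℂ := (Nat.card G : ℂ)⁻¹ with hc
  set E := c • ∑ g, B g with hE
  have hEE : E * E = E := avg_idem B hBmul
  have hES : swapM (Fin n) * E = E * swapM (Fin n) := by
    simp only [hE, Matrix.mul_smul, Matrix.smul_mul, Finset.mul_sum, Finset.sum_mul]
    congr 1
    exact Finset.sum_congr rfl (fun g _ => swap_comm (A g))
  set P : Matrix (Fin n × Fin n) (Fin n × Fin n) ℂ := (1 / 2 : ℂ) • (1 - swapM (Fin n)) with hP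
  have hPP : P * P = P := by
    simp only [hP, Matrix.mul_smul, Matrix.smul_mul, mul_sub, sub_mul, mul_one,
      one_mul, swap_sq]
    have h3 : (1 / 2 : ℂ) • ((1 : Matrix (Fin n × Fin n) (Fin n × Fin n) ℂ) - swapM (Fin n)) -
        (1 / 2 : ℂ) • (swapM (Fin n) - 1) = 1 - swapM (Fin n) := by
      rw [← smul_sub, show (1 : Matrix (Fin n × Fin n) (Fin n × Fin n) ℂ) - swapM (Fin n) -
        (swapM (Fin n) - 1) = (2 : ℂ) • (1 - swapM (Fin n)) by rw [two_smul]; abel, smul_smul]
      norm_num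
    rw [h3]
  have hEP : E * P = P * E := by
    simp only [hP, Matrix.mul_smul, Matrix.smul_mul, mul_sub, sub_mul, mul_one, one_mul, hES]
  have hEPEP : (E * P) * (E * P) = E * P := by
    calc (E * P) * (E * P) = E * (P * E) * P := by simp only [mul_assoc]
      _ = E * (E * P) * P := by rw [hEP]
      _ = (E * E) * (P * P) := by simp only [mul_assoc]
      _ = E * P := by rw [hEE, hPP]
  obtain ⟨r₁, hr₁⟩ := trace_idem_nat E hEE
  obtain ⟨r₂, hr₂⟩ := trace_idem_nat (E * P) hEPEP
  refine ⟨(r₁ : ℤ) - 2 * r₂, ?_⟩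
  have htES : (E * swapM (Fin n)).trace = c * ∑ g, ρ.character (g * g) := by
    simp only [hE, Matrix.smul_mul, Matrix.trace_smul, Finset.sum_mul, Matrix.trace_sum,
      smul_eq_mul, hB, trace_kron_swap, hA, ← repMat_mul, repMat_trace]
  have htEP : (E * P).trace = (1 / 2) * (E.trace - (E * swapM (Fin n)).trace) := by
    simp only [hP, Matrix.mul_smul, Matrix.trace_smul, mul_sub, mul_one, Matrix.trace_sub,
      smul_eq_mul]
  rw [← htES]
  push_cast
  rw [← hr₁, ← hr₂, htEP]
  ring

/-- The Frobenius–Schur indicator of a character is an integer. -/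
theorem fs_char_int [Fintype G] {χ : G → ℂ} (hχ : IsCharacter G χ) :
    ∃ z : ℤ, (Nat.card G : ℂ)⁻¹ * ∑ g : G, χ (g * g) = z := by
  obtain ⟨n, ρ, rfl⟩ := hχ
  exact fs_rep_int ρ

/-- The Frobenius–Schur indicator of an irreducible character is an integer. -/
theorem fs_int [Fintype G] (χ : IrrCharacter G) :
    ∃ z : ℤ, (Nat.card G : ℂ)⁻¹ * ∑ g : G, (χ : G → ℂ) (g * g) = z :=
  fs_char_int (irr_isCharacter χ)

/-- The number of solutions of `x² = 1` is `∑_χ ν(χ) χ(1)`. -/
theorem card_sq_one [Fintype G] :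
    (Nat.card {x : G // x ^ 2 = 1} : ℂ) =
      ∑ χ : IrrCharacter G,
        ((Nat.card G : ℂ)⁻¹ * ∑ g : G, (χ : G → ℂ) (g * g)) * (χ : G → ℂ) 1 := by
  classical
  have hc0 : (Nat.card G : ℂ) ≠ 0 := card_ne_zero
  have h1 : ∀ g : G, ∑ χ : IrrCharacter G, (χ : G → ℂ) 1 * (χ : G → ℂ) (g * g) =
      if g * g = 1 then (Nat.card G : ℂ) else 0 := by
    intro g
    have := sum_irr_one_mul (g * g)
    convert this using 2
  have h2 : (Nat.card {x : G // x ^ 2 = 1} : ℂ) =
      (Nat.card G : ℂ)⁻¹ * ∑ g : G, (if g * g = 1 then (Nat.card G : ℂ) else 0) := by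
    rw [← Finset.sum_filter, Finset.sum_const, nsmul_eq_mul, ← mul_assoc, mul_comm _ ((Finset.card _ : ℕ) : ℂ),
      mul_assoc, inv_mul_cancel₀ hc0, mul_one, Nat.card_eq_fintype_card, Fintype.card_subtype]
    congr 2
    ext g
    simp [sq]
  rw [h2]
  simp_rw [← h1]
  rw [Finset.sum_comm, Finset.mul_sum]
  refine Finset.sum_congr rfl (fun χ _ => ?_)
  rw [← Finset.mul_sum]
  ring


/-! ### Twisting by linear characters -/

/-- Twist of a representation by a linear character. -/
noncomputable def twistRep {V : Type*} [AddCommGroup V] [Module ℂ V] (f : G →* ℂˣ)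
    (ρ : Representation ℂ G V) : Representation ℂ G V where
  toFun g := ((f g : ℂˣ) : ℂ) • ρ g
  map_one' := by simp
  map_mul' a b := by
    simp only [map_mul, Units.val_mul]
    rw [smul_mul_smul_comm]

theorem twistRep_apply {V : Type*} [AddCommGroup V] [Module ℂ V] (f : G →* ℂˣ)
    (ρ : Representation ℂ G V) (g : G) : twistRep f ρ g = ((f g : ℂˣ) : ℂ) • ρ g := rfl

theorem twistRep_character {V : Type*} [AddCommGroup V] [Module ℂ V] (f : G →* ℂˣ)
    (ρ : Representation ℂ G V) (g : G) :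
    (twistRep f ρ).character g = ((f g : ℂˣ) : ℂ) * ρ.character g := by
  show LinearMap.trace ℂ V (((f g : ℂˣ) : ℂ) • ρ g) = _
  rw [map_smul]
  rfl

theorem twistRep_irreducible {V : Type*} [AddCommGroup V] [Module ℂ V] (f : G →* ℂˣ)
    (ρ : Representation ℂ G V) : (twistRep f ρ).IsIrreducible ↔ ρ.IsIrreducible := by
  let e : Subrepresentation (twistRep f ρ) ≃o Subrepresentation ρ :=
    { toFun := fun W => ⟨W.toSubmodule, fun g v hv => by
        have h := W.apply_mem_toSubmodule g hv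
        have h2 := W.toSubmodule.smul_mem (((f g)⁻¹ : ℂˣ) : ℂ) h
        have h3 : ρ g v = (((f g)⁻¹ : ℂˣ) : ℂ) • (twistRep f ρ g v) := by
          rw [twistRep_apply, LinearMap.smul_apply, smul_smul, ← Units.val_mul, inv_mul_cancel,
            Units.val_one, one_smul]
        rw [h3]
        exact h2⟩
      invFun := fun W => ⟨W.toSubmodule, fun g v hv =>
        W.toSubmodule.smul_mem _ (W.apply_mem_toSubmodule g hv)⟩
      left_inv := fun W => rfl
      right_inv := fun W => rfl
      map_rel_iff' := Iff.rfl }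
  exact OrderIso.isSimpleOrder_iff e

/-- The product of an irreducible character with a linear character. -/
noncomputable def twist (f : G →* ℂˣ) (χ : IrrCharacter G) : IrrCharacter G :=
  ⟨fun g => ((f g : ℂˣ) : ℂ) * (χ : G → ℂ) g, by
    obtain ⟨n, ρ, hρ, hχ⟩ := χ.2
    exact ⟨n, twistRep f ρ, (twistRep_irreducible f ρ).mpr hρ, by
      funext g
      rw [← hχ]
      exact twistRep_character f ρ g⟩⟩

@[simp]
theorem twist_apply (f : G →* ℂˣ) (χ : IrrCharacter G) (g : G) :
    (twist f χ : G → ℂ) g = ((f g : ℂˣ) : ℂ) * (χ : G → ℂ) g := rfl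

/-- Linear characters act on irreducible characters by multiplication. -/
@[reducible] noncomputable def twistAction : MulAction (G →* ℂˣ) (IrrCharacter G) where
  smul := twist
  one_smul χ := Subtype.ext (by funext g; show (twist 1 χ : G → ℂ) g = _; simp)
  mul_smul a b χ := Subtype.ext (by
    funext g
    show (twist (a * b) χ : G → ℂ) g = (twist a (twist b χ) : G → ℂ) g
    simp [mul_assoc])

/-- A finite group `T` of linear characters (embedded by `ψ`) all of which fix the irreducible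
character `χ` under multiplication has order at most `χ(1)²`. -/
theorem card_le_degree_sq [Fintype G] {T : Type*} [Group T] [Fintype T] (ψ : T →* (G →* ℂˣ))
    (hψ : Function.Injective ψ) (χ : IrrCharacter G) (hfix : ∀ t, twist (ψ t) χ = χ) :
    Nat.card T ≤ charDegree (χ : G → ℂ) ^ 2 := by
  classical
  have hG0 : (Nat.card G : ℂ) ≠ 0 := card_ne_zero
  -- `s g = ∑_t ψ t g`
  set s : G → ℂ := fun g => ∑ t : T, ((ψ t g : ℂˣ) : ℂ) with hs
  -- (a) `s g * χ g = |T| * χ g`
  have ha : ∀ g, s g * (χ : G → ℂ) g = (Nat.card T : ℂ) * (χ : G → ℂ) g := by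
    intro g
    rw [hs, Finset.sum_mul]
    have : ∀ t : T, ((ψ t g : ℂˣ) : ℂ) * (χ : G → ℂ) g = (χ : G → ℂ) g := by
      intro t
      have := congrArg (fun c : IrrCharacter G => (c : G → ℂ) g) (hfix t)
      simpa using this
    rw [Finset.sum_congr rfl (fun t _ => this t), Finset.sum_const, Finset.card_univ,
      nsmul_eq_mul, Nat.card_eq_fintype_card]
  -- (c) `s g` is `|T|` or `0`
  have hc : ∀ g, s g = (Nat.card T : ℂ) ∨ s g = 0 := by
    intro g
    let ev : T →* ℂ := (Units.coeHom ℂ).comp ((MonoidHom.eval g).comp ψ)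
    have hev : ∀ t, ev t = ((ψ t g : ℂˣ) : ℂ) := fun t => rfl
    by_cases h1 : ev = 1
    · left
      rw [hs]
      have : ∀ t : T, ((ψ t g : ℂˣ) : ℂ) = 1 := by
        intro t
        rw [← hev, h1]
        rfl
      simp only [this, Finset.sum_const, Finset.card_univ, nsmul_eq_mul, mul_one,
        Nat.card_eq_fintype_card]
    · right
      have := sum_hom_units_eq_zero ev h1
      rw [hs]
      simpa [hev] using this
  -- (b) `∑_g s g = |G|`
  have hb : ∑ g : G, s g = (Nat.card G : ℂ) := by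
    rw [hs, Finset.sum_comm, Fintype.sum_eq_single (1 : T)]
    · simp [Nat.card_eq_fintype_card]
    · intro t ht
      have hne : ψ t ≠ 1 := fun h => ht (hψ (by rw [h, map_one]))
      let f : G →* ℂ := (Units.coeHom ℂ).comp (ψ t)
      have hf : f ≠ 1 := by
        intro h
        apply hne
        ext g
        have := congrArg (fun φ : G →* ℂ => φ g) h
        simpa [f] using this
      exact sum_hom_units_eq_zero f hf
  -- the set where `s g = |T|`
  set K : Finset G := Finset.univ.filter (fun g => s g = (Nat.card T : ℂ)) with hK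
  have hT0 : (Nat.card T : ℂ) ≠ 0 := by
    have : 0 < Nat.card T := Nat.card_pos
    exact_mod_cast this.ne'
  have hKcard : (K.card : ℂ) * (Nat.card T : ℂ) = (Nat.card G : ℂ) := by
    rw [← hb, ← Finset.sum_filter_add_sum_filter_not Finset.univ (fun g => s g = (Nat.card T : ℂ))]
    have h1 : ∑ g ∈ Finset.univ.filter (fun g => s g = (Nat.card T : ℂ)), s g =
        (K.card : ℂ) * (Nat.card T : ℂ) := by
      rw [Finset.sum_congr rfl (fun g hg => (Finset.mem_filter.mp hg).2), Finset.sum_const,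
        nsmul_eq_mul]
    have h2 : ∑ g ∈ Finset.univ.filter (fun g => ¬ s g = (Nat.card T : ℂ)), s g = 0 := by
      apply Finset.sum_eq_zero
      intro g hg
      exact (hc g).resolve_left (Finset.mem_filter.mp hg).2
    rw [h1, h2, add_zero]
  -- orthogonality
  have horth : ∑ g : G, (χ : G → ℂ) g * (starRingEnd ℂ) ((χ : G → ℂ) g) = (Nat.card G : ℂ) := by
    have h := irr_classInner χ χ
    rw [if_pos rfl] at h
    unfold classInner at h
    field_simp at h
    rw [h]
  have hvan : ∀ g, g ∉ K → (χ : G → ℂ) g = 0 := by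
    intro g hg
    have h0 : s g = 0 := (hc g).resolve_left (fun h => hg (Finset.mem_filter.mpr ⟨Finset.mem_univ _, h⟩))
    have := ha g
    rw [h0, zero_mul] at this
    rcases mul_eq_zero.mp this.symm with h | h
    · exact absurd h hT0
    · exact h
  have hnorm : ∀ g : G, (χ : G → ℂ) g * (starRingEnd ℂ) ((χ : G → ℂ) g) =
      ((‖(χ : G → ℂ) g‖ ^ 2 : ℝ) : ℂ) := by
    intro g
    rw [Complex.mul_conj, Complex.normSq_eq_norm_sq]
  have hd : ‖(χ : G → ℂ) 1‖ = (charDegree (χ : G → ℂ) : ℝ) := by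
    rw [irr_one_eq_degree]
    simp
  have hle : (Nat.card G : ℝ) ≤ (K.card : ℝ) * (charDegree (χ : G → ℂ) : ℝ) ^ 2 := by
    have h1 : ((Nat.card G : ℝ) : ℂ) = ((∑ g ∈ K, ‖(χ : G → ℂ) g‖ ^ 2 : ℝ) : ℂ) := by
      push_cast
      rw [← horth]
      have : ∑ g : G, (χ : G → ℂ) g * (starRingEnd ℂ) ((χ : G → ℂ) g) =
          ∑ g ∈ K, (χ : G → ℂ) g * (starRingEnd ℂ) ((χ : G → ℂ) g) := by
        symm
        apply Finset.sum_subset (Finset.subset_univ _)
        intro g _ hg
        rw [hvan g hg, zero_mul]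
      rw [this]
      refine Finset.sum_congr rfl (fun g _ => ?_)
      rw [hnorm g]
      push_cast
      rfl
    have h2 : (Nat.card G : ℝ) = ∑ g ∈ K, ‖(χ : G → ℂ) g‖ ^ 2 := by exact_mod_cast h1
    rw [h2]
    calc ∑ g ∈ K, ‖(χ : G → ℂ) g‖ ^ 2 ≤ ∑ g ∈ K, (charDegree (χ : G → ℂ) : ℝ) ^ 2 := by
          apply Finset.sum_le_sum
          intro g _
          have := irr_norm_le χ g
          rw [hd] at this
          exact pow_le_pow_left₀ (norm_nonneg _) this 2
      _ = (K.card : ℝ) * (charDegree (χ : G → ℂ) : ℝ) ^ 2 := by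
          rw [Finset.sum_const, nsmul_eq_mul]
  have hKT : (K.card : ℝ) * (Nat.card T : ℝ) = (Nat.card G : ℝ) := by exact_mod_cast hKcard
  have hKpos : (0 : ℝ) < K.card := by
    rcases Nat.eq_zero_or_pos K.card with h | h
    · exfalso
      have h0 : (Nat.card G : ℝ) = 0 := by rw [← hKT, h]; simp
      have : (0 : ℝ) < Nat.card G := by exact_mod_cast Nat.card_pos
      linarith
    · exact_mod_cast h
  rw [← hKT] at hle
  have := le_of_mul_le_mul_left hle hKpos
  exact_mod_cast this

end Cfsg.Agent.Lead.FS
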