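import Mathlib
import Cfsg.Agent.S0001
import Cfsg.Agent.S0023

/-!
# External coprime action helpers

* `exists_invariant_sylow_ext`: invariant Sylow subgroups for a `MulDistribMulAction`.
* `maschke_elem`: invariant complements in elementary abelian groups under coprime action.
* `quotAction`: the induced action on a quotient by an invariant normal subgroup.
-/

set_option autoImplicit false

namespace Cfsg.Agent.Lead

section bridge

variable {A G : Type*} [Group A] [Finite A] [Group G] [Finite G] [MulDistribMulAction A G]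

theorem exists_invariant_sylow_ext (hcop : (Nat.card A).Coprime (Nat.card G))
    (hsol : Group.IsSolvable A ∨ Group.IsSolvable G) (p : ℕ) [Fact p.Prime] :
    ∃ P : Sylow p G, ∀ a : A, ∀ x ∈ (P : Subgroup G), a • x ∈ (P : Subgroup G) := by
  obtain ⟨φ, hφ⟩ : ∃ φ : A →* MulAut G, ∀ a x, φ a x = a • x :=
    ⟨MulDistribMulAction.toMulAut A G, fun _ _ => rfl⟩
  haveI : Finite (G ⋊[φ] A) := Finite.of_equiv _ SemidirectProduct.equivProd.symm
  obtain ⟨il, hil⟩ : ∃ il : G →* G ⋊[φ] A, il = SemidirectProduct.inl := ⟨_, rfl⟩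
  obtain ⟨ir, hir⟩ : ∃ ir : A →* G ⋊[φ] A, ir = SemidirectProduct.inr := ⟨_, rfl⟩
  have hilinj : Function.Injective il := hil ▸ SemidirectProduct.inl_injective
  have hirinj : Function.Injective ir := hir ▸ SemidirectProduct.inr_injective
  have hconj : ∀ (a : A) (x : G), ir a * il x * (ir a)⁻¹ = il (a • x) := by
    intro a x
    rw [← map_inv, hil, hir, ← hφ]
    exact (SemidirectProduct.inl_aut a x).symm
  have hn : (il.range).Normal := by
    rw [hil, SemidirectProduct.range_inl_eq_ker_rightHom]; infer_instance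
  have hAK : ir.range ≤ Subgroup.normalizer ((il.range : Subgroup (G ⋊[φ] A)) : Set (G ⋊[φ] A)) := by
    rw [Subgroup.le_normalizer_iff]
    intro h _ k hk
    exact hn.conj_mem k hk h
  have hc1 : Nat.card ir.range = Nat.card A := Nat.card_range_of_injective hirinj
  have hc2 : Nat.card il.range = Nat.card G := Nat.card_range_of_injective hilinj
  have hcop' : (Nat.card ir.range).Coprime (Nat.card il.range) := by rw [hc1, hc2]; exact hcop
  have hsolv' : Group.IsSolvable ir.range ∨ Group.IsSolvable il.range := by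
    rcases hsol with h | h
    · left
      haveI := h
      exact Group.isSolvable_of_surjective (f := ir.rangeRestrict) ir.rangeRestrict_surjective
    · right
      haveI := h
      exact Group.isSolvable_of_surjective (f := il.rangeRestrict) il.rangeRestrict_surjective
  obtain ⟨P, hP⟩ := Cfsg.Agent.S0023.result ir.range il.range hAK hcop' hsolv' p
  have hinj : Function.Injective il.rangeRestrict := by
    rw [MonoidHom.rangeRestrict_injective_iff]; exact hilinj
  have hrange : (P : Subgroup il.range) ≤ il.rangeRestrict.range := by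
    rw [MonoidHom.range_eq_top.mpr il.rangeRestrict_surjective]; exact le_top
  refine ⟨P.comapOfInjective il.rangeRestrict hinj hrange, ?_⟩
  intro a x hx
  rw [Sylow.coe_comapOfInjective] at hx ⊢
  rw [Subgroup.mem_comap] at hx ⊢
  have h1 : ir a ∈ Subgroup.normalizer
      (((P : Subgroup il.range).map il.range.subtype : Subgroup (G ⋊[φ] A)) : Set (G ⋊[φ] A)) :=
    hP ⟨a, rfl⟩
  rw [Subgroup.mem_normalizer_iff] at h1
  have h2 : il x ∈ (P : Subgroup il.range).map il.range.subtype := ⟨il.rangeRestrict x, hx, rfl⟩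
  have h3 := (h1 (il x)).mp h2
  rw [hconj] at h3
  obtain ⟨z, hz, hz'⟩ := h3
  have h4 : il.rangeRestrict (a • x) = z := Subtype.ext hz'.symm
  rw [h4]; exact hz

/-- every proper invariant subgroup lies in a maximal invariant subgroup -/
theorem exists_max_inv (L : Subgroup G) (hL : L ≠ ⊤) (hLinv : ∀ a : A, ∀ x ∈ L, a • x ∈ L) :
    ∃ M : Subgroup G, L ≤ M ∧ M ≠ ⊤ ∧ (∀ a : A, ∀ x ∈ M, a • x ∈ M) ∧
      ∀ K : Subgroup G, M < K → (∀ a : A, ∀ x ∈ K, a • x ∈ K) → K = ⊤ := by
  have hfin : {K : Subgroup G | L ≤ K ∧ K ≠ ⊤ ∧ ∀ a : A, ∀ x ∈ K, a • x ∈ K}.Finite :=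
    Set.toFinite _
  obtain ⟨M, hM⟩ := hfin.exists_maximal ⟨L, le_refl L, hL, hLinv⟩
  refine ⟨M, hM.1.1, hM.1.2.1, hM.1.2.2, fun K hMK hK => ?_⟩
  by_contra hne
  have h1 : K ≤ M := hM.2 ⟨hM.1.1.trans hMK.le, hne, hK⟩ hMK.le
  exact absurd (lt_of_lt_of_le hMK h1) (lt_irrefl _)

theorem inv_sup (H K : Subgroup G) (hH : ∀ a : A, ∀ x ∈ H, a • x ∈ H)
    (hK : ∀ a : A, ∀ x ∈ K, a • x ∈ K) : ∀ a : A, ∀ x ∈ H ⊔ K, a • x ∈ H ⊔ K := by
  intro a x hx
  have h : H ⊔ K ≤ (H ⊔ K).comap (MulDistribMulAction.toMonoidEnd A G a) :=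
    sup_le (fun y hy => Subgroup.mem_sup_left (hH a y hy))
      (fun y hy => Subgroup.mem_sup_right (hK a y hy))
  exact h hx

theorem inv_of_characteristic (H : Subgroup G) [hH : H.Characteristic] :
    ∀ a : A, ∀ x ∈ H, a • x ∈ H := by
  intro a x hx
  exact (Subgroup.characteristic_iff_le_comap.mp hH (MulDistribMulAction.toMulAut A G a)) hx

end bridge

section quot

variable {A G : Type*} [Group A] [Group G] [MulDistribMulAction A G]

/-- the induced action on a quotient by an invariant normal subgroup -/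
@[reducible] def quotAction (N : Subgroup G) [N.Normal] (hN : ∀ a : A, ∀ x ∈ N, a • x ∈ N) :
    MulDistribMulAction A (G ⧸ N) where
  smul a := QuotientGroup.map N N (MulDistribMulAction.toMonoidEnd A G a) (fun x hx => hN a x hx)
  one_smul x := by
    induction x using QuotientGroup.induction_on with
    | H g => exact congrArg (QuotientGroup.mk (s := N)) (one_smul A g)
  mul_smul a b x := by
    induction x using QuotientGroup.induction_on with
    | H g => exact congrArg (QuotientGroup.mk (s := N)) (mul_smul a b g)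
  smul_mul a x y := map_mul _ x y
  smul_one a := map_one _

end quot

section maschke

/-- plain complements in elementary abelian groups -/
theorem exists_compl_elem {V : Type*} [CommGroup V] [Finite V] (p : ℕ) [hp : Fact p.Prime]
    (hV : ∀ v : V, v ^ p = 1) (U : Subgroup V) :
    ∃ W : Subgroup V, U ⊓ W = ⊥ ∧ U ⊔ W = ⊤ := by
  have hfin : {W : Subgroup V | U ⊓ W = ⊥}.Finite := Set.toFinite _
  obtain ⟨W, hW⟩ := hfin.exists_maximal ⟨⊥, inf_bot_eq U⟩
  have hWb : U ⊓ W = ⊥ := hW.1
  refine ⟨W, hWb, ?_⟩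
  by_contra hne
  obtain ⟨g, hg⟩ : ∃ g : V, g ∉ U ⊔ W := by
    by_contra h
    apply hne
    rw [eq_top_iff]
    intro x _
    by_contra hx
    exact h ⟨x, hx⟩
  have hW1 : U ⊓ (W ⊔ Subgroup.zpowers g) = ⊥ := by
    rw [eq_bot_iff]
    rintro x ⟨hxU, hxW⟩
    obtain ⟨w, hw, z, hz, rfl⟩ := Subgroup.mem_sup.mp hxW
    obtain ⟨i, rfl⟩ := Subgroup.mem_zpowers_iff.mp hz
    have hgi : g ^ i ∈ U ⊔ W := by
      have e : g ^ i = (w * g ^ i) * w⁻¹ := by rw [mul_comm w, mul_inv_cancel_right]
      rw [e]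
      exact Subgroup.mul_mem _ (Subgroup.mem_sup_left hxU) (Subgroup.mem_sup_right (W.inv_mem hw))
    have hgi1 : g ^ i = 1 := by
      by_contra hne1
      have hpi : ¬ (p : ℤ) ∣ i := by
        rintro ⟨k, rfl⟩
        apply hne1
        rw [zpow_mul, zpow_natCast, hV, one_zpow]
      have hcop : IsCoprime i (p : ℤ) := by
        rw [Int.isCoprime_iff_gcd_eq_one]
        have h1 : ¬ p ∣ i.natAbs := fun h => hpi (Int.natCast_dvd.mpr h)
        have h2 := (Nat.Prime.coprime_iff_not_dvd hp.out).mpr h1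
        have h3 : Int.gcd i (p : ℤ) = Nat.gcd i.natAbs p := by
          simp [Int.gcd]
        rw [h3]
        exact h2.symm
      obtain ⟨a, b, hab⟩ := hcop
      apply hg
      have e : g = (g ^ i) ^ a := by
        have h1 : g ^ (a * i + b * (p : ℤ)) = g := by rw [hab, zpow_one]
        rw [zpow_add, zpow_mul' g b, zpow_natCast, hV, one_zpow, mul_one, mul_comm a i, zpow_mul] at h1
        exact h1.symm
      rw [e]
      exact Subgroup.zpow_mem _ hgi a
    rw [hgi1, mul_one] at hxU ⊢
    have h5 : w ∈ U ⊓ W := ⟨hxU, hw⟩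
    rw [hWb] at h5
    exact h5
  have h6 : W ⊔ Subgroup.zpowers g ≤ W := hW.2 hW1 le_sup_left
  exact hg (Subgroup.mem_sup_right (h6 (Subgroup.mem_sup_right (Subgroup.mem_zpowers g))))

/-- Maschke: invariant complements in elementary abelian groups under coprime action -/
theorem maschke_comm {A V : Type*} [Group A] [Finite A] [CommGroup V] [Finite V]
    [MulDistribMulAction A V] (p : ℕ) [hp : Fact p.Prime] (hV : ∀ v : V, v ^ p = 1)
    (hcop : (Nat.card A).Coprime p) (U : Subgroup V) (hU : ∀ a : A, ∀ x ∈ U, a • x ∈ U) :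
    ∃ W : Subgroup V, (∀ a : A, ∀ x ∈ W, a • x ∈ W) ∧ U ⊓ W = ⊥ ∧ U ⊔ W = ⊤ := by
  classical
  haveI : Fintype A := Fintype.ofFinite A
  obtain ⟨W₀, hW₀, hW₀'⟩ := exists_compl_elem p hV U
  obtain ⟨π, hπU, hπid⟩ : ∃ π : V →* V, (∀ v, π v ∈ U) ∧ ∀ u ∈ U, π u = u := by
    let f : U × W₀ →* V := (U.subtype).coprod (W₀.subtype)
    have hfa : ∀ x : U × W₀, f x = (x.1 : V) * (x.2 : V) := fun x => rfl
    have hf : Function.Bijective f := by
      constructor
      · rw [injective_iff_map_eq_one]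
        rintro ⟨u, w⟩ h
        have h' : (u : V) * (w : V) = 1 := h
        have hu : (u : V) ∈ U ⊓ W₀ :=
          ⟨u.2, by rw [eq_inv_of_mul_eq_one_left h']; exact W₀.inv_mem w.2⟩
        rw [hW₀, Subgroup.mem_bot] at hu
        have hw : (w : V) = 1 := by rw [hu, one_mul] at h'; exact h'
        exact Prod.ext (Subtype.ext hu) (Subtype.ext hw)
      · intro v
        have hv : v ∈ U ⊔ W₀ := by rw [hW₀']; trivial
        obtain ⟨u, hu, w, hw, rfl⟩ := Subgroup.mem_sup.mp hv
        exact ⟨(⟨u, hu⟩, ⟨w, hw⟩), rfl⟩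
    let e := MulEquiv.ofBijective f hf
    refine ⟨U.subtype.comp ((MonoidHom.fst U W₀).comp e.symm.toMonoidHom), fun v => ?_,
      fun u hu => ?_⟩
    · exact (e.symm v).1.2
    · have h1 : e.symm u = (⟨u, hu⟩, 1) := by
        rw [MulEquiv.symm_apply_eq]
        show u = f (⟨u, hu⟩, 1)
        rw [hfa]
        simp
      show ((e.symm u).1 : V) = u
      rw [h1]
  let φ : V →* V := ∏ a : A, ((MulDistribMulAction.toMonoidEnd A V a).comp
    (π.comp (MulDistribMulAction.toMonoidEnd A V a⁻¹)))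
  have hφ : ∀ v, φ v = ∏ a : A, a • π (a⁻¹ • v) := by
    intro v
    show (∏ a : A, ((MulDistribMulAction.toMonoidEnd A V a).comp
      (π.comp (MulDistribMulAction.toMonoidEnd A V a⁻¹)))) v = _
    rw [MonoidHom.finsetProd_apply]
    rfl
  have hφU : ∀ v, φ v ∈ U := by
    intro v; rw [hφ]
    exact Subgroup.prod_mem _ (fun a _ => hU a _ (hπU _))
  have hφeq : ∀ (b : A) (v : V), φ (b • v) = b • φ v := by
    intro b v
    rw [hφ, hφ, Finset.smul_prod']
    refine (Fintype.prod_equiv (Equiv.mulLeft b) _ _ (fun c => ?_)).symm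
    simp [mul_smul, mul_inv_rev]
  have hφu : ∀ u ∈ U, φ u = u ^ Nat.card A := by
    intro u hu
    rw [hφ, Nat.card_eq_fintype_card, ← Finset.card_univ, ← Finset.prod_const]
    refine Finset.prod_congr rfl (fun a _ => ?_)
    rw [hπid _ (hU a⁻¹ u hu), smul_inv_smul]
  have hpow : ∀ u : V, u ^ Nat.card A = 1 → u = 1 := by
    intro u hu
    have h1 := pow_gcd_eq_one.mpr ⟨hu, hV u⟩
    rw [Nat.Coprime.gcd_eq_one hcop, pow_one] at h1
    exact h1
  refine ⟨φ.ker, fun a x hx => ?_, ?_, ?_⟩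
  · rw [MonoidHom.mem_ker] at hx ⊢
    rw [hφeq, hx, smul_one]
  · rw [eq_bot_iff]
    rintro u ⟨hu, hk⟩
    have hk' : φ u = 1 := hk
    rw [hφu u hu] at hk'
    exact hpow u hk'
  · rw [eq_top_iff]
    intro v _
    have hsurj : ∃ u ∈ U, u ^ Nat.card A = φ v := by
      let ψ : U →* U := powMonoidHom (Nat.card A)
      have hinj : Function.Injective ψ := by
        rw [injective_iff_map_eq_one]
        intro u hu
        have h1 : (u : V) ^ Nat.card A = 1 := by
          have h2 := congrArg Subtype.val hu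
          simpa [ψ] using h2
        exact Subtype.ext (hpow _ h1)
      obtain ⟨u, hu⟩ := (Finite.injective_iff_surjective.mp hinj) ⟨φ v, hφU v⟩
      refine ⟨u, u.2, ?_⟩
      have h2 := congrArg Subtype.val hu
      simpa [ψ] using h2
    obtain ⟨u, hu, huv⟩ := hsurj
    have hk : v * u⁻¹ ∈ φ.ker := by
      rw [MonoidHom.mem_ker, map_mul, map_inv, hφu u hu, huv, mul_inv_cancel]
    have e : v = u * (v * u⁻¹) := by rw [mul_comm v, mul_inv_cancel_left]
    rw [e]
    exact Subgroup.mul_mem_sup hu hk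

/-- Maschke for a group with commutativity given as a hypothesis. -/
theorem maschke_elem {A V : Type*} [Group A] [Finite A] [Group V] [Finite V]
    [MulDistribMulAction A V] (hcomm : ∀ x y : V, x * y = y * x)
    (p : ℕ) [hp : Fact p.Prime] (hV : ∀ v : V, v ^ p = 1)
    (hcop : (Nat.card A).Coprime p) (U : Subgroup V) (hU : ∀ a : A, ∀ x ∈ U, a • x ∈ U) :
    ∃ W : Subgroup V, (∀ a : A, ∀ x ∈ W, a • x ∈ W) ∧ U ⊓ W = ⊥ ∧ U ⊔ W = ⊤ := by
  letI : CommGroup V := { (inferInstance : Group V) with mul_comm := hcomm }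
  exact maschke_comm p hV hcop U hU

end maschke

end Cfsg.Agent.Lead
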