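import Mathlib

set_option autoImplicit false

namespace Cfsg.Agent.S2487P

open scoped Pointwise

/-- Abstract Sylow wiring: if a `2`-subgroup `C0` meets each of its conjugates nontrivially
(elementwise form), then any two Sylow `2`-subgroups meet nontrivially. -/
theorem lead_sylow_meet {G : Type*} [Group G] [Finite G] (C0 : Subgroup G)
    (hC0 : IsPGroup 2 C0)
    (hkey : ∀ y : G, ∃ c : G, c ≠ 1 ∧ c ∈ C0 ∧ y⁻¹ * c * y ∈ C0)
    (H : Sylow 2 G) (x : G) :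
    (H : Subgroup G) ⊓ MulAut.conj x • (H : Subgroup G) ≠ ⊥ := by
  have h2 : Fact (Nat.Prime 2) := ⟨Nat.prime_two⟩
  obtain ⟨P1, hP1⟩ := hC0.exists_le_sylow
  obtain ⟨a, ha⟩ := MulAction.exists_smul_eq G P1 H
  -- `H = a P1 a⁻¹`
  have hH : ∀ z : G, z ∈ (H : Subgroup G) ↔ a⁻¹ * z * a ∈ (P1 : Subgroup G) := by
    intro z
    rw [← ha, Sylow.coe_subgroup_smul, Subgroup.mem_pointwise_smul_iff_inv_smul_mem]
    simp [MulAut.smul_def]
  obtain ⟨c, hc1, hcC, hcy⟩ := hkey (a⁻¹ * x * a)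
  intro hbot
  have hmem : a * c * a⁻¹ ∈ (H : Subgroup G) ⊓ MulAut.conj x • (H : Subgroup G) := by
    refine Subgroup.mem_inf.mpr ⟨?_, ?_⟩
    · rw [hH]
      have h0 : a⁻¹ * (a * c * a⁻¹) * a = c := by group
      rw [h0]; exact hP1 hcC
    · rw [Subgroup.mem_pointwise_smul_iff_inv_smul_mem]
      have h0 : (MulAut.conj x)⁻¹ • (a * c * a⁻¹) = x⁻¹ * (a * c * a⁻¹) * x := by
        rw [← map_inv, MulAut.smul_def, MulAut.conj_apply, inv_inv]
      rw [h0, hH]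
      have h1 : a⁻¹ * (x⁻¹ * (a * c * a⁻¹) * x) * a =
          (a⁻¹ * x * a)⁻¹ * c * (a⁻¹ * x * a) := by group
      rw [h1]
      exact hP1 hcy
  rw [hbot, Subgroup.mem_bot] at hmem
  apply hc1
  have h0 : c = a⁻¹ * (a * c * a⁻¹) * a := by group
  rw [h0, hmem]; group

end Cfsg.Agent.S2487P
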