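import Mathlib
import Cfsg.Prelude.Def_Classical
import Cfsg.Agent.Lead.S2487W

set_option autoImplicit false

namespace Cfsg.Agent.S2487P

open scoped Pointwise
open Matrix

/-- Final wiring of S2487 from (S1) (the pointwise stabiliser of `e_1..e_n` has exponent
dividing 8) and (FIX) (any `2n` vectors are fixed by a nontrivial isometry). -/
theorem lead_final {F : Type*} [Field F] [Fintype F] (n : ℕ)
    (S1 : ∀ g : Matrix.GeneralLinearGroup (Fin (n + 1) ⊕ Fin (n + 1)) F,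
      g ∈ Cfsg.isometryGroup F (Cfsg.quadFormPlus (n + 1) F) →
      (∀ i : Fin n, (g : Matrix (Fin (n + 1) ⊕ Fin (n + 1)) (Fin (n + 1) ⊕ Fin (n + 1)) F) *ᵥ
        (Pi.single (Sum.inl i.castSucc) 1) = Pi.single (Sum.inl i.castSucc) 1) → g ^ 8 = 1)
    (FIX : ∀ w : Fin n ⊕ Fin n → (Fin (n + 1) ⊕ Fin (n + 1) → F),
      ∃ g : Matrix.GeneralLinearGroup (Fin (n + 1) ⊕ Fin (n + 1)) F,
        g ∈ Cfsg.isometryGroup F (Cfsg.quadFormPlus (n + 1) F) ∧ g ≠ 1 ∧
        ∀ i : Fin n ⊕ Fin n,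
          (g : Matrix (Fin (n + 1) ⊕ Fin (n + 1)) (Fin (n + 1) ⊕ Fin (n + 1)) F) *ᵥ w i = w i)
    (H : Sylow 2 (Cfsg.isometryGroup F (Cfsg.quadFormPlus (n + 1) F)))
    (x : Cfsg.isometryGroup F (Cfsg.quadFormPlus (n + 1) F)) :
    (H : Subgroup (Cfsg.isometryGroup F (Cfsg.quadFormPlus (n + 1) F))) ⊓
      MulAut.conj x • (H : Subgroup _) ≠ ⊥ := by
  classical
  have : Finite (Cfsg.isometryGroup F (Cfsg.quadFormPlus (n + 1) F)) := inferInstance
  let e : Fin n → (Fin (n + 1) ⊕ Fin (n + 1) → F) := fun i => Pi.single (Sum.inl i.castSucc) 1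
  let C0 : Subgroup (Cfsg.isometryGroup F (Cfsg.quadFormPlus (n + 1) F)) :=
    { carrier := {g | ∀ i : Fin n,
        ((g : Matrix.GeneralLinearGroup (Fin (n + 1) ⊕ Fin (n + 1)) F) :
          Matrix (Fin (n + 1) ⊕ Fin (n + 1)) (Fin (n + 1) ⊕ Fin (n + 1)) F) *ᵥ e i = e i}
      one_mem' := by
        intro i
        simp
      mul_mem' := by
        intro a b ha hb i
        have ha' := ha i
        have hb' := hb i
        simp only [Subgroup.coe_mul, Units.val_mul]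
        rw [← Matrix.mulVec_mulVec, hb', ha']
      inv_mem' := by
        intro a ha i
        have ha' := ha i
        have h1 : ((a⁻¹ : Cfsg.isometryGroup F (Cfsg.quadFormPlus (n + 1) F)) :
            Matrix.GeneralLinearGroup (Fin (n + 1) ⊕ Fin (n + 1)) F).val *ᵥ
            ((a : Matrix.GeneralLinearGroup (Fin (n + 1) ⊕ Fin (n + 1)) F).val *ᵥ e i) = e i := by
          rw [Matrix.mulVec_mulVec, ← Units.val_mul, ← Subgroup.coe_mul, inv_mul_cancel]
          simp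
        rw [ha'] at h1
        exact h1 }
  have hC0mem : ∀ g : Cfsg.isometryGroup F (Cfsg.quadFormPlus (n + 1) F), g ∈ C0 ↔
      ∀ i : Fin n, ((g : Matrix.GeneralLinearGroup (Fin (n + 1) ⊕ Fin (n + 1)) F) :
        Matrix (Fin (n + 1) ⊕ Fin (n + 1)) (Fin (n + 1) ⊕ Fin (n + 1)) F) *ᵥ e i = e i :=
    fun g => Iff.rfl
  have hC0 : IsPGroup 2 C0 := by
    intro g
    refine ⟨3, ?_⟩
    have h1 := S1 (g : Cfsg.isometryGroup F (Cfsg.quadFormPlus (n + 1) F)).1
      (g : Cfsg.isometryGroup F (Cfsg.quadFormPlus (n + 1) F)).2 ((hC0mem _).mp g.2)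
    apply Subtype.ext
    apply Subtype.ext
    simpa using h1
  have hkey : ∀ y : Cfsg.isometryGroup F (Cfsg.quadFormPlus (n + 1) F),
      ∃ c : Cfsg.isometryGroup F (Cfsg.quadFormPlus (n + 1) F), c ≠ 1 ∧ c ∈ C0 ∧
        y⁻¹ * c * y ∈ C0 := by
    intro y
    obtain ⟨g0, hg0, hg1, hfix⟩ := FIX (Sum.elim e
      (fun i => ((y : Matrix.GeneralLinearGroup (Fin (n + 1) ⊕ Fin (n + 1)) F) :
        Matrix (Fin (n + 1) ⊕ Fin (n + 1)) (Fin (n + 1) ⊕ Fin (n + 1)) F) *ᵥ e i))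
    refine ⟨⟨g0, hg0⟩, ?_, ?_, ?_⟩
    · intro h
      exact hg1 (congrArg Subtype.val h)
    · rw [hC0mem]
      intro i
      exact hfix (Sum.inl i)
    · rw [hC0mem]
      intro i
      have h1 := hfix (Sum.inr i)
      simp only [Sum.elim_inr] at h1
      simp only [Subgroup.coe_mul, Units.val_mul]
      rw [← Matrix.mulVec_mulVec, ← Matrix.mulVec_mulVec, h1, Matrix.mulVec_mulVec,
        ← Units.val_mul, ← Subgroup.coe_mul, inv_mul_cancel]
      simp
  exact lead_sylow_meet C0 hC0 hkey H x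

end Cfsg.Agent.S2487P
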