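import Mathlib
import Cfsg.Prelude.Def_MonsterType
import Cfsg.Agent.Lead.XS
import Cfsg.Agent.S0026
import Cfsg.Agent.S0027
import Cfsg.Agent.S0012
import Cfsg.Agent.Helper22.FrattiniSq

set_option autoImplicit false
set_option linter.style.haveILetI false

namespace Cfsg.Agent.Lead.XS

open Cfsg
open scoped commutatorElement

variable {G : Type*} [Group G]

/-- the central involution of an extraspecial 2-subgroup -/
theorem exists_z (Q : Subgroup G) (hE : Cfsg.IsExtraspecial 2 ↥Q) :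
    ∃ z ∈ Q, z ≠ 1 ∧ z * z = 1 ∧ (∀ y ∈ Q, z * y = y * z) ∧
      (∀ c ∈ Q, (∀ y ∈ Q, c * y = y * c) → c = 1 ∨ c = z) := by
  obtain ⟨w, hw1, hw2⟩ := (Nat.card_eq_two_iff' (1 : Subgroup.center ↥Q)).mp hE.2
  refine ⟨((w : ↥Q) : G), (w : ↥Q).2, ?_, ?_, ?_, ?_⟩
  · intro h
    apply hw1
    exact Subtype.ext (Subtype.ext h)
  · by_contra h
    have h1 : w * w ≠ 1 := fun h' => h (by
      have := congrArg (fun t : Subgroup.center ↥Q => ((t : ↥Q) : G)) h'
      simpa using this)
    have h2 := hw2 (w * w) h1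
    have h3 : w = 1 := by simpa using h2
    exact hw1 h3
  · intro y hy
    have h1 := Subgroup.mem_center_iff.mp w.2 ⟨y, hy⟩
    have h2 := congrArg (fun t : ↥Q => (t : G)) h1
    simpa using h2.symm
  · intro c hc hcc
    by_cases hc1 : c = 1
    · exact Or.inl hc1
    · right
      have hcm : (⟨c, hc⟩ : ↥Q) ∈ Subgroup.center ↥Q := by
        rw [Subgroup.mem_center_iff]
        intro y
        exact Subtype.ext (by simpa using (hcc y.1 y.2).symm)
      have h1 := hw2 ⟨⟨c, hc⟩, hcm⟩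
        (fun h => hc1 (congrArg (fun t : Subgroup.center ↥Q => ((t : ↥Q) : G)) h))
      exact congrArg (fun t : Subgroup.center ↥Q => ((t : ↥Q) : G)) h1

/-- a non-abelian subgroup of an extraspecial 2-group whose centre is `{1, z}` is extraspecial -/
theorem xs_sub [Finite G] (Q : Subgroup G) (hE : Cfsg.IsExtraspecial 2 ↥Q) (z : G)
    (hzQ : z ∈ Q) (hz1 : z ≠ 1) (hzc : ∀ y ∈ Q, z * y = y * z)
    (cen : ∀ c ∈ Q, (∀ y ∈ Q, c * y = y * c) → c = 1 ∨ c = z)
    (R : Subgroup G) (hRQ : R ≤ Q)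
    (hcenR : ∀ c ∈ R, (∀ y ∈ R, c * y = y * c) → c = 1 ∨ c = z)
    (hnab : ∃ a ∈ R, ∃ b ∈ R, a * b ≠ b * a) : Cfsg.IsExtraspecial 2 ↥R := by
  haveI : Fact (Nat.Prime 2) := ⟨Nat.prime_two⟩
  have comm := xs_comm Q z hzQ hz1 hzc hE
  have hRp : IsPGroup 2 ↥R := hE.1.1.to_le hRQ
  obtain ⟨a, ha, b, hb, hab⟩ := hnab
  have habz : a * b = z * b * a := (comm a (hRQ ha) b (hRQ hb)).resolve_left hab
  have hzR : z ∈ R := by
    have h1 : z = a * b * a⁻¹ * b⁻¹ := by
      rw [habz]
      group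
    rw [h1]
    exact R.mul_mem (R.mul_mem (R.mul_mem ha hb) (R.inv_mem ha)) (R.inv_mem hb)
  have hcen_iff : ∀ c : ↥R, c ∈ Subgroup.center ↥R ↔ (c : G) = 1 ∨ (c : G) = z := by
    intro c
    constructor
    · intro hc
      apply hcenR c.1 c.2
      intro y hy
      have h1 := Subgroup.mem_center_iff.mp hc ⟨y, hy⟩
      have h2 := congrArg (fun t : ↥R => (t : G)) h1
      simpa using h2.symm
    · rintro (h | h)
      · have h1 : c = 1 := Subtype.ext h
        rw [h1]
        exact Subgroup.one_mem _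
      · rw [Subgroup.mem_center_iff]
        intro y
        apply Subtype.ext
        have h1 := hzc y.1 (hRQ y.2)
        simp only [Subgroup.coe_mul]
        rw [h]
        exact h1.symm
  have hcomm_le : commutator ↥R ≤ Subgroup.center ↥R := by
    rw [commutator_def, Subgroup.commutator_le]
    intro x _ y _
    rw [hcen_iff]
    have h1 : ((⁅x, y⁆ : ↥R) : G) = (x : G) * (y : G) * (x : G)⁻¹ * (y : G)⁻¹ := by
      simp [commutatorElement_def]
    rw [h1]
    rcases comm x.1 (hRQ x.2) y.1 (hRQ y.2) with h | h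
    · left
      rw [h]
      group
    · right
      rw [h]
      group
  have hz'comm : (⟨z, hzR⟩ : ↥R) ∈ commutator ↥R := by
    have h1 : ⁅(⟨a, ha⟩ : ↥R), (⟨b, hb⟩ : ↥R)⁆ ∈ commutator ↥R := by
      rw [commutator_def]
      exact Subgroup.commutator_mem_commutator (Subgroup.mem_top _) (Subgroup.mem_top _)
    have h2 : ⁅(⟨a, ha⟩ : ↥R), (⟨b, hb⟩ : ↥R)⁆ = (⟨z, hzR⟩ : ↥R) := by
      apply Subtype.ext
      simp only [commutatorElement_def, Subgroup.coe_mul, Subgroup.coe_inv]
      rw [habz]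
      group
    rw [h2] at h1
    exact h1
  have hcen_le : Subgroup.center ↥R ≤ commutator ↥R := by
    intro c hc
    rcases (hcen_iff c).mp hc with h | h
    · have h1 : c = 1 := Subtype.ext h
      rw [h1]
      exact Subgroup.one_mem _
    · have h1 : c = ⟨z, hzR⟩ := Subtype.ext h
      rw [h1]
      exact hz'comm
  have hcomm_eq : commutator ↥R = Subgroup.center ↥R := le_antisymm hcomm_le hcen_le
  have hfr_le : frattini ↥R ≤ Subgroup.center ↥R := by
    apply Cfsg.Agent.Helper22.frattini_le_of_sq_mem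
    intro x
    rw [hcen_iff]
    have hx2 : ((⟨x.1, hRQ x.2⟩ : ↥Q)) ^ 2 ∈ frattini ↥Q :=
      (Cfsg.Agent.S0012.result 2 hE.1.1).2 _
    rw [hE.1.2.1] at hx2
    have h1 : ∀ y ∈ Q, ((x : G) ^ 2) * y = y * ((x : G) ^ 2) := by
      intro y hy
      have h2 := Subgroup.mem_center_iff.mp hx2 ⟨y, hy⟩
      have h3 := congrArg (fun t : ↥Q => (t : G)) h2
      simpa using h3.symm
    have h4 := cen _ (Q.pow_mem (hRQ x.2) 2) h1
    simpa using h4
  have hfr_ge : Subgroup.center ↥R ≤ frattini ↥R := by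
    rw [← hcomm_eq]
    exact (Cfsg.Agent.S0012.result 2 hRp).1
  refine ⟨⟨hRp, le_antisymm hfr_le hfr_ge, hcomm_eq⟩, ?_⟩
  rw [Nat.card_eq_two_iff]
  refine ⟨1, ⟨⟨z, hzR⟩, (hcen_iff _).mpr (Or.inr rfl)⟩, ?_, ?_⟩
  · intro h
    apply hz1
    exact (congrArg (fun t : Subgroup.center ↥R => ((t : ↥R) : G)) h).symm
  · ext c
    simp only [Set.mem_insert_iff, Set.mem_singleton_iff, Set.mem_univ, iff_true]
    rcases (hcen_iff c.1).mp c.2 with h | h
    · left
      exact Subtype.ext (Subtype.ext h)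
    · right
      exact Subtype.ext (Subtype.ext h)

theorem odd_decomp_aux [Finite G] (Q A C R : Subgroup G)
    (hCdef : C = Q ⊓ Subgroup.centralizer (A : Set G)) (hRdef : R = ⁅Q, A⁆)
    (hQ : Cfsg.IsLargeExtraspecial Q)
    (hA : A ≤ Subgroup.normalizer (Q : Set G)) (hAodd : Odd (Nat.card ↥A)) (hA1 : A ≠ ⊥) :
    C ⊔ R = Q ∧ (∀ x ∈ C, ∀ y ∈ R, x * y = y * x) ∧ Cfsg.IsExtraspecial 2 ↥R ∧
    (C = ((Subgroup.center ↥Q).map Q.subtype) ∨ Cfsg.IsExtraspecial 2 ↥C) := by
  haveI : Fact (Nat.Prime 2) := ⟨Nat.prime_two⟩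
  obtain ⟨hE, hCQ, hNQ, -⟩ := hQ
  obtain ⟨z, hzQ, hz1, hz2, hzc, cen⟩ := exists_z Q hE
  have comm := xs_comm Q z hzQ hz1 hzc hE
  have hQp : IsPGroup 2 ↥Q := hE.1.1
  have hcop : (Nat.card A).Coprime (Nat.card Q) := by
    obtain ⟨k, hk⟩ := IsPGroup.iff_card.mp hQp
    rw [hk]
    exact Nat.Coprime.pow_right k (Nat.coprime_two_right.mpr hAodd)
  have hsolv : Group.IsSolvable A ∨ Group.IsSolvable Q := Or.inr (by
    haveI := hQp.isNilpotent
    infer_instance)
  have h26 := Cfsg.Agent.S0026.result A Q hA hcop hsolv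
  have h27 := Cfsg.Agent.S0027.result A Q hA hcop hsolv
  rw [← hRdef, ← hCdef] at h26
  rw [← hRdef] at h27
  have hsup : C ⊔ R = Q := by
    rw [sup_comm]
    exact h26
  have hRQ : R ≤ Q := by
    rw [← hsup]
    exact le_sup_right
  have hCQ' : C ≤ Q := by
    rw [hCdef]
    exact inf_le_left
  have hCA : ∀ x ∈ C, ∀ a ∈ A, a * x = x * a := by
    intro x hx a ha
    rw [hCdef] at hx
    exact (Subgroup.mem_centralizer_iff.mp hx.2) a ha
  have hAz : ∀ a ∈ A, a * z = z * a := by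
    intro a ha
    have haN := hA ha
    have h1 : a * z * a⁻¹ ∈ Q := (Subgroup.mem_normalizer_iff.mp haN z).mp hzQ
    have h2 : ∀ y ∈ Q, (a * z * a⁻¹) * y = y * (a * z * a⁻¹) := by
      intro y hy
      have hy' : a⁻¹ * y * a ∈ Q := by
        have := (Subgroup.mem_normalizer_iff.mp (Subgroup.inv_mem _ haN) y).mp hy
        rwa [inv_inv] at this
      have h3 := hzc _ hy'
      calc a * z * a⁻¹ * y = a * (z * (a⁻¹ * y * a)) * a⁻¹ := by group
        _ = a * ((a⁻¹ * y * a) * z) * a⁻¹ := by rw [h3]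
        _ = y * (a * z * a⁻¹) := by group
    rcases cen _ h1 h2 with h | h
    · exfalso
      apply hz1
      calc z = a⁻¹ * (a * z * a⁻¹) * a := by group
        _ = 1 := by rw [h]; group
    · rw [mul_inv_eq_iff_eq_mul] at h
      exact h
  have hzC : z ∈ C := by
    rw [hCdef]
    exact ⟨hzQ, Subgroup.mem_centralizer_iff.mpr (fun a ha => hAz a ha)⟩
  have h2 : ∀ x ∈ C, ∀ y ∈ R, x * y = y * x := by
    intro x hx
    have hle : R ≤ Subgroup.centralizer ({x} : Set G) := by
      rw [hRdef, Subgroup.commutator_le]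
      intro q hq a ha
      rw [mem_cs, commutatorElement_def]
      have hxa := hCA x hx a ha
      have hxa' : Commute x a := hxa.symm
      rcases comm x (hCQ' hx) q hq with h | h
      · have hxq : Commute x q := h
        exact (((hxq.mul_right hxa').mul_right hxq.inv_right).mul_right hxa'.inv_right).eq
      · have hzq' : Commute z q := hzc q hq
        have hza' : Commute z a := (hAz a ha).symm
        have hw : Commute z (q * a * q⁻¹ * a⁻¹) :=
          ((hzq'.mul_right hza').mul_right hzq'.inv_right).mul_right hza'.inv_right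
        have e1 : x * q * x⁻¹ = z * q := by rw [h, mul_inv_cancel_right]
        have e2 : x * a * x⁻¹ = a := by rw [← hxa, mul_inv_cancel_right]
        have e3 : (z * q) * a * (z * q)⁻¹ * a⁻¹ = z * (q * a * q⁻¹ * a⁻¹) * z⁻¹ := by
          have hz' : z⁻¹ * a⁻¹ = a⁻¹ * z⁻¹ := (hza'.inv_left.inv_right).eq
          calc z * q * a * (z * q)⁻¹ * a⁻¹ = z * q * a * q⁻¹ * (z⁻¹ * a⁻¹) := by group
            _ = z * q * a * q⁻¹ * (a⁻¹ * z⁻¹) := by rw [hz']
            _ = z * (q * a * q⁻¹ * a⁻¹) * z⁻¹ := by group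
        calc x * (q * a * q⁻¹ * a⁻¹)
            = (x * q * x⁻¹) * (x * a * x⁻¹) * (x * q * x⁻¹)⁻¹ * (x * a * x⁻¹)⁻¹ * x := by group
          _ = (z * q) * a * (z * q)⁻¹ * a⁻¹ * x := by rw [e1, e2]
          _ = (q * a * q⁻¹ * a⁻¹) * x := by rw [e3, hw.eq, mul_inv_cancel_right]
    intro y hy
    exact mem_cs.mp (hle hy)
  have central_of : ∀ c : G, (∀ y ∈ C, c * y = y * c) → (∀ y ∈ R, c * y = y * c) →
      ∀ y ∈ Q, c * y = y * c := by
    intro c h1 h2' y hy
    have hle : C ⊔ R ≤ Subgroup.centralizer ({c} : Set G) :=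
      sup_le (fun w hw => mem_cs.mpr (h1 w hw)) (fun w hw => mem_cs.mpr (h2' w hw))
    rw [hsup] at hle
    exact mem_cs.mp (hle hy)
  have hcenR : ∀ c ∈ R, (∀ y ∈ R, c * y = y * c) → c = 1 ∨ c = z := fun c hc hcc =>
    cen c (hRQ hc) (central_of c (fun y hy => (h2 y hy c hc).symm) hcc)
  have hcenC : ∀ c ∈ C, (∀ y ∈ C, c * y = y * c) → c = 1 ∨ c = z := fun c hc hcc =>
    cen c (hCQ' hc) (central_of c hcc (fun y hy => h2 c hc y hy))
  have hRnab : ∃ a ∈ R, ∃ b ∈ R, a * b ≠ b * a := by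
    by_contra hcon
    push Not at hcon
    have hR1 : ∀ c ∈ R, c = 1 ∨ c = z := fun c hc => hcenR c hc (fun y hy => hcon c hc y hy)
    have hRA : ⁅R, A⁆ = ⊥ := by
      rw [Subgroup.commutator_eq_bot_iff_le_centralizer]
      intro c hc
      rw [Subgroup.mem_centralizer_iff]
      intro a ha
      rcases hR1 c hc with h | h
      · rw [h, mul_one, one_mul]
      · rw [h]
        exact hAz a ha
    rw [hRA] at h27
    have hQC : Q ≤ Subgroup.centralizer (A : Set G) := by
      rw [← hsup, ← h27, sup_bot_eq, hCdef]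
      exact inf_le_right
    have hAQ : A ≤ Q := by
      intro a ha
      have h1 : a ∈ Subgroup.centralizer (Q : Set G) := by
        rw [Subgroup.mem_centralizer_iff]
        intro q hq
        exact ((Subgroup.mem_centralizer_iff.mp (hQC hq)) a ha).symm
      rw [hCQ] at h1
      exact Subgroup.map_subtype_le _ h1
    apply hA1
    have hAp : IsPGroup 2 ↥A := hQp.to_le hAQ
    obtain ⟨k, hk⟩ := IsPGroup.iff_card.mp hAp
    have hk0 : k = 0 := by
      by_contra hk0
      have h3 : Even (Nat.card A) := by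
        rw [hk]
        exact (Nat.even_pow.mpr ⟨even_two, hk0⟩)
      exact (Nat.not_even_iff_odd.mpr hAodd) h3
    rw [hk0, pow_zero] at hk
    exact (Subgroup.card_eq_one).mp hk
  refine ⟨hsup, h2, xs_sub Q hE z hzQ hz1 hzc cen R hRQ hcenR hRnab, ?_⟩
  by_cases hCab : ∀ a ∈ C, ∀ b ∈ C, a * b = b * a
  · left
    ext y
    constructor
    · intro hy
      rcases hcenC y hy (fun w hw => hCab y hy w hw) with h | h
      · rw [h]
        exact Subgroup.one_mem _
      · rw [h]
        have hzm : (⟨z, hzQ⟩ : ↥Q) ∈ Subgroup.center ↥Q := by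
          rw [Subgroup.mem_center_iff]
          intro w
          exact Subtype.ext (by simpa using (hzc w.1 w.2).symm)
        exact ⟨⟨z, hzQ⟩, hzm, rfl⟩
    · rintro ⟨c, hc, rfl⟩
      have h1 : ∀ w ∈ Q, (c : G) * w = w * (c : G) := by
        intro w hw
        have h3 := Subgroup.mem_center_iff.mp hc ⟨w, hw⟩
        have h4 := congrArg (fun t : ↥Q => (t : G)) h3
        simpa using h4.symm
      rcases cen _ c.2 h1 with h | h
      · simp only [Subgroup.coe_subtype]
        rw [h]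
        exact Subgroup.one_mem _
      · simp only [Subgroup.coe_subtype]
        rw [h]
        exact hzC
  · right
    push Not at hCab
    exact xs_sub Q hE z hzQ hz1 hzc cen C hCQ' hcenC hCab

end Cfsg.Agent.Lead.XS
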