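import Mathlib
import Cfsg.Prelude.Def_MonsterType
import Cfsg.Agent.Lead.XS5
import Cfsg.Agent.Lead.XS2
import Cfsg.Agent.Helper1.Fusion

set_option autoImplicit false
set_option linter.style.haveILetI false

namespace Cfsg.Agent.Lead.XS

open Cfsg

variable {G : Type*} [Group G]

/-- General form of the symmetry of orthogonality: `Q` extraspecial, self-centralizing and
normalized by `C(z)`; if `g z g⁻¹ ∈ Q` then `z ∈ g Q g⁻¹`. -/
theorem main_gen [Finite G] (Q : Subgroup G) (hE : Cfsg.IsExtraspecial 2 ↥Q) (z : G)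
    (hzQ : z ∈ Q) (hz1 : z ≠ 1) (hz2 : z * z = 1) (hzc : ∀ y ∈ Q, z * y = y * z)
    (cen : ∀ c ∈ Q, (∀ y ∈ Q, c * y = y * c) → c = 1 ∨ c = z)
    (hCall : ∀ h : G, (∀ y ∈ Q, h * y = y * h) → h ∈ Q)
    (hnorm : ∀ h : G, h * z = z * h → ∀ y ∈ Q, h * y * h⁻¹ ∈ Q)
    (g : G) (hx : g * z * g⁻¹ ∈ Q) : g⁻¹ * z * g ∈ Q := by
  have comm := xs_comm Q z hzQ hz1 hzc hE
  have hQp : IsPGroup 2 ↥Q := hE.1.1
  obtain ⟨u, hu⟩ : ∃ u, u = g * z * g⁻¹ := ⟨_, rfl⟩
  rw [← hu] at hx
  have hu2 : u * u = 1 := by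
    rw [hu]
    calc g * z * g⁻¹ * (g * z * g⁻¹) = g * (z * z) * g⁻¹ := by group
      _ = 1 := by rw [hz2]; group
  by_cases huz : u = z
  · have h1 : g⁻¹ * z * g = z := by
      calc g⁻¹ * z * g = g⁻¹ * (g * z * g⁻¹) * g := by rw [← hu, huz]
        _ = z := by group
    rw [h1]
    exact hzQ
  have hu1 : u ≠ 1 := by
    intro h
    apply hz1
    calc z = g⁻¹ * (g * z * g⁻¹) * g := by group
      _ = g⁻¹ * u * g := by rw [hu]
      _ = 1 := by rw [h]; group
  have hzu : z * u = u * z := hzc u hx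
  obtain ⟨q, hq, hqu⟩ := exists_q Q z u hx huz hu1 cen comm
  have hzq : z * q = q * z := hzc q hq
  have huq : u * q = z * q * u := by
    calc u * q = (z * z) * (u * q) := by rw [hz2, one_mul]
      _ = z * (z * u * q) := by simp only [mul_assoc]
      _ = z * (q * u) := by rw [hqu]
      _ = z * q * u := by simp only [mul_assoc]
  obtain ⟨O, hOdef⟩ : ∃ O : Set G,
      O = {y | ∃ s ∈ Subgroup.centralizer ({u} : Set G), y = s * z * s⁻¹} := ⟨_, rfl⟩
  have hOmem : ∀ y, y ∈ O ↔ ∃ s ∈ Subgroup.centralizer ({u} : Set G), y = s * z * s⁻¹ := by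
    intro y
    rw [hOdef]
    exact Iff.rfl
  have hOstab : ∀ R : Subgroup G, R ≤ Subgroup.centralizer ({u} : Set G) →
      ∀ r ∈ R, ∀ y ∈ O, r * y * r⁻¹ ∈ O := by
    intro R hR r hr y hy
    obtain ⟨s, hs, rfl⟩ := (hOmem y).mp hy
    exact (hOmem _).mpr ⟨r * s, Subgroup.mul_mem _ (hR hr) hs, by group⟩
  have hOne : ∀ y ∈ O, y ≠ 1 ∧ y ≠ u := by
    intro y hy
    obtain ⟨s, hs, rfl⟩ := (hOmem y).mp hy
    constructor
    · intro h
      apply hz1
      calc z = s⁻¹ * (s * z * s⁻¹) * s := by group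
        _ = 1 := by rw [h]; group
    · intro h
      apply huz
      have hs' := mem_cs.mp hs
      calc u = s⁻¹ * (s * u) := by group
        _ = s⁻¹ * (u * s) := by rw [hs']
        _ = s⁻¹ * (s * z * s⁻¹ * s) := by rw [h]
        _ = z := by group
  haveI : Finite O := Finite.of_injective (fun y : O => (y : G)) Subtype.val_injective
  obtain ⟨Qg, hQg⟩ : ∃ Qg : Subgroup G, Qg = Q.map (MulAut.conj g).toMonoidHom := ⟨_, rfl⟩
  have hQgmem : ∀ w ∈ Q, g * w * g⁻¹ ∈ Qg := by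
    intro w hw
    rw [hQg]
    exact ⟨w, hw, by simp [MulAut.conj_apply]⟩
  have hQgp : IsPGroup 2 ↥Qg := by
    rw [hQg]
    exact hQp.map _
  have hQgle : Qg ≤ Subgroup.centralizer ({u} : Set G) := by
    rw [hQg]
    rintro _ ⟨w, hw, rfl⟩
    rw [mem_cs, hu]
    simp only [MulEquiv.coe_toMonoidHom, MulAut.conj_apply]
    have h1 := hzc w hw
    calc g * z * g⁻¹ * (g * w * g⁻¹) = g * (z * w) * g⁻¹ := by group
      _ = g * (w * z) * g⁻¹ := by rw [h1]
      _ = g * w * g⁻¹ * (g * z * g⁻¹) := by group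
  have hOeven : 2 ∣ Nat.card O := by
    refine fp_even Qg hQgp O (hOstab _ hQgle) ?_
    intro y hy hfix
    have h1 : ∀ w ∈ Q, (g⁻¹ * y * g) * w = w * (g⁻¹ * y * g) := by
      intro w hw
      have h2 := hfix _ (hQgmem w hw)
      calc g⁻¹ * y * g * w
          = g⁻¹ * (g * w * g⁻¹ * y * (g * w * g⁻¹)⁻¹) * g * w := by rw [h2]
        _ = w * (g⁻¹ * y * g) := by group
    have h2 := hCall _ h1
    rcases cen _ h2 h1 with h | h
    · apply (hOne y hy).1
      calc y = g * (g⁻¹ * y * g) * g⁻¹ := by group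
        _ = 1 := by rw [h]; group
    · apply (hOne y hy).2
      calc y = g * (g⁻¹ * y * g) * g⁻¹ := by group
        _ = u := by rw [h, hu]
  have hzO : z ∈ O := (hOmem z).mpr ⟨1, Subgroup.one_mem _, by group⟩
  have hPfix : ∀ r ∈ Q ⊓ Subgroup.centralizer ({u} : Set G), r * z * r⁻¹ = z := by
    intro r hr
    have h1 := hzc r hr.1
    rw [← h1, mul_inv_cancel_right]
  obtain ⟨y, hyO, hyz, hyfix⟩ := fp_other (Q ⊓ Subgroup.centralizer ({u} : Set G))
    (hQp.to_le inf_le_left) O (hOstab _ inf_le_right) hOeven z hzO hPfix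
  have hyP : ∀ p ∈ Q, p * u = u * p → y * p = p * y := by
    intro p hp hpu
    have h1 := hyfix p ⟨hp, mem_cs.mpr hpu.symm⟩
    exact (mul_inv_eq_iff_eq_mul.mp h1).symm
  have hy4 := cent_P Q z u hzQ hx hz2 hz1 hu2 hzc cen comm hCall hnorm q hq hqu y hyP
  have hyuz : y = u * z := by
    rcases hy4 with h | h | h | h
    · exact absurd h (hOne y hyO).1
    · exact absurd h hyz
    · exact absurd h (hOne y hyO).2
    · exact h
  obtain ⟨s, hs, hys⟩ := (hOmem y).mp hyO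
  have hsz : s * z * s⁻¹ = u * z := by rw [← hys, hyuz]
  have hqgz : (q * g) * z * (q * g)⁻¹ = u * z := by
    calc (q * g) * z * (q * g)⁻¹ = q * (g * z * g⁻¹) * q⁻¹ := by group
      _ = q * u * q⁻¹ := by rw [hu]
      _ = z * u := by rw [hqu, mul_inv_cancel_right]
      _ = u * z := hzu
  have ht : ((q * g)⁻¹ * s) * z = z * ((q * g)⁻¹ * s) := by
    have h1 : s * z * s⁻¹ = (q * g) * z * (q * g)⁻¹ := by rw [hsz, hqgz]
    calc (q * g)⁻¹ * s * z = (q * g)⁻¹ * (s * z * s⁻¹) * s := by group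
      _ = (q * g)⁻¹ * ((q * g) * z * (q * g)⁻¹) * s := by rw [h1]
      _ = z * ((q * g)⁻¹ * s) := by group
  have h3 := hnorm _ ht u hx
  have hsu' : s * u * s⁻¹ = u := by
    have h1 := mem_cs.mp hs
    rw [← h1, mul_inv_cancel_right]
  have e2 : q⁻¹ * u * q = z * u := by
    calc q⁻¹ * u * q = q⁻¹ * (u * q) := by rw [mul_assoc]
      _ = q⁻¹ * (z * q * u) := by rw [huq]
      _ = q⁻¹ * (q * z * u) := by rw [hzq]
      _ = z * u := by group
  have e4 : ((q * g)⁻¹ * s) * u * ((q * g)⁻¹ * s)⁻¹ = g⁻¹ * (z * u) * g := by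
    calc ((q * g)⁻¹ * s) * u * ((q * g)⁻¹ * s)⁻¹
        = g⁻¹ * (q⁻¹ * (s * u * s⁻¹) * q) * g := by group
      _ = g⁻¹ * (q⁻¹ * u * q) * g := by rw [hsu']
      _ = g⁻¹ * (z * u) * g := by rw [e2]
  rw [e4] at h3
  have e5 : g⁻¹ * u * g = z := by
    rw [hu]
    group
  have e6 : g⁻¹ * z * g = (g⁻¹ * (z * u) * g) * (g⁻¹ * u * g) := by
    calc g⁻¹ * z * g = g⁻¹ * (z * (u * u)) * g := by rw [hu2, mul_one]
      _ = (g⁻¹ * (z * u) * g) * (g⁻¹ * u * g) := by group
  rw [e6, e5]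
  exact Q.mul_mem h3 hzQ

/-- An involution normalizing a finite subgroup and fixing only `1` in it inverts it. -/
theorem inverts_of_fpf [Finite G] (K : Subgroup G) (t : G) (ht2 : t * t = 1)
    (hnorm : ∀ k ∈ K, t * k * t⁻¹ ∈ K) (hfpf : ∀ k ∈ K, k * t = t * k → k = 1) :
    ∀ k ∈ K, t * k * t⁻¹ = k⁻¹ := by
  have hti : t⁻¹ = t := inv_eq_of_mul_eq_one_left ht2
  obtain ⟨f, hf⟩ : ∃ f : ↥K → ↥K,
      ∀ k : ↥K, ((f k : ↥K) : G) = (k : G)⁻¹ * (t * (k : G) * t⁻¹) :=
    ⟨fun k => ⟨(k : G)⁻¹ * (t * (k : G) * t⁻¹), K.mul_mem (K.inv_mem k.2) (hnorm k k.2)⟩,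
      fun k => rfl⟩
  have hinj : Function.Injective f := by
    intro k l hkl
    have h1 : (k : G)⁻¹ * (t * (k : G) * t⁻¹) = (l : G)⁻¹ * (t * (l : G) * t⁻¹) := by
      rw [← hf k, ← hf l, hkl]
    have h2 : ((l : G) * (k : G)⁻¹) * t = t * ((l : G) * (k : G)⁻¹) := by
      calc (l : G) * (k : G)⁻¹ * t
          = (l : G) * ((k : G)⁻¹ * (t * (k : G) * t⁻¹)) * t * (k : G)⁻¹ := by group
        _ = (l : G) * ((l : G)⁻¹ * (t * (l : G) * t⁻¹)) * t * (k : G)⁻¹ := by rw [h1]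
        _ = t * ((l : G) * (k : G)⁻¹) := by group
    have h3 := hfpf _ (K.mul_mem l.2 (K.inv_mem k.2)) h2
    have h4 : (l : G) = (k : G) := by
      calc (l : G) = (l : G) * (k : G)⁻¹ * (k : G) := by group
        _ = (k : G) := by rw [h3, one_mul]
    exact (Subtype.ext h4).symm
  have hsurj : Function.Surjective f := Finite.injective_iff_surjective.mp hinj
  intro x hx
  obtain ⟨k, hk⟩ := hsurj ⟨x, hx⟩
  have h1 : x = (k : G)⁻¹ * (t * (k : G) * t⁻¹) := by rw [← hf k, hk]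
  rw [h1, hti]
  have e : ((k : G)⁻¹ * (t * (k : G) * t))⁻¹ = t⁻¹ * (k : G)⁻¹ * t⁻¹ * (k : G) := by group
  rw [e, hti]
  calc t * ((k : G)⁻¹ * (t * (k : G) * t)) * t
      = t * (k : G)⁻¹ * t * (k : G) * (t * t) := by simp only [mul_assoc]
    _ = t * (k : G)⁻¹ * t * (k : G) := by rw [ht2, mul_one]

/-- `Q` normalizes no non-trivial subgroup of odd order. -/
theorem large_of [Finite G] (Q : Subgroup G) (hE : Cfsg.IsExtraspecial 2 ↥Q) (z : G)
    (hzQ : z ∈ Q) (hz1 : z ≠ 1) (hz2 : z * z = 1) (hzc : ∀ y ∈ Q, z * y = y * z)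
    (cen : ∀ c ∈ Q, (∀ y ∈ Q, c * y = y * c) → c = 1 ∨ c = z)
    (hCall : ∀ h : G, (∀ y ∈ Q, h * y = y * h) → h ∈ Q)
    (hnorm : ∀ h : G, h * z = z * h → ∀ y ∈ Q, h * y * h⁻¹ ∈ Q)
    (g : G) (hx : g * z * g⁻¹ ∈ Q) (hgz : g * z * g⁻¹ ≠ z)
    (K : Subgroup G) (hK : Odd (Nat.card K)) (hQK : Q ≤ Subgroup.normalizer (K : Set G)) :
    K = ⊥ := by
  have comm := xs_comm Q z hzQ hz1 hzc hE
  have hQp : IsPGroup 2 ↥Q := hE.1.1
  have hzg := main_gen Q hE z hzQ hz1 hz2 hzc cen hCall hnorm g hx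
  obtain ⟨u, hu⟩ : ∃ u, u = g * z * g⁻¹ := ⟨_, rfl⟩
  rw [← hu] at hx hgz
  have hu2 : u * u = 1 := by
    rw [hu]
    calc g * z * g⁻¹ * (g * z * g⁻¹) = g * (z * z) * g⁻¹ := by group
      _ = 1 := by rw [hz2]; group
  have hu1 : u ≠ 1 := by
    intro h
    apply hz1
    calc z = g⁻¹ * (g * z * g⁻¹) * g := by group
      _ = g⁻¹ * u * g := by rw [hu]
      _ = 1 := by rw [h]; group
  have hzu : z * u = u * z := hzc u hx
  obtain ⟨q, hq, hqu⟩ := exists_q Q z u hx hgz hu1 cen comm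
  have hQ2 : ∀ y ∈ Q, ∃ n : ℕ, y ^ 2 ^ n = 1 := by
    intro y hy
    obtain ⟨n, hn⟩ := hQp ⟨y, hy⟩
    exact ⟨n, by simpa using congrArg (fun t : ↥Q => (t : G)) hn⟩
  have hKodd : ∀ k ∈ K, ∀ n : ℕ, k ^ 2 ^ n = 1 → k = 1 := by
    intro k hk n hkn
    have h1 : orderOf k ∣ 2 ^ n := orderOf_dvd_of_pow_eq_one hkn
    have h2 : orderOf k ∣ Nat.card K := by
      have := orderOf_dvd_natCard (⟨k, hk⟩ : K)
      rwa [Subgroup.orderOf_mk] at this
    have h3 : Nat.Coprime (2 ^ n) (Nat.card K) :=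
      Nat.Coprime.pow_left n (Nat.coprime_two_left.mpr hK)
    have h4 := Nat.dvd_gcd h1 h2
    rw [h3.gcd_eq_one] at h4
    exact orderOf_eq_one_iff.mp (Nat.dvd_one.mp h4)
  have normK : ∀ y ∈ Q, ∀ k ∈ K, y * k * y⁻¹ ∈ K := fun y hy k hk =>
    (Subgroup.mem_normalizer_iff.mp (hQK hy) k).mp hk
  have c1 : ∀ k ∈ K, k * z = z * k → k = 1 := by
    intro k hk hkz
    have h1 : ∀ w ∈ Q, k * w = w * k := by
      intro w hw
      have h2 : k * w * k⁻¹ * w⁻¹ ∈ Q := Q.mul_mem (hnorm k hkz w hw) (Q.inv_mem hw)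
      have h3 : k * w * k⁻¹ * w⁻¹ ∈ K := by
        have h4 := normK w hw k⁻¹ (K.inv_mem hk)
        have e : k * w * k⁻¹ * w⁻¹ = k * (w * k⁻¹ * w⁻¹) := by group
        rw [e]
        exact K.mul_mem hk h4
      obtain ⟨n, hn⟩ := hQ2 _ h2
      have h5 := hKodd _ h3 n hn
      calc k * w = (k * w * k⁻¹ * w⁻¹) * (w * k) := by group
        _ = w * k := by rw [h5, one_mul]
    obtain ⟨n, hn⟩ := hQ2 k (hCall k h1)
    exact hKodd k hk n hn
  have c2 := inverts_of_fpf K z hz2 (normK z hzQ) c1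
  have c3 : ∀ k ∈ K, k * u = u * k → k = 1 := by
    intro k hk hku
    have h1 : (g⁻¹ * k * g) * z = z * (g⁻¹ * k * g) := by
      calc g⁻¹ * k * g * z = g⁻¹ * (k * (g * z * g⁻¹)) * g := by group
        _ = g⁻¹ * (k * u) * g := by rw [hu]
        _ = g⁻¹ * (u * k) * g := by rw [hku]
        _ = g⁻¹ * ((g * z * g⁻¹) * k) * g := by rw [hu]
        _ = z * (g⁻¹ * k * g) := by group
    have h2 := hnorm _ h1 _ hzg
    have e1 : (g⁻¹ * k * g) * (g⁻¹ * z * g) * (g⁻¹ * k * g)⁻¹ = g⁻¹ * (k * z * k⁻¹) * g := by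
      group
    rw [e1] at h2
    have h3 : z * k⁻¹ * z⁻¹ = k := by
      have := c2 k⁻¹ (K.inv_mem hk)
      rwa [inv_inv] at this
    have e2 : k * z * k⁻¹ = (k * k) * z := by
      calc k * z * k⁻¹ = k * (z * k⁻¹ * z⁻¹) * z := by group
        _ = (k * k) * z := by rw [h3]
    rw [e2] at h2
    have h4 : g⁻¹ * (k * k) * g ∈ Q := by
      have h5 := Q.mul_mem h2 (Q.inv_mem hzg)
      have e3 : g⁻¹ * (k * k * z) * g * (g⁻¹ * z * g)⁻¹ = g⁻¹ * (k * k) * g := by group
      rw [e3] at h5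
      exact h5
    obtain ⟨n, hn⟩ := hQ2 _ h4
    have h6 : (k * k) ^ 2 ^ n = 1 := by
      have e4 : (g⁻¹ * (k * k) * g) ^ 2 ^ n = g⁻¹ * (k * k) ^ 2 ^ n * g := by
        have := conj_pow (a := g⁻¹) (b := k * k) (i := 2 ^ n)
        rw [inv_inv] at this
        exact this
      rw [e4] at hn
      calc (k * k) ^ 2 ^ n = g * (g⁻¹ * (k * k) ^ 2 ^ n * g) * g⁻¹ := by group
        _ = 1 := by rw [hn]; group
    have h7 := hKodd _ (K.mul_mem hk hk) n h6
    exact hKodd k hk 1 (by rw [pow_one, pow_two]; exact h7)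
  have e_q : q⁻¹ * (z * u) * q = u := by
    calc q⁻¹ * (z * u) * q = q⁻¹ * (z * u * q) := by rw [mul_assoc]
      _ = q⁻¹ * (q * u) := by rw [hqu]
      _ = u := by group
  have c4 : ∀ k ∈ K, k * (z * u) = (z * u) * k → k = 1 := by
    intro k hk hkzu
    have hk' : q⁻¹ * k * q ∈ K := by
      have := normK q⁻¹ (Q.inv_mem hq) k hk
      rwa [inv_inv] at this
    have h1 : (q⁻¹ * k * q) * u = u * (q⁻¹ * k * q) := by
      calc q⁻¹ * k * q * u = q⁻¹ * k * q * (q⁻¹ * (z * u) * q) := by rw [e_q]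
        _ = q⁻¹ * (k * (z * u)) * q := by group
        _ = q⁻¹ * ((z * u) * k) * q := by rw [hkzu]
        _ = (q⁻¹ * (z * u) * q) * (q⁻¹ * k * q) := by group
        _ = u * (q⁻¹ * k * q) := by rw [e_q]
    have h2 := c3 _ hk' h1
    calc k = q * (q⁻¹ * k * q) * q⁻¹ := by group
      _ = 1 := by rw [h2]; group
  have c5u := inverts_of_fpf K u hu2 (normK u hx) c3
  have hzu2 : (z * u) * (z * u) = 1 := by
    calc z * u * (z * u) = z * (u * z) * u := by simp only [mul_assoc]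
      _ = z * (z * u) * u := by rw [← hzu]
      _ = (z * z) * (u * u) := by simp only [mul_assoc]
      _ = 1 := by rw [hz2, hu2, one_mul]
  have c5zu := inverts_of_fpf K (z * u) hzu2 (normK (z * u) (Q.mul_mem hzQ hx)) c4
  rw [Subgroup.eq_bot_iff_forall]
  intro k hk
  have h1 := c2 k hk
  have h2 := c5u k⁻¹ (K.inv_mem hk)
  have h3 := c5zu k hk
  have hz' : z = u * (z * u) := by
    calc z = z * (u * u) := by rw [hu2, mul_one]
      _ = (z * u) * u := by rw [mul_assoc]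
      _ = (u * z) * u := by rw [hzu]
      _ = u * (z * u) := by rw [mul_assoc]
  have e1 : z * k * z⁻¹ = u * ((z * u) * k * (z * u)⁻¹) * u⁻¹ := by
    calc z * k * z⁻¹ = (u * (z * u)) * k * (u * (z * u))⁻¹ := by rw [← hz']
      _ = u * ((z * u) * k * (z * u)⁻¹) * u⁻¹ := by group
  rw [h3, h2, inv_inv] at e1
  rw [h1] at e1
  have h4 : k * k = 1 := by
    calc k * k = k⁻¹ * k := by rw [e1]
      _ = 1 := inv_mul_cancel k
  exact hKodd k hk 1 (by rw [pow_one, pow_two]; exact h4)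

theorem pow_two_cases (x : G) (hx : x * x = 1) (i : ℕ) : x ^ i = 1 ∨ x ^ i = x := by
  rcases Nat.even_or_odd' i with ⟨k, hk | hk⟩
  · left
    rw [hk, pow_mul, pow_two, hx, one_pow]
  · right
    rw [hk, pow_succ, pow_mul, pow_two, hx, one_pow, one_mul]

/-- the normalizer of a four-group `{1, z, u, uz}` induces `S₃` on it when two suitable
elements are available. -/
theorem index_six [Finite G] (z u : G) (hz2 : z * z = 1) (hu2 : u * u = 1) (hz1 : z ≠ 1)
    (hu1 : u ≠ 1) (huz : u ≠ z) (hzu : z * u = u * z)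
    (V : Subgroup G) (hV : ∀ v, v ∈ V ↔ v = 1 ∨ v = z ∨ v = u ∨ v = u * z)
    (q : G) (hqz : q * z * q⁻¹ = z) (hqu : q * u * q⁻¹ = u * z)
    (s : G) (hsu : s * u * s⁻¹ = u) (hsz : s * z * s⁻¹ = u * z) :
    (Subgroup.centralizer (V : Set G)).relIndex (Subgroup.normalizer (V : Set G)) = 6 := by
  have huz1 : u * z ≠ 1 := by
    intro h
    apply huz
    calc u = u * (z * z) := by rw [hz2, mul_one]
      _ = (u * z) * z := by rw [mul_assoc]
      _ = z := by rw [h, one_mul]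
  have huzz : u * z ≠ z := fun h => hu1 (mul_eq_right.mp h)
  have huzu : u * z ≠ u := fun h => hz1 (mul_eq_left.mp h)
  have hzV : z ∈ V := (hV z).mpr (Or.inr (Or.inl rfl))
  have huV : u ∈ V := (hV u).mpr (Or.inr (Or.inr (Or.inl rfl)))
  have huzV : u * z ∈ V := V.mul_mem huV hzV
  have hVconj : ∀ n : G, n * z * n⁻¹ ∈ V → n * u * n⁻¹ ∈ V → ∀ v ∈ V, n * v * n⁻¹ ∈ V := by
    intro n hnz hnu v hv
    rcases (hV v).mp hv with h | h | h | h
    · rw [h, mul_one, mul_inv_cancel]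
      exact V.one_mem
    · rw [h]
      exact hnz
    · rw [h]
      exact hnu
    · rw [h]
      have e : n * (u * z) * n⁻¹ = (n * u * n⁻¹) * (n * z * n⁻¹) := by group
      rw [e]
      exact V.mul_mem hnu hnz
  have hN : ∀ n : G, n * z * n⁻¹ ∈ V → n * u * n⁻¹ ∈ V →
      n ∈ Subgroup.normalizer (V : Set G) := by
    intro n hnz hnu
    have h1 := Cfsg.Agent.Helper1.mem_normalizer_of_conj_mem V n⁻¹ (fun y hy => by
      rw [inv_inv]
      exact hVconj n hnz hnu y hy)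
    exact (Subgroup.inv_mem_iff _).mp h1
  have hqN : q ∈ Subgroup.normalizer (V : Set G) :=
    hN q (by rw [hqz]; exact hzV) (by rw [hqu]; exact huzV)
  have hsN : s ∈ Subgroup.normalizer (V : Set G) :=
    hN s (by rw [hsz]; exact huzV) (by rw [hsu]; exact huV)
  have hqsN : q * s ∈ Subgroup.normalizer (V : Set G) := Subgroup.mul_mem _ hqN hsN
  have hqs_z : (q * s) * z * (q * s)⁻¹ = u := by
    calc (q * s) * z * (q * s)⁻¹ = q * (s * z * s⁻¹) * q⁻¹ := by group
      _ = q * (u * z) * q⁻¹ := by rw [hsz]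
      _ = (q * u * q⁻¹) * (q * z * q⁻¹) := by group
      _ = u * z * z := by rw [hqu, hqz]
      _ = u := by rw [mul_assoc, hz2, mul_one]
  have cent_of : ∀ n : G, n * z * n⁻¹ = z → n * u * n⁻¹ = u →
      n ∈ Subgroup.centralizer (V : Set G) := by
    intro n hnz hnu
    have h1 : z * n = n * z := (mul_inv_eq_iff_eq_mul.mp hnz).symm
    have h2 : u * n = n * u := (mul_inv_eq_iff_eq_mul.mp hnu).symm
    rw [Subgroup.mem_centralizer_iff]
    intro v hv
    rcases (hV v).mp hv with h | h | h | h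
    · rw [h, one_mul, mul_one]
    · rw [h]
      exact h1
    · rw [h]
      exact h2
    · rw [h]
      calc u * z * n = u * (z * n) := by rw [mul_assoc]
        _ = u * (n * z) := by rw [h1]
        _ = (u * n) * z := by rw [mul_assoc]
        _ = (n * u) * z := by rw [h2]
        _ = n * (u * z) := by rw [mul_assoc]
  have hA : (Subgroup.centralizer (V : Set G)).relIndex
      (Subgroup.normalizer (V : Set G) ⊓ Subgroup.centralizer ({z} : Set G)) = 2 := by
    rw [Subgroup.relIndex_eq_two_iff]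
    refine ⟨q, ⟨hqN, mem_cs.mpr (mul_inv_eq_iff_eq_mul.mp hqz).symm⟩, ?_⟩
    intro b hb
    have hbN := hb.1
    have hbz : z * b = b * z := mem_cs.mp hb.2
    have hbz' : b * z * b⁻¹ = z := by rw [← hbz, mul_inv_cancel_right]
    have hbu : b * u * b⁻¹ ∈ V := (Subgroup.mem_normalizer_iff.mp hbN u).mp huV
    have hbqz : (b * q) * z * (b * q)⁻¹ = z := by
      calc (b * q) * z * (b * q)⁻¹ = b * (q * z * q⁻¹) * b⁻¹ := by group
        _ = z := by rw [hqz, hbz']
    have hbqu : (b * q) * u * (b * q)⁻¹ = (b * u * b⁻¹) * z := by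
      calc (b * q) * u * (b * q)⁻¹ = b * (q * u * q⁻¹) * b⁻¹ := by group
        _ = b * (u * z) * b⁻¹ := by rw [hqu]
        _ = (b * u * b⁻¹) * (b * z * b⁻¹) := by group
        _ = (b * u * b⁻¹) * z := by rw [hbz']
    rcases (hV _).mp hbu with h | h | h | h
    · exfalso
      apply hu1
      calc u = b⁻¹ * (b * u * b⁻¹) * b := by group
        _ = 1 := by rw [h]; group
    · exfalso
      apply huz
      calc u = b⁻¹ * (b * u * b⁻¹) * b := by group
        _ = b⁻¹ * (b * z * b⁻¹) * b := by rw [h, hbz']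
        _ = z := by group
    · -- b centralizes V, b q does not
      refine Or.inr ⟨cent_of b hbz' h, ?_⟩
      intro hc
      have h1 := (Subgroup.mem_centralizer_iff.mp hc) u huV
      have h2 : (b * q) * u * (b * q)⁻¹ = u := by rw [← h1, mul_inv_cancel_right]
      rw [hbqu, h] at h2
      exact huzu h2
    · -- b q centralizes V, b does not
      refine Or.inl ⟨cent_of (b * q) hbqz ?_, ?_⟩
      · rw [hbqu, h, mul_assoc, hz2, mul_one]
      · intro hc
        have h1 := (Subgroup.mem_centralizer_iff.mp hc) u huV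
        have h2 : b * u * b⁻¹ = u := by rw [← h1, mul_inv_cancel_right]
        rw [h] at h2
        exact huzu h2
  have hB : (Subgroup.normalizer (V : Set G) ⊓ Subgroup.centralizer ({z} : Set G)).relIndex
      (Subgroup.normalizer (V : Set G)) = 3 := by
    obtain ⟨Ω, hΩdef⟩ : ∃ Ω : Set G, Ω = {z, u, u * z} := ⟨_, rfl⟩
    have hΩmem : ∀ y, y ∈ Ω ↔ y = z ∨ y = u ∨ y = u * z := by
      intro y
      rw [hΩdef]
      simp
    have hΩstab : ∀ n ∈ Subgroup.normalizer (V : Set G), ∀ y ∈ Ω, n * y * n⁻¹ ∈ Ω := by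
      intro n hn y hy
      have hyV : y ∈ V := by
        rcases (hΩmem y).mp hy with h | h | h
        · rw [h]; exact hzV
        · rw [h]; exact huV
        · rw [h]; exact huzV
      have hy1 : y ≠ 1 := by
        rcases (hΩmem y).mp hy with h | h | h
        · rw [h]; exact hz1
        · rw [h]; exact hu1
        · rw [h]; exact huz1
      have h1 : n * y * n⁻¹ ∈ V := (Subgroup.mem_normalizer_iff.mp hn y).mp hyV
      rcases (hV _).mp h1 with h | h | h | h
      · exfalso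
        apply hy1
        calc y = n⁻¹ * (n * y * n⁻¹) * n := by group
          _ = 1 := by rw [h]; group
      · exact (hΩmem _).mpr (Or.inl h)
      · exact (hΩmem _).mpr (Or.inr (Or.inl h))
      · exact (hΩmem _).mpr (Or.inr (Or.inr h))
    letI : MulAction (Subgroup.normalizer (V : Set G)) Ω := cAct _ Ω hΩstab
    have hzΩ : z ∈ Ω := (hΩmem z).mpr (Or.inl rfl)
    have hstab : MulAction.stabilizer (Subgroup.normalizer (V : Set G)) (⟨z, hzΩ⟩ : Ω)
        = (Subgroup.normalizer (V : Set G) ⊓ Subgroup.centralizer ({z} : Set G)).subgroupOf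
          (Subgroup.normalizer (V : Set G)) := by
      ext n
      rw [MulAction.mem_stabilizer_iff, Subgroup.mem_subgroupOf]
      constructor
      · intro h
        have h1 : (n : G) * z * (n : G)⁻¹ = z := congrArg Subtype.val h
        exact ⟨n.2, mem_cs.mpr (mul_inv_eq_iff_eq_mul.mp h1).symm⟩
      · intro h
        apply Subtype.ext
        have h1 := mem_cs.mp h.2
        show (n : G) * z * (n : G)⁻¹ = z
        rw [← h1, mul_inv_cancel_right]
    have horb : MulAction.orbit (Subgroup.normalizer (V : Set G)) (⟨z, hzΩ⟩ : Ω) = Set.univ := by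
      ext ω
      simp only [Set.mem_univ, iff_true]
      rcases (hΩmem ω.1).mp ω.2 with h | h | h
      · refine ⟨1, Subtype.ext ?_⟩
        show ((1 : Subgroup.normalizer (V : Set G)) : G) * z
          * ((1 : Subgroup.normalizer (V : Set G)) : G)⁻¹ = ω.1
        rw [h]
        simp
      · refine ⟨⟨q * s, hqsN⟩, Subtype.ext ?_⟩
        show (q * s) * z * (q * s)⁻¹ = ω.1
        rw [h]
        exact hqs_z
      · refine ⟨⟨s, hsN⟩, Subtype.ext ?_⟩
        show s * z * s⁻¹ = ω.1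
        rw [h]
        exact hsz
    have h3 : Nat.card Ω = 3 := by
      rw [Nat.card_coe_set_eq, Set.ncard_eq_three]
      exact ⟨z, u, u * z, fun h => huz h.symm, fun h => huzz h.symm, fun h => huzu h.symm,
        hΩdef⟩
    have h4 := MulAction.index_stabilizer (G := Subgroup.normalizer (V : Set G))
      (x := (⟨z, hzΩ⟩ : Ω))
    rw [hstab, horb, Set.ncard_univ, h3] at h4
    exact h4
  have hCM : Subgroup.centralizer (V : Set G) ≤
      Subgroup.normalizer (V : Set G) ⊓ Subgroup.centralizer ({z} : Set G) := by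
    intro c hc
    refine ⟨Subgroup.centralizer_le_normalizer (V : Set G) hc, ?_⟩
    exact mem_cs.mpr ((Subgroup.mem_centralizer_iff.mp hc) z hzV)
  have h6 := Subgroup.relIndex_mul_relIndex _ _ _ hCM
    (inf_le_left : Subgroup.normalizer (V : Set G) ⊓ Subgroup.centralizer ({z} : Set G) ≤
      Subgroup.normalizer (V : Set G))
  rw [hA, hB] at h6
  exact h6.symm

end Cfsg.Agent.Lead.XS
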