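import Mathlib
import Cfsg.Prelude.Def_MonsterType
import Cfsg.Agent.Lead.XS6
import Cfsg.Agent.Lead.XS3

set_option autoImplicit false
set_option linter.style.haveILetI false

namespace Cfsg.Agent.Lead.XS

open Cfsg

variable {G : Type*} [Group G]

/-- `Facts` together with normality in `C(z)` and squares in the centre. -/
def Facts2 (Q : Subgroup G) (z : G) : Prop :=
  Facts Q z ∧ (∀ h : G, h * z = z * h → ∀ y ∈ Q, h * y * h⁻¹ ∈ Q) ∧
    (∀ x ∈ Q, x * x = 1 ∨ x * x = z)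

theorem mem_map_conj (Q : Subgroup G) (g y : G) :
    y ∈ Q.map (MulAut.conj g).toMonoidHom ↔ g⁻¹ * y * g ∈ Q := by
  constructor
  · rintro ⟨w, hw, rfl⟩
    have e : g⁻¹ * ((MulAut.conj g).toMonoidHom w) * g = w := by
      show g⁻¹ * (g * w * g⁻¹) * g = w
      group
    rw [e]
    exact hw
  · intro h
    refine ⟨g⁻¹ * y * g, h, ?_⟩
    show g * (g⁻¹ * y * g) * g⁻¹ = y
    group

theorem facts2_of [Finite G] (Q : Subgroup G) (hE : Cfsg.IsExtraspecial 2 ↥Q)
    (hL2 : Subgroup.centralizer (Q : Set G) = ((Subgroup.center ↥Q).map Q.subtype))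
    (hL3 : Subgroup.centralizer (((Subgroup.center ↥Q).map Q.subtype : Subgroup G) : Set G) ≤
      Subgroup.normalizer (Q : Set G))
    (z : G) (hzZ : z ∈ (Subgroup.center ↥Q).map Q.subtype) (hz1 : z ≠ 1) : Facts2 Q z := by
  obtain ⟨z0, hzQ, hz01, hz2, hzc, cen⟩ := exists_z Q hE
  have comm := xs_comm Q z0 hzQ hz01 hzc hE
  have hZmem : ∀ y : G, y ∈ (Subgroup.center ↥Q).map Q.subtype ↔ y = 1 ∨ y = z0 := by
    intro y
    constructor
    · rintro ⟨c, hc, rfl⟩
      exact cen (c : G) c.2 (fun y hy => by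
        have h := Subgroup.mem_center_iff.mp hc ⟨y, hy⟩
        have h' := congrArg Subtype.val h
        exact h'.symm)
    · rintro (h | h)
      · rw [h]; exact Subgroup.one_mem _
      · rw [h]
        refine ⟨⟨z0, hzQ⟩, ?_, rfl⟩
        rw [SetLike.mem_coe, Subgroup.mem_center_iff]
        intro y
        apply Subtype.ext
        exact (hzc y y.2).symm
  have hzz : z = z0 := by
    rcases (hZmem z).mp hzZ with h | h
    · exact absurd h hz1
    · exact h
  rw [hzz]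
  have hCall : ∀ h : G, (∀ y ∈ Q, h * y = y * h) → h ∈ Q := by
    intro h hh
    have h1 : h ∈ Subgroup.centralizer (Q : Set G) := by
      rw [Subgroup.mem_centralizer_iff]
      intro y hy
      exact (hh y hy).symm
    rw [hL2] at h1
    rcases (hZmem h).mp h1 with h2 | h2
    · rw [h2]; exact Q.one_mem
    · rw [h2]; exact hzQ
  have hnorm : ∀ h : G, h * z0 = z0 * h → ∀ y ∈ Q, h * y * h⁻¹ ∈ Q := by
    intro h hh y hy
    have h1 : h ∈ Subgroup.centralizer
        (((Subgroup.center ↥Q).map Q.subtype : Subgroup G) : Set G) := by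
      rw [Subgroup.mem_centralizer_iff]
      intro y hy
      rcases (hZmem y).mp hy with h2 | h2
      · rw [h2, one_mul, mul_one]
      · rw [h2]; exact hh.symm
    exact (Subgroup.mem_normalizer_iff.mp (hL3 h1) y).mp hy
  have sq : ∀ x ∈ Q, x * x = 1 ∨ x * x = z0 := by
    intro x hx
    have h1 : ((⟨x, hx⟩ : ↥Q)) ^ 2 ∈ frattini ↥Q := (Cfsg.Agent.S0012.result 2 hE.1.1).2 _
    rw [hE.1.2.1] at h1
    have h2 : x * x ∈ (Subgroup.center ↥Q).map Q.subtype := ⟨_, h1, by simp [pow_two]⟩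
    exact (hZmem _).mp h2
  exact ⟨⟨hzQ, hz2, hz01, hzc, cen, comm, hCall⟩, hnorm, sq⟩

theorem facts2_map (Q : Subgroup G) (z : G) (hF : Facts2 Q z) (g : G) :
    Facts2 (Q.map (MulAut.conj g).toMonoidHom) (g * z * g⁻¹) := by
  obtain ⟨⟨hzQ, hz2, hz1, hzc, cen, comm, hC⟩, hnorm, sq⟩ := hF
  have down : ∀ y ∈ Q.map (MulAut.conj g).toMonoidHom, g⁻¹ * y * g ∈ Q :=
    fun y hy => (mem_map_conj Q g y).mp hy
  have up : ∀ w ∈ Q, g * w * g⁻¹ ∈ Q.map (MulAut.conj g).toMonoidHom := by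
    intro w hw
    rw [mem_map_conj]
    have e : g⁻¹ * (g * w * g⁻¹) * g = w := by group
    rw [e]
    exact hw
  refine ⟨⟨up z hzQ, ?_, ?_, ?_, ?_, ?_, ?_⟩, ?_, ?_⟩
  · calc g * z * g⁻¹ * (g * z * g⁻¹) = g * (z * z) * g⁻¹ := by group
      _ = 1 := by rw [hz2]; group
  · intro h
    apply hz1
    calc z = g⁻¹ * (g * z * g⁻¹) * g := by group
      _ = 1 := by rw [h]; group
  · intro y hy
    have h1 := hzc _ (down y hy)
    calc g * z * g⁻¹ * y = g * (z * (g⁻¹ * y * g)) * g⁻¹ := by group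
      _ = g * ((g⁻¹ * y * g) * z) * g⁻¹ := by rw [h1]
      _ = y * (g * z * g⁻¹) := by group
  · intro c hc hcc
    have h1 : ∀ w ∈ Q, g⁻¹ * c * g * w = w * (g⁻¹ * c * g) := by
      intro w hw
      have h2 := hcc _ (up w hw)
      calc g⁻¹ * c * g * w = g⁻¹ * (c * (g * w * g⁻¹)) * g := by group
        _ = g⁻¹ * ((g * w * g⁻¹) * c) * g := by rw [h2]
        _ = w * (g⁻¹ * c * g) := by group
    rcases cen _ (down c hc) h1 with h | h
    · left
      calc c = g * (g⁻¹ * c * g) * g⁻¹ := by group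
        _ = 1 := by rw [h]; group
    · right
      calc c = g * (g⁻¹ * c * g) * g⁻¹ := by group
        _ = g * z * g⁻¹ := by rw [h]
  · intro a ha b hb
    rcases comm _ (down a ha) _ (down b hb) with h | h
    · left
      calc a * b = g * ((g⁻¹ * a * g) * (g⁻¹ * b * g)) * g⁻¹ := by group
        _ = g * ((g⁻¹ * b * g) * (g⁻¹ * a * g)) * g⁻¹ := by rw [h]
        _ = b * a := by group
    · right
      calc a * b = g * ((g⁻¹ * a * g) * (g⁻¹ * b * g)) * g⁻¹ := by group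
        _ = g * (z * (g⁻¹ * b * g) * (g⁻¹ * a * g)) * g⁻¹ := by rw [h]
        _ = (g * z * g⁻¹) * b * a := by group
  · intro h hh
    have h1 : ∀ w ∈ Q, (g⁻¹ * h * g) * w = w * (g⁻¹ * h * g) := by
      intro w hw
      have h2 := hh _ (up w hw)
      calc g⁻¹ * h * g * w = g⁻¹ * (h * (g * w * g⁻¹)) * g := by group
        _ = g⁻¹ * ((g * w * g⁻¹) * h) * g := by rw [h2]
        _ = w * (g⁻¹ * h * g) := by group
    have h3 := up _ (hC _ h1)
    have e : g * (g⁻¹ * h * g) * g⁻¹ = h := by group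
    rw [e] at h3
    exact h3
  · intro h hh y hy
    have h1 : (g⁻¹ * h * g) * z = z * (g⁻¹ * h * g) := by
      calc g⁻¹ * h * g * z = g⁻¹ * (h * (g * z * g⁻¹)) * g := by group
        _ = g⁻¹ * ((g * z * g⁻¹) * h) * g := by rw [hh]
        _ = z * (g⁻¹ * h * g) := by group
    have h2 := hnorm _ h1 _ (down y hy)
    have h3 := up _ h2
    have e : g * (g⁻¹ * h * g * (g⁻¹ * y * g) * (g⁻¹ * h * g)⁻¹) * g⁻¹ = h * y * h⁻¹ := by
      group
    rw [e] at h3
    exact h3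
  · intro x hx
    rcases sq _ (down x hx) with h | h
    · left
      calc x * x = g * ((g⁻¹ * x * g) * (g⁻¹ * x * g)) * g⁻¹ := by group
        _ = 1 := by rw [h]; group
    · right
      calc x * x = g * ((g⁻¹ * x * g) * (g⁻¹ * x * g)) * g⁻¹ := by group
        _ = g * z * g⁻¹ := by rw [h]

/-- Commutators with elements of a set `T` stay in `V` along a closure. -/
theorem comm_closure_aux (V : Subgroup G) (T : Set G) (S : Set G)
    (hS : ∀ s ∈ S, ∀ v ∈ V, s * v * s⁻¹ ∈ V) (hS' : ∀ s ∈ S, ∀ v ∈ V, s⁻¹ * v * s ∈ V)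
    (h : ∀ s ∈ S, ∀ e ∈ T, s * e * s⁻¹ * e⁻¹ ∈ V) :
    ∀ x ∈ Subgroup.closure S, ∀ e ∈ T, x * e * x⁻¹ * e⁻¹ ∈ V := by
  have key : ∀ x ∈ Subgroup.closure S, (∀ v ∈ V, x * v * x⁻¹ ∈ V) ∧
      (∀ v ∈ V, x⁻¹ * v * x ∈ V) ∧ ∀ e ∈ T, x * e * x⁻¹ * e⁻¹ ∈ V := by
    intro x hx
    induction hx using Subgroup.closure_induction with
    | mem s hs => exact ⟨hS s hs, hS' s hs, h s hs⟩
    | one =>
      refine ⟨fun v hv => ?_, fun v hv => ?_, fun e _ => ?_⟩
      · have e1 : (1 : G) * v * 1⁻¹ = v := by group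
        rw [e1]; exact hv
      · have e1 : (1 : G)⁻¹ * v * 1 = v := by group
        rw [e1]; exact hv
      · have e1 : (1 : G) * e * 1⁻¹ * e⁻¹ = 1 := by group
        rw [e1]; exact V.one_mem
    | mul x y _ _ ihx ihy =>
      refine ⟨fun v hv => ?_, fun v hv => ?_, fun e he => ?_⟩
      · have h1 := ihx.1 _ (ihy.1 v hv)
        have e1 : x * y * v * (x * y)⁻¹ = x * (y * v * y⁻¹) * x⁻¹ := by group
        rw [e1]; exact h1
      · have h1 := ihy.2.1 _ (ihx.2.1 v hv)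
        have e1 : (x * y)⁻¹ * v * (x * y) = y⁻¹ * (x⁻¹ * v * x) * y := by group
        rw [e1]; exact h1
      · have h1 := ihx.1 _ (ihy.2.2 e he)
        have h2 := ihx.2.2 e he
        have e1 : x * y * e * (x * y)⁻¹ * e⁻¹ =
            (x * (y * e * y⁻¹ * e⁻¹) * x⁻¹) * (x * e * x⁻¹ * e⁻¹) := by group
        rw [e1]; exact V.mul_mem h1 h2
    | inv x _ ih =>
      refine ⟨fun v hv => ?_, fun v hv => ?_, fun e he => ?_⟩
      · have h1 := ih.2.1 v hv
        have e1 : x⁻¹ * v * x⁻¹⁻¹ = x⁻¹ * v * x := by group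
        rw [e1]; exact h1
      · have h1 := ih.1 v hv
        have e1 : x⁻¹⁻¹ * v * x⁻¹ = x * v * x⁻¹ := by group
        rw [e1]; exact h1
      · have h1 := ih.2.1 _ (V.inv_mem (ih.2.2 e he))
        have e1 : x⁻¹ * e * x⁻¹⁻¹ * e⁻¹ = x⁻¹ * (x * e * x⁻¹ * e⁻¹)⁻¹ * x := by group
        rw [e1]; exact h1
  exact fun x hx => (key x hx).2.2

/-- The four-group generated by two commuting involutions. -/
theorem four_closure (z u : G) (hz2 : z * z = 1) (hu2 : u * u = 1) (hzu : z * u = u * z) :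
    ∀ v, v ∈ Subgroup.closure ({z, u} : Set G) ↔ (v = 1 ∨ v = z ∨ v = u ∨ v = u * z) := by
  have e1 : z * (u * z) = u := by rw [← mul_assoc, hzu, mul_assoc, hz2, mul_one]
  have e2 : u * (u * z) = z := by rw [← mul_assoc, hu2, one_mul]
  have e3 : u * z * z = u := by rw [mul_assoc, hz2, mul_one]
  have e4 : u * z * u = z := by rw [mul_assoc, hzu, ← mul_assoc, hu2, one_mul]
  have e5 : u * z * (u * z) = 1 := by rw [← mul_assoc, e4, hz2]
  have hmul : ∀ a b : G, (a = 1 ∨ a = z ∨ a = u ∨ a = u * z) →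
      (b = 1 ∨ b = z ∨ b = u ∨ b = u * z) →
      (a * b = 1 ∨ a * b = z ∨ a * b = u ∨ a * b = u * z) := by
    intro a b ha hb
    rcases ha with h | h | h | h <;> rcases hb with h' | h' | h' | h' <;> rw [h, h']
    · left; rw [one_mul]
    · right; left; rw [one_mul]
    · right; right; left; rw [one_mul]
    · right; right; right; rw [one_mul]
    · right; left; rw [mul_one]
    · left; exact hz2
    · right; right; right; exact hzu
    · right; right; left; exact e1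
    · right; right; left; rw [mul_one]
    · right; right; right; rfl
    · left; exact hu2
    · right; left; exact e2
    · right; right; right; rw [mul_one]
    · right; right; left; exact e3
    · right; left; exact e4
    · left; exact e5
  have hinv : ∀ a : G, (a = 1 ∨ a = z ∨ a = u ∨ a = u * z) →
      (a⁻¹ = 1 ∨ a⁻¹ = z ∨ a⁻¹ = u ∨ a⁻¹ = u * z) := by
    intro a ha
    have h1 : a * a = 1 := by
      rcases ha with h | h | h | h
      · rw [h, one_mul]
      · rw [h]; exact hz2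
      · rw [h]; exact hu2
      · rw [h]; exact e5
    rw [inv_eq_of_mul_eq_one_left h1]
    exact ha
  obtain ⟨W, hW⟩ : ∃ W : Subgroup G, ∀ v, v ∈ W ↔ (v = 1 ∨ v = z ∨ v = u ∨ v = u * z) :=
    ⟨{ carrier := {v | v = 1 ∨ v = z ∨ v = u ∨ v = u * z}
       one_mem' := Or.inl rfl
       mul_mem' := fun {a b} ha hb => hmul a b ha hb
       inv_mem' := fun {a} ha => hinv a ha }, fun v => Iff.rfl⟩
  intro v
  constructor
  · intro hv
    have hle : Subgroup.closure ({z, u} : Set G) ≤ W := by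
      rw [Subgroup.closure_le]
      intro y hy
      rcases hy with h | h
      · exact (hW y).mpr (Or.inr (Or.inl h))
      · exact (hW y).mpr (Or.inr (Or.inr (Or.inl h)))
    exact (hW v).mp (hle hv)
  · intro hv
    have hzV : z ∈ Subgroup.closure ({z, u} : Set G) := Subgroup.subset_closure (by simp)
    have huV : u ∈ Subgroup.closure ({z, u} : Set G) := Subgroup.subset_closure (by simp)
    rcases hv with h | h | h | h
    · rw [h]; exact Subgroup.one_mem _
    · rw [h]; exact hzV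
    · rw [h]; exact huV
    · rw [h]; exact Subgroup.mul_mem _ huV hzV

theorem comm_cases (Q : Subgroup G) (z : G)
    (comm : ∀ a ∈ Q, ∀ b ∈ Q, a * b = b * a ∨ a * b = z * b * a) :
    ∀ a ∈ Q, ∀ b ∈ Q, a * b * a⁻¹ * b⁻¹ = 1 ∨ a * b * a⁻¹ * b⁻¹ = z := by
  intro a ha b hb
  rcases comm a ha b hb with h | h
  · left
    rw [h]; group
  · right
    rw [h]; group

/-- Structure of the pair `Q, Q'` of extraspecial groups with `Z(Q') ≤ Q`, `Z(Q) ≤ Q'`. -/
theorem pair_struct (Q Q' : Subgroup G) (z u : G) (F : Facts2 Q z) (F' : Facts2 Q' u)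
    (huQ : u ∈ Q) (hzQ' : z ∈ Q') (huz : u ≠ z) :
    (∀ e ∈ Q ⊓ Q', e * e = 1) ∧
    (∀ e ∈ Q ⊓ Q', ∀ f ∈ Q ⊓ Q', e * f = f * e) ∧
    (∀ v ∈ Subgroup.closure ({z, u} : Set G),
      v ∈ (Q' ⊓ Subgroup.centralizer ({z} : Set G)) ⊔ (Q ⊓ Subgroup.centralizer ({u} : Set G)) ∧
      ∀ r ∈ (Q' ⊓ Subgroup.centralizer ({z} : Set G)) ⊔ (Q ⊓ Subgroup.centralizer ({u} : Set G)),
        r * v = v * r) ∧
    (∀ h : G, (∀ r ∈ (Q' ⊓ Subgroup.centralizer ({z} : Set G)) ⊔
        (Q ⊓ Subgroup.centralizer ({u} : Set G)), h * r = r * h) →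
      h ∈ Subgroup.closure ({z, u} : Set G)) ∧
    (∀ e ∈ Q ⊓ Q', ∀ r ∈ (Q' ⊓ Subgroup.centralizer ({z} : Set G)) ⊔
        (Q ⊓ Subgroup.centralizer ({u} : Set G)),
      e * r * e⁻¹ * r⁻¹ ∈ Subgroup.closure ({z, u} : Set G)) ∧
    (∀ x ∈ (Q' ⊓ Subgroup.centralizer ({z} : Set G)) ⊔ (Q ⊓ Subgroup.centralizer ({u} : Set G)),
      ∀ y ∈ (Q' ⊓ Subgroup.centralizer ({z} : Set G)) ⊔ (Q ⊓ Subgroup.centralizer ({u} : Set G)),
        x * y * x⁻¹ * y⁻¹ ∈ Q ⊓ Q' ∧ x ^ 2 ∈ Q ⊓ Q') ∧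
    (∀ x ∈ Q ⊔ Q', ∀ e ∈ Q ⊓ Q', x * e * x⁻¹ * e⁻¹ ∈ Subgroup.closure ({z, u} : Set G)) ∧
    ((Q' ⊓ Subgroup.centralizer ({z} : Set G)) ⊓ (Q ⊓ Subgroup.centralizer ({u} : Set G)) =
      Q ⊓ Q') := by
  obtain ⟨⟨hzQ, hz2, hz1, hzc, cen, comm, hC⟩, hnorm, sq⟩ := F
  obtain ⟨⟨huQ', hu2, hu1, huc, cen', comm', hC'⟩, hnorm', sq'⟩ := F'
  have hzu : z * u = u * z := hzc u huQ
  have hV := four_closure z u hz2 hu2 hzu
  have cc := comm_cases Q z comm
  have cc' := comm_cases Q' u comm'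
  have memA : ∀ x, x ∈ Q ⊓ Subgroup.centralizer ({u} : Set G) ↔ (x ∈ Q ∧ u * x = x * u) := by
    intro x; rw [Subgroup.mem_inf, mem_cs]
  have memB : ∀ x, x ∈ Q' ⊓ Subgroup.centralizer ({z} : Set G) ↔ (x ∈ Q' ∧ z * x = x * z) := by
    intro x; rw [Subgroup.mem_inf, mem_cs]
  have memE : ∀ x, x ∈ Q ⊓ Q' ↔ (x ∈ Q ∧ x ∈ Q') := fun x => Subgroup.mem_inf
  have hzE : z ∈ Q ⊓ Q' := (memE z).mpr ⟨hzQ, hzQ'⟩
  have huE : u ∈ Q ⊓ Q' := (memE u).mpr ⟨huQ, huQ'⟩
  have hzV : z ∈ Subgroup.closure ({z, u} : Set G) := (hV z).mpr (Or.inr (Or.inl rfl))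
  have huV : u ∈ Subgroup.closure ({z, u} : Set G) := (hV u).mpr (Or.inr (Or.inr (Or.inl rfl)))
  -- normalization
  have nAB : ∀ a ∈ Q ⊓ Subgroup.centralizer ({u} : Set G),
      ∀ b ∈ Q' ⊓ Subgroup.centralizer ({z} : Set G),
      a * b * a⁻¹ ∈ Q' ⊓ Subgroup.centralizer ({z} : Set G) := by
    intro a ha b hb
    obtain ⟨haQ, hau⟩ := (memA a).mp ha
    obtain ⟨hbQ, hbz⟩ := (memB b).mp hb
    refine (memB _).mpr ⟨hnorm' a hau.symm b hbQ, ?_⟩
    have haz := hzc a haQ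
    calc z * (a * b * a⁻¹) = (z * a) * b * a⁻¹ := by group
      _ = a * (z * b) * a⁻¹ := by rw [haz]; group
      _ = a * b * (z * a⁻¹) := by rw [hbz]; group
      _ = a * b * (a⁻¹ * (a * z) * a⁻¹) := by group
      _ = a * b * (a⁻¹ * (z * a) * a⁻¹) := by rw [haz]
      _ = a * b * a⁻¹ * z := by group
  have nBA : ∀ b ∈ Q' ⊓ Subgroup.centralizer ({z} : Set G),
      ∀ a ∈ Q ⊓ Subgroup.centralizer ({u} : Set G),
      b * a * b⁻¹ ∈ Q ⊓ Subgroup.centralizer ({u} : Set G) := by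
    intro b hb a ha
    obtain ⟨haQ, hau⟩ := (memA a).mp ha
    obtain ⟨hbQ, hbz⟩ := (memB b).mp hb
    refine (memA _).mpr ⟨hnorm b hbz.symm a haQ, ?_⟩
    have hbu := huc b hbQ
    calc u * (b * a * b⁻¹) = (u * b) * a * b⁻¹ := by group
      _ = b * (u * a) * b⁻¹ := by rw [hbu]; group
      _ = b * a * (u * b⁻¹) := by rw [hau]; group
      _ = b * a * (b⁻¹ * (b * u) * b⁻¹) := by group
      _ = b * a * (b⁻¹ * (u * b) * b⁻¹) := by rw [hbu]
      _ = b * a * b⁻¹ * u := by group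
  -- decomposition
  have hRcl : (Q' ⊓ Subgroup.centralizer ({z} : Set G)) ⊔ (Q ⊓ Subgroup.centralizer ({u} : Set G))
      = Subgroup.closure (((Q' ⊓ Subgroup.centralizer ({z} : Set G) : Subgroup G) : Set G) ∪
        ((Q ⊓ Subgroup.centralizer ({u} : Set G) : Subgroup G) : Set G)) := by
    rw [Subgroup.closure_union, Subgroup.closure_eq, Subgroup.closure_eq]
  have dec : ∀ r ∈ (Q' ⊓ Subgroup.centralizer ({z} : Set G)) ⊔
      (Q ⊓ Subgroup.centralizer ({u} : Set G)),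
      ∃ b ∈ Q' ⊓ Subgroup.centralizer ({z} : Set G),
        ∃ a ∈ Q ⊓ Subgroup.centralizer ({u} : Set G), r = b * a := by
    intro r hr
    rw [hRcl] at hr
    induction hr using Subgroup.closure_induction with
    | mem s hs =>
      rcases hs with hs | hs
      · exact ⟨s, hs, 1, Subgroup.one_mem _, (mul_one s).symm⟩
      · exact ⟨1, Subgroup.one_mem _, s, hs, (one_mul s).symm⟩
    | one => exact ⟨1, Subgroup.one_mem _, 1, Subgroup.one_mem _, (mul_one 1).symm⟩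
    | mul x y _ _ ihx ihy =>
      obtain ⟨b, hb, a, ha, rfl⟩ := ihx
      obtain ⟨b', hb', a', ha', rfl⟩ := ihy
      refine ⟨b * (a * b' * a⁻¹), Subgroup.mul_mem _ hb (nAB a ha b' hb'), a * a',
        Subgroup.mul_mem _ ha ha', ?_⟩
      group
    | inv x _ ih =>
      obtain ⟨b, hb, a, ha, rfl⟩ := ih
      refine ⟨a⁻¹ * b⁻¹ * a⁻¹⁻¹, nAB a⁻¹ (Subgroup.inv_mem _ ha) b⁻¹ (Subgroup.inv_mem _ hb),
        a⁻¹, Subgroup.inv_mem _ ha, ?_⟩
      group
  have hAle : Q ⊓ Subgroup.centralizer ({u} : Set G) ≤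
      (Q' ⊓ Subgroup.centralizer ({z} : Set G)) ⊔ (Q ⊓ Subgroup.centralizer ({u} : Set G)) :=
    le_sup_right
  have hBle : Q' ⊓ Subgroup.centralizer ({z} : Set G) ≤
      (Q' ⊓ Subgroup.centralizer ({z} : Set G)) ⊔ (Q ⊓ Subgroup.centralizer ({u} : Set G)) :=
    le_sup_left
  have hEA : ∀ e ∈ Q ⊓ Q', e ∈ Q ⊓ Subgroup.centralizer ({u} : Set G) := by
    intro e he
    obtain ⟨h1, h2⟩ := (memE e).mp he
    exact (memA e).mpr ⟨h1, huc e h2⟩
  have hEB : ∀ e ∈ Q ⊓ Q', e ∈ Q' ⊓ Subgroup.centralizer ({z} : Set G) := by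
    intro e he
    obtain ⟨h1, h2⟩ := (memE e).mp he
    exact (memB e).mpr ⟨h2, hzc e h1⟩
  -- z and u commute with R
  have hzR : ∀ r ∈ (Q' ⊓ Subgroup.centralizer ({z} : Set G)) ⊔
      (Q ⊓ Subgroup.centralizer ({u} : Set G)), r * z = z * r := by
    intro r hr
    obtain ⟨b, hb, a, ha, rfl⟩ := dec r hr
    obtain ⟨haQ, hau⟩ := (memA a).mp ha
    obtain ⟨hbQ, hbz⟩ := (memB b).mp hb
    have haz := hzc a haQ
    calc b * a * z = b * (a * z) := by rw [mul_assoc]
      _ = b * (z * a) := by rw [haz]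
      _ = (b * z) * a := by rw [mul_assoc]
      _ = (z * b) * a := by rw [hbz]
      _ = z * (b * a) := by rw [mul_assoc]
  have huR : ∀ r ∈ (Q' ⊓ Subgroup.centralizer ({z} : Set G)) ⊔
      (Q ⊓ Subgroup.centralizer ({u} : Set G)), r * u = u * r := by
    intro r hr
    obtain ⟨b, hb, a, ha, rfl⟩ := dec r hr
    obtain ⟨haQ, hau⟩ := (memA a).mp ha
    obtain ⟨hbQ, hbz⟩ := (memB b).mp hb
    have hbu := huc b hbQ
    calc b * a * u = b * (a * u) := by rw [mul_assoc]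
      _ = b * (u * a) := by rw [hau]
      _ = (b * u) * a := by rw [mul_assoc]
      _ = (u * b) * a := by rw [hbu]
      _ = u * (b * a) := by rw [mul_assoc]
  -- generators normalize E
  have nE : ∀ s ∈ (((Q' ⊓ Subgroup.centralizer ({z} : Set G) : Subgroup G) : Set G) ∪
      ((Q ⊓ Subgroup.centralizer ({u} : Set G) : Subgroup G) : Set G)),
      ∀ e ∈ Q ⊓ Q', s * e * s⁻¹ ∈ Q ⊓ Q' := by
    intro s hs e he
    obtain ⟨h1, h2⟩ := (memE e).mp he
    rcases hs with hs | hs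
    · obtain ⟨hbQ, hbz⟩ := (memB s).mp hs
      exact (memE _).mpr ⟨hnorm s hbz.symm e h1,
        Q'.mul_mem (Q'.mul_mem hbQ h2) (Q'.inv_mem hbQ)⟩
    · obtain ⟨haQ, hau⟩ := (memA s).mp hs
      exact (memE _).mpr ⟨Q.mul_mem (Q.mul_mem haQ h1) (Q.inv_mem haQ),
        hnorm' s hau.symm e h2⟩
  have nE' : ∀ s ∈ (((Q' ⊓ Subgroup.centralizer ({z} : Set G) : Subgroup G) : Set G) ∪
      ((Q ⊓ Subgroup.centralizer ({u} : Set G) : Subgroup G) : Set G)),
      ∀ e ∈ Q ⊓ Q', s⁻¹ * e * s ∈ Q ⊓ Q' := by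
    intro s hs e he
    have hs' : s⁻¹ ∈ (((Q' ⊓ Subgroup.centralizer ({z} : Set G) : Subgroup G) : Set G) ∪
        ((Q ⊓ Subgroup.centralizer ({u} : Set G) : Subgroup G) : Set G)) := by
      rcases hs with hs | hs
      · exact Or.inl (Subgroup.inv_mem _ hs)
      · exact Or.inr (Subgroup.inv_mem _ hs)
    have h1 := nE s⁻¹ hs' e he
    rw [inv_inv] at h1
    exact h1
  have base : ∀ s ∈ (((Q' ⊓ Subgroup.centralizer ({z} : Set G) : Subgroup G) : Set G) ∪
      ((Q ⊓ Subgroup.centralizer ({u} : Set G) : Subgroup G) : Set G)),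
      ∀ t ∈ (((Q' ⊓ Subgroup.centralizer ({z} : Set G) : Subgroup G) : Set G) ∪
      ((Q ⊓ Subgroup.centralizer ({u} : Set G) : Subgroup G) : Set G)),
      s * t * s⁻¹ * t⁻¹ ∈ Q ⊓ Q' := by
    intro s hs t ht
    rcases hs with hs | hs <;> rcases ht with ht | ht
    · obtain ⟨hsQ, hsz⟩ := (memB s).mp hs
      obtain ⟨htQ, htz⟩ := (memB t).mp ht
      rcases cc' s hsQ t htQ with h | h
      · rw [h]; exact Subgroup.one_mem _
      · rw [h]; exact huE
    · obtain ⟨hsQ, hsz⟩ := (memB s).mp hs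
      obtain ⟨htQ, htu⟩ := (memA t).mp ht
      refine (memE _).mpr ⟨Q.mul_mem (hnorm s hsz.symm t htQ) (Q.inv_mem htQ), ?_⟩
      have h1 := hnorm' t htu.symm s⁻¹ (Q'.inv_mem hsQ)
      have e1 : s * t * s⁻¹ * t⁻¹ = s * (t * s⁻¹ * t⁻¹) := by group
      rw [e1]
      exact Q'.mul_mem hsQ h1
    · obtain ⟨hsQ, hsu⟩ := (memA s).mp hs
      obtain ⟨htQ, htz⟩ := (memB t).mp ht
      refine (memE _).mpr ⟨?_, Q'.mul_mem (hnorm' s hsu.symm t htQ) (Q'.inv_mem htQ)⟩
      have h1 := hnorm t htz.symm s⁻¹ (Q.inv_mem hsQ)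
      have e1 : s * t * s⁻¹ * t⁻¹ = s * (t * s⁻¹ * t⁻¹) := by group
      rw [e1]
      exact Q.mul_mem hsQ h1
    · obtain ⟨hsQ, hsu⟩ := (memA s).mp hs
      obtain ⟨htQ, htu⟩ := (memA t).mp ht
      rcases cc s hsQ t htQ with h | h
      · rw [h]; exact Subgroup.one_mem _
      · rw [h]; exact hzE
  have T1 : ∀ x ∈ (Q' ⊓ Subgroup.centralizer ({z} : Set G)) ⊔
      (Q ⊓ Subgroup.centralizer ({u} : Set G)),
      ∀ t ∈ (((Q' ⊓ Subgroup.centralizer ({z} : Set G) : Subgroup G) : Set G) ∪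
      ((Q ⊓ Subgroup.centralizer ({u} : Set G) : Subgroup G) : Set G)),
      x * t * x⁻¹ * t⁻¹ ∈ Q ⊓ Q' := by
    intro x hx
    rw [hRcl] at hx
    exact comm_closure_aux (Q ⊓ Q') _ _ nE nE' base x hx
  have T2 : ∀ x ∈ (Q' ⊓ Subgroup.centralizer ({z} : Set G)) ⊔
      (Q ⊓ Subgroup.centralizer ({u} : Set G)),
      ∀ y ∈ (Q' ⊓ Subgroup.centralizer ({z} : Set G)) ⊔
      (Q ⊓ Subgroup.centralizer ({u} : Set G)),
      x * y * x⁻¹ * y⁻¹ ∈ Q ⊓ Q' := by
    intro x hx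
    rw [hRcl] at hx
    refine comm_closure_aux (Q ⊓ Q')
      (((Q' ⊓ Subgroup.centralizer ({z} : Set G)) ⊔
        (Q ⊓ Subgroup.centralizer ({u} : Set G)) : Subgroup G) : Set G) _ nE nE' ?_ x hx
    intro s hs y hy
    have h1 := T1 y hy s hs
    have e1 : s * y * s⁻¹ * y⁻¹ = (y * s * y⁻¹ * s⁻¹)⁻¹ := by group
    rw [e1]
    exact Subgroup.inv_mem _ h1
  refine ⟨?_, ?_, ?_, ?_, ?_, ?_, ?_, ?_⟩
  · -- squares
    intro e he
    obtain ⟨h1, h2⟩ := (memE e).mp he
    rcases sq e h1 with h | h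
    · exact h
    · rcases sq' e h2 with h' | h'
      · exact h'
      · exact absurd (h'.symm.trans h) huz
  · -- commutativity
    intro e he f hf
    obtain ⟨h1, h2⟩ := (memE e).mp he
    obtain ⟨h3, h4⟩ := (memE f).mp hf
    rcases comm e h1 f h3 with h | h
    · exact h
    · rcases comm' e h2 f h4 with h' | h'
      · exact h'
      · exfalso
        apply huz
        have h5 : u * f * e = z * f * e := h'.symm.trans h
        have h6 : u * (f * e) = z * (f * e) := by rw [← mul_assoc, ← mul_assoc]; exact h5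
        exact mul_right_cancel h6
  · -- V ≤ R and central
    intro v hv
    have hzR' : z ∈ (Q' ⊓ Subgroup.centralizer ({z} : Set G)) ⊔
        (Q ⊓ Subgroup.centralizer ({u} : Set G)) := hAle (hEA z hzE)
    have huR' : u ∈ (Q' ⊓ Subgroup.centralizer ({z} : Set G)) ⊔
        (Q ⊓ Subgroup.centralizer ({u} : Set G)) := hAle (hEA u huE)
    rcases (hV v).mp hv with h | h | h | h
    · rw [h]
      exact ⟨Subgroup.one_mem _, fun r _ => by rw [mul_one, one_mul]⟩
    · rw [h]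
      exact ⟨hzR', hzR⟩
    · rw [h]
      exact ⟨huR', huR⟩
    · rw [h]
      refine ⟨Subgroup.mul_mem _ huR' hzR', fun r hr => ?_⟩
      calc r * (u * z) = (r * u) * z := by rw [mul_assoc]
        _ = (u * r) * z := by rw [huR r hr]
        _ = u * (r * z) := by rw [mul_assoc]
        _ = u * (z * r) := by rw [hzR r hr]
        _ = u * z * r := by rw [mul_assoc]
  · -- centralizer of R
    intro h hh
    obtain ⟨q, hq, hqu⟩ := exists_q Q z u huQ huz hu1 cen comm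
    have h1 := cent_P Q z u hzQ huQ hz2 hz1 hu2 hzc cen comm hC hnorm q hq hqu h
      (fun p hp hpu => hh p (hAle ((memA p).mpr ⟨hp, hpu.symm⟩)))
    exact (hV h).mpr h1
  · -- [E, R] ≤ V
    intro e he r hr
    obtain ⟨h1, h2⟩ := (memE e).mp he
    obtain ⟨b, hb, a, ha, rfl⟩ := dec r hr
    obtain ⟨haQ, hau⟩ := (memA a).mp ha
    obtain ⟨hbQ, hbz⟩ := (memB b).mp hb
    have e1 : e * (b * a) * e⁻¹ * (b * a)⁻¹ =
        (e * b * e⁻¹ * b⁻¹) * (b * (e * a * e⁻¹ * a⁻¹) * b⁻¹) := by group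
    rw [e1]
    refine Subgroup.mul_mem _ ?_ ?_
    · rcases cc' e h2 b hbQ with h | h
      · rw [h]; exact Subgroup.one_mem _
      · rw [h]; exact huV
    · rcases cc e h1 a haQ with h | h
      · rw [h]
        have e2 : b * 1 * b⁻¹ = 1 := by group
        rw [e2]; exact Subgroup.one_mem _
      · rw [h]
        have e2 : b * z * b⁻¹ = z := by
          calc b * z * b⁻¹ = (z * b) * b⁻¹ := by rw [hbz]
            _ = z := by group
        rw [e2]; exact hzV
  · -- R/E elementary abelian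
    intro x hx y hy
    refine ⟨T2 x hx y hy, ?_⟩
    obtain ⟨b, hb, a, ha, rfl⟩ := dec x hx
    obtain ⟨haQ, hau⟩ := (memA a).mp ha
    obtain ⟨hbQ, hbz⟩ := (memB b).mp hb
    have e1 : (b * a) ^ 2 = (b * (a * b * a⁻¹ * b⁻¹) * b⁻¹) * (b * b) * (a * a) := by
      rw [pow_two]; group
    rw [e1]
    refine Subgroup.mul_mem _ (Subgroup.mul_mem _ ?_ ?_) ?_
    · exact nE b (Or.inl hb) _ (T2 a (hAle ha) b (hBle hb))
    · rcases sq' b hbQ with h | h
      · rw [h]; exact Subgroup.one_mem _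
      · rw [h]; exact huE
    · rcases sq a haQ with h | h
      · rw [h]; exact Subgroup.one_mem _
      · rw [h]; exact hzE
  · -- [X, E] ≤ V
    intro x hx e he
    have hXcl : Q ⊔ Q' = Subgroup.closure ((Q : Set G) ∪ (Q' : Set G)) := by
      rw [Subgroup.closure_union, Subgroup.closure_eq, Subgroup.closure_eq]
    rw [hXcl] at hx
    have nV : ∀ s ∈ ((Q : Set G) ∪ (Q' : Set G)),
        ∀ v ∈ Subgroup.closure ({z, u} : Set G), s * v * s⁻¹ ∈ Subgroup.closure ({z, u} : Set G) := by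
      intro s hs v hv
      have hzs : s * z * s⁻¹ ∈ Subgroup.closure ({z, u} : Set G) := by
        rcases hs with hs | hs
        · have h1 : s * z * s⁻¹ = z := by
            calc s * z * s⁻¹ = (z * s) * s⁻¹ := by rw [hzc s hs]
              _ = z := by group
          rw [h1]; exact hzV
        · rcases cc' s hs z hzQ' with h | h
          · have h1 : s * z * s⁻¹ = (s * z * s⁻¹ * z⁻¹) * z := by group
            rw [h1, h, one_mul]; exact hzV
          · have h1 : s * z * s⁻¹ = (s * z * s⁻¹ * z⁻¹) * z := by group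
            rw [h1, h]; exact Subgroup.mul_mem _ huV hzV
      have hus : s * u * s⁻¹ ∈ Subgroup.closure ({z, u} : Set G) := by
        rcases hs with hs | hs
        · rcases cc s hs u huQ with h | h
          · have h1 : s * u * s⁻¹ = (s * u * s⁻¹ * u⁻¹) * u := by group
            rw [h1, h, one_mul]; exact huV
          · have h1 : s * u * s⁻¹ = (s * u * s⁻¹ * u⁻¹) * u := by group
            rw [h1, h]; exact Subgroup.mul_mem _ hzV huV
        · have h1 : s * u * s⁻¹ = u := by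
            calc s * u * s⁻¹ = (u * s) * s⁻¹ := by rw [huc s hs]
              _ = u := by group
          rw [h1]; exact huV
      rcases (hV v).mp hv with h | h | h | h
      · rw [h]
        have e2 : s * 1 * s⁻¹ = 1 := by group
        rw [e2]; exact Subgroup.one_mem _
      · rw [h]; exact hzs
      · rw [h]; exact hus
      · rw [h]
        have e2 : s * (u * z) * s⁻¹ = (s * u * s⁻¹) * (s * z * s⁻¹) := by group
        rw [e2]; exact Subgroup.mul_mem _ hus hzs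
    have nV' : ∀ s ∈ ((Q : Set G) ∪ (Q' : Set G)),
        ∀ v ∈ Subgroup.closure ({z, u} : Set G), s⁻¹ * v * s ∈ Subgroup.closure ({z, u} : Set G) := by
      intro s hs v hv
      have hs' : s⁻¹ ∈ ((Q : Set G) ∪ (Q' : Set G)) := by
        rcases hs with hs | hs
        · exact Or.inl (Q.inv_mem hs)
        · exact Or.inr (Q'.inv_mem hs)
      have h1 := nV s⁻¹ hs' v hv
      rw [inv_inv] at h1
      exact h1
    refine comm_closure_aux (Subgroup.closure ({z, u} : Set G)) ((Q ⊓ Q' : Subgroup G) : Set G) _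
      nV nV' ?_ x hx e he
    intro s hs e' he'
    obtain ⟨h1, h2⟩ := (memE e').mp he'
    rcases hs with hs | hs
    · rcases cc s hs e' h1 with h | h
      · rw [h]; exact Subgroup.one_mem _
      · rw [h]; exact hzV
    · rcases cc' s hs e' h2 with h | h
      · rw [h]; exact Subgroup.one_mem _
      · rw [h]; exact huV
  · -- A ∩ B = E
    ext x
    constructor
    · intro hx
      obtain ⟨hxB, hxA⟩ := Subgroup.mem_inf.mp hx
      exact (memE x).mpr ⟨((memA x).mp hxA).1, ((memB x).mp hxB).1⟩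
    · intro hx
      exact Subgroup.mem_inf.mpr ⟨hEB x hx, hEA x hx⟩

end Cfsg.Agent.Lead.XS
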