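import Mathlib
import Cfsg.Prelude.Def_MonsterType
import Cfsg.Prelude.Def_Local
import Cfsg.Agent.Lead.XS7
import Cfsg.Agent.Helper10.Layer
import Cfsg.Agent.Helper22.FrattiniSq
import Cfsg.Agent.Helper26.PCore
import Cfsg.Agent.Helper24.CycSylow
import Cfsg.Agent.Helper16.IndexTwo
import Cfsg.Agent.S0219
import Cfsg.Agent.S0542

/-!
# The structure theorem for large extraspecial 2-subgroups (lead)
-/

set_option autoImplicit false
set_option linter.style.haveILetI false

namespace Cfsg.Agent.Lead.XS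

open Cfsg

variable {G : Type*} [Group G]

theorem le_nzr (Q T : Subgroup G) (h : ∀ q ∈ Q, ∀ t ∈ T, q * t * q⁻¹ ∈ T) :
    Q ≤ Subgroup.normalizer (T : Set G) := by
  intro q hq
  rw [Subgroup.mem_normalizer_iff]
  intro t
  constructor
  · exact h q hq t
  · intro ht
    have h1 := h q⁻¹ (Q.inv_mem hq) _ ht
    have e : q⁻¹ * (q * t * q⁻¹) * q⁻¹⁻¹ = t := by group
    rw [e] at h1
    exact h1

theorem of_nzr (Q T : Subgroup G) (h : Q ≤ Subgroup.normalizer (T : Set G)) :
    ∀ q ∈ Q, ∀ t ∈ T, q * t * q⁻¹ ∈ T :=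
  fun q hq t ht => (Subgroup.mem_normalizer_iff.mp (h hq) t).mp ht

/-- every nontrivial `Q`-invariant subgroup contains `z`. -/
theorem z_mem_inv [Finite G] (Q : Subgroup G) (z : G) (F : Facts2 Q z) (hQ2 : IsPGroup 2 Q)
    (hlarge : ∀ K : Subgroup G, Odd (Nat.card K) → Q ≤ Subgroup.normalizer (K : Set G) → K = ⊥)
    (T : Subgroup G) (hT : T ≠ ⊥) (hinv : ∀ q ∈ Q, ∀ t ∈ T, q * t * q⁻¹ ∈ T) : z ∈ T := by
  obtain ⟨⟨hzQ, hz2, hz1, hzc, cen, comm, hC⟩, hnorm, sq⟩ := F
  have h2 : 2 ∣ Nat.card T := by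
    by_contra h
    apply hT
    apply hlarge T ?_ (le_nzr Q T hinv)
    rw [← Nat.not_even_iff_odd, even_iff_two_dvd]
    exact h
  obtain ⟨y, hyT, hy1, hyf⟩ := fp_other Q hQ2 (T : Set G) hinv h2 1 T.one_mem
    (fun r _ => by group)
  have hyc : ∀ q ∈ Q, y * q = q * y := by
    intro q hq
    have h3 := hyf q hq
    calc y * q = (q * y * q⁻¹) * q := by rw [h3]
      _ = q * y := by group
  have hyQ : y ∈ Q := hC y hyc
  rcases cen y hyQ hyc with h | h
  · exact absurd h hy1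
  · rw [← h]; exact hyT

theorem ctr_ne_bot [Finite G] (P : Subgroup G) (hP : IsPGroup 2 P) (hne : P ≠ ⊥) :
    P ⊓ Subgroup.centralizer (P : Set G) ≠ ⊥ := by
  haveI : Fact (Nat.Prime 2) := ⟨Nat.prime_two⟩
  haveI : Nontrivial ↥P := (Subgroup.nontrivial_iff_ne_bot P).mpr hne
  haveI := hP.center_nontrivial
  obtain ⟨c, hc⟩ := exists_ne (1 : Subgroup.center ↥P)
  intro hbot
  apply hc
  have h1 : ((c : ↥P) : G) ∈ P ⊓ Subgroup.centralizer (P : Set G) := by
    refine Subgroup.mem_inf.mpr ⟨(c : ↥P).2, ?_⟩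
    rw [Subgroup.mem_centralizer_iff]
    intro y hy
    have h2 := Subgroup.mem_center_iff.mp c.2 ⟨y, hy⟩
    exact congrArg Subtype.val h2
  rw [hbot, Subgroup.mem_bot] at h1
  exact Subtype.ext (Subtype.ext h1)

/-- no component centralizes `z`. -/
theorem comp_not_cz [Finite G] (Q : Subgroup G) (z : G) (F : Facts2 Q z) (hQ2 : IsPGroup 2 Q)
    (K : Subgroup G) (hK : IsComponent K) : ¬ ∀ k ∈ K, k * z = z * k := by
  intro h
  obtain ⟨⟨hzQ, hz2, hz1, hzc, cen, comm, hC⟩, hnorm, sq⟩ := F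
  haveI : Fact (Nat.Prime 2) := ⟨Nat.prime_two⟩
  haveI : Group.IsNilpotent ↥Q := hQ2.isNilpotent
  have hsolv : Group.IsSolvable ↥Q := inferInstance
  have hinv : K ≤ Subgroup.normalizer (Q : Set G) :=
    le_nzr K Q (fun k hk y hy => hnorm k (h k hk) y hy)
  have h1 := Cfsg.Agent.Helper10.comp_comm_solvable_of_normalizes K Q hK hsolv hinv
  rw [Cfsg.Agent.Helper10.comm_bot_iff] at h1
  exact Cfsg.Agent.Helper10.comp_not_le_solvable hK hsolv
    (fun k hk => hC k (fun y hy => h1 k hk y hy))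

theorem caseA [Finite G] (Q : Subgroup G) (z : G) (F : Facts2 Q z) (hQ2 : IsPGroup 2 Q)
    (hlarge : ∀ K : Subgroup G, Odd (Nat.card K) → Q ≤ Subgroup.normalizer (K : Set G) → K = ⊥)
    (hfit : fittingSubgroup G = pCore 2 G) (hP : pCore 2 G ≠ ⊥) :
    IsMulCommutative ↥(Subgroup.normalClosure ({z} : Set G)) ∧
      generalizedFittingSubgroup G = pCore 2 G := by
  have hPn := Cfsg.Agent.Helper26.pCore_normal 2 G
  have hP2 := Cfsg.Agent.Helper26.isPGroup_pCore 2 G
  have hTn : (pCore 2 G ⊓ Subgroup.centralizer ((pCore 2 G : Subgroup G) : Set G)).Normal := by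
    haveI := hPn
    infer_instance
  have hzT : z ∈ pCore 2 G ⊓ Subgroup.centralizer ((pCore 2 G : Subgroup G) : Set G) :=
    z_mem_inv Q z F hQ2 hlarge _ (ctr_ne_bot (pCore 2 G) hP2 hP)
      (fun q _ t ht => hTn.conj_mem t ht q)
  constructor
  · have hle : Subgroup.normalClosure ({z} : Set G) ≤
        pCore 2 G ⊓ Subgroup.centralizer ((pCore 2 G : Subgroup G) : Set G) := by
      haveI := hTn
      exact Subgroup.normalClosure_le_normal (Set.singleton_subset_iff.mpr hzT)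
    refine ⟨⟨fun a b => Subtype.ext ?_⟩⟩
    have ha := (hle a.2).1
    have hb := (hle b.2).2
    exact Subgroup.mem_centralizer_iff.mp hb _ ha
  · have hlay : layer G = ⊥ := by
      apply sSup_eq_bot.mpr
      intro K hK
      exfalso
      apply comp_not_cz Q z F hQ2 K hK
      intro k hk
      exact Cfsg.Agent.Helper10.layer_fitting_comm G k
        (Cfsg.Agent.Helper10.comp_le_layer hK hk) z (by rw [hfit]; exact hzT.1)
    show layer G ⊔ fittingSubgroup G = pCore 2 G
    rw [hlay, hfit, bot_sup_eq]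

/-- components have trivial centre when `F(G) = 1`. -/
theorem zk_bot [Finite G] (hF : fittingSubgroup G = ⊥) (K : Subgroup G) (hK : IsComponent K)
    (x : G) (hx : x ∈ K) (hxc : ∀ k ∈ K, x * k = k * x) : x = 1 := by
  have hA : K ⊓ Subgroup.centralizer (K : Set G) ≤ K := inf_le_left
  have hN : ((K ⊓ Subgroup.centralizer (K : Set G)).subgroupOf K).Normal := by
    rw [Subgroup.normal_subgroupOf_iff_le_normalizer hA]
    apply le_nzr
    intro k hk t ht
    have h1 : k * t * k⁻¹ = t := by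
      have h2 := Subgroup.mem_centralizer_iff.mp ht.2 k hk
      rw [h2]; group
    rw [h1]; exact ht
  have hsub : (K ⊓ Subgroup.centralizer (K : Set G)).IsSubnormal :=
    Subgroup.IsSubnormal.step _ K hA hK.1 hN
  have hnil : Group.IsNilpotent ↥(K ⊓ Subgroup.centralizer (K : Set G)) := by
    apply Cfsg.Agent.Helper10.nilpotent_of_comm
    intro a b
    apply Subtype.ext
    exact Subgroup.mem_centralizer_iff.mp b.2.2 _ a.2.1
  have hle := Cfsg.Agent.Helper10.subnormal_nilpotent_le_fitting _ hsub hnil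
  rw [hF] at hle
  have hx' : x ∈ K ⊓ Subgroup.centralizer (K : Set G) := by
    refine Subgroup.mem_inf.mpr ⟨hx, ?_⟩
    rw [Subgroup.mem_centralizer_iff]
    intro k hk
    exact (hxc k hk).symm
  exact Subgroup.mem_bot.mp (hle hx')

theorem x9_comm [Finite G] {K1 K2 : Subgroup G} (h1 : IsComponent K1) (h2 : IsComponent K2)
    (hne : K1 ≠ K2) : ∀ x ∈ K1, ∀ y ∈ K2, x * y = y * x := by
  rcases Cfsg.Agent.Helper10.comp_eq_or_comm h1 h2 with h | h
  · exact absurd h hne
  · exact (Cfsg.Agent.Helper10.comm_bot_iff _ _).mp h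

theorem comp_simple [Finite G] (hF : fittingSubgroup G = ⊥) (K : Subgroup G)
    (hK : IsComponent K) : IsSimpleGroup ↥K ∧ ¬ IsMulCommutative ↥K := by
  have hc : Subgroup.center ↥K = ⊥ := by
    rw [eq_bot_iff]
    intro c hc
    rw [Subgroup.mem_bot]
    apply Subtype.ext
    apply zk_bot hF K hK (c : G) c.2
    intro k hk
    have h := Subgroup.mem_center_iff.mp hc ⟨k, hk⟩
    exact (congrArg Subtype.val h).symm
  constructor
  · haveI := hK.2.2
    exact ((QuotientGroup.quotientMulEquivOfEq hc).trans QuotientGroup.quotientBot).isSimpleGroup_congr.mp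
      hK.2.2
  · intro h
    exact Cfsg.Agent.Helper10.qs_not_comm hK.2 (fun a b => h.is_comm.comm a b)

theorem layer_nzr [Finite G] (K : Subgroup G) (hK : IsComponent K) :
    layer G ≤ Subgroup.normalizer (K : Set G) := by
  apply sSup_le
  intro K' hK'
  by_cases h : K' = K
  · rw [h]
    apply le_nzr
    intro q hq t ht
    exact K.mul_mem (K.mul_mem hq ht) (K.inv_mem hq)
  · apply le_nzr
    intro q hq t ht
    have h1 := x9_comm hK' hK h q hq t ht
    have h2 : q * t * q⁻¹ = t := by rw [h1]; group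
    rw [h2]; exact ht

theorem dp_unique (L C : Subgroup G) (htriv : ∀ x ∈ L, x ∈ C → x = 1) {l1 l2 c1 c2 : G}
    (hl1 : l1 ∈ L) (hl2 : l2 ∈ L) (hc1 : c1 ∈ C) (hc2 : c2 ∈ C) (h : l1 * c1 = l2 * c2) :
    l1 = l2 ∧ c1 = c2 := by
  have e : l2⁻¹ * l1 = c2 * c1⁻¹ := by
    calc l2⁻¹ * l1 = l2⁻¹ * (l1 * c1) * c1⁻¹ := by group
      _ = l2⁻¹ * (l2 * c2) * c1⁻¹ := by rw [h]
      _ = c2 * c1⁻¹ := by group
  have h1 := htriv _ (L.mul_mem (L.inv_mem hl2) hl1)
    (by rw [e]; exact C.mul_mem hc2 (C.inv_mem hc1))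
  have h2 : l1 = l2 := by
    calc l1 = l2 * (l2⁻¹ * l1) := by group
      _ = l2 := by rw [h1, mul_one]
  refine ⟨h2, ?_⟩
  rw [h2] at h
  exact mul_left_cancel h

/-- a perfect group whose Sylow 2-subgroup `C_L(a)` has order two does not exist. -/
theorem no_small [Finite G] (L : Subgroup G) (hperf : Group.IsPerfect ↥L) (a : G) (haL : a ∈ L)
    (ha1 : a ≠ 1) (ha2 : a * a = 1) (R : Sylow 2 ↥L)
    (hR : (R : Subgroup ↥L) = (Subgroup.centralizer ({a} : Set G)).subgroupOf L)
    (h : ∀ c ∈ L, c * a = a * c → c = 1 ∨ c = a) : False := by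
  have haR : (⟨a, haL⟩ : ↥L) ∈ (R : Subgroup ↥L) := by
    rw [hR, Subgroup.mem_subgroupOf]; exact mem_cs.mpr rfl
  have hcyc : IsCyclic (R : Subgroup ↥L) := by
    refine ⟨⟨⟨⟨a, haL⟩, haR⟩, fun x => ?_⟩⟩
    have hx : ((x : ↥L) : G) ∈ Subgroup.centralizer ({a} : Set G) := by
      have h1 : (x : ↥L) ∈ (Subgroup.centralizer ({a} : Set G)).subgroupOf L := by
        rw [← hR]; exact x.2
      exact Subgroup.mem_subgroupOf.mp h1
    rcases h _ (x : ↥L).2 (mem_cs.mp hx).symm with h1 | h1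
    · refine ⟨0, ?_⟩
      apply Subtype.ext
      apply Subtype.ext
      simp [h1]
    · refine ⟨1, ?_⟩
      apply Subtype.ext
      apply Subtype.ext
      simp [h1]
  have heven : Even (Nat.card ↥L) := by
    have h1 : orderOf (⟨a, haL⟩ : ↥L) = 2 := by
      apply orderOf_eq_prime
      · apply Subtype.ext
        simp [pow_two, ha2]
      · intro h2
        apply ha1
        exact congrArg Subtype.val h2
    rw [even_iff_two_dvd, ← h1]
    exact orderOf_dvd_natCard _
  obtain ⟨H, hH⟩ := Cfsg.Agent.S0219.result heven R hcyc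
  have h1 := Cfsg.Agent.Helper16.commutator_le_of_index_two H hH
  rw [hperf.commutator_eq_top] at h1
  have h2 : H = ⊤ := top_le_iff.mp h1
  rw [h2, Subgroup.index_top] at hH
  omega

end Cfsg.Agent.Lead.XS
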