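import Mathlib
import Cfsg.Agent.Lead.XS9
import Cfsg.Agent.Lead.XS2

/-!
# Large extraspecial 2-subgroups: the two-component configuration (lead)
-/

set_option autoImplicit false
set_option linter.style.haveILetI false

namespace Cfsg.Agent.Lead.XS

open Cfsg

variable {G : Type*} [Group G]

/-- the two-component configuration -/
structure TC (Q L : Subgroup G) (z u a a' : G) : Prop where
  F : Facts2 Q z
  hQ2 : IsPGroup 2 Q
  hlarge : ∀ K : Subgroup G, Odd (Nat.card K) → Q ≤ Subgroup.normalizer (K : Set G) → K = ⊥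
  hF : fittingSubgroup G = ⊥
  hL : IsComponent L
  huQ : u ∈ Q
  hne : L.map (MulAut.conj u).toMonoidHom ≠ L
  haL : a ∈ L
  ha' : a' ∈ layer G ⊓ Subgroup.centralizer (L : Set G)
  hz : z = a * a'

variable {Q L : Subgroup G} {z u a a' : G}

theorem tc_LC (h : TC Q L z u a a') :
    ∀ l ∈ L, ∀ c ∈ layer G ⊓ Subgroup.centralizer (L : Set G), l * c = c * l :=
  fun l hl _ hc => Subgroup.mem_centralizer_iff.mp (Subgroup.mem_inf.mp hc).2 l hl

theorem tc_triv [Finite G] (h : TC Q L z u a a') :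
    ∀ x ∈ L, x ∈ layer G ⊓ Subgroup.centralizer (L : Set G) → x = 1 :=
  fun x hx hxc => zk_bot h.hF L h.hL x hx
    (fun k hk => (Subgroup.mem_centralizer_iff.mp (Subgroup.mem_inf.mp hxc).2 k hk).symm)

theorem tc_L2comp (h : TC Q L z u a a') : IsComponent (L.map (MulAut.conj u).toMonoidHom) :=
  Cfsg.Agent.Helper10.comp_conj h.hL u

theorem tc_comm12 [Finite G] (h : TC Q L z u a a') :
    ∀ x ∈ L, ∀ y ∈ L.map (MulAut.conj u).toMonoidHom, x * y = y * x :=
  x9_comm h.hL (tc_L2comp h) (Ne.symm h.hne)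

theorem tc_L2C [Finite G] (h : TC Q L z u a a') :
    L.map (MulAut.conj u).toMonoidHom ≤ layer G ⊓ Subgroup.centralizer (L : Set G) := by
  intro y hy
  refine Subgroup.mem_inf.mpr ⟨Cfsg.Agent.Helper10.comp_le_layer (tc_L2comp h) hy, ?_⟩
  rw [Subgroup.mem_centralizer_iff]
  intro l hl
  exact tc_comm12 h l hl y hy

theorem tc_conj_mem (_h : TC Q L z u a a') {l : G} (hl : l ∈ L) :
    u * l * u⁻¹ ∈ L.map (MulAut.conj u).toMonoidHom :=
  ⟨l, hl, rfl⟩

theorem tc_zlayer (h : TC Q L z u a a') : z ∈ layer G := by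
  rw [h.hz]
  exact (layer G).mul_mem (Cfsg.Agent.Helper10.comp_le_layer h.hL h.haL)
    (Subgroup.mem_inf.mp h.ha').1

theorem tc_usq [Finite G] (h : TC Q L z u a a') :
    ∀ l ∈ L, (u * u) * l * (u * u)⁻¹ ∈ L ∧ (u * u)⁻¹ * l * (u * u) ∈ L := by
  have hmem : u * u ∈ layer G := by
    rcases h.F.2.2 u h.huQ with e | e
    · rw [e]; exact (layer G).one_mem
    · rw [e]; exact tc_zlayer h
  intro l hl
  have hn := layer_nzr L h.hL
  refine ⟨of_nzr _ _ hn _ hmem l hl, ?_⟩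
  have h1 := of_nzr _ _ hn _ ((layer G).inv_mem hmem) l hl
  rw [inv_inv] at h1
  exact h1

theorem tc_back [Finite G] (h : TC Q L z u a a') {y : G}
    (hy : y ∈ L.map (MulAut.conj u).toMonoidHom) : u * y * u⁻¹ ∈ L := by
  obtain ⟨l, hl, rfl⟩ := hy
  have h1 := (tc_usq h l hl).1
  have e : u * ((MulAut.conj u).toMonoidHom l) * u⁻¹ = (u * u) * l * (u * u)⁻¹ := by
    show u * (u * l * u⁻¹) * u⁻¹ = _
    group
  rw [e]; exact h1

theorem tc_fwd' [Finite G] (h : TC Q L z u a a') {l : G} (hl : l ∈ L) :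
    u⁻¹ * l * u ∈ L.map (MulAut.conj u).toMonoidHom := by
  rw [mem_map_conj]
  have h1 := (tc_usq h l hl).2
  have e : u⁻¹ * (u⁻¹ * l * u) * u = (u * u)⁻¹ * l * (u * u) := by group
  rw [e]; exact h1

theorem tc_a_ne [Finite G] (h : TC Q L z u a a') : a ≠ 1 := by
  intro ha
  apply comp_not_cz Q z h.F h.hQ2 L h.hL
  intro l hl
  rw [h.hz, ha, one_mul]
  exact tc_LC h l hl a' h.ha'

theorem tc_a_sq [Finite G] (h : TC Q L z u a a') : a * a = 1 ∧ a' * a' = 1 := by
  have hz2 : z * z = 1 := h.F.1.2.1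
  have e : (a * a) * (a' * a') = 1 * 1 := by
    have hc := tc_LC h a h.haL a' h.ha'
    calc (a * a) * (a' * a') = a * (a * a') * a' := by group
      _ = a * (a' * a) * a' := by rw [hc]
      _ = (a * a') * (a * a') := by group
      _ = 1 * 1 := by rw [← h.hz, hz2, one_mul]
  exact dp_unique L _ (tc_triv h) (L.mul_mem h.haL h.haL) L.one_mem
    (Subgroup.mul_mem _ h.ha' h.ha') (Subgroup.one_mem _) e

theorem tc_cz_iff (h : TC Q L z u a a') {l : G} (hl : l ∈ L) :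
    l * z = z * l ↔ l * a = a * l := by
  have hc := tc_LC h l hl a' h.ha'
  rw [h.hz]
  constructor
  · intro e
    have e2 : (l * a) * a' = (a * l) * a' := by
      calc (l * a) * a' = l * (a * a') := by group
        _ = a * a' * l := e
        _ = a * (a' * l) := by group
        _ = a * (l * a') := by rw [hc]
        _ = (a * l) * a' := by group
    exact mul_right_cancel e2
  · intro e
    calc l * (a * a') = (l * a) * a' := by group
      _ = (a * l) * a' := by rw [e]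
      _ = a * (l * a') := by group
      _ = a * (a' * l) := by rw [hc]
      _ = a * a' * l := by group

theorem tc_sq [Finite G] (h : TC Q L z u a a') {c : G} (hc : c ∈ L) (hca : c * a = a * c) :
    (c⁻¹ * (u * c * u⁻¹) ∈ Q) ∧ (c * c = 1 ∨ c * c = a) := by
  obtain ⟨⟨hzQ, hz2, hz1, hzc, cen, comm, hC⟩, hnorm, sq⟩ := h.F
  have hcz : c * z = z * c := (tc_cz_iff h hc).mpr hca
  have hcz' : c⁻¹ * z = z * c⁻¹ := by
    calc c⁻¹ * z = c⁻¹ * (z * c) * c⁻¹ := by group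
      _ = c⁻¹ * (c * z) * c⁻¹ := by rw [hcz]
      _ = z * c⁻¹ := by group
  have hd : c⁻¹ * (u * c * u⁻¹) ∈ Q := by
    have h1 := hnorm c⁻¹ hcz' u h.huQ
    have h2 := Q.mul_mem h1 (Q.inv_mem h.huQ)
    have e : c⁻¹ * u * c⁻¹⁻¹ * u⁻¹ = c⁻¹ * (u * c * u⁻¹) := by group
    rw [e] at h2; exact h2
  refine ⟨hd, ?_⟩
  have hcu : u * c * u⁻¹ ∈ L.map (MulAut.conj u).toMonoidHom := tc_conj_mem h hc
  have hcc := tc_comm12 h c⁻¹ (L.inv_mem hc) _ hcu
  have e : (c⁻¹ * (u * c * u⁻¹)) * (c⁻¹ * (u * c * u⁻¹)) =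
      (c⁻¹ * c⁻¹) * (u * (c * c) * u⁻¹) := by
    calc (c⁻¹ * (u * c * u⁻¹)) * (c⁻¹ * (u * c * u⁻¹))
        = c⁻¹ * ((u * c * u⁻¹) * c⁻¹) * (u * c * u⁻¹) := by group
      _ = c⁻¹ * (c⁻¹ * (u * c * u⁻¹)) * (u * c * u⁻¹) := by rw [hcc]
      _ = (c⁻¹ * c⁻¹) * (u * (c * c) * u⁻¹) := by group
  have hmemL : c⁻¹ * c⁻¹ ∈ L := L.mul_mem (L.inv_mem hc) (L.inv_mem hc)
  have hmemC : u * (c * c) * u⁻¹ ∈ layer G ⊓ Subgroup.centralizer (L : Set G) :=
    tc_L2C h (tc_conj_mem h (L.mul_mem hc hc))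
  rcases sq _ hd with h1 | h1
  · rw [e] at h1
    have h2 := (dp_unique L _ (tc_triv h) hmemL L.one_mem hmemC (Subgroup.one_mem _)
      (h1.trans (one_mul 1).symm)).1
    left
    calc c * c = (c⁻¹ * c⁻¹)⁻¹ := by rw [mul_inv_rev, inv_inv]
      _ = 1 := by rw [h2, inv_one]
  · rw [e, h.hz] at h1
    have h2 := (dp_unique L _ (tc_triv h) hmemL h.haL hmemC h.ha' h1).1
    right
    have ha2 := (tc_a_sq h).1
    calc c * c = (c⁻¹ * c⁻¹)⁻¹ := by rw [mul_inv_rev, inv_inv]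
      _ = a⁻¹ := by rw [h2]
      _ = a := inv_eq_of_mul_eq_one_left ha2

theorem tc_sylow [Finite G] (h : TC Q L z u a a') :
    ∃ R : Sylow 2 ↥L,
      (R : Subgroup ↥L) = (Subgroup.centralizer ({a} : Set G)).subgroupOf L := by
  haveI : Fact (Nat.Prime 2) := ⟨Nat.prime_two⟩
  obtain ⟨⟨hzQ, hz2, hz1, hzc, cen, comm, hC⟩, hnorm, sq⟩ := h.F
  obtain ⟨S, hS⟩ := h.hQ2.exists_le_sylow
  have hSz : ∀ s ∈ (S : Subgroup G), s * z = z * s := by
    have hSne : (S : Subgroup G) ≠ ⊥ := by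
      intro hb
      apply hz1
      have h1 := hS hzQ
      rw [hb] at h1
      exact Subgroup.mem_bot.mp h1
    have hzT := z_mem_inv Q z h.F h.hQ2 h.hlarge _
      (ctr_ne_bot (S : Subgroup G) S.isPGroup' hSne)
      (fun q hq t ht => by
        have h1 : q * t * q⁻¹ = t := by
          have h2 := Subgroup.mem_centralizer_iff.mp (Subgroup.mem_inf.mp ht).2 q (hS hq)
          rw [h2]; group
        rw [h1]; exact ht)
    intro s hs
    exact Subgroup.mem_centralizer_iff.mp (Subgroup.mem_inf.mp hzT).2 s hs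
  obtain ⟨R0, hR0⟩ := Cfsg.Agent.S0542.result 2 L h.hL.1 S
  have hle : (R0 : Subgroup ↥L) ≤ (Subgroup.centralizer ({a} : Set G)).subgroupOf L := by
    rw [hR0]
    intro x hx
    rw [Subgroup.mem_subgroupOf] at hx ⊢
    rw [mem_cs]
    exact ((tc_cz_iff h x.2).mp (hSz _ hx)).symm
  have hp : IsPGroup 2 ((Subgroup.centralizer ({a} : Set G)).subgroupOf L) := by
    intro g
    refine ⟨2, ?_⟩
    have hg : ((g : ↥L) : G) ∈ Subgroup.centralizer ({a} : Set G) :=
      Subgroup.mem_subgroupOf.mp g.2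
    have hga : ((g : ↥L) : G) * a = a * ((g : ↥L) : G) := (mem_cs.mp hg).symm
    have ha2 := (tc_a_sq h).1
    apply Subtype.ext
    apply Subtype.ext
    show ((g : ↥L) : G) ^ (2 ^ 2) = 1
    have e : ((g : ↥L) : G) ^ (2 ^ 2) =
        (((g : ↥L) : G) * ((g : ↥L) : G)) * (((g : ↥L) : G) * ((g : ↥L) : G)) := by
      rw [show (2 : ℕ) ^ 2 = 2 + 2 from rfl, pow_add, pow_two]
    rw [e]
    rcases (tc_sq h (g : ↥L).2 hga).2 with h1 | h1
    · rw [h1, one_mul]
    · rw [h1, ha2]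
  exact ⟨R0, (R0.is_maximal' hp hle).symm⟩

theorem tc_frat [Finite G] (h : TC Q L z u a a') (R : Sylow 2 ↥L)
    (hR : (R : Subgroup ↥L) = (Subgroup.centralizer ({a} : Set G)).subgroupOf L) :
    (frattini ↥(R : Subgroup ↥L)).map ((L.subtype).comp (R : Subgroup ↥L).subtype) ≤
      Subgroup.zpowers a := by
  rw [Subgroup.map_le_iff_le_comap]
  have hmem : ∀ x : ↥(R : Subgroup ↥L), (((x : ↥L) : G)) * a = a * (((x : ↥L) : G)) := by
    intro x
    have h1 : (x : ↥L) ∈ (Subgroup.centralizer ({a} : Set G)).subgroupOf L := by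
      rw [← hR]; exact x.2
    exact (mem_cs.mp (Subgroup.mem_subgroupOf.mp h1)).symm
  haveI hN : ((Subgroup.zpowers a).comap
      ((L.subtype).comp (R : Subgroup ↥L).subtype)).Normal := by
    constructor
    intro n hn g
    rw [Subgroup.mem_comap] at hn ⊢
    have e : ((L.subtype).comp (R : Subgroup ↥L).subtype) (g * n * g⁻¹) =
        ((L.subtype).comp (R : Subgroup ↥L).subtype) n := by
      obtain ⟨k, hk⟩ := Subgroup.mem_zpowers_iff.mp hn
      show ((g : ↥L) : G) * ((n : ↥L) : G) * ((g : ↥L) : G)⁻¹ = ((n : ↥L) : G)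
      have hk' : ((n : ↥L) : G) = a ^ k := hk.symm
      rw [hk']
      have hc : ((g : ↥L) : G) * a ^ k = a ^ k * ((g : ↥L) : G) :=
        (Commute.zpow_right (show Commute ((g : ↥L) : G) a from hmem g) k).eq
      rw [hc]; group
    rw [e]; exact hn
  apply Cfsg.Agent.Helper22.frattini_le_of_sq_mem
  intro x
  rw [Subgroup.mem_comap]
  show ((x : ↥L) : G) ^ 2 ∈ Subgroup.zpowers a
  rcases (tc_sq h (x : ↥L).2 (hmem x)).2 with h1 | h1
  · rw [pow_two, h1]; exact Subgroup.one_mem _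
  · rw [pow_two, h1]; exact Subgroup.mem_zpowers a

end Cfsg.Agent.Lead.XS
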