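import Mathlib
import Cfsg.Agent.Lead.XS10

/-!
# Large extraspecial 2-subgroups: the structure theorem (lead)
-/

set_option autoImplicit false
set_option linter.style.haveILetI false

namespace Cfsg.Agent.Lead.XS

open Cfsg

variable {G : Type*} [Group G]

variable {Q L : Subgroup G} {z u a a' : G}

theorem tc_no_third [Finite G] (h : TC Q L z u a a') (K3 : Subgroup G) (hK3 : IsComponent K3)
    (h3L : K3 ≠ L) (h3L2 : K3 ≠ L.map (MulAut.conj u).toMonoidHom) :
    ∀ c ∈ L, c * a = a * c → c = 1 ∨ c = a := by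
  intro c hc hca
  by_contra hcon
  push Not at hcon
  obtain ⟨hc1, hca'⟩ := hcon
  obtain ⟨⟨hzQ, hz2, hz1, hzc, cen, comm, hC⟩, hnorm, sq⟩ := h.F
  obtain ⟨d, hd⟩ : ∃ d : G, d = c⁻¹ * (u * c * u⁻¹) := ⟨_, rfl⟩
  have hdQ : d ∈ Q := by rw [hd]; exact (tc_sq h hc hca).1
  have hcu : u * c * u⁻¹ ∈ L.map (MulAut.conj u).toMonoidHom := tc_conj_mem h hc
  have hcuC := tc_L2C h hcu
  have ha2 := (tc_a_sq h).1
  have hd1 : d ≠ 1 := by
    intro e
    rw [hd] at e
    have h1 := (dp_unique L _ (tc_triv h) (L.inv_mem hc) L.one_mem hcuC (Subgroup.one_mem _)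
      (e.trans (one_mul 1).symm)).1
    exact hc1 (inv_eq_one.mp h1)
  have hdz : d ≠ z := by
    intro e
    rw [hd, h.hz] at e
    have h1 := (dp_unique L _ (tc_triv h) (L.inv_mem hc) h.haL hcuC h.ha' e).1
    apply hca'
    calc c = (c⁻¹)⁻¹ := by rw [inv_inv]
      _ = a⁻¹ := by rw [h1]
      _ = a := inv_eq_of_mul_eq_one_left ha2
  obtain ⟨q, hq, hqd⟩ := exists_q Q z d hdQ hdz hd1 cen comm
  have e1 : z * d = q * d * q⁻¹ := by
    calc z * d = (z * d * q) * q⁻¹ := by group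
      _ = (q * d) * q⁻¹ := by rw [hqd]
  have key : ∀ K : Subgroup G, IsComponent K → (¬ ∀ k ∈ K, k * (z * d) = (z * d) * k) →
      K.map (MulAut.conj q⁻¹).toMonoidHom = L ∨
        K.map (MulAut.conj q⁻¹).toMonoidHom = L.map (MulAut.conj u).toMonoidHom := by
    intro K hK hnc
    by_contra hcon2
    push Not at hcon2
    apply hnc
    intro k hk
    have hK' := Cfsg.Agent.Helper10.comp_conj hK q⁻¹
    have hk' : q⁻¹ * k * q⁻¹⁻¹ ∈ K.map (MulAut.conj q⁻¹).toMonoidHom := ⟨k, hk, rfl⟩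
    have c1 := x9_comm hK' h.hL hcon2.1 _ hk' c⁻¹ (L.inv_mem hc)
    have c2 := x9_comm hK' (tc_L2comp h) hcon2.2 _ hk' _ hcu
    have c3 : (q⁻¹ * k * q⁻¹⁻¹) * d = d * (q⁻¹ * k * q⁻¹⁻¹) := by
      rw [hd]
      calc (q⁻¹ * k * q⁻¹⁻¹) * (c⁻¹ * (u * c * u⁻¹))
          = ((q⁻¹ * k * q⁻¹⁻¹) * c⁻¹) * (u * c * u⁻¹) := by group
        _ = (c⁻¹ * (q⁻¹ * k * q⁻¹⁻¹)) * (u * c * u⁻¹) := by rw [c1]
        _ = c⁻¹ * ((q⁻¹ * k * q⁻¹⁻¹) * (u * c * u⁻¹)) := by group
        _ = c⁻¹ * ((u * c * u⁻¹) * (q⁻¹ * k * q⁻¹⁻¹)) := by rw [c2]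
        _ = (c⁻¹ * (u * c * u⁻¹)) * (q⁻¹ * k * q⁻¹⁻¹) := by group
    rw [e1]
    calc k * (q * d * q⁻¹) = q * ((q⁻¹ * k * q⁻¹⁻¹) * d) * q⁻¹ := by group
      _ = q * (d * (q⁻¹ * k * q⁻¹⁻¹)) * q⁻¹ := by rw [c3]
      _ = (q * d * q⁻¹) * k := by group
  have n3 : ¬ ∀ k ∈ K3, k * (z * d) = (z * d) * k := by
    intro hall
    apply comp_not_cz Q z h.F h.hQ2 K3 hK3
    intro k hk
    have c1 := x9_comm hK3 h.hL h3L k hk c⁻¹ (L.inv_mem hc)
    have c2 := x9_comm hK3 (tc_L2comp h) h3L2 k hk _ hcu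
    have c3 : k * d = d * k := by
      rw [hd]
      calc k * (c⁻¹ * (u * c * u⁻¹)) = (k * c⁻¹) * (u * c * u⁻¹) := by group
        _ = (c⁻¹ * k) * (u * c * u⁻¹) := by rw [c1]
        _ = c⁻¹ * (k * (u * c * u⁻¹)) := by group
        _ = c⁻¹ * ((u * c * u⁻¹) * k) := by rw [c2]
        _ = (c⁻¹ * (u * c * u⁻¹)) * k := by group
    have c4 := hall k hk
    calc k * z = (k * (z * d)) * d⁻¹ := by group
      _ = ((z * d) * k) * d⁻¹ := by rw [c4]
      _ = z * (d * k) * d⁻¹ := by group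
      _ = z * (k * d) * d⁻¹ := by rw [c3]
      _ = z * k := by group
  have nL : ¬ ∀ k ∈ L, k * (z * d) = (z * d) * k := by
    intro hall
    have hw : a' * (u * c * u⁻¹) ∈ layer G ⊓ Subgroup.centralizer (L : Set G) :=
      Subgroup.mul_mem _ h.ha' hcuC
    have e : z * d = (a * c⁻¹) * (a' * (u * c * u⁻¹)) := by
      have hc' := tc_LC h c⁻¹ (L.inv_mem hc) a' h.ha'
      rw [hd, h.hz]
      calc a * a' * (c⁻¹ * (u * c * u⁻¹)) = a * (a' * c⁻¹) * (u * c * u⁻¹) := by group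
        _ = a * (c⁻¹ * a') * (u * c * u⁻¹) := by rw [hc']
        _ = (a * c⁻¹) * (a' * (u * c * u⁻¹)) := by group
    have h1 : a * c⁻¹ = 1 := by
      apply zk_bot h.hF L h.hL _ (L.mul_mem h.haL (L.inv_mem hc))
      intro k hk
      have c4 := hall k hk
      rw [e] at c4
      have c5 := tc_LC h k hk _ hw
      have c6 : (k * (a * c⁻¹)) * (a' * (u * c * u⁻¹)) =
          ((a * c⁻¹) * k) * (a' * (u * c * u⁻¹)) := by
        calc (k * (a * c⁻¹)) * (a' * (u * c * u⁻¹))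
            = k * ((a * c⁻¹) * (a' * (u * c * u⁻¹))) := by group
          _ = ((a * c⁻¹) * (a' * (u * c * u⁻¹))) * k := c4
          _ = (a * c⁻¹) * ((a' * (u * c * u⁻¹)) * k) := by group
          _ = (a * c⁻¹) * (k * (a' * (u * c * u⁻¹))) := by rw [c5]
          _ = ((a * c⁻¹) * k) * (a' * (u * c * u⁻¹)) := by group
      exact (mul_right_cancel c6).symm
    apply hca'
    calc c = (a * c⁻¹)⁻¹ * a := by group
      _ = a := by rw [h1, inv_one, one_mul]
  have nL2 : ¬ ∀ k ∈ L.map (MulAut.conj u).toMonoidHom, k * (z * d) = (z * d) * k := by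
    intro hall
    have hv : u⁻¹ * c⁻¹ * u ∈ layer G ⊓ Subgroup.centralizer (L : Set G) :=
      tc_L2C h (tc_fwd' h (L.inv_mem hc))
    have hw : a' * (u⁻¹ * c⁻¹ * u) ∈ layer G ⊓ Subgroup.centralizer (L : Set G) :=
      Subgroup.mul_mem _ h.ha' hv
    have hzu : z * u = u * z := hzc u h.huQ
    have e : u⁻¹ * (z * d) * u = (a * c) * (a' * (u⁻¹ * c⁻¹ * u)) := by
      have hc' := tc_LC h c hc _ hw
      have e0 : u⁻¹ * (z * d) * u = z * ((u⁻¹ * c⁻¹ * u) * c) := by
        rw [hd]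
        calc u⁻¹ * (z * (c⁻¹ * (u * c * u⁻¹))) * u
            = u⁻¹ * (z * u) * (u⁻¹ * c⁻¹ * u * c) := by group
          _ = u⁻¹ * (u * z) * (u⁻¹ * c⁻¹ * u * c) := by rw [hzu]
          _ = z * ((u⁻¹ * c⁻¹ * u) * c) := by group
      rw [e0, h.hz]
      calc a * a' * ((u⁻¹ * c⁻¹ * u) * c) = a * ((a' * (u⁻¹ * c⁻¹ * u)) * c) := by group
        _ = a * (c * (a' * (u⁻¹ * c⁻¹ * u))) := by rw [hc']
        _ = (a * c) * (a' * (u⁻¹ * c⁻¹ * u)) := by group
    have h1 : a * c = 1 := by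
      apply zk_bot h.hF L h.hL _ (L.mul_mem h.haL hc)
      intro k hk
      have c4 := hall (u * k * u⁻¹) (tc_conj_mem h hk)
      have c4' : k * (u⁻¹ * (z * d) * u) = (u⁻¹ * (z * d) * u) * k := by
        calc k * (u⁻¹ * (z * d) * u) = u⁻¹ * ((u * k * u⁻¹) * (z * d)) * u := by group
          _ = u⁻¹ * ((z * d) * (u * k * u⁻¹)) * u := by rw [c4]
          _ = (u⁻¹ * (z * d) * u) * k := by group
      rw [e] at c4'
      have c5 := tc_LC h k hk _ hw
      have c6 : (k * (a * c)) * (a' * (u⁻¹ * c⁻¹ * u)) =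
          ((a * c) * k) * (a' * (u⁻¹ * c⁻¹ * u)) := by
        calc (k * (a * c)) * (a' * (u⁻¹ * c⁻¹ * u))
            = k * ((a * c) * (a' * (u⁻¹ * c⁻¹ * u))) := by group
          _ = ((a * c) * (a' * (u⁻¹ * c⁻¹ * u))) * k := c4'
          _ = (a * c) * ((a' * (u⁻¹ * c⁻¹ * u)) * k) := by group
          _ = (a * c) * (k * (a' * (u⁻¹ * c⁻¹ * u))) := by rw [c5]
          _ = ((a * c) * k) * (a' * (u⁻¹ * c⁻¹ * u)) := by group
      exact (mul_right_cancel c6).symm
    apply hca'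
    calc c = a⁻¹ * (a * c) := by group
      _ = a⁻¹ := by rw [h1, mul_one]
      _ = a := inv_eq_of_mul_eq_one_left ha2
  have kL := key L h.hL nL
  have kL2 := key _ (tc_L2comp h) nL2
  have k3 := key K3 hK3 n3
  have inj : Function.Injective
      (Subgroup.map (MulAut.conj q⁻¹).toMonoidHom : Subgroup G → Subgroup G) :=
    Subgroup.map_injective (MulAut.conj q⁻¹).injective
  rcases kL with e1 | e1 <;> rcases kL2 with e2 | e2 <;> rcases k3 with e3 | e3 <;>
    first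
    | exact h.hne (inj (e2.trans e1.symm))
    | exact h3L (inj (e3.trans e1.symm))
    | exact h3L2 (inj (e3.trans e2.symm))

theorem tc_two [Finite G] (h : TC Q L z u a a') :
    ∀ K : Subgroup G, IsComponent K → K = L ∨ K = L.map (MulAut.conj u).toMonoidHom := by
  intro K hK
  by_contra hcon
  push Not at hcon
  obtain ⟨R, hR⟩ := tc_sylow h
  exact no_small L h.hL.2.1 a h.haL (tc_a_ne h) (tc_a_sq h).1 R hR
    (tc_no_third h K hK hcon.1 hcon.2)

theorem tc_layer [Finite G] (h : TC Q L z u a a') :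
    layer G = L ⊔ L.map (MulAut.conj u).toMonoidHom := by
  apply le_antisymm
  · apply sSup_le
    intro K hK
    rcases tc_two h K hK with e | e
    · rw [e]; exact le_sup_left
    · rw [e]; exact le_sup_right
  · exact sup_le (Cfsg.Agent.Helper10.comp_le_layer h.hL)
      (Cfsg.Agent.Helper10.comp_le_layer (tc_L2comp h))

theorem tc_a' [Finite G] (h : TC Q L z u a a') : a' = u * a * u⁻¹ := by
  have ha'L2 : a' ∈ L.map (MulAut.conj u).toMonoidHom := by
    have h1 : a' ∈ L ⊔ L.map (MulAut.conj u).toMonoidHom := by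
      rw [← tc_layer h]; exact (Subgroup.mem_inf.mp h.ha').1
    obtain ⟨l, hl, l2, hl2, e⟩ := Cfsg.Agent.Helper10.mem_sup_of_comm (tc_comm12 h) h1
    have hlC : l ∈ layer G ⊓ Subgroup.centralizer (L : Set G) := by
      have e2 : l = a' * l2⁻¹ := by rw [e]; group
      rw [e2]
      exact Subgroup.mul_mem _ h.ha' (Subgroup.inv_mem _ (tc_L2C h hl2))
    have h3 := tc_triv h l hl hlC
    rw [e, h3, one_mul]; exact hl2
  obtain ⟨⟨hzQ, hz2, hz1, hzc, cen, comm, hC⟩, hnorm, sq⟩ := h.F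
  have hzu : z * u = u * z := hzc u h.huQ
  have h1 : u * a' * u⁻¹ ∈ L := tc_back h ha'L2
  have h2 : u * a * u⁻¹ ∈ layer G ⊓ Subgroup.centralizer (L : Set G) :=
    tc_L2C h (tc_conj_mem h h.haL)
  have e : a * a' = (u * a' * u⁻¹) * (u * a * u⁻¹) := by
    have hc := tc_LC h a h.haL a' h.ha'
    have e3 : a * a' = u * (a * a') * u⁻¹ := by
      calc a * a' = z := h.hz.symm
        _ = (z * u) * u⁻¹ := by group
        _ = (u * z) * u⁻¹ := by rw [hzu]
        _ = u * (a * a') * u⁻¹ := by rw [← h.hz]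
    calc a * a' = u * (a * a') * u⁻¹ := e3
      _ = u * (a' * a) * u⁻¹ := by rw [hc]
      _ = (u * a' * u⁻¹) * (u * a * u⁻¹) := by group
  exact (dp_unique L _ (tc_triv h) h.haL h1 h.ha' h2 e).2

theorem tc_QQ [Finite G] (h : TC Q L z u a a') : Q ≠ QQ z := by
  intro hQQ
  obtain ⟨⟨hzQ, hz2, hz1, hzc, cen, comm, hC⟩, hnorm, sq⟩ := h.F
  have ha' := tc_a' h
  have hlay := tc_layer h
  have ha2 := (tc_a_sq h).1
  have hN : layer G ⊓ Subgroup.centralizer ({z} : Set G) ≤ QQ z := by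
    apply le_QQ z _ inf_le_right
    · intro g
      refine ⟨2, ?_⟩
      apply Subtype.ext
      show (g : G) ^ (2 ^ 2) = 1
      have hg := Subgroup.mem_inf.mp g.2
      have hgE : (g : G) ∈ L ⊔ L.map (MulAut.conj u).toMonoidHom := by
        rw [← hlay]; exact hg.1
      obtain ⟨l, hl, l2, hl2, e⟩ := Cfsg.Agent.Helper10.mem_sup_of_comm (tc_comm12 h) hgE
      have hgz : z * (g : G) = (g : G) * z := mem_cs.mp hg.2
      have ha'L2 : a' ∈ L.map (MulAut.conj u).toMonoidHom := by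
        rw [ha']; exact tc_conj_mem h h.haL
      have c1 := tc_comm12 h a h.haL l2 hl2
      have c2 := tc_comm12 h l hl a' ha'L2
      have e2 : (l * a) * (l2 * a') = (a * l) * (a' * l2) := by
        calc (l * a) * (l2 * a') = l * (a * l2) * a' := by group
          _ = l * (l2 * a) * a' := by rw [c1]
          _ = (l * l2) * (a * a') := by group
          _ = (g : G) * z := by rw [← e, ← h.hz]
          _ = z * (g : G) := hgz.symm
          _ = (a * a') * (l * l2) := by rw [← e, ← h.hz]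
          _ = a * (a' * l) * l2 := by group
          _ = a * (l * a') * l2 := by rw [c2]
          _ = (a * l) * (a' * l2) := by group
      obtain ⟨e3, e4⟩ := dp_unique L _ (tc_triv h) (L.mul_mem hl h.haL) (L.mul_mem h.haL hl)
        (tc_L2C h (Subgroup.mul_mem _ hl2 ha'L2)) (tc_L2C h (Subgroup.mul_mem _ ha'L2 hl2)) e2
      have hl4 : (l * l) * (l * l) = 1 := by
        rcases (tc_sq h hl e3).2 with h1 | h1
        · rw [h1, one_mul]
        · rw [h1, ha2]
      have hm : u⁻¹ * l2 * u ∈ L := (mem_map_conj L u l2).mp hl2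
      have hma : (u⁻¹ * l2 * u) * a = a * (u⁻¹ * l2 * u) := by
        calc (u⁻¹ * l2 * u) * a = u⁻¹ * (l2 * (u * a * u⁻¹)) * u := by group
          _ = u⁻¹ * (l2 * a') * u := by rw [← ha']
          _ = u⁻¹ * (a' * l2) * u := by rw [e4]
          _ = u⁻¹ * ((u * a * u⁻¹) * l2) * u := by rw [← ha']
          _ = a * (u⁻¹ * l2 * u) := by group
      have hm4 : (l2 * l2) * (l2 * l2) = 1 := by
        have h5 : ((u⁻¹ * l2 * u) * (u⁻¹ * l2 * u)) * ((u⁻¹ * l2 * u) * (u⁻¹ * l2 * u)) = 1 := by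
          rcases (tc_sq h hm hma).2 with h1 | h1
          · rw [h1, one_mul]
          · rw [h1, ha2]
        calc (l2 * l2) * (l2 * l2)
            = u * (((u⁻¹ * l2 * u) * (u⁻¹ * l2 * u)) * ((u⁻¹ * l2 * u) * (u⁻¹ * l2 * u))) * u⁻¹ := by
              group
          _ = 1 := by rw [h5]; group
      have hcom : Commute l l2 := tc_comm12 h l hl l2 hl2
      rw [e, hcom.mul_pow, show (2 : ℕ) ^ 2 = 2 + 2 from rfl, pow_add, pow_add, pow_two, pow_two,
        hl4, hm4, one_mul]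
    · intro c hc y hy
      have hy' := Subgroup.mem_inf.mp hy
      refine Subgroup.mem_inf.mpr ⟨(Cfsg.Agent.Helper10.layer_normal G).conj_mem y hy'.1 c, ?_⟩
      exact Subgroup.mul_mem _ (Subgroup.mul_mem _ hc hy'.2) (Subgroup.inv_mem _ hc)
  have ha'1 : a' ≠ 1 := by
    intro e
    apply tc_a_ne h
    rw [ha'] at e
    calc a = u⁻¹ * (u * a * u⁻¹) * u := by group
      _ = 1 := by rw [e]; group
  have ha'L : a' ∉ L := fun hmem => ha'1 (tc_triv h a' hmem h.ha')
  have hR : ∀ c ∈ L, c * a = a * c → c = 1 ∨ c = a := by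
    intro c hc hca
    by_contra hcon
    push Not at hcon
    obtain ⟨hc1, hca'⟩ := hcon
    have hcQ : c ∈ Q := by
      rw [hQQ]
      apply hN
      refine Subgroup.mem_inf.mpr ⟨Cfsg.Agent.Helper10.comp_le_layer h.hL hc, ?_⟩
      rw [mem_cs]
      exact ((tc_cz_iff h hc).mpr hca).symm
    have hcz : c ≠ z := by
      intro e
      apply ha'L
      have e2 : a' = a⁻¹ * c := by rw [e, h.hz]; group
      rw [e2]
      exact L.mul_mem (L.inv_mem h.haL) hc
    obtain ⟨q, hq, hqc⟩ := exists_q Q z c hcQ hcz hc1 cen comm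
    have hca'c := tc_LC h c hc a' h.ha'
    have e1 : q * c * q⁻¹ = (a * c) * a' := by
      calc q * c * q⁻¹ = (q * c) * q⁻¹ := by group
        _ = (z * c * q) * q⁻¹ := by rw [hqc]
        _ = z * c := by group
        _ = a * a' * c := by rw [← h.hz]
        _ = a * (a' * c) := by group
        _ = a * (c * a') := by rw [hca'c]
        _ = (a * c) * a' := by group
    have hmem : (a * c) * a' ∈ L.map (MulAut.conj q).toMonoidHom := by
      rw [← e1]; exact ⟨c, hc, rfl⟩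
    rcases tc_two h _ (Cfsg.Agent.Helper10.comp_conj h.hL q) with e2 | e2
    · rw [e2] at hmem
      apply ha'L
      have e3 : a' = (a * c)⁻¹ * ((a * c) * a') := by group
      rw [e3]
      exact L.mul_mem (L.inv_mem (L.mul_mem h.haL hc)) hmem
    · rw [e2] at hmem
      have h3 : a * c ∈ L.map (MulAut.conj u).toMonoidHom := by
        have e3 : a * c = ((a * c) * a') * a'⁻¹ := by group
        rw [e3]
        refine Subgroup.mul_mem _ hmem (Subgroup.inv_mem _ ?_)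
        rw [ha']; exact tc_conj_mem h h.haL
      have h4 := tc_triv h _ (L.mul_mem h.haL hc) (tc_L2C h h3)
      apply hca'
      calc c = a⁻¹ * (a * c) := by group
        _ = a⁻¹ := by rw [h4, mul_one]
        _ = a := inv_eq_of_mul_eq_one_left ha2
  obtain ⟨R, hRs⟩ := tc_sylow h
  exact no_small L h.hL.2.1 a h.haL (tc_a_ne h) ha2 R hRs hR

end Cfsg.Agent.Lead.XS
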