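import Mathlib
import Cfsg.Agent.Lead.XS11
import Cfsg.Agent.Lead.XS5

/-!
# Large extraspecial 2-subgroups: the structure theorem, assembled (lead)
-/

set_option autoImplicit false
set_option linter.style.haveILetI false

namespace Cfsg.Agent.Lead.XS

open Cfsg

variable {G : Type*} [Group G]

variable {Q L : Subgroup G} {z u a a' : G}

theorem tc_concl [Finite G] (h : TC Q L z u a a') (M : Subgroup G) (hM : M = layer G) :
    ∃ (L' : Subgroup G) (u' : G), u' ∈ Q ∧ IsSimpleGroup ↥L' ∧ ¬ IsMulCommutative ↥L' ∧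
      L' ⊓ (L').map (MulAut.conj u').toMonoidHom = ⊥ ∧
      (∀ x ∈ L', ∀ y ∈ (L').map (MulAut.conj u').toMonoidHom, x * y = y * x) ∧
      L' ⊔ (L').map (MulAut.conj u').toMonoidHom = M ∧
      ∃ z₁ ∈ L', z = z₁ * (u' * z₁ * u'⁻¹) ∧
        (∃ R : Sylow 2 ↥L',
          (R : Subgroup ↥L') = (Subgroup.centralizer ({z₁} : Set G)).subgroupOf L' ∧
          (frattini ↥(R : Subgroup ↥L')).map ((L'.subtype).comp (R : Subgroup ↥L').subtype) ≤
            Subgroup.zpowers z₁) ∧
        Q ≠ (Cfsg.pCore 2 ↥(Subgroup.centralizer ({z} : Set G))).map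
          (Subgroup.centralizer ({z} : Set G)).subtype := by
  obtain ⟨hs, hnc⟩ := comp_simple h.hF L h.hL
  obtain ⟨R, hR⟩ := tc_sylow h
  refine ⟨L, u, h.huQ, hs, hnc, ?_, tc_comm12 h, ?_, a, h.haL, ?_, ⟨R, hR, tc_frat h R hR⟩,
    tc_QQ h⟩
  · rw [eq_bot_iff]
    intro x hx
    rw [Subgroup.mem_bot]
    have hx' := Subgroup.mem_inf.mp hx
    exact tc_triv h x hx'.1 (tc_L2C h hx'.2)
  · rw [hM, tc_layer h]
  · rw [← tc_a' h]
    exact h.hz

/-- the structure theorem for large extraspecial 2-subgroups. -/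
theorem ls_main [Finite G] (Q : Subgroup G) (hQ : Cfsg.IsLargeExtraspecial Q) (z : G)
    (hz : ((Subgroup.center ↥Q).map Q.subtype) = Subgroup.zpowers z) (M : Subgroup G)
    (hM : M = Subgroup.normalClosure ({z} : Set G)) :
    Q.Normal ∨ (IsMulCommutative ↥M ∧ Cfsg.generalizedFittingSubgroup G = Cfsg.pCore 2 G) ∨
    (M = Cfsg.generalizedFittingSubgroup G ∧ IsSimpleGroup ↥M ∧ ¬ IsMulCommutative ↥M) ∨
    (M = Cfsg.generalizedFittingSubgroup G ∧
      ∃ (L : Subgroup G) (u : G), u ∈ Q ∧ IsSimpleGroup ↥L ∧ ¬ IsMulCommutative ↥L ∧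
      L ⊓ (L).map (MulAut.conj u).toMonoidHom = ⊥ ∧
      (∀ x ∈ L, ∀ y ∈ (L).map (MulAut.conj u).toMonoidHom, x * y = y * x) ∧
      L ⊔ (L).map (MulAut.conj u).toMonoidHom = M ∧
      ∃ z₁ ∈ L, z = z₁ * (u * z₁ * u⁻¹) ∧
        (∃ R : Sylow 2 ↥L,
          (R : Subgroup ↥L) = (Subgroup.centralizer ({z₁} : Set G)).subgroupOf L ∧
          (frattini ↥(R : Subgroup ↥L)).map ((L.subtype).comp (R : Subgroup ↥L).subtype) ≤
            Subgroup.zpowers z₁) ∧
        Q ≠ (Cfsg.pCore 2 ↥(Subgroup.centralizer ({z} : Set G))).map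
          (Subgroup.centralizer ({z} : Set G)).subtype) := by
  classical
  obtain ⟨hE, hL2, hL3, hlarge⟩ := hQ
  have hz1 : z ≠ 1 := by
    intro h
    obtain ⟨z0, hz0Q, hz01, -, hz0c, -⟩ := exists_z Q hE
    have h1 : z0 ∈ (Subgroup.center ↥Q).map Q.subtype := by
      refine ⟨⟨z0, hz0Q⟩, ?_, rfl⟩
      rw [SetLike.mem_coe, Subgroup.mem_center_iff]
      intro y
      apply Subtype.ext
      exact (hz0c y y.2).symm
    rw [hz, h, Subgroup.zpowers_one_eq_bot, Subgroup.mem_bot] at h1
    exact hz01 h1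
  have hzZ : z ∈ (Subgroup.center ↥Q).map Q.subtype := by
    rw [hz]; exact Subgroup.mem_zpowers z
  have F := facts2_of Q hE hL2 hL3 z hzZ hz1
  have hQ2 : IsPGroup 2 Q := hE.1.1
  haveI : Fact (Nat.Prime 2) := ⟨Nat.prime_two⟩
  have hfit : fittingSubgroup G = pCore 2 G := by
    apply Cfsg.Agent.Helper24.h24_fitting_eq_pCore 2
    rw [eq_bot_iff]
    apply sSup_le
    rintro N ⟨hN, hcop⟩
    have h1 := hlarge N (Nat.Coprime.odd_of_right hcop)
      (le_nzr Q N (fun q _ t ht => hN.conj_mem t ht q))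
    rw [h1]
  by_cases hP : pCore 2 G = ⊥
  swap
  · right; left
    rw [hM]
    exact caseA Q z F hQ2 hlarge hfit hP
  have hF : fittingSubgroup G = ⊥ := by rw [hfit, hP]
  have hgf : generalizedFittingSubgroup G = layer G := by
    show layer G ⊔ fittingSubgroup G = layer G
    rw [hF, sup_bot_eq]
  have hEne : layer G ≠ ⊥ := by
    intro hb
    apply hz1
    have h1 := Cfsg.Agent.Helper10.centralizer_gfitting_le G
    rw [hgf, hb] at h1
    have h2 : z ∈ Subgroup.centralizer (((⊥ : Subgroup G)) : Set G) := by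
      rw [Subgroup.mem_centralizer_iff]
      intro x hx
      have hx1 : x = 1 := Subgroup.mem_bot.mp hx
      rw [hx1, one_mul, mul_one]
    exact Subgroup.mem_bot.mp (h1 h2)
  have hEn := Cfsg.Agent.Helper10.layer_normal G
  have hzE : z ∈ layer G :=
    z_mem_inv Q z F hQ2 hlarge _ hEne (fun q _ t ht => hEn.conj_mem t ht q)
  have hME : M = layer G := by
    rw [hM]
    apply le_antisymm
    · haveI := hEn
      exact Subgroup.normalClosure_le_normal (Set.singleton_subset_iff.mpr hzE)
    · apply sSup_le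
      intro K hK
      rcases Cfsg.Agent.Helper10.comp_le_or_comm K _ hK
        (Subgroup.Normal.isSubnormal (Subgroup.normalClosure_normal (s := ({z} : Set G))))
        with h | h
      · exact h
      · exfalso
        apply comp_not_cz Q z F hQ2 K hK
        intro k hk
        exact (Cfsg.Agent.Helper10.comm_bot_iff _ _).mp h k hk z
          (Subgroup.subset_normalClosure (Set.mem_singleton z))
  obtain ⟨L, hL⟩ : ∃ L : Subgroup G, IsComponent L := by
    by_contra hcon
    push Not at hcon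
    apply hEne
    apply sSup_eq_bot.mpr
    intro K hK
    exact absurd hK (hcon K)
  by_cases hinv : ∀ q ∈ Q, ∀ l ∈ L, q * l * q⁻¹ ∈ L
  · right; right; left
    have hzL : z ∈ L :=
      z_mem_inv Q z F hQ2 hlarge L (Cfsg.Agent.Helper10.comp_ne_bot hL) hinv
    have hEL : layer G = L := by
      apply le_antisymm
      · apply sSup_le
        intro K hK
        by_cases hKL : K = L
        · rw [hKL]
        · exfalso
          apply comp_not_cz Q z F hQ2 K hK
          intro k hk
          exact x9_comm hK hL hKL k hk z hzL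
      · exact Cfsg.Agent.Helper10.comp_le_layer hL
    have hML : M = L := hME.trans hEL
    refine ⟨hME.trans hgf.symm, ?_⟩
    rw [hML]
    exact comp_simple hF L hL
  · right; right; right
    push Not at hinv
    obtain ⟨u, hu, l0, hl0, hl0'⟩ := hinv
    have hne : L.map (MulAut.conj u).toMonoidHom ≠ L := by
      intro e
      apply hl0'
      rw [← e]
      exact ⟨l0, hl0, rfl⟩
    have hsup : layer G ≤ L ⊔ (layer G ⊓ Subgroup.centralizer (L : Set G)) := by
      apply sSup_le
      intro K hK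
      by_cases hKL : K = L
      · rw [hKL]; exact le_sup_left
      · refine le_trans ?_ le_sup_right
        intro k hk
        refine Subgroup.mem_inf.mpr ⟨Cfsg.Agent.Helper10.comp_le_layer hK hk, ?_⟩
        rw [Subgroup.mem_centralizer_iff]
        intro l hl
        exact (x9_comm hK hL hKL k hk l hl).symm
    obtain ⟨a, haL, a', ha', hza⟩ := Cfsg.Agent.Helper10.mem_sup_of_comm
      (fun l hl c hc => Subgroup.mem_centralizer_iff.mp (Subgroup.mem_inf.mp hc).2 l hl)
      (hsup hzE)
    have T : TC Q L z u a a' := ⟨F, hQ2, hlarge, hF, hL, hu, hne, haL, ha', hza⟩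
    exact ⟨hME.trans hgf.symm, tc_concl T M hME⟩

end Cfsg.Agent.Lead.XS
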