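import Mathlib
import Cfsg.Agent.Lead.XS12

/-!
# Large extraspecial 2-subgroups: from `F*(C(z)) = Q` to simplicity (lead)
-/

set_option autoImplicit false
set_option linter.style.haveILetI false

namespace Cfsg.Agent.Lead.XS

open Cfsg

variable {G : Type*} [Group G]

theorem frat_map {A B : Type*} [Group A] [Group B] (e : A ≃* B) :
    (frattini A).map (e : A →* B) = frattini B :=
  (MulEquiv.mapSubgroup e).map_radical

theorem xs_of_equiv {A B : Type*} [Group A] [Group B] (e : A ≃* B)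
    (h : IsExtraspecial 2 A) : IsExtraspecial 2 B := by
  obtain ⟨⟨h1, h2, h3⟩, h4⟩ := h
  have hc := Cfsg.Agent.Helper10.map_equiv_center e
  refine ⟨⟨h1.of_equiv e, ?_, ?_⟩, ?_⟩
  · rw [← frat_map e, h2, hc]
  · rw [← hc, ← h3, commutator_def, commutator_def, Subgroup.map_commutator]
    have ht : (⊤ : Subgroup A).map (e : A →* B) = ⊤ :=
      Subgroup.map_top_of_surjective _ e.surjective
    rw [ht]
  · rw [← hc, Subgroup.card_map_of_injective e.injective]
    exact h4

theorem cl_normal (S : Set G) (hS : ∀ s ∈ S, ∀ g : G, g * s * g⁻¹ ∈ S) :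
    (Subgroup.closure S).Normal := by
  constructor
  intro n hn g
  induction hn using Subgroup.closure_induction with
  | mem x hx => exact Subgroup.subset_closure (hS x hx g)
  | one => rw [mul_one, mul_inv_cancel]; exact Subgroup.one_mem _
  | mul x y _ _ hx hy =>
    have e : g * (x * y) * g⁻¹ = (g * x * g⁻¹) * (g * y * g⁻¹) := by group
    rw [e]; exact Subgroup.mul_mem _ hx hy
  | inv x _ hx =>
    have e : g * x⁻¹ * g⁻¹ = (g * x * g⁻¹)⁻¹ := by group
    rw [e]; exact Subgroup.inv_mem _ hx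

/-- the set-up `F*(C(z)) = Q` extraspecial. -/
theorem fs_setup [Finite G] (z : G) (hz : orderOf z = 2) (Q : Subgroup G)
    (hF : (generalizedFittingSubgroup ↥(Subgroup.centralizer ({z} : Set G))).map
      (Subgroup.centralizer ({z} : Set G)).subtype = Q)
    (hE : IsExtraspecial 2 ↥Q) :
    Facts2 Q z ∧ Subgroup.centralizer (Q : Set G) = (Subgroup.center ↥Q).map Q.subtype ∧
      Subgroup.centralizer (((Subgroup.center ↥Q).map Q.subtype : Subgroup G) : Set G) ≤
        Subgroup.normalizer (Q : Set G) ∧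
      (Subgroup.center ↥Q).map Q.subtype = Subgroup.zpowers z ∧ Q = QQ z := by
  haveI : Fact (Nat.Prime 2) := ⟨Nat.prime_two⟩
  have hz1 : z ≠ 1 := by
    intro h
    rw [h, orderOf_one] at hz
    omega
  have hmemQ : ∀ x : G, x ∈ Q ↔ ∃ hx : x ∈ Subgroup.centralizer ({z} : Set G),
      (⟨x, hx⟩ : ↥(Subgroup.centralizer ({z} : Set G))) ∈
        generalizedFittingSubgroup ↥(Subgroup.centralizer ({z} : Set G)) := by
    intro x
    rw [← hF]
    constructor
    · rintro ⟨y, hy, rfl⟩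
      exact ⟨y.2, hy⟩
    · rintro ⟨hx, h⟩
      exact ⟨⟨x, hx⟩, h, rfl⟩
  have hQH : ∀ y ∈ Q, z * y = y * z := fun y hy => mem_cs.mp ((hmemQ y).mp hy).1
  have hzH : z ∈ Subgroup.centralizer ({z} : Set G) := mem_cs.mpr rfl
  have hzQ : z ∈ Q := by
    refine (hmemQ z).mpr ⟨hzH, ?_⟩
    apply Cfsg.Agent.Helper10.centralizer_gfitting_le
    rw [Subgroup.mem_centralizer_iff]
    intro y _
    apply Subtype.ext
    exact (mem_cs.mp y.2).symm
  have hC : ∀ h : G, (∀ y ∈ Q, h * y = y * h) → h ∈ Q := by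
    intro h hh
    have hhH : h ∈ Subgroup.centralizer ({z} : Set G) := mem_cs.mpr (hh z hzQ).symm
    refine (hmemQ h).mpr ⟨hhH, ?_⟩
    apply Cfsg.Agent.Helper10.centralizer_gfitting_le
    rw [Subgroup.mem_centralizer_iff]
    intro y hy
    apply Subtype.ext
    exact (hh (y : G) ((hmemQ _).mpr ⟨y.2, hy⟩)).symm
  have hnorm : ∀ h : G, h * z = z * h → ∀ y ∈ Q, h * y * h⁻¹ ∈ Q := by
    intro h hh y hy
    have hhH : h ∈ Subgroup.centralizer ({z} : Set G) := mem_cs.mpr hh.symm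
    obtain ⟨hyH, hy'⟩ := (hmemQ y).mp hy
    have h1 := (Cfsg.Agent.Helper10.gfitting_normal
      ↥(Subgroup.centralizer ({z} : Set G))).conj_mem _ hy' ⟨h, hhH⟩
    exact (hmemQ _).mpr ⟨Subgroup.mul_mem _ (Subgroup.mul_mem _ hhH hyH)
      (Subgroup.inv_mem _ hhH), h1⟩
  have hzZ : z ∈ (Subgroup.center ↥Q).map Q.subtype := by
    refine ⟨⟨z, hzQ⟩, ?_, rfl⟩
    rw [SetLike.mem_coe, Subgroup.mem_center_iff]
    intro y
    apply Subtype.ext
    exact (hQH y y.2).symm
  have hL2 : Subgroup.centralizer (Q : Set G) = (Subgroup.center ↥Q).map Q.subtype := by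
    ext h
    constructor
    · intro hh
      rw [Subgroup.mem_centralizer_iff] at hh
      have hhQ : h ∈ Q := hC h (fun y hy => (hh y hy).symm)
      refine ⟨⟨h, hhQ⟩, ?_, rfl⟩
      rw [SetLike.mem_coe, Subgroup.mem_center_iff]
      intro y
      apply Subtype.ext
      exact hh y y.2
    · rintro ⟨c, hc, rfl⟩
      rw [Subgroup.mem_centralizer_iff]
      intro y hy
      have h1 := Subgroup.mem_center_iff.mp hc ⟨y, hy⟩
      exact congrArg Subtype.val h1
  have hL3 : Subgroup.centralizer (((Subgroup.center ↥Q).map Q.subtype : Subgroup G) : Set G) ≤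
      Subgroup.normalizer (Q : Set G) := by
    apply le_nzr
    intro h hh y hy
    exact hnorm h (Subgroup.mem_centralizer_iff.mp hh z hzZ).symm y hy
  have F := facts2_of Q hE hL2 hL3 z hzZ hz1
  refine ⟨F, hL2, hL3, ?_, ?_⟩
  · apply le_antisymm
    · rintro _ ⟨c, hc, rfl⟩
      have h1 : ∀ y ∈ Q, (c : G) * y = y * (c : G) := by
        intro y hy
        have h2 := Subgroup.mem_center_iff.mp hc ⟨y, hy⟩
        exact (congrArg Subtype.val h2).symm
      show (c : G) ∈ Subgroup.zpowers z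
      rcases F.1.2.2.2.2.1 (c : G) c.2 h1 with h3 | h3
      · rw [h3]; exact Subgroup.one_mem _
      · rw [h3]; exact Subgroup.mem_zpowers z
    · exact (Subgroup.zpowers_le).mpr hzZ
  · apply le_antisymm
    · exact le_QQ z Q (fun y hy => mem_cs.mpr (hQH y hy)) hE.1.1
        (fun c hc y hy => hnorm c (mem_cs.mp hc).symm y hy)
    · rintro _ ⟨y, hy, rfl⟩
      refine (hmemQ _).mpr ⟨y.2, ?_⟩
      apply Cfsg.Agent.Helper10.fitting_le_gfitting
      have h1 : pCore 2 ↥(Subgroup.centralizer ({z} : Set G)) ≤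
          fittingSubgroup ↥(Subgroup.centralizer ({z} : Set G)) :=
        le_sSup ⟨Cfsg.Agent.Helper26.pCore_normal 2 _,
          (Cfsg.Agent.Helper26.isPGroup_pCore 2 _).isNilpotent⟩
      exact h1 hy

/-- `z` is central in every Sylow 2-subgroup containing `Q`. -/
theorem syl_cz [Finite G] (Q : Subgroup G) (z : G) (F : Facts2 Q z) (hQ2 : IsPGroup 2 Q)
    (hlarge : ∀ K : Subgroup G, Odd (Nat.card K) → Q ≤ Subgroup.normalizer (K : Set G) → K = ⊥)
    (S : Sylow 2 G) (hS : Q ≤ (S : Subgroup G)) : ∀ s ∈ (S : Subgroup G), s * z = z * s := by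
  have hSne : (S : Subgroup G) ≠ ⊥ := by
    intro hb
    apply F.1.2.2.1
    have h1 := hS F.1.1
    rw [hb] at h1
    exact Subgroup.mem_bot.mp h1
  have hzT := z_mem_inv Q z F hQ2 hlarge _
    (ctr_ne_bot (S : Subgroup G) S.isPGroup' hSne)
    (fun q hq t ht => by
      have h1 : q * t * q⁻¹ = t := by
        have h2 := Subgroup.mem_centralizer_iff.mp (Subgroup.mem_inf.mp ht).2 q (hS hq)
        rw [h2]; group
      rw [h1]; exact ht)
  intro s hs
  exact Subgroup.mem_centralizer_iff.mp (Subgroup.mem_inf.mp hzT).2 s hs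

/-- if the normal closure `M` of `z` is simple and contains `C(z)`, then `G` is simple. -/
theorem fin_simple [Finite G] (Q : Subgroup G) (z : G) (F : Facts2 Q z) (hQ2 : IsPGroup 2 Q)
    (hlarge : ∀ K : Subgroup G, Odd (Nat.card K) → Q ≤ Subgroup.normalizer (K : Set G) → K = ⊥)
    (M : Subgroup G) (hMn : M.Normal) (hMs : IsSimpleGroup ↥M)
    (hHM : ∀ h : G, h * z = z * h → h ∈ M) : IsSimpleGroup G := by
  haveI : Fact (Nat.Prime 2) := ⟨Nat.prime_two⟩
  obtain ⟨⟨hzQ, hz2, hz1, hzc, cen, comm, hC⟩, hnorm, sq⟩ := F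
  have F' : Facts2 Q z := ⟨⟨hzQ, hz2, hz1, hzc, cen, comm, hC⟩, hnorm, sq⟩
  obtain ⟨S, hS⟩ := hQ2.exists_le_sylow
  have hSz := syl_cz Q z F' hQ2 hlarge S hS
  have hSM : (S : Subgroup G) ≤ M := fun s hs => hHM s (hSz s hs)
  haveI := hMn
  have hfr := Sylow.normalizer_sup_eq_top' S hSM
  have hNM : Subgroup.normalizer ((S : Subgroup G) : Set G) ≤ M := by
    intro n hn
    apply hHM
    have hn' := of_nzr _ _ (le_refl (Subgroup.normalizer ((S : Subgroup G) : Set G)))
    have h1 : n * z * n⁻¹ ∈ (S : Subgroup G) := hn' n hn z (hS hzQ)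
    have h2 : ∀ y ∈ Q, (n * z * n⁻¹) * y = y * (n * z * n⁻¹) := by
      intro y hy
      have h3 : n⁻¹ * y * n⁻¹⁻¹ ∈ (S : Subgroup G) :=
        hn' n⁻¹ (Subgroup.inv_mem _ hn) y (hS hy)
      have h4 := hSz _ h3
      calc (n * z * n⁻¹) * y = n * (z * (n⁻¹ * y * n⁻¹⁻¹)) * n⁻¹ := by group
        _ = n * ((n⁻¹ * y * n⁻¹⁻¹) * z) * n⁻¹ := by rw [h4]
        _ = y * (n * z * n⁻¹) := by group
    rcases cen _ (hC _ h2) h2 with h5 | h5
    · exfalso
      apply hz1
      calc z = n⁻¹ * (n * z * n⁻¹) * n := by group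
        _ = 1 := by rw [h5]; group
    · calc n * z = (n * z * n⁻¹) * n := by group
        _ = z * n := by rw [h5]
  have hMtop : M = ⊤ := by
    rw [← hfr]
    exact (sup_eq_right.mpr hNM).symm
  subst hMtop
  exact (Subgroup.topEquiv (G := G)).isSimpleGroup_congr.mp hMs

/-- if `Q` is normal then `z` is central. -/
theorem z_central_of_normal (Q : Subgroup G) (z : G) (F : Facts2 Q z) (hQn : Q.Normal) (g : G) :
    g * z * g⁻¹ = z := by
  obtain ⟨⟨hzQ, hz2, hz1, hzc, cen, comm, hC⟩, hnorm, sq⟩ := F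
  have h1 : g * z * g⁻¹ ∈ Q := hQn.conj_mem z hzQ g
  have h2 : ∀ y ∈ Q, (g * z * g⁻¹) * y = y * (g * z * g⁻¹) := by
    intro y hy
    have h3 : g⁻¹ * y * g⁻¹⁻¹ ∈ Q := hQn.conj_mem y hy g⁻¹
    have h4 := hzc _ h3
    calc (g * z * g⁻¹) * y = g * (z * (g⁻¹ * y * g⁻¹⁻¹)) * g⁻¹ := by group
      _ = g * ((g⁻¹ * y * g⁻¹⁻¹) * z) * g⁻¹ := by rw [h4]
      _ = y * (g * z * g⁻¹) := by group
  rcases cen _ h1 h2 with h5 | h5
  · exfalso
    apply hz1
    calc z = g⁻¹ * (g * z * g⁻¹) * g := by group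
      _ = 1 := by rw [h5]; group
  · exact h5

end Cfsg.Agent.Lead.XS
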