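import Mathlib
import Cfsg.Agent.Lead.XS13

/-!
# Large extraspecial 2-subgroups: simplicity criteria (lead)
-/

set_option autoImplicit false
set_option linter.style.haveILetI false

namespace Cfsg.Agent.Lead.XS

open Cfsg

variable {G : Type*} [Group G]

theorem odd_pow_triv [Finite G] (Y : Subgroup G) (hY : Odd (Nat.card Y)) (y : G) (hy : y ∈ Y)
    (k : ℕ) (h : y ^ (2 ^ k) = 1) : y = 1 := by
  have h1 : orderOf y ∣ Nat.card Y := by
    have h2 := orderOf_dvd_natCard (⟨y, hy⟩ : ↥Y)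
    rw [Subgroup.orderOf_mk] at h2
    exact h2
  have h2 : orderOf y ∣ 2 ^ k := orderOf_dvd_of_pow_eq_one h
  have hcop : Nat.Coprime (Nat.card Y) (2 ^ k) := Nat.Coprime.pow_right k hY.coprime_two_right
  have h3 : orderOf y = 1 := (Nat.Coprime.coprime_dvd_left h1 hcop).eq_one_of_dvd h2
  exact orderOf_eq_one_iff.mp h3

theorem odd_two_triv [Finite G] (Y : Subgroup G) (hY : Odd (Nat.card Y)) (T : Subgroup G)
    (hT : IsPGroup 2 T) (y : G) (hy : y ∈ Y) (hyT : y ∈ T) : y = 1 := by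
  obtain ⟨k, hk⟩ := hT ⟨y, hyT⟩
  exact odd_pow_triv Y hY y hy k (congrArg Subtype.val hk)

theorem zp_cases (z : G) (hz2 : z * z = 1) : ∀ x ∈ Subgroup.zpowers z, x = 1 ∨ x = z := by
  intro x hx
  obtain ⟨k, rfl⟩ := Subgroup.mem_zpowers_iff.mp hx
  have h2 : z ^ (2 : ℤ) = 1 := by rw [zpow_two]; exact hz2
  rcases Int.even_or_odd' k with ⟨m, hm | hm⟩
  · left
    rw [hm, zpow_mul, h2, one_zpow]
  · right
    rw [hm, zpow_add_one, zpow_mul, h2, one_zpow, one_mul]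

/-- largeness from a non-central involution `u` of `Q` with `z ∈ O_2(C(u))`. -/
theorem large_of_u [Finite G] (Q : Subgroup G) (z : G) (F : Facts2 Q z) (hQ2 : IsPGroup 2 Q)
    (u : G) (huQ : u ∈ Q) (hu2 : u * u = 1) (hu1 : u ≠ 1) (huz : u ≠ z) (hzO : z ∈ QQ u)
    (Y : Subgroup G) (hY : Odd (Nat.card Y)) (hQY : Q ≤ Subgroup.normalizer (Y : Set G)) :
    Y = ⊥ := by
  obtain ⟨⟨hzQ, hz2, hz1, hzc, cen, comm, hC⟩, hnorm, sq⟩ := F
  have hYinv := of_nzr Q Y hQY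
  have hzi : z⁻¹ = z := inv_eq_of_mul_eq_one_left hz2
  have step1 : ∀ y ∈ Y, y * z = z * y → y = 1 := by
    intro y hy hyz
    have hyQ : ∀ q ∈ Q, y * q = q * y := by
      intro q hq
      have h1 : y * (q * y⁻¹ * q⁻¹) ∈ Y := Y.mul_mem hy (hYinv q hq _ (Y.inv_mem hy))
      have h2 : y * (q * y⁻¹ * q⁻¹) ∈ Q := by
        have h3 := Q.mul_mem (hnorm y hyz q hq) (Q.inv_mem hq)
        have e : y * q * y⁻¹ * q⁻¹ = y * (q * y⁻¹ * q⁻¹) := by group
        rw [e] at h3; exact h3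
      have h4 := odd_two_triv Y hY Q hQ2 _ h1 h2
      calc y * q = (y * (q * y⁻¹ * q⁻¹)) * (q * y) := by group
        _ = q * y := by rw [h4, one_mul]
    exact odd_two_triv Y hY Q hQ2 y hy (hC y hyQ)
  have zinv := inverts_of_fpf Y z hz2 (hYinv z hzQ) step1
  have step3 : ∀ y ∈ Y, y * u = u * y → y = 1 := by
    intro y hy hyu
    apply step1 y hy
    have hyc : y ∈ Subgroup.centralizer ({u} : Set G) := mem_cs.mpr hyu.symm
    have h1 : y * (z * y⁻¹ * z⁻¹) ∈ Y := Y.mul_mem hy (hYinv z hzQ _ (Y.inv_mem hy))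
    have h2 : y * (z * y⁻¹ * z⁻¹) ∈ QQ u := by
      have h3 := (QQ u).mul_mem (QQ_conj_mem u hyc hzO) ((QQ u).inv_mem hzO)
      have e : y * z * y⁻¹ * z⁻¹ = y * (z * y⁻¹ * z⁻¹) := by group
      rw [e] at h3; exact h3
    have h4 := odd_two_triv Y hY (QQ u) (QQ_pgroup u) _ h1 h2
    calc y * z = (y * (z * y⁻¹ * z⁻¹)) * (z * y) := by group
      _ = z * y := by rw [h4, one_mul]
  have uinv := inverts_of_fpf Y u hu2 (hYinv u huQ) step3
  obtain ⟨q, hq, hqu⟩ := exists_q Q z u huQ huz hu1 cen comm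
  rw [Subgroup.eq_bot_iff_forall]
  intro y hy
  have hy' : q⁻¹ * y * q⁻¹⁻¹ ∈ Y := hYinv q⁻¹ (Q.inv_mem hq) y hy
  have h1 := uinv _ hy'
  have h2 : (z * u) * y * (z * u)⁻¹ = y⁻¹ := by
    have e1 : z * u = q * u * q⁻¹ := by
      calc z * u = (z * u * q) * q⁻¹ := by group
        _ = (q * u) * q⁻¹ := by rw [hqu]
    rw [e1]
    calc (q * u * q⁻¹) * y * (q * u * q⁻¹)⁻¹
        = q * (u * (q⁻¹ * y * q⁻¹⁻¹) * u⁻¹) * q⁻¹ := by group
      _ = q * (q⁻¹ * y * q⁻¹⁻¹)⁻¹ * q⁻¹ := by rw [h1]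
      _ = y⁻¹ := by group
  have h3 : (z * u) * y * (z * u)⁻¹ = y := by
    have h4 := uinv y hy
    have h5 := zinv y⁻¹ (Y.inv_mem hy)
    calc (z * u) * y * (z * u)⁻¹ = z * (u * y * u⁻¹) * z⁻¹ := by group
      _ = z * y⁻¹ * z⁻¹ := by rw [h4]
      _ = y⁻¹⁻¹ := h5
      _ = y := inv_inv y
  have h6 : y ^ (2 ^ 1) = 1 := by
    have h7 : y = y⁻¹ := h3.symm.trans h2
    rw [pow_one, pow_two]
    calc y * y = y * y⁻¹ := by rw [← h7]
      _ = 1 := mul_inv_cancel y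
  exact odd_pow_triv Y hY y hy 1 h6

theorem card_contra [Finite G] (z : G) (hz : orderOf z = 2) (Q : Subgroup G) (w : ℕ)
    (hw : 2 ≤ w) (hcard : Nat.card ↥Q = 2 ^ (2 * w + 1)) (h : ∀ x ∈ Q, x = 1 ∨ x = z) :
    False := by
  have hle : Q ≤ Subgroup.zpowers z := by
    intro x hx
    rcases h x hx with e | e
    · rw [e]; exact Subgroup.one_mem _
    · rw [e]; exact Subgroup.mem_zpowers z
  have h1 := Subgroup.card_le_of_le hle
  rw [Nat.card_zpowers, hz, hcard] at h1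
  have h2 : 2 ^ 5 ≤ 2 ^ (2 * w + 1) := Nat.pow_le_pow_right (by norm_num) (by omega)
  omega

theorem s5427_main [Finite G] (z : G) (hz : orderOf z = 2) (Q : Subgroup G)
    (hF : (Cfsg.generalizedFittingSubgroup ↥(Subgroup.centralizer ({z} : Set G))).map
      (Subgroup.centralizer ({z} : Set G)).subtype = Q)
    (hQ : Cfsg.IsExtraspecial 2 ↥Q) (w : ℕ) (hw : 2 ≤ w) (hcard : Nat.card ↥Q = 2 ^ (2 * w + 1))
    (K U : Subgroup G) (hU : U = Subgroup.closure {x : G | ∃ k ∈ K, x = k * z * k⁻¹})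
    (hUab : IsMulCommutative ↥U)
    (hgen : Subgroup.closure {x : G | ∃ c ∈ Subgroup.centralizer ({z} : Set G), ∃ u ∈ U,
      x = c * u * c⁻¹} = Subgroup.centralizer ({z} : Set G))
    (h3 : (∃ k ∈ K, k * z * k⁻¹ ∈ Q ∧ k * z * k⁻¹ ≠ z) ∨ ∃ u ∈ U ⊓ Q, u ∉ Subgroup.zpowers z ∧
      (∃ hz' : z ∈ Subgroup.centralizer ({u} : Set G),
        (⟨z, hz'⟩ : ↥(Subgroup.centralizer ({u} : Set G))) ∈
          Cfsg.pCore 2 ↥(Subgroup.centralizer ({u} : Set G)))) :
    IsSimpleGroup G ∧ Cfsg.IsLargeExtraspecial Q := by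
  classical
  haveI : Fact (Nat.Prime 2) := ⟨Nat.prime_two⟩
  obtain ⟨F, hL2, hL3, hzp, hQQ⟩ := fs_setup z hz Q hF hQ
  have F0 := F
  obtain ⟨⟨hzQ, hz2, hz1, hzc, cen, comm, hC⟩, hnorm, sq⟩ := F
  have hQ2 : IsPGroup 2 Q := hQ.1.1
  have hQC : Q ≤ Subgroup.centralizer ({z} : Set G) := fun y hy => mem_cs.mpr (hzc y hy)
  have hUsq : ∀ x ∈ U, x * x = 1 := by
    subst hU
    intro x hx
    induction hx using Subgroup.closure_induction with
    | mem x hx =>
      obtain ⟨k, _, rfl⟩ := hx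
      calc k * z * k⁻¹ * (k * z * k⁻¹) = k * (z * z) * k⁻¹ := by group
        _ = 1 := by rw [hz2]; group
    | one => exact one_mul 1
    | mul x y hx hy ihx ihy =>
      have hc : x * y = y * x := congrArg Subtype.val (hUab.is_comm.comm ⟨x, hx⟩ ⟨y, hy⟩)
      calc x * y * (x * y) = x * (y * x) * y := by group
        _ = x * (x * y) * y := by rw [hc]
        _ = (x * x) * (y * y) := by group
        _ = 1 := by rw [ihx, ihy, one_mul]
    | inv x hx ihx =>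
      calc x⁻¹ * x⁻¹ = (x * x)⁻¹ := by group
        _ = 1 := by rw [ihx, inv_one]
  have hlarge : ∀ Y : Subgroup G, Odd (Nat.card Y) → Q ≤ Subgroup.normalizer (Y : Set G) →
      Y = ⊥ := by
    rcases h3 with ⟨k, _, hkQ, hkz⟩ | ⟨u, hu, huz, hz', hzO⟩
    · intro Y hY hQY
      exact large_of Q hQ z hzQ hz1 hz2 hzc cen hC hnorm k hkQ hkz Y hY hQY
    · intro Y hY hQY
      have hu' := Subgroup.mem_inf.mp hu
      refine large_of_u Q z F0 hQ2 u hu'.2 (hUsq u hu'.1) ?_ ?_ ⟨⟨z, hz'⟩, hzO, rfl⟩ Y hY hQY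
      · intro e
        apply huz
        rw [e]; exact Subgroup.one_mem _
      · intro e
        apply huz
        rw [e]; exact Subgroup.mem_zpowers z
  have hLE : Cfsg.IsLargeExtraspecial Q := ⟨hQ, hL2, hL3, hlarge⟩
  refine ⟨?_, hLE⟩
  have hMn : (Subgroup.normalClosure ({z} : Set G)).Normal := Subgroup.normalClosure_normal
  have hzM : z ∈ Subgroup.normalClosure ({z} : Set G) :=
    Subgroup.subset_normalClosure (Set.mem_singleton z)
  have hUM : U ≤ Subgroup.normalClosure ({z} : Set G) := by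
    rw [hU, Subgroup.closure_le]
    rintro x ⟨k, _, rfl⟩
    exact hMn.conj_mem z hzM k
  have hCM : Subgroup.centralizer ({z} : Set G) ≤ Subgroup.normalClosure ({z} : Set G) := by
    rw [← hgen, Subgroup.closure_le]
    rintro x ⟨c, _, u, hu, rfl⟩
    exact hMn.conj_mem u (hUM hu) c
  rcases ls_main Q hLE z hzp _ rfl with hn | ⟨hab, -⟩ | ⟨-, hMs, -⟩ |
    ⟨-, L, u, -, -, -, -, -, -, z₁, -, -, -, hne⟩
  · exfalso
    have hcen := z_central_of_normal Q z F0 hn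
    have hUz : U ≤ Subgroup.zpowers z := by
      rw [hU, Subgroup.closure_le]
      rintro x ⟨k, _, rfl⟩
      rw [hcen k]
      exact Subgroup.mem_zpowers z
    have hCz : Subgroup.centralizer ({z} : Set G) ≤ Subgroup.zpowers z := by
      rw [← hgen, Subgroup.closure_le]
      rintro x ⟨c, _, u, hu, rfl⟩
      rcases zp_cases z hz2 u (hUz hu) with e | e
      · rw [e, mul_one, mul_inv_cancel]; exact Subgroup.one_mem _
      · rw [e, hcen c]; exact Subgroup.mem_zpowers z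
    exact card_contra z hz Q w hw hcard (fun x hx => zp_cases z hz2 x (hCz (hQC hx)))
  · exfalso
    apply card_contra z hz Q w hw hcard
    intro x hx
    apply cen x hx
    intro y hy
    exact congrArg Subtype.val
      (hab.is_comm.comm ⟨x, hCM (hQC hx)⟩ ⟨y, hCM (hQC hy)⟩)
  · exact fin_simple Q z F0 hQ2 hlarge _ hMn hMs (fun h hh => hCM (mem_cs.mpr hh.symm))
  · exact absurd hQQ hne

end Cfsg.Agent.Lead.XS
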