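import Mathlib
import Cfsg.Agent.Lead.XS14

/-!
# Large extraspecial 2-subgroups: simplicity from an irreducible simple quotient (lead)
-/

set_option autoImplicit false
set_option linter.style.haveILetI false

namespace Cfsg.Agent.Lead.XS

open Cfsg

variable {G : Type*} [Group G]

theorem s5436_main [Finite G] (z : G) (hz : orderOf z = 2)
    (Q : Subgroup (Subgroup.centralizer ({z} : Set G))) [Q.Normal]
    (hF : Cfsg.generalizedFittingSubgroup ↥(Subgroup.centralizer ({z} : Set G)) = Q)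
    (hQ : Cfsg.IsExtraspecial 2 ↥Q)
    (hnwc : ∃ g : G, (∃ hq : g * z * g⁻¹ ∈ Subgroup.centralizer ({z} : Set G),
      (⟨g * z * g⁻¹, hq⟩ : Subgroup.centralizer ({z} : Set G)) ∈ Q) ∧ g * z * g⁻¹ ≠ z)
    (hsimp : IsSimpleGroup (↥(Subgroup.centralizer ({z} : Set G)) ⧸ Q))
    (hirr : ∀ W : Subgroup (Subgroup.centralizer ({z} : Set G)), W.Normal → W ≤ Q →
      (W = Q ∨ ∀ x ∈ W, (x : G) ∈ Subgroup.zpowers z))
    (hwcl : Subgroup.closure {x : Subgroup.centralizer ({z} : Set G) | IsConj z (x : G)} ≠ Q) :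
    IsSimpleGroup G := by
  classical
  haveI : Fact (Nat.Prime 2) := ⟨Nat.prime_two⟩
  obtain ⟨Q', hQ'⟩ : ∃ Q' : Subgroup G,
      Q' = Q.map (Subgroup.centralizer ({z} : Set G)).subtype := ⟨_, rfl⟩
  have hF' : (generalizedFittingSubgroup ↥(Subgroup.centralizer ({z} : Set G))).map
      (Subgroup.centralizer ({z} : Set G)).subtype = Q' := by rw [hF, hQ']
  have hE' : IsExtraspecial 2 ↥Q' := by
    rw [hQ']
    exact xs_of_equiv (Q.equivMapOfInjective _ (Subgroup.subtype_injective _)) hQ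
  obtain ⟨F, hL2, hL3, hzp, hQQ⟩ := fs_setup z hz Q' hF' hE'
  have F0 := F
  obtain ⟨⟨hzQ, hz2, hz1, hzc, cen, comm, hC⟩, hnorm, sq⟩ := F
  have hQ2 : IsPGroup 2 Q' := hE'.1.1
  have hmem : ∀ x : ↥(Subgroup.centralizer ({z} : Set G)), x ∈ Q ↔ (x : G) ∈ Q' := by
    intro x
    rw [hQ']
    constructor
    · intro hx; exact ⟨x, hx, rfl⟩
    · rintro ⟨y, hy, hyx⟩
      have e : y = x := Subtype.ext hyx
      rw [← e]; exact hy
  obtain ⟨g, ⟨hq, hgQ⟩, hgz⟩ := hnwc
  have hgQ' : g * z * g⁻¹ ∈ Q' := (hmem _).mp hgQ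
  have hlarge : ∀ Y : Subgroup G, Odd (Nat.card Y) → Q' ≤ Subgroup.normalizer (Y : Set G) →
      Y = ⊥ :=
    fun Y hY hQY => large_of Q' hE' z hzQ hz1 hz2 hzc cen hC hnorm g hgQ' hgz Y hY hQY
  have hLE : IsLargeExtraspecial Q' := ⟨hE', hL2, hL3, hlarge⟩
  have hg1 : g * z * g⁻¹ ≠ 1 := by
    intro e
    apply hz1
    calc z = g⁻¹ * (g * z * g⁻¹) * g := by group
      _ = 1 := by rw [e]; group
  have hgzp : g * z * g⁻¹ ∉ Subgroup.zpowers z := by
    intro hm
    rcases zp_cases z hz2 _ hm with e | e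
    · exact hg1 e
    · exact hgz e
  have irr : ∀ N : Subgroup G, N.Normal → z ∈ N → Q' ≤ N := by
    intro N hN hzN
    have hWn : ((N.subgroupOf (Subgroup.centralizer ({z} : Set G))) ⊓ Q).Normal := by
      haveI : (N.subgroupOf (Subgroup.centralizer ({z} : Set G))).Normal := hN.subgroupOf _
      infer_instance
    rcases hirr _ hWn inf_le_right with h1 | h1
    · intro x hx
      rw [hQ'] at hx
      obtain ⟨y, hy, rfl⟩ := hx
      have hy' : y ∈ (N.subgroupOf (Subgroup.centralizer ({z} : Set G))) ⊓ Q := by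
        rw [h1]; exact hy
      exact Subgroup.mem_subgroupOf.mp (Subgroup.mem_inf.mp hy').1
    · exfalso
      apply hgzp
      exact h1 ⟨g * z * g⁻¹, hq⟩
        (Subgroup.mem_inf.mpr ⟨Subgroup.mem_subgroupOf.mpr (hN.conj_mem z hzN g), hgQ⟩)
  have hMn : (Subgroup.normalClosure ({z} : Set G)).Normal := Subgroup.normalClosure_normal
  have hzM : z ∈ Subgroup.normalClosure ({z} : Set G) :=
    Subgroup.subset_normalClosure (Set.mem_singleton z)
  have hQM := irr _ hMn hzM
  rcases ls_main Q' hLE z hzp _ rfl with hn | ⟨hab, -⟩ | ⟨-, hMs, -⟩ |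
    ⟨-, L, u, -, -, -, -, -, -, z₁, -, -, -, hne⟩
  · exact absurd (z_central_of_normal Q' z F0 hn g) hgz
  · exfalso
    have h1 : ∀ y ∈ Q', (g * z * g⁻¹) * y = y * (g * z * g⁻¹) := by
      intro y hy
      exact congrArg Subtype.val (hab.is_comm.comm ⟨_, hQM hgQ'⟩ ⟨y, hQM hy⟩)
    rcases cen _ hgQ' h1 with e | e
    · exact hg1 e
    · exact hgz e
  · haveI hN0n : ((Subgroup.normalClosure ({z} : Set G)).subgroupOf
        (Subgroup.centralizer ({z} : Set G))).Normal := hMn.subgroupOf _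
    have hQN0 : Q ≤ (Subgroup.normalClosure ({z} : Set G)).subgroupOf
        (Subgroup.centralizer ({z} : Set G)) :=
      fun x hx => Subgroup.mem_subgroupOf.mpr (hQM ((hmem x).mp hx))
    have himg : (((Subgroup.normalClosure ({z} : Set G)).subgroupOf
        (Subgroup.centralizer ({z} : Set G))).map (QuotientGroup.mk' Q)).Normal :=
      Subgroup.Normal.map hN0n _ (QuotientGroup.mk'_surjective Q)
    rcases himg.eq_bot_or_eq_top with hb | ht
    · exfalso
      rw [Subgroup.map_eq_bot_iff, QuotientGroup.ker_mk'] at hb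
      have hW1n : (Subgroup.closure {x : Subgroup.centralizer ({z} : Set G) |
          IsConj z (x : G)}).Normal := by
        apply cl_normal
        intro s hs c
        obtain ⟨d, hd⟩ := isConj_iff.mp hs
        refine isConj_iff.mpr ⟨(c : G) * d, ?_⟩
        show (c : G) * d * z * ((c : G) * d)⁻¹ = (c : G) * (s : G) * (c : G)⁻¹
        rw [← hd]; group
      have hW1le : Subgroup.closure {x : Subgroup.centralizer ({z} : Set G) |
          IsConj z (x : G)} ≤ Q := by
        rw [Subgroup.closure_le]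
        intro x hx
        obtain ⟨d, hd⟩ := isConj_iff.mp hx
        apply hb
        rw [Subgroup.mem_subgroupOf, ← hd]
        exact hMn.conj_mem z hzM d
      rcases hirr _ hW1n hW1le with h1 | h1
      · exact hwcl h1
      · apply hgzp
        exact h1 ⟨g * z * g⁻¹, hq⟩ (Subgroup.subset_closure (isConj_iff.mpr ⟨g, rfl⟩))
    · apply fin_simple Q' z F0 hQ2 hlarge _ hMn hMs
      intro h hh
      have hhH : h ∈ Subgroup.centralizer ({z} : Set G) := mem_cs.mpr hh.symm
      have h1 : (QuotientGroup.mk' Q) ⟨h, hhH⟩ ∈ ((Subgroup.normalClosure ({z} : Set G)).subgroupOf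
          (Subgroup.centralizer ({z} : Set G))).map (QuotientGroup.mk' Q) := by
        rw [ht]; exact Subgroup.mem_top _
      obtain ⟨n, hn, hnh⟩ := h1
      have h2 : n⁻¹ * ⟨h, hhH⟩ ∈ Q := QuotientGroup.eq.mp hnh
      have h3 : (⟨h, hhH⟩ : ↥(Subgroup.centralizer ({z} : Set G))) ∈
          (Subgroup.normalClosure ({z} : Set G)).subgroupOf
            (Subgroup.centralizer ({z} : Set G)) := by
        have e : (⟨h, hhH⟩ : ↥(Subgroup.centralizer ({z} : Set G))) = n * (n⁻¹ * ⟨h, hhH⟩) := by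
          group
        rw [e]
        exact Subgroup.mul_mem _ hn (hQN0 h2)
      exact Subgroup.mem_subgroupOf.mp h3
  · exact absurd hQQ hne

end Cfsg.Agent.Lead.XS
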