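import Mathlib
import Cfsg.Prelude.Def_MonsterType
import Cfsg.Agent.Lead.XS7
import Cfsg.Agent.Helper26.PCore

set_option autoImplicit false
set_option linter.style.haveILetI false

namespace Cfsg.Agent.Lead.XS

open Cfsg

variable {G : Type*} [Group G]

/-- A group generated by two involutions whose product has order dividing 3 has at most
six elements. -/
theorem dih6 {Γ : Type*} [Group Γ] (a b : Γ) (ha : a * a = 1) (hb : b * b = 1)
    (hab : a * b * (a * b) * (a * b) = 1) :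
    ∀ x ∈ Subgroup.closure ({a, b} : Set Γ),
      x = 1 ∨ x = a ∨ x = b ∨ x = a * b ∨ x = b * a ∨ x = a * b * a := by
  have hai : a⁻¹ = a := inv_eq_of_mul_eq_one_left ha
  have hbi : b⁻¹ = b := inv_eq_of_mul_eq_one_left hb
  have e0 : a * b * a * (b * a * b) = 1 := by
    rw [← hab]; group
  have e1 : b * a * b = a * b * a := by
    have h := eq_inv_of_mul_eq_one_right e0
    rw [h, mul_inv_rev, mul_inv_rev, hai, hbi, mul_assoc]
  have stepA : ∀ y, (y = 1 ∨ y = a ∨ y = b ∨ y = a * b ∨ y = b * a ∨ y = a * b * a) →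
      (a * y = 1 ∨ a * y = a ∨ a * y = b ∨ a * y = a * b ∨ a * y = b * a ∨
        a * y = a * b * a) := by
    rintro y (h | h | h | h | h | h) <;> rw [h]
    · right; left; rw [mul_one]
    · left; exact ha
    · right; right; right; left; rfl
    · right; right; left; rw [← mul_assoc, ha, one_mul]
    · right; right; right; right; right; rw [mul_assoc]
    · right; right; right; right; left
      calc a * (a * b * a) = (a * a) * b * a := by simp only [mul_assoc]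
        _ = b * a := by rw [ha, one_mul]
  have stepB : ∀ y, (y = 1 ∨ y = a ∨ y = b ∨ y = a * b ∨ y = b * a ∨ y = a * b * a) →
      (b * y = 1 ∨ b * y = a ∨ b * y = b ∨ b * y = a * b ∨ b * y = b * a ∨
        b * y = a * b * a) := by
    rintro y (h | h | h | h | h | h) <;> rw [h]
    · right; right; left; rw [mul_one]
    · right; right; right; right; left; rfl
    · left; exact hb
    · right; right; right; right; right; rw [← mul_assoc]; exact e1
    · right; left; rw [← mul_assoc, hb, one_mul]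
    · right; right; right; left
      calc b * (a * b * a) = (b * a * b) * a := by simp only [mul_assoc]
        _ = (a * b * a) * a := by rw [e1]
        _ = a * b * (a * a) := by simp only [mul_assoc]
        _ = a * b := by rw [ha, mul_one]
  intro x hx
  induction hx using Subgroup.closure_induction_left with
  | one => exact Or.inl rfl
  | mul_left s hs y _ ih =>
    rcases hs with h | h
    · rw [h]; exact stepA y ih
    · rw [show s = b from h]; exact stepB y ih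
  | inv_mul_cancel s hs y _ ih =>
    rcases hs with h | h
    · rw [h, hai]; exact stepA y ih
    · rw [show s = b from h, hbi]; exact stepB y ih

set_option maxRecDepth 20000 in
/-- `S₃` has no non-trivial normal 2-subgroup. -/
theorem s3_core (N : Subgroup (Equiv.Perm (Fin 3))) (hN : N.Normal) (hp : IsPGroup 2 N) :
    N = ⊥ := by
  have L1 : ∀ σ : Equiv.Perm (Fin 3), σ ^ 2 = 1 ∨ σ ^ 3 = 1 := by decide
  have L2 : ∀ σ : Equiv.Perm (Fin 3), σ ≠ 1 → σ ^ 2 = 1 →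
      ∃ τ : Equiv.Perm (Fin 3), (σ * (τ * σ * τ⁻¹)) ^ 3 = 1 ∧ σ * (τ * σ * τ⁻¹) ≠ 1 := by
    have L2' : ∀ σ : Equiv.Perm (Fin 3), σ ≠ 1 → σ ^ 2 = 1 →
        (σ * ((Equiv.swap 0 1 * Equiv.swap 1 2) * σ * (Equiv.swap 0 1 * Equiv.swap 1 2)⁻¹)) ^ 3
          = 1 ∧
        σ * ((Equiv.swap 0 1 * Equiv.swap 1 2) * σ * (Equiv.swap 0 1 * Equiv.swap 1 2)⁻¹) ≠ 1 := by
      decide
    exact fun σ h1 h2 => ⟨_, L2' σ h1 h2⟩
  have cube : ∀ ρ ∈ N, ρ ^ 3 = 1 → ρ = 1 := by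
    intro ρ hρ h3
    obtain ⟨k, hk⟩ := hp ⟨ρ, hρ⟩
    have hk' : ρ ^ (2 ^ k) = 1 := by
      have := congrArg Subtype.val hk
      simpa using this
    have h1 : orderOf ρ ∣ 2 ^ k := orderOf_dvd_of_pow_eq_one hk'
    have h2 : orderOf ρ ∣ 3 := orderOf_dvd_of_pow_eq_one h3
    have h3' : Nat.gcd (2 ^ k) 3 = 1 := Nat.Coprime.pow_left k (by norm_num)
    have h4 : orderOf ρ ∣ Nat.gcd (2 ^ k) 3 := Nat.dvd_gcd h1 h2
    rw [h3'] at h4
    exact orderOf_eq_one_iff.mp (Nat.dvd_one.mp h4)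
  rw [eq_bot_iff]
  intro σ hσ
  rw [Subgroup.mem_bot]
  by_contra hne
  rcases L1 σ with h | h
  · obtain ⟨τ, h3, hne'⟩ := L2 σ hne h
    exact hne' (cube _ (N.mul_mem hσ (hN.conj_mem σ hσ τ)) h3)
  · exact hne (cube σ hσ h)

/-- conjugates by `Q` of elements commuting with `z` and `u` still commute with `u` -/
theorem conj_comm (Q : Subgroup G) (z u : G) (F : Facts2 Q z) (huQ : u ∈ Q) :
    ∀ s ∈ Q, ∀ y : G, y * z = z * y → y * u = u * y →
      (s * y * s⁻¹) * u = u * (s * y * s⁻¹) := by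
  obtain ⟨⟨hzQ, hz2, hz1, hzc, cen, comm, hC⟩, hnorm, sq⟩ := F
  intro s hs y hyz hyu
  rcases comm s hs u huQ with h | h
  · have e : s * u * s⁻¹ = u := by
      calc s * u * s⁻¹ = (u * s) * s⁻¹ := by rw [h]
        _ = u := by group
    calc s * y * s⁻¹ * u = s * y * s⁻¹ * (s * u * s⁻¹) := by rw [e]
      _ = s * (y * u) * s⁻¹ := by group
      _ = s * (u * y) * s⁻¹ := by rw [hyu]
      _ = (s * u * s⁻¹) * (s * y * s⁻¹) := by group
      _ = u * (s * y * s⁻¹) := by rw [e]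
  · have e : s * (z * u) * s⁻¹ = u := by
      calc s * (z * u) * s⁻¹ = (s * z) * u * s⁻¹ := by group
        _ = (z * s) * u * s⁻¹ := by rw [hzc s hs]
        _ = z * (s * u) * s⁻¹ := by group
        _ = z * (z * u * s) * s⁻¹ := by rw [h]
        _ = (z * z) * u := by group
        _ = u := by rw [hz2, one_mul]
    have hy' : y * (z * u) = (z * u) * y := by
      calc y * (z * u) = (y * z) * u := by rw [mul_assoc]
        _ = (z * y) * u := by rw [hyz]
        _ = z * (y * u) := by rw [mul_assoc]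
        _ = z * (u * y) := by rw [hyu]
        _ = (z * u) * y := by rw [mul_assoc]
    calc s * y * s⁻¹ * u = s * y * s⁻¹ * (s * (z * u) * s⁻¹) := by rw [e]
      _ = s * (y * (z * u)) * s⁻¹ := by group
      _ = s * ((z * u) * y) * s⁻¹ := by rw [hy']
      _ = (s * (z * u) * s⁻¹) * (s * y * s⁻¹) := by group
      _ = u * (s * y * s⁻¹) := by rw [e]

theorem norm_half (Q : Subgroup G) (z u : G) (F : Facts2 Q z) (huQ : u ∈ Q) :
    (∀ s ∈ Q, ∀ a ∈ Q ⊓ Subgroup.centralizer ({u} : Set G),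
      s * a * s⁻¹ ∈ Q ⊓ Subgroup.centralizer ({u} : Set G)) ∧
    (∀ s ∈ Q, ∀ c : G, c * z = z * c → c * u = u * c →
      s * c * s⁻¹ * c⁻¹ ∈ Q ⊓ Subgroup.centralizer ({u} : Set G)) := by
  have cc := conj_comm Q z u F huQ
  obtain ⟨⟨hzQ, hz2, hz1, hzc, cen, comm, hC⟩, hnorm, sq⟩ := F
  constructor
  · intro s hs a ha
    obtain ⟨haQ, hau⟩ := Subgroup.mem_inf.mp ha
    rw [mem_cs] at hau
    refine Subgroup.mem_inf.mpr ⟨Q.mul_mem (Q.mul_mem hs haQ) (Q.inv_mem hs), ?_⟩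
    rw [mem_cs]
    exact (cc s hs a (hzc a haQ).symm hau.symm).symm
  · intro s hs c hcz hcu
    refine Subgroup.mem_inf.mpr ⟨?_, ?_⟩
    · have h1 := hnorm c hcz s⁻¹ (Q.inv_mem hs)
      have e1 : s * c * s⁻¹ * c⁻¹ = s * (c * s⁻¹ * c⁻¹) := by group
      rw [e1]
      exact Q.mul_mem hs h1
    · rw [mem_cs]
      have h1 := cc s hs c hcz hcu
      have h2 : c⁻¹ * u = u * c⁻¹ := by
        calc c⁻¹ * u = c⁻¹ * (u * c) * c⁻¹ := by group
          _ = c⁻¹ * (c * u) * c⁻¹ := by rw [hcu]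
          _ = u * c⁻¹ := by group
      calc u * (s * c * s⁻¹ * c⁻¹) = (u * (s * c * s⁻¹)) * c⁻¹ := by group
        _ = ((s * c * s⁻¹) * u) * c⁻¹ := by rw [h1]
        _ = (s * c * s⁻¹) * (u * c⁻¹) := by group
        _ = (s * c * s⁻¹) * (c⁻¹ * u) := by rw [h2]
        _ = s * c * s⁻¹ * c⁻¹ * u := by group

/-- the group `R` of the pair -/
def pairR (Q Q' : Subgroup G) (z u : G) : Subgroup G :=
  (Q' ⊓ Subgroup.centralizer ({z} : Set G)) ⊔ (Q ⊓ Subgroup.centralizer ({u} : Set G))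

theorem pair_dec (Q Q' : Subgroup G) (z u : G) (F : Facts2 Q z) (F' : Facts2 Q' u) :
    ∀ r ∈ pairR Q Q' z u,
      ∃ b ∈ Q' ⊓ Subgroup.centralizer ({z} : Set G),
        ∃ a ∈ Q ⊓ Subgroup.centralizer ({u} : Set G), r = b * a := by
  obtain ⟨⟨hzQ, hz2, hz1, hzc, cen, comm, hC⟩, hnorm, sq⟩ := F
  obtain ⟨⟨huQ', hu2, hu1, huc, cen', comm', hC'⟩, hnorm', sq'⟩ := F'
  have memA : ∀ x, x ∈ Q ⊓ Subgroup.centralizer ({u} : Set G) ↔ (x ∈ Q ∧ u * x = x * u) := by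
    intro x; rw [Subgroup.mem_inf, mem_cs]
  have memB : ∀ x, x ∈ Q' ⊓ Subgroup.centralizer ({z} : Set G) ↔ (x ∈ Q' ∧ z * x = x * z) := by
    intro x; rw [Subgroup.mem_inf, mem_cs]
  have nAB : ∀ a ∈ Q ⊓ Subgroup.centralizer ({u} : Set G),
      ∀ b ∈ Q' ⊓ Subgroup.centralizer ({z} : Set G),
      a * b * a⁻¹ ∈ Q' ⊓ Subgroup.centralizer ({z} : Set G) := by
    intro a ha b hb
    obtain ⟨haQ, hau⟩ := (memA a).mp ha
    obtain ⟨hbQ, hbz⟩ := (memB b).mp hb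
    refine (memB _).mpr ⟨hnorm' a hau.symm b hbQ, ?_⟩
    have haz := hzc a haQ
    calc z * (a * b * a⁻¹) = (z * a) * b * a⁻¹ := by group
      _ = a * (z * b) * a⁻¹ := by rw [haz]; group
      _ = a * b * (z * a⁻¹) := by rw [hbz]; group
      _ = a * b * (a⁻¹ * (a * z) * a⁻¹) := by group
      _ = a * b * (a⁻¹ * (z * a) * a⁻¹) := by rw [haz]
      _ = a * b * a⁻¹ * z := by group
  have hRcl : pairR Q Q' z u
      = Subgroup.closure (((Q' ⊓ Subgroup.centralizer ({z} : Set G) : Subgroup G) : Set G) ∪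
        ((Q ⊓ Subgroup.centralizer ({u} : Set G) : Subgroup G) : Set G)) := by
    rw [Subgroup.closure_union, Subgroup.closure_eq, Subgroup.closure_eq]
    rfl
  intro r hr
  rw [hRcl] at hr
  induction hr using Subgroup.closure_induction with
  | mem s hs =>
    rcases hs with hs | hs
    · exact ⟨s, hs, 1, Subgroup.one_mem _, (mul_one s).symm⟩
    · exact ⟨1, Subgroup.one_mem _, s, hs, (one_mul s).symm⟩
  | one => exact ⟨1, Subgroup.one_mem _, 1, Subgroup.one_mem _, (mul_one 1).symm⟩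
  | mul x y _ _ ihx ihy =>
    obtain ⟨b, hb, a, ha, rfl⟩ := ihx
    obtain ⟨b', hb', a', ha', rfl⟩ := ihy
    refine ⟨b * (a * b' * a⁻¹), Subgroup.mul_mem _ hb (nAB a ha b' hb'), a * a',
      Subgroup.mul_mem _ ha ha', ?_⟩
    group
  | inv x _ ih =>
    obtain ⟨b, hb, a, ha, rfl⟩ := ih
    refine ⟨a⁻¹ * b⁻¹ * a⁻¹⁻¹, nAB a⁻¹ (Subgroup.inv_mem _ ha) b⁻¹ (Subgroup.inv_mem _ hb),
      a⁻¹, Subgroup.inv_mem _ ha, ?_⟩
    group

theorem conj_closure (H : Subgroup G) (S : Set G)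
    (hS : ∀ s ∈ S, ∀ v ∈ H, s * v * s⁻¹ ∈ H) (hS' : ∀ s ∈ S, ∀ v ∈ H, s⁻¹ * v * s ∈ H) :
    ∀ x ∈ Subgroup.closure S, ∀ v ∈ H, x * v * x⁻¹ ∈ H := by
  intro x hx v hv
  have h1 := comm_closure_aux H (H : Set G) S hS hS'
    (fun s hs e he => H.mul_mem (hS s hs e he) (H.inv_mem he)) x hx v hv
  have e1 : x * v * x⁻¹ = (x * v * x⁻¹ * v⁻¹) * v := by group
  rw [e1]
  exact H.mul_mem h1 hv

theorem pair_more (Q Q' : Subgroup G) (z u : G) (F : Facts2 Q z) (F' : Facts2 Q' u)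
    (huQ : u ∈ Q) (hzQ' : z ∈ Q') (huz : u ≠ z)
    (H1 : ∀ y : G, y * z * y⁻¹ = u → ∀ s ∈ Q, y * s * y⁻¹ ∈ Q')
    (H2 : ∀ y : G, y * u * y⁻¹ = z → ∀ s ∈ Q', y * s * y⁻¹ ∈ Q) :
    ∃ q ∈ Q, ∃ q' ∈ Q',
      q * z * q⁻¹ = z ∧ q * u * q⁻¹ = u * z ∧ q' * z * q'⁻¹ = u * z ∧ q' * u * q'⁻¹ = u ∧
      (∀ s ∈ Q, s ∈ pairR Q Q' z u ∨ q⁻¹ * s ∈ pairR Q Q' z u) ∧
      (∀ s ∈ Q', s ∈ pairR Q Q' z u ∨ q'⁻¹ * s ∈ pairR Q Q' z u) ∧
      q * q ∈ pairR Q Q' z u ∧ q' * q' ∈ pairR Q Q' z u ∧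
      q * q' * (q * q') * (q * q') ∈ pairR Q Q' z u ∧
      (∀ x ∈ Q ⊔ Q', ∀ r ∈ pairR Q Q' z u, x * r * x⁻¹ ∈ pairR Q Q' z u) ∧
      (∀ x ∈ Q ⊔ Q', ∀ v ∈ Subgroup.closure ({z, u} : Set G),
        x * v * x⁻¹ ∈ Subgroup.closure ({z, u} : Set G)) ∧
      (∀ y : G, (∀ v ∈ Subgroup.closure ({z, u} : Set G),
          y * v * y⁻¹ ∈ Subgroup.closure ({z, u} : Set G)) →
        ∀ x ∈ Q ⊔ Q', y * x * y⁻¹ ∈ Q ⊔ Q') ∧
      (∀ x ∈ Q ⊔ Q', ∀ c : G, c * z = z * c → c * u = u * c →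
        x * c * x⁻¹ * c⁻¹ ∈ pairR Q Q' z u) := by
  obtain ⟨P1, P2, P3, P4, P5, P6, P7, P8⟩ := pair_struct Q Q' z u F F' huQ hzQ' huz
  have dec := pair_dec Q Q' z u F F'
  have NH := norm_half Q z u F huQ
  have NH' := norm_half Q' u z F' hzQ'
  obtain ⟨⟨hzQ, hz2, hz1, hzc, cen, comm, hC⟩, hnorm, sq⟩ := F
  obtain ⟨⟨huQ', hu2, hu1, huc, cen', comm', hC'⟩, hnorm', sq'⟩ := F'
  have hzu : z * u = u * z := hzc u huQ
  have hzi : z⁻¹ = z := inv_eq_of_mul_eq_one_left hz2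
  have hui : u⁻¹ = u := inv_eq_of_mul_eq_one_left hu2
  have hV := four_closure z u hz2 hu2 hzu
  have cc := comm_cases Q z comm
  have cc' := comm_cases Q' u comm'
  have memA : ∀ x, x ∈ Q ⊓ Subgroup.centralizer ({u} : Set G) ↔ (x ∈ Q ∧ u * x = x * u) := by
    intro x; rw [Subgroup.mem_inf, mem_cs]
  have memB : ∀ x, x ∈ Q' ⊓ Subgroup.centralizer ({z} : Set G) ↔ (x ∈ Q' ∧ z * x = x * z) := by
    intro x; rw [Subgroup.mem_inf, mem_cs]
  have hAle : Q ⊓ Subgroup.centralizer ({u} : Set G) ≤ pairR Q Q' z u := le_sup_right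
  have hBle : Q' ⊓ Subgroup.centralizer ({z} : Set G) ≤ pairR Q Q' z u := le_sup_left
  have hzV : z ∈ Subgroup.closure ({z, u} : Set G) := (hV z).mpr (Or.inr (Or.inl rfl))
  have huV : u ∈ Subgroup.closure ({z, u} : Set G) := (hV u).mpr (Or.inr (Or.inr (Or.inl rfl)))
  have hzR : z ∈ pairR Q Q' z u := hAle ((memA z).mpr ⟨hzQ, hzu.symm⟩)
  have huR : u ∈ pairR Q Q' z u := hBle ((memB u).mpr ⟨huQ', hzu⟩)
  have huzR : u * z ∈ pairR Q Q' z u := Subgroup.mul_mem _ huR hzR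
  have hRz : ∀ r ∈ pairR Q Q' z u, r * z = z * r := fun r hr => (P3 z hzV).2 r hr
  obtain ⟨q, hq, hqu⟩ := exists_q Q z u huQ huz hu1 cen comm
  obtain ⟨q', hq', hq'z⟩ := exists_q Q' u z hzQ' huz.symm hz1 cen' comm'
  have c1 : q * z * q⁻¹ = z := by
    calc q * z * q⁻¹ = (z * q) * q⁻¹ := by rw [hzc q hq]
      _ = z := by group
  have c2 : q * u * q⁻¹ = u * z := by
    calc q * u * q⁻¹ = (z * u * q) * q⁻¹ := by rw [hqu]
      _ = z * u := by group
      _ = u * z := hzu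
  have c3 : q⁻¹ * z * q = z := by
    calc q⁻¹ * z * q = q⁻¹ * (z * q) := by group
      _ = q⁻¹ * (q * z) := by rw [hzc q hq]
      _ = z := by group
  have c4 : q⁻¹ * u * q = u * z := by
    calc q⁻¹ * u * q = (q⁻¹ * (u * z) * q) * (q⁻¹ * z * q)⁻¹ := by group
      _ = (q⁻¹ * (q * u * q⁻¹) * q) * z⁻¹ := by rw [← c2, c3]
      _ = u * z⁻¹ := by group
      _ = u * z := by rw [hzi]
  have c5 : q' * z * q'⁻¹ = u * z := by
    calc q' * z * q'⁻¹ = (u * z * q') * q'⁻¹ := by rw [hq'z]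
      _ = u * z := by group
  have c6 : q' * u * q'⁻¹ = u := by
    calc q' * u * q'⁻¹ = (u * q') * q'⁻¹ := by rw [huc q' hq']
      _ = u := by group
  have c8 : q'⁻¹ * u * q' = u := by
    calc q'⁻¹ * u * q' = q'⁻¹ * (u * q') := by group
      _ = q'⁻¹ * (q' * u) := by rw [huc q' hq']
      _ = u := by group
  have c7 : q'⁻¹ * z * q' = u * z := by
    calc q'⁻¹ * z * q' = (q'⁻¹ * u * q')⁻¹ * (q'⁻¹ * (u * z) * q') := by group
      _ = u⁻¹ * (q'⁻¹ * (q' * z * q'⁻¹) * q') := by rw [c8, ← c5]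
      _ = u⁻¹ * z := by group
      _ = u * z := by rw [hui]
  have d1 : q * (u * z) * q⁻¹ = u := by
    calc q * (u * z) * q⁻¹ = (q * u * q⁻¹) * (q * z * q⁻¹) := by group
      _ = u * z * z := by rw [c2, c1]
      _ = u := by rw [mul_assoc, hz2, mul_one]
  have d2 : q⁻¹ * (u * z) * q = u := by
    calc q⁻¹ * (u * z) * q = (q⁻¹ * u * q) * (q⁻¹ * z * q) := by group
      _ = u * z * z := by rw [c4, c3]
      _ = u := by rw [mul_assoc, hz2, mul_one]
  have d4 : q'⁻¹ * (u * z) * q' = z := by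
    calc q'⁻¹ * (u * z) * q' = (q'⁻¹ * u * q') * (q'⁻¹ * z * q') := by group
      _ = u * (u * z) := by rw [c8, c7]
      _ = z := by rw [← mul_assoc, hu2, one_mul]
  have splitQ : ∀ s ∈ Q, s ∈ pairR Q Q' z u ∨ q⁻¹ * s ∈ pairR Q Q' z u := by
    intro s hs
    rcases comm s hs u huQ with h | h
    · left; exact hAle ((memA s).mpr ⟨hs, h.symm⟩)
    · right
      refine hAle ((memA _).mpr ⟨Q.mul_mem (Q.inv_mem hq) hs, ?_⟩)
      calc u * (q⁻¹ * s) = q⁻¹ * (q * u * q⁻¹) * s := by group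
        _ = q⁻¹ * (u * z) * s := by rw [c2]
        _ = q⁻¹ * (z * u) * s := by rw [hzu]
        _ = q⁻¹ * (z * u * s) := by group
        _ = q⁻¹ * (s * u) := by rw [h]
        _ = q⁻¹ * s * u := by group
  have splitQ' : ∀ s ∈ Q', s ∈ pairR Q Q' z u ∨ q'⁻¹ * s ∈ pairR Q Q' z u := by
    intro s hs
    rcases comm' s hs z hzQ' with h | h
    · left; exact hBle ((memB s).mpr ⟨hs, h.symm⟩)
    · right
      refine hBle ((memB _).mpr ⟨Q'.mul_mem (Q'.inv_mem hq') hs, ?_⟩)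
      calc z * (q'⁻¹ * s) = q'⁻¹ * (q' * z * q'⁻¹) * s := by group
        _ = q'⁻¹ * (u * z) * s := by rw [c5]
        _ = q'⁻¹ * (u * z * s) := by group
        _ = q'⁻¹ * (s * z) := by rw [h]
        _ = q'⁻¹ * s * z := by group
  have hqq : q * q ∈ pairR Q Q' z u := by
    rcases sq q hq with h | h
    · rw [h]; exact Subgroup.one_mem _
    · rw [h]; exact hzR
  have hq'q' : q' * q' ∈ pairR Q Q' z u := by
    rcases sq' q' hq' with h | h
    · rw [h]; exact Subgroup.one_mem _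
    · rw [h]; exact huR
  have nQR : ∀ s ∈ Q, ∀ r ∈ pairR Q Q' z u, s * r * s⁻¹ ∈ pairR Q Q' z u := by
    intro s hs r hr
    obtain ⟨b, hb, a, ha, rfl⟩ := dec r hr
    obtain ⟨hbQ, hbz⟩ := (memB b).mp hb
    have e1 : s * (b * a) * s⁻¹ = (s * b * s⁻¹ * b⁻¹) * b * (s * a * s⁻¹) := by group
    rw [e1]
    exact Subgroup.mul_mem _ (Subgroup.mul_mem _
      (hAle (NH.2 s hs b hbz.symm (huc b hbQ).symm)) (hBle hb)) (hAle (NH.1 s hs a ha))
  have nQ'R : ∀ s ∈ Q', ∀ r ∈ pairR Q Q' z u, s * r * s⁻¹ ∈ pairR Q Q' z u := by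
    intro s hs r hr
    obtain ⟨b, hb, a, ha, rfl⟩ := dec r hr
    obtain ⟨haQ, hau⟩ := (memA a).mp ha
    have e1 : s * (b * a) * s⁻¹ = (s * b * s⁻¹) * (s * a * s⁻¹ * a⁻¹) * a := by group
    rw [e1]
    exact Subgroup.mul_mem _ (Subgroup.mul_mem _ (hBle (NH'.1 s hs b hb))
      (hBle (NH'.2 s hs a hau.symm (hzc a haQ).symm))) (hAle ha)
  have hXcl : Q ⊔ Q' = Subgroup.closure ((Q : Set G) ∪ (Q' : Set G)) := by
    rw [Subgroup.closure_union, Subgroup.closure_eq, Subgroup.closure_eq]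
  have invS : ∀ s ∈ ((Q : Set G) ∪ (Q' : Set G)), s⁻¹ ∈ ((Q : Set G) ∪ (Q' : Set G)) := by
    intro s hs
    rcases hs with hs | hs
    · exact Or.inl (Q.inv_mem hs)
    · exact Or.inr (Q'.inv_mem hs)
  have nSR : ∀ s ∈ ((Q : Set G) ∪ (Q' : Set G)), ∀ r ∈ pairR Q Q' z u,
      s * r * s⁻¹ ∈ pairR Q Q' z u := by
    intro s hs r hr
    rcases hs with hs | hs
    · exact nQR s hs r hr
    · exact nQ'R s hs r hr
  have nSR' : ∀ s ∈ ((Q : Set G) ∪ (Q' : Set G)), ∀ r ∈ pairR Q Q' z u,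
      s⁻¹ * r * s ∈ pairR Q Q' z u := by
    intro s hs r hr
    have h1 := nSR s⁻¹ (invS s hs) r hr
    rw [inv_inv] at h1
    exact h1
  have nV : ∀ s ∈ ((Q : Set G) ∪ (Q' : Set G)),
      ∀ v ∈ Subgroup.closure ({z, u} : Set G),
      s * v * s⁻¹ ∈ Subgroup.closure ({z, u} : Set G) := by
    intro s hs v hv
    have hzs : s * z * s⁻¹ ∈ Subgroup.closure ({z, u} : Set G) := by
      rcases hs with hs | hs
      · have h1 : s * z * s⁻¹ = z := by
          calc s * z * s⁻¹ = (z * s) * s⁻¹ := by rw [hzc s hs]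
            _ = z := by group
        rw [h1]; exact hzV
      · rcases cc' s hs z hzQ' with h | h
        · have h1 : s * z * s⁻¹ = (s * z * s⁻¹ * z⁻¹) * z := by group
          rw [h1, h, one_mul]; exact hzV
        · have h1 : s * z * s⁻¹ = (s * z * s⁻¹ * z⁻¹) * z := by group
          rw [h1, h]; exact Subgroup.mul_mem _ huV hzV
    have hus : s * u * s⁻¹ ∈ Subgroup.closure ({z, u} : Set G) := by
      rcases hs with hs | hs
      · rcases cc s hs u huQ with h | h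
        · have h1 : s * u * s⁻¹ = (s * u * s⁻¹ * u⁻¹) * u := by group
          rw [h1, h, one_mul]; exact huV
        · have h1 : s * u * s⁻¹ = (s * u * s⁻¹ * u⁻¹) * u := by group
          rw [h1, h]; exact Subgroup.mul_mem _ hzV huV
      · have h1 : s * u * s⁻¹ = u := by
          calc s * u * s⁻¹ = (u * s) * s⁻¹ := by rw [huc s hs]
            _ = u := by group
        rw [h1]; exact huV
    rcases (hV v).mp hv with h | h | h | h
    · rw [h]
      have e2 : s * 1 * s⁻¹ = 1 := by group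
      rw [e2]; exact Subgroup.one_mem _
    · rw [h]; exact hzs
    · rw [h]; exact hus
    · rw [h]
      have e2 : s * (u * z) * s⁻¹ = (s * u * s⁻¹) * (s * z * s⁻¹) := by group
      rw [e2]; exact Subgroup.mul_mem _ hus hzs
  have nV' : ∀ s ∈ ((Q : Set G) ∪ (Q' : Set G)),
      ∀ v ∈ Subgroup.closure ({z, u} : Set G),
      s⁻¹ * v * s ∈ Subgroup.closure ({z, u} : Set G) := by
    intro s hs v hv
    have h1 := nV s⁻¹ (invS s hs) v hv
    rw [inv_inv] at h1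
    exact h1
  -- the cube relation
  have hy : (q⁻¹ * q') * z * (q⁻¹ * q')⁻¹ = u := by
    calc (q⁻¹ * q') * z * (q⁻¹ * q')⁻¹ = q⁻¹ * (q' * z * q'⁻¹) * q := by group
      _ = q⁻¹ * (u * z) * q := by rw [c5]
      _ = u := d2
  have ht : q⁻¹ * q' * q * q'⁻¹ * q ∈ Q' := by
    have h1 := H1 (q⁻¹ * q') hy q hq
    have e1 : q⁻¹ * q' * q * (q⁻¹ * q')⁻¹ = q⁻¹ * q' * q * q'⁻¹ * q := by group
    rw [e1] at h1
    exact h1
  have htz : (q⁻¹ * q' * q * q'⁻¹ * q) * z * (q⁻¹ * q' * q * q'⁻¹ * q)⁻¹ = u * z := by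
    have e1 : (q⁻¹ * q' * q * q'⁻¹ * q) * z * (q⁻¹ * q' * q * q'⁻¹ * q)⁻¹ =
        q⁻¹ * (q' * (q * (q'⁻¹ * (q * z * q⁻¹) * q') * q⁻¹) * q'⁻¹) * q := by group
    rw [e1, c1, c7, d1, c6, c4]
  have hb : q'⁻¹ * (q⁻¹ * q' * q * q'⁻¹ * q) ∈ pairR Q Q' z u := by
    rcases splitQ' _ ht with h | h
    · exfalso
      have h1 := hRz _ h
      have h2 : (q⁻¹ * q' * q * q'⁻¹ * q) * z * (q⁻¹ * q' * q * q'⁻¹ * q)⁻¹ = z := by
        rw [h1]; group
      rw [htz] at h2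
      exact hu1 (mul_eq_right.mp h2)
    · exact h
  have hv : q⁻¹ * (q' * q') * q ∈ pairR Q Q' z u := by
    rcases sq' q' hq' with h | h
    · rw [h]
      have e : q⁻¹ * 1 * q = 1 := by group
      rw [e]; exact Subgroup.one_mem _
    · rw [h, c4]; exact huzR
  have key : q * q' * (q * q') * (q * q') =
      (q * q) * (q' * ((q'⁻¹ * (q⁻¹ * q' * q * q'⁻¹ * q)) * (q⁻¹ * (q' * q') * q)) * q'⁻¹) *
        (q' * q') := by group
  have h3 : q * q' * (q * q') * (q * q') ∈ pairR Q Q' z u := by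
    rw [key]
    exact Subgroup.mul_mem _ (Subgroup.mul_mem _ hqq
      (nQ'R q' hq' _ (Subgroup.mul_mem _ hb hv))) hq'q'
  have hQX : Q ≤ Q ⊔ Q' := le_sup_left
  have hQ'X : Q' ≤ Q ⊔ Q' := le_sup_right
  refine ⟨q, hq, q', hq', c1, c2, c5, c6, splitQ, splitQ', hqq, hq'q', h3, ?_, ?_, ?_, ?_⟩
  · intro x hx r hr
    rw [hXcl] at hx
    exact conj_closure (pairR Q Q' z u) _ nSR nSR' x hx r hr
  · intro x hx v hv
    rw [hXcl] at hx
    exact conj_closure (Subgroup.closure ({z, u} : Set G)) _ nV nV' x hx v hv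
  · intro y hy x hx
    have hz' : y * z * y⁻¹ = z ∨ y * z * y⁻¹ = u ∨ y * z * y⁻¹ = u * z := by
      rcases (hV _).mp (hy z hzV) with h | h
      · exfalso
        apply hz1
        calc z = y⁻¹ * (y * z * y⁻¹) * y := by group
          _ = 1 := by rw [h]; group
      · exact h
    have hu' : y * u * y⁻¹ = z ∨ y * u * y⁻¹ = u ∨ y * u * y⁻¹ = u * z := by
      rcases (hV _).mp (hy u huV) with h | h
      · exfalso
        apply hu1
        calc u = y⁻¹ * (y * u * y⁻¹) * y := by group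
          _ = 1 := by rw [h]; group
      · exact h
    have gen : ∀ s ∈ ((Q : Set G) ∪ (Q' : Set G)), y * s * y⁻¹ ∈ Q ⊔ Q' := by
      intro s hs
      rcases hs with hs | hs
      · rcases hz' with h | h | h
        · have h' : y * z = z * y := by
            calc y * z = (y * z * y⁻¹) * y := by group
              _ = z * y := by rw [h]
          exact hQX (hnorm y h' s hs)
        · exact hQ'X (H1 y h s hs)
        · have h1 : (q⁻¹ * y) * z * (q⁻¹ * y)⁻¹ = u := by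
            calc (q⁻¹ * y) * z * (q⁻¹ * y)⁻¹ = q⁻¹ * (y * z * y⁻¹) * q := by group
              _ = q⁻¹ * (u * z) * q := by rw [h]
              _ = u := d2
          have h2 := H1 (q⁻¹ * y) h1 s hs
          have e1 : y * s * y⁻¹ = q * ((q⁻¹ * y) * s * (q⁻¹ * y)⁻¹) * q⁻¹ := by group
          rw [e1]
          exact Subgroup.mul_mem _ (Subgroup.mul_mem _ (hQX hq) (hQ'X h2))
            (Subgroup.inv_mem _ (hQX hq))
      · rcases hu' with h | h | h
        · exact hQX (H2 y h s hs)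
        · have h' : y * u = u * y := by
            calc y * u = (y * u * y⁻¹) * y := by group
              _ = u * y := by rw [h]
          exact hQ'X (hnorm' y h' s hs)
        · have h1 : (q'⁻¹ * y) * u * (q'⁻¹ * y)⁻¹ = z := by
            calc (q'⁻¹ * y) * u * (q'⁻¹ * y)⁻¹ = q'⁻¹ * (y * u * y⁻¹) * q' := by group
              _ = q'⁻¹ * (u * z) * q' := by rw [h]
              _ = z := d4
          have h2 := H2 (q'⁻¹ * y) h1 s hs
          have e1 : y * s * y⁻¹ = q' * ((q'⁻¹ * y) * s * (q'⁻¹ * y)⁻¹) * q'⁻¹ := by group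
          rw [e1]
          exact Subgroup.mul_mem _ (Subgroup.mul_mem _ (hQ'X hq') (hQX h2))
            (Subgroup.inv_mem _ (hQ'X hq'))
    rw [hXcl] at hx
    induction hx using Subgroup.closure_induction with
    | mem s hs => exact gen s hs
    | one =>
      have e : y * 1 * y⁻¹ = 1 := by group
      rw [e]; exact Subgroup.one_mem _
    | mul a b _ _ iha ihb =>
      have e : y * (a * b) * y⁻¹ = (y * a * y⁻¹) * (y * b * y⁻¹) := by group
      rw [e]; exact Subgroup.mul_mem _ iha ihb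
    | inv a _ iha =>
      have e : y * a⁻¹ * y⁻¹ = (y * a * y⁻¹)⁻¹ := by group
      rw [e]; exact Subgroup.inv_mem _ iha
  · intro x hx c hcz hcu
    rw [hXcl] at hx
    exact comm_closure_aux (pairR Q Q' z u) {c | c * z = z * c ∧ c * u = u * c} _ nSR nSR'
      (fun s hs e he => by
        rcases hs with hs | hs
        · exact hAle (NH.2 s hs e he.1 he.2)
        · exact hBle (NH'.2 s hs e he.2 he.1)) x hx c ⟨hcz, hcu⟩

/-- The quotient `X/R` is `S₃`. -/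
theorem s3_quot [Finite G] (X R : Subgroup G) (z u q q' : G)
    (hq : q ∈ X) (hq' : q' ∈ X)
    (hz1 : z ≠ 1) (hu1 : u ≠ 1) (huz : u ≠ z) (hz2 : z * z = 1) (hu2 : u * u = 1)
    (hzu : z * u = u * z)
    (c1 : q * z * q⁻¹ = z) (c2 : q * u * q⁻¹ = u * z) (c5 : q' * z * q'⁻¹ = u * z)
    (c6 : q' * u * q'⁻¹ = u)
    (hRc : ∀ r ∈ R, r * z = z * r ∧ r * u = u * r)
    (hn : ∀ x ∈ X, ∀ r ∈ R, x * r * x⁻¹ ∈ R)
    (Q Q' : Subgroup G) (hX : X = Q ⊔ Q')
    (hQ : ∀ s ∈ Q, s ∈ R ∨ q⁻¹ * s ∈ R) (hQ' : ∀ s ∈ Q', s ∈ R ∨ q'⁻¹ * s ∈ R)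
    (hqq : q * q ∈ R) (hq'q' : q' * q' ∈ R) (h3 : q * q' * (q * q') * (q * q') ∈ R)
    (hXV : ∀ x ∈ X, ∀ v ∈ Subgroup.closure ({z, u} : Set G),
      x * v * x⁻¹ ∈ Subgroup.closure ({z, u} : Set G)) :
    (∀ x ∈ X, x * z = z * x → x * u = u * x → x ∈ R) ∧
    (∃ _ : (R.subgroupOf X).Normal, Nonempty (↥X ⧸ R.subgroupOf X ≃* Equiv.Perm (Fin 3))) ∧
    ((Cfsg.pCore 2 ↥X).map X.subtype ≤ R) ∧
    (∀ a1 b1 : G, (a1 = z ∨ a1 = u ∨ a1 = u * z) → (b1 = z ∨ b1 = u ∨ b1 = u * z) → b1 ≠ a1 →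
      ∃ x ∈ X, x * z * x⁻¹ = a1 ∧ x * u * x⁻¹ = b1) := by
  classical
  have hV := four_closure z u hz2 hu2 hzu
  have d1 : q * (u * z) * q⁻¹ = u := by
    calc q * (u * z) * q⁻¹ = (q * u * q⁻¹) * (q * z * q⁻¹) := by group
      _ = u * z * z := by rw [c2, c1]
      _ = u := by rw [mul_assoc, hz2, mul_one]
  have d3 : q' * (u * z) * q'⁻¹ = z := by
    calc q' * (u * z) * q'⁻¹ = (q' * u * q'⁻¹) * (q' * z * q'⁻¹) := by group
      _ = u * (u * z) := by rw [c6, c5]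
      _ = z := by rw [← mul_assoc, hu2, one_mul]
  have k1z : (q * q') * z * (q * q')⁻¹ = u := by
    calc (q * q') * z * (q * q')⁻¹ = q * (q' * z * q'⁻¹) * q⁻¹ := by group
      _ = u := by rw [c5, d1]
  have k1u : (q * q') * u * (q * q')⁻¹ = u * z := by
    calc (q * q') * u * (q * q')⁻¹ = q * (q' * u * q'⁻¹) * q⁻¹ := by group
      _ = u * z := by rw [c6, c2]
  have k2z : (q' * q) * z * (q' * q)⁻¹ = u * z := by
    calc (q' * q) * z * (q' * q)⁻¹ = q' * (q * z * q⁻¹) * q'⁻¹ := by group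
      _ = u * z := by rw [c1, c5]
  have k2u : (q' * q) * u * (q' * q)⁻¹ = z := by
    calc (q' * q) * u * (q' * q)⁻¹ = q' * (q * u * q⁻¹) * q'⁻¹ := by group
      _ = z := by rw [c2, d3]
  have k3z : (q * q' * q) * z * (q * q' * q)⁻¹ = u := by
    calc (q * q' * q) * z * (q * q' * q)⁻¹ = q * (q' * (q * z * q⁻¹) * q'⁻¹) * q⁻¹ := by group
      _ = u := by rw [c1, c5, d1]
  have k3u : (q * q' * q) * u * (q * q' * q)⁻¹ = z := by
    calc (q * q' * q) * u * (q * q' * q)⁻¹ = q * (q' * (q * u * q⁻¹) * q'⁻¹) * q⁻¹ := by group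
      _ = z := by rw [c2, d3, c1]
  have huz1 : u * z ≠ 1 := by
    intro h
    apply huz
    calc u = u * (z * z) := by rw [hz2, mul_one]
      _ = (u * z) * z := by rw [mul_assoc]
      _ = z := by rw [h, one_mul]
  have huzz : u * z ≠ z := fun h => hu1 (mul_eq_right.mp h)
  have huzu : u * z ≠ u := fun h => hz1 (mul_eq_left.mp h)
  have hN : (R.subgroupOf X).Normal := ⟨fun r hr x => by
    rw [Subgroup.mem_subgroupOf] at hr ⊢
    exact hn x.1 x.2 r.1 hr⟩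
  haveI := hN
  obtain ⟨π, hπ⟩ : ∃ π : ↥X →* ↥X ⧸ R.subgroupOf X, π = QuotientGroup.mk' (R.subgroupOf X) :=
    ⟨_, rfl⟩
  have πone : ∀ x : ↥X, π x = 1 ↔ (x : G) ∈ R := by
    intro x
    rw [hπ]
    exact (QuotientGroup.eq_one_iff x).trans Subgroup.mem_subgroupOf
  have πeq : ∀ x w : ↥X, π x = π w → (x : G)⁻¹ * (w : G) ∈ R := by
    intro x w h
    rw [hπ] at h
    have h' : ((x : ↥X) : ↥X ⧸ R.subgroupOf X) = (w : ↥X) := h
    exact Subgroup.mem_subgroupOf.mp (QuotientGroup.eq.mp h')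
  have ha : π ⟨q, hq⟩ * π ⟨q, hq⟩ = 1 := by
    rw [← map_mul, πone]; exact hqq
  have hb : π ⟨q', hq'⟩ * π ⟨q', hq'⟩ = 1 := by
    rw [← map_mul, πone]; exact hq'q'
  have hab : π ⟨q, hq⟩ * π ⟨q', hq'⟩ * (π ⟨q, hq⟩ * π ⟨q', hq'⟩) *
      (π ⟨q, hq⟩ * π ⟨q', hq'⟩) = 1 := by
    rw [← map_mul, ← map_mul, ← map_mul, πone]; exact h3
  have hQX : Q ≤ X := by rw [hX]; exact le_sup_left
  have hQ'X : Q' ≤ X := by rw [hX]; exact le_sup_right
  have gen : ∀ x (hx : x ∈ X), π ⟨x, hx⟩ ∈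
      Subgroup.closure ({π ⟨q, hq⟩, π ⟨q', hq'⟩} : Set (↥X ⧸ R.subgroupOf X)) := by
    have hQT : Q ≤ ((Subgroup.closure
        ({π ⟨q, hq⟩, π ⟨q', hq'⟩} : Set (↥X ⧸ R.subgroupOf X))).comap π).map X.subtype := by
      intro s hs
      have hsX := hQX hs
      refine ⟨⟨s, hsX⟩, ?_, rfl⟩
      show π ⟨s, hsX⟩ ∈ Subgroup.closure
        ({π ⟨q, hq⟩, π ⟨q', hq'⟩} : Set (↥X ⧸ R.subgroupOf X))
      rcases hQ s hs with h | h
      · have h1 : π ⟨s, hsX⟩ = 1 := (πone _).mpr h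
        rw [h1]; exact Subgroup.one_mem _
      · have e : (⟨s, hsX⟩ : ↥X) = ⟨q, hq⟩ * (⟨q, hq⟩⁻¹ * ⟨s, hsX⟩) := by group
        have h1 : π (⟨q, hq⟩⁻¹ * ⟨s, hsX⟩) = 1 := (πone _).mpr h
        rw [e, map_mul, h1, mul_one]
        exact Subgroup.subset_closure (by simp)
    have hQ'T : Q' ≤ ((Subgroup.closure
        ({π ⟨q, hq⟩, π ⟨q', hq'⟩} : Set (↥X ⧸ R.subgroupOf X))).comap π).map X.subtype := by
      intro s hs
      have hsX := hQ'X hs
      refine ⟨⟨s, hsX⟩, ?_, rfl⟩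
      show π ⟨s, hsX⟩ ∈ Subgroup.closure
        ({π ⟨q, hq⟩, π ⟨q', hq'⟩} : Set (↥X ⧸ R.subgroupOf X))
      rcases hQ' s hs with h | h
      · have h1 : π ⟨s, hsX⟩ = 1 := (πone _).mpr h
        rw [h1]; exact Subgroup.one_mem _
      · have e : (⟨s, hsX⟩ : ↥X) = ⟨q', hq'⟩ * (⟨q', hq'⟩⁻¹ * ⟨s, hsX⟩) := by group
        have h1 : π (⟨q', hq'⟩⁻¹ * ⟨s, hsX⟩) = 1 := (πone _).mpr h
        rw [e, map_mul, h1, mul_one]
        exact Subgroup.subset_closure (by simp)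
    intro x hx
    have hT := le_trans hX.le (sup_le hQT hQ'T)
    obtain ⟨t, ht, hte⟩ := hT hx
    have e : t = ⟨x, hx⟩ := Subtype.ext hte
    rw [← e]
    exact ht
  have liftc : ∀ x (hx : x ∈ X), x * z = z * x → x * u = u * x → ∀ w (hw : w ∈ X),
      π ⟨x, hx⟩ = π ⟨w, hw⟩ → w * z * w⁻¹ = z ∧ w * u * w⁻¹ = u := by
    intro x hx hxz hxu w hw h
    have h1 := πeq _ _ h
    obtain ⟨r1, r2⟩ := hRc _ h1
    constructor
    · calc w * z * w⁻¹ = x * ((x⁻¹ * w) * z) * (x⁻¹ * w)⁻¹ * x⁻¹ := by group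
        _ = x * (z * (x⁻¹ * w)) * (x⁻¹ * w)⁻¹ * x⁻¹ := by rw [r1]
        _ = (x * z) * x⁻¹ := by group
        _ = (z * x) * x⁻¹ := by rw [hxz]
        _ = z := by group
    · calc w * u * w⁻¹ = x * ((x⁻¹ * w) * u) * (x⁻¹ * w)⁻¹ * x⁻¹ := by group
        _ = x * (u * (x⁻¹ * w)) * (x⁻¹ * w)⁻¹ * x⁻¹ := by rw [r2]
        _ = (x * u) * x⁻¹ := by group
        _ = (u * x) * x⁻¹ := by rw [hxu]
        _ = u := by group
  have ker : ∀ x ∈ X, x * z = z * x → x * u = u * x → x ∈ R := by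
    intro x hx hxz hxu
    have lc := liftc x hx hxz hxu
    rcases dih6 _ _ ha hb hab _ (gen x hx) with h | h | h | h | h | h
    · exact (πone _).mp h
    · exfalso
      have h1 := (lc q hq h).2
      rw [c2] at h1
      exact huzu h1
    · exfalso
      have h1 := (lc q' hq' h).1
      rw [c5] at h1
      exact huzz h1
    · exfalso
      have h1 := (lc (q * q') (X.mul_mem hq hq') (h.trans (map_mul π _ _).symm)).1
      rw [k1z] at h1
      exact huz h1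
    · exfalso
      have h1 := (lc (q' * q) (X.mul_mem hq' hq) (h.trans (map_mul π _ _).symm)).1
      rw [k2z] at h1
      exact huzz h1
    · exfalso
      have h3' : π (⟨q, hq⟩ * ⟨q', hq'⟩ * ⟨q, hq⟩) = π ⟨q, hq⟩ * π ⟨q', hq'⟩ * π ⟨q, hq⟩ := by
        rw [map_mul, map_mul]
      have h1 := (lc (q * q' * q) (X.mul_mem (X.mul_mem hq hq') hq) (h.trans h3'.symm)).1
      rw [k3z] at h1
      exact huz h1
  obtain ⟨O, hOdef⟩ : ∃ O : Set G, O = {z, u, u * z} := ⟨_, rfl⟩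
  have hOmem : ∀ y, y ∈ O ↔ (y = z ∨ y = u ∨ y = u * z) := by
    intro y; rw [hOdef]; simp
  have hO : ∀ x ∈ X, ∀ y ∈ O, x * y * x⁻¹ ∈ O := by
    intro x hx y hy
    have hyV : y ∈ Subgroup.closure ({z, u} : Set G) := (hV y).mpr (Or.inr ((hOmem y).mp hy))
    have hy1 : y ≠ 1 := by
      rcases (hOmem y).mp hy with h | h | h
      · rw [h]; exact hz1
      · rw [h]; exact hu1
      · rw [h]; exact huz1
    rcases (hV _).mp (hXV x hx y hyV) with h | h
    · exfalso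
      apply hy1
      calc y = x⁻¹ * (x * y * x⁻¹) * x := by group
        _ = 1 := by rw [h]; group
    · exact (hOmem _).mpr h
  letI : MulAction ↥X ↥O := cAct X O hO
  obtain ⟨φ, hφ⟩ : ∃ φ : ↥X →* Equiv.Perm ↥O, ∀ (x : ↥X) (o : ↥O),
      ((φ x o : ↥O) : G) = (x : G) * (o : G) * (x : G)⁻¹ :=
    ⟨MulAction.toPermHom ↥X ↥O, fun x o => rfl⟩
  have hzO : z ∈ O := (hOmem z).mpr (Or.inl rfl)
  have huO : u ∈ O := (hOmem u).mpr (Or.inr (Or.inl rfl))
  have huzO : u * z ∈ O := (hOmem _).mpr (Or.inr (Or.inr rfl))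
  have cases3 : ∀ o : ↥O, o = ⟨z, hzO⟩ ∨ o = ⟨u, huO⟩ ∨ o = ⟨u * z, huzO⟩ := by
    intro o
    rcases (hOmem o.1).mp o.2 with h | h | h
    · exact Or.inl (Subtype.ext h)
    · exact Or.inr (Or.inl (Subtype.ext h))
    · exact Or.inr (Or.inr (Subtype.ext h))
  have agree : ∀ τ1 τ2 : Equiv.Perm ↥O, τ1 ⟨z, hzO⟩ = τ2 ⟨z, hzO⟩ →
      τ1 ⟨u, huO⟩ = τ2 ⟨u, huO⟩ → τ1 = τ2 := by
    intro τ1 τ2 h1 h2
    apply Equiv.ext
    intro o
    rcases cases3 o with h | h | h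
    · rw [h]; exact h1
    · rw [h]; exact h2
    · rw [h]
      obtain ⟨o', ho'⟩ := τ2.surjective (τ1 ⟨u * z, huzO⟩)
      rcases cases3 o' with h' | h' | h'
      · exfalso
        rw [h', ← h1] at ho'
        have h4 := τ1.injective ho'
        exact huzz (congrArg Subtype.val h4).symm
      · exfalso
        rw [h', ← h2] at ho'
        have h4 := τ1.injective ho'
        exact huzu (congrArg Subtype.val h4).symm
      · rw [h'] at ho'
        exact ho'.symm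
  have hker : φ.ker = R.subgroupOf X := by
    ext x
    rw [MonoidHom.mem_ker, Subgroup.mem_subgroupOf]
    constructor
    · intro h
      have h1 := hφ x ⟨z, hzO⟩
      have h2 := hφ x ⟨u, huO⟩
      rw [h] at h1 h2
      have h1' : z = (x : G) * z * (x : G)⁻¹ := h1
      have h2' : u = (x : G) * u * (x : G)⁻¹ := h2
      apply ker x.1 x.2
      · calc (x : G) * z = ((x : G) * z * (x : G)⁻¹) * x := by group
          _ = z * x := by rw [← h1']
      · calc (x : G) * u = ((x : G) * u * (x : G)⁻¹) * x := by group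
          _ = u * x := by rw [← h2']
    · intro h
      obtain ⟨r1, r2⟩ := hRc _ h
      apply agree
      · apply Subtype.ext
        rw [hφ]
        show (x : G) * z * (x : G)⁻¹ = z
        rw [r1]; group
      · apply Subtype.ext
        rw [hφ]
        show (x : G) * u * (x : G)⁻¹ = u
        rw [r2]; group
  have partE : ∀ a1 b1 : G, (a1 = z ∨ a1 = u ∨ a1 = u * z) → (b1 = z ∨ b1 = u ∨ b1 = u * z) →
      b1 ≠ a1 → ∃ x ∈ X, x * z * x⁻¹ = a1 ∧ x * u * x⁻¹ = b1 := by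
    intro a1 b1 ha1 hb1 hne
    rcases ha1 with h | h | h <;> rcases hb1 with h' | h' | h'
    · exact absurd (h'.trans h.symm) hne
    · exact ⟨1, X.one_mem, by rw [h]; group, by rw [h']; group⟩
    · exact ⟨q, hq, by rw [h]; exact c1, by rw [h']; exact c2⟩
    · exact ⟨q * q' * q, X.mul_mem (X.mul_mem hq hq') hq, by rw [h]; exact k3z,
        by rw [h']; exact k3u⟩
    · exact absurd (h'.trans h.symm) hne
    · exact ⟨q * q', X.mul_mem hq hq', by rw [h]; exact k1z, by rw [h']; exact k1u⟩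
    · exact ⟨q' * q, X.mul_mem hq' hq, by rw [h]; exact k2z, by rw [h']; exact k2u⟩
    · exact ⟨q', hq', by rw [h]; exact c5, by rw [h']; exact c6⟩
    · exact absurd (h'.trans h.symm) hne
  have hsurj : Function.Surjective φ := by
    intro σ
    have ha1 := (hOmem _).mp (σ ⟨z, hzO⟩).2
    have hb1 := (hOmem _).mp (σ ⟨u, huO⟩).2
    have hne : ((σ ⟨u, huO⟩ : ↥O) : G) ≠ ((σ ⟨z, hzO⟩ : ↥O) : G) := by
      intro h
      have h4 := σ.injective (Subtype.ext h)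
      exact huz (congrArg Subtype.val h4)
    obtain ⟨x, hx, hxz, hxu⟩ := partE _ _ ha1 hb1 hne
    refine ⟨⟨x, hx⟩, agree _ _ ?_ ?_⟩
    · apply Subtype.ext
      rw [hφ]
      exact hxz
    · apply Subtype.ext
      rw [hφ]
      exact hxu
  have hcard : Nat.card ↥O = 3 := by
    rw [Nat.card_coe_set_eq, Set.ncard_eq_three]
    exact ⟨z, u, u * z, fun h => huz h.symm, fun h => huzz h.symm, fun h => huzu h.symm, hOdef⟩
  haveI : Finite ↥O := Nat.finite_of_card_ne_zero (by rw [hcard]; norm_num)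
  have iso : ↥X ⧸ R.subgroupOf X ≃* Equiv.Perm (Fin 3) :=
    ((QuotientGroup.quotientMulEquivOfEq hker.symm).trans
      (QuotientGroup.quotientKerEquivOfSurjective φ hsurj)).trans
      (Finite.equivFinOfCardEq hcard).permCongrHom
  have hcore : (Cfsg.pCore 2 ↥X).map X.subtype ≤ R := by
    obtain ⟨ψ, hψ⟩ : ∃ ψ : ↥X →* Equiv.Perm (Fin 3), ∀ x, ψ x = iso (π x) :=
      ⟨iso.toMonoidHom.comp π, fun x => rfl⟩
    have hψs : Function.Surjective ψ := by
      intro σ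
      obtain ⟨y, hy⟩ := iso.surjective σ
      obtain ⟨x, hx⟩ : ∃ x, π x = y := by
        rw [hπ]; exact QuotientGroup.mk'_surjective _ y
      exact ⟨x, by rw [hψ, hx, hy]⟩
    have hNn : ((Cfsg.pCore 2 ↥X).map ψ).Normal :=
      (Cfsg.Agent.Helper26.pCore_normal 2 ↥X).map ψ hψs
    have hNp : IsPGroup 2 ((Cfsg.pCore 2 ↥X).map ψ) :=
      (Cfsg.Agent.Helper26.isPGroup_pCore 2 ↥X).map ψ
    have hbot := s3_core _ hNn hNp
    rintro _ ⟨o, ho, rfl⟩
    have h1 : ψ o ∈ (Cfsg.pCore 2 ↥X).map ψ := Subgroup.mem_map_of_mem ψ ho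
    rw [hbot, Subgroup.mem_bot, hψ] at h1
    have h2 : π o = 1 := iso.injective (h1.trans (map_one iso).symm)
    exact (πone o).mp h2
  exact ⟨ker, ⟨hN, ⟨iso⟩⟩, hcore, partE⟩

end Cfsg.Agent.Lead.XS
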