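import Mathlib
import Cfsg.Agent.Lead.XS15
import Cfsg.Agent.Lead.XS4
import Cfsg.Agent.Lead.XS8
import Cfsg.Agent.Helper13.Thompson
import Cfsg.Agent.Helper22.CyclicIdx2

/-!
# Extraspecial `O_2(C(z))` in groups with `O^2(G) = G`: preliminaries (lead)
-/

set_option autoImplicit false
set_option linter.style.haveILetI false

namespace Cfsg.Agent.Lead.XS

open Cfsg MulAction

variable {G : Type*} [Group G]

theorem card_le_of_list [Finite G] (Q : Subgroup G) (L : List G) (h : ∀ s ∈ Q, s ∈ L) :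
    Nat.card Q ≤ L.length := by
  classical
  have h1 : ((Q : Set G)) ⊆ ((L.toFinset : Finset G) : Set G) := by
    intro s hs
    rw [Finset.mem_coe, List.mem_toFinset]
    exact h s hs
  calc Nat.card Q = (Q : Set G).ncard := (Nat.card_coe_set_eq _)
    _ ≤ ((L.toFinset : Finset G) : Set G).ncard := Set.ncard_le_ncard h1 (Set.toFinite _)
    _ = L.toFinset.card := Set.ncard_coe_finset _
    _ ≤ L.length := List.toFinset_card_le L

/-- if `t u = z u t` then every `s ∈ Q` or `t⁻¹ s` commutes with `u`. -/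
theorem half_cov (Q : Subgroup G) (z u : G) (F : Facts2 Q z) (huQ : u ∈ Q) (t : G) (_ht : t ∈ Q)
    (htu : t * u = z * u * t) : ∀ s ∈ Q, s * u = u * s ∨ (t⁻¹ * s) * u = u * (t⁻¹ * s) := by
  obtain ⟨⟨hzQ, hz2, hz1, hzc, cen, comm, hC⟩, hnorm, sq⟩ := F
  intro s hs
  rcases comm s hs u huQ with h | h
  · exact Or.inl h
  · right
    have hzu : z * u = u * z := hzc u huQ
    have e1 : t⁻¹ * (z * u) = u * t⁻¹ := by
      calc t⁻¹ * (z * u) = t⁻¹ * (z * u * t) * t⁻¹ := by group
        _ = t⁻¹ * (t * u) * t⁻¹ := by rw [htu]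
        _ = u * t⁻¹ := by group
    calc t⁻¹ * s * u = t⁻¹ * (s * u) := by group
      _ = t⁻¹ * (z * u * s) := by rw [h]
      _ = (t⁻¹ * (z * u)) * s := by group
      _ = (u * t⁻¹) * s := by rw [e1]
      _ = u * (t⁻¹ * s) := by group

/-- an extraspecial group with an abelian subgroup of index two has order at most 8. -/
theorem ab_half [Finite G] (Q : Subgroup G) (z : G) (F : Facts2 Q z) (M : Subgroup G)
    (hMQ : M ≤ Q) (x0 : G) (hx0 : x0 ∈ Q) (hcov : ∀ s ∈ Q, s ∈ M ∨ x0⁻¹ * s ∈ M)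
    (hab : ∀ a ∈ M, ∀ b ∈ M, a * b = b * a) : Nat.card Q ≤ 8 := by
  obtain ⟨⟨hzQ, hz2, hz1, hzc, cen, comm, hC⟩, hnorm, sq⟩ := F
  have hcent : ∀ b ∈ M, b * x0 = x0 * b → b = 1 ∨ b = z := by
    intro b hb hbx
    apply cen b (hMQ hb)
    intro s hs
    rcases hcov s hs with h | h
    · exact hab b hb s h
    · have e := hab b hb _ h
      calc b * s = b * x0 * (x0⁻¹ * s) := by group
        _ = x0 * b * (x0⁻¹ * s) := by rw [hbx]
        _ = x0 * (b * (x0⁻¹ * s)) := by group
        _ = x0 * ((x0⁻¹ * s) * b) := by rw [e]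
        _ = s * b := by group
  by_cases hex : ∃ a ∈ M, a ≠ 1 ∧ a ≠ z
  · obtain ⟨a, ha, ha1, haz⟩ := hex
    have hMsub : ∀ b ∈ M, b = 1 ∨ b = z ∨ b = a ∨ b = a * z := by
      intro b hb
      by_cases hbx : b * x0 = x0 * b
      · rcases hcent b hb hbx with h | h
        · exact Or.inl h
        · exact Or.inr (Or.inl h)
      · have hax : a * x0 ≠ x0 * a := fun h => by
          rcases hcent a ha h with h' | h'
          · exact ha1 h'
          · exact haz h'
        have e1 : a * x0 = z * x0 * a := by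
          rcases comm a (hMQ ha) x0 hx0 with h | h
          · exact absurd h hax
          · exact h
        have e2 : b * x0 = z * x0 * b := by
          rcases comm b (hMQ hb) x0 hx0 with h | h
          · exact absurd h hbx
          · exact h
        have e4 : a⁻¹ * (z * x0) = x0 * a⁻¹ := by
          calc a⁻¹ * (z * x0) = a⁻¹ * (z * x0 * a) * a⁻¹ := by group
            _ = a⁻¹ * (a * x0) * a⁻¹ := by rw [e1]
            _ = x0 * a⁻¹ := by group
        have e3 : (a⁻¹ * b) * x0 = x0 * (a⁻¹ * b) := by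
          calc (a⁻¹ * b) * x0 = a⁻¹ * (b * x0) := by group
            _ = a⁻¹ * (z * x0 * b) := by rw [e2]
            _ = (a⁻¹ * (z * x0)) * b := by group
            _ = (x0 * a⁻¹) * b := by rw [e4]
            _ = x0 * (a⁻¹ * b) := by group
        rcases hcent _ (M.mul_mem (M.inv_mem ha) hb) e3 with h | h
        · right; right; left
          calc b = a * (a⁻¹ * b) := by group
            _ = a := by rw [h, mul_one]
        · right; right; right
          calc b = a * (a⁻¹ * b) := by group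
            _ = a * z := by rw [h]
    apply card_le_of_list Q [1, z, a, a * z, x0, x0 * z, x0 * a, x0 * (a * z)]
    intro s hs
    rcases hcov s hs with h | h
    · rcases hMsub s h with e | e | e | e <;> (rw [e]; simp)
    · have es : s = x0 * (x0⁻¹ * s) := by group
      rcases hMsub _ h with e | e | e | e <;> (rw [es, e]; simp)
  · push Not at hex
    have hle : Nat.card Q ≤ [1, z, x0, x0 * z].length := by
      apply card_le_of_list Q [1, z, x0, x0 * z]
      intro s hs
      have hM2 : ∀ b ∈ M, b = 1 ∨ b = z := by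
        intro b hb
        by_cases h1 : b = 1
        · exact Or.inl h1
        · exact Or.inr (hex b hb h1)
      rcases hcov s hs with h | h
      · rcases hM2 s h with e | e <;> (rw [e]; simp)
      · have es : s = x0 * (x0⁻¹ * s) := by group
        rcases hM2 _ h with e | e <;> (rw [es, e]; simp)
    exact hle.trans (by simp)

/-- the coset of an index-two subgroup of a large extraspecial group contains an involution. -/
theorem exists_inv_out [Finite G] (Q : Subgroup G) (z : G) (F : Facts2 Q z)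
    (hcard : 32 ≤ Nat.card Q) (K : Subgroup G)
    (hmul : ∀ a ∈ Q, ∀ b ∈ Q, (a * b ∈ K ↔ (a ∈ K ↔ b ∈ K)))
    (x0 : G) (hx0 : x0 ∈ Q) (hx0K : x0 ∉ K) : ∃ u ∈ Q, u ∉ K ∧ u * u = 1 := by
  by_contra hno
  push Not at hno
  have F0 := F
  obtain ⟨⟨hzQ, hz2, hz1, hzc, cen, comm, hC⟩, hnorm, sq⟩ := F
  have hsqz : ∀ x ∈ Q, x ∉ K → x * x = z := by
    intro x hx hxK
    rcases sq x hx with h | h
    · exact absurd h (hno x hx hxK)
    · exact h
  have h0 := hsqz x0 hx0 hx0K
  -- conjugation by x0 inverts Q ∩ K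
  have hinvt : ∀ a ∈ Q, a ∈ K → a * x0 * a = x0 := by
    intro a ha haK
    have h1 : x0 * a ∉ K := by
      rw [hmul x0 hx0 a ha]
      intro h
      exact hx0K (h.mpr haK)
    have h2 := hsqz _ (Q.mul_mem hx0 ha) h1
    have h3 : x0 * (a * x0 * a) = x0 * x0 := by
      calc x0 * (a * x0 * a) = (x0 * a) * (x0 * a) := by group
        _ = z := h2
        _ = x0 * x0 := h0.symm
    exact mul_left_cancel h3
  have hab : ∀ a ∈ Q ⊓ K, ∀ b ∈ Q ⊓ K, a * b = b * a := by
    intro a ha b hb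
    obtain ⟨haQ, haK⟩ := Subgroup.mem_inf.mp ha
    obtain ⟨hbQ, hbK⟩ := Subgroup.mem_inf.mp hb
    have e1 := hinvt a haQ haK
    have e2 := hinvt b hbQ hbK
    have e3 := hinvt (a * b) (Q.mul_mem haQ hbQ) (K.mul_mem haK hbK)
    -- x0⁻¹ a x0 = a⁻¹ etc.
    have i1 : x0⁻¹ * a * x0 = a⁻¹ := by
      calc x0⁻¹ * a * x0 = x0⁻¹ * (a * x0 * a) * a⁻¹ := by group
        _ = a⁻¹ := by rw [e1]; group
    have i2 : x0⁻¹ * b * x0 = b⁻¹ := by
      calc x0⁻¹ * b * x0 = x0⁻¹ * (b * x0 * b) * b⁻¹ := by group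
        _ = b⁻¹ := by rw [e2]; group
    have i3 : x0⁻¹ * (a * b) * x0 = (a * b)⁻¹ := by
      calc x0⁻¹ * (a * b) * x0 = x0⁻¹ * (a * b * x0 * (a * b)) * (a * b)⁻¹ := by group
        _ = (a * b)⁻¹ := by rw [e3]; group
    have i4 : (a * b)⁻¹ = a⁻¹ * b⁻¹ := by
      calc (a * b)⁻¹ = x0⁻¹ * (a * b) * x0 := i3.symm
        _ = (x0⁻¹ * a * x0) * (x0⁻¹ * b * x0) := by group
        _ = a⁻¹ * b⁻¹ := by rw [i1, i2]
    calc a * b = ((a * b)⁻¹)⁻¹ := (inv_inv _).symm
      _ = (a⁻¹ * b⁻¹)⁻¹ := by rw [i4]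
      _ = b * a := by group
  have hcov : ∀ s ∈ Q, s ∈ Q ⊓ K ∨ x0⁻¹ * s ∈ Q ⊓ K := by
    intro s hs
    by_cases hsK : s ∈ K
    · exact Or.inl (Subgroup.mem_inf.mpr ⟨hs, hsK⟩)
    · right
      refine Subgroup.mem_inf.mpr ⟨Q.mul_mem (Q.inv_mem hx0) hs, ?_⟩
      rw [hmul _ (Q.inv_mem hx0) s hs]
      constructor
      · intro h
        exact absurd ((Subgroup.inv_mem_iff K).mp h) hx0K
      · intro h
        exact absurd h hsK
  have h8 := ab_half Q z F0 (Q ⊓ K) inf_le_left x0 hx0 hcov hab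
  omega

/-- homomorphisms from a group with `O^2(G) = G` to a 2-group are trivial. -/
theorem res_triv {Γ : Type*} [Group Γ] (hres : pResidual 2 Γ = ⊤) {A : Type*} [Group A]
    (hA : IsPGroup 2 A) (ψ : Γ →* A) (g : Γ) : ψ g = 1 := by
  have hg : g ∈ pResidual 2 Γ := by rw [hres]; exact Subgroup.mem_top g
  have hle : pResidual 2 Γ ≤ ψ.ker := by
    apply (Subgroup.closure_le _).mpr
    intro x hx
    rw [SetLike.mem_coe, MonoidHom.mem_ker]
    obtain ⟨k, hk⟩ := hA (ψ x)
    have h1 : orderOf (ψ x) ∣ 2 ^ k := orderOf_dvd_of_pow_eq_one hk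
    have h2 : orderOf (ψ x) ∣ orderOf x := orderOf_map_dvd ψ x
    have hcop : Nat.Coprime (orderOf x) (2 ^ k) := Nat.Coprime.pow_right k hx
    have h3 : orderOf (ψ x) = 1 := (Nat.Coprime.coprime_dvd_left h2 hcop).eq_one_of_dvd h1
    exact orderOf_eq_one_iff.mp h3
  exact MonoidHom.mem_ker.mp (hle hg)

end Cfsg.Agent.Lead.XS
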