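import Mathlib
import Cfsg.Agent.Lead.XS16

/-!
# Extraspecial `O_2(C(z))` in groups with `O^2(G) = G`: the transfer count (lead)
-/

set_option autoImplicit false
set_option linter.style.haveILetI false

namespace Cfsg.Agent.Lead.XS

open Cfsg MulAction

/-- Thompson transfer (after helper13): if all homomorphisms to `S/T` are trivial, an involution `y ∈ S ∖ T` with `S/T` cyclic has an even
number of fixed cosets `kS` with `k⁻¹ y k ∉ T` -/
theorem tr_count {G : Type*} [Group G] [Finite G]
    (S T : Subgroup G) [hTn : (T.subgroupOf S).Normal]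
    (hcyc : IsCyclic (↥S ⧸ T.subgroupOf S))
    (htriv : ∀ (ψ : G →* (↥S ⧸ T.subgroupOf S)) (g : G), ψ g = 1)
    (y : G) (hy2 : y ^ 2 = 1) (hyS : y ∈ S) (hyT : y ∉ T) :
    2 ∣ Set.ncard {c : G ⧸ S | y • c = c ∧ c.out⁻¹ * y * c.out ∉ T} := by
  classical
  letI : CommGroup (↥S ⧸ T.subgroupOf S) := hcyc.commGroup
  haveI : Fintype (G ⧸ S) := Fintype.ofFinite _
  haveI : Fintype (Quotient (orbitRel (Subgroup.zpowers y) (G ⧸ S))) := Fintype.ofFinite _
  obtain ⟨φ, hφ⟩ : ∃ φ : ↥S →* ↥S ⧸ T.subgroupOf S, φ = QuotientGroup.mk' (T.subgroupOf S) :=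
    ⟨_, rfl⟩
  have hφ1 : ∀ u : ↥S, φ u = 1 ↔ (u : G) ∈ T := by
    intro u; rw [hφ]; exact (QuotientGroup.eq_one_iff u).trans Subgroup.mem_subgroupOf
  obtain ⟨t₀, ht₀⟩ : ∃ t₀, t₀ = φ ⟨y, hyS⟩ := ⟨_, rfl⟩
  have ht₀ne : t₀ ≠ 1 := by rw [ht₀]; intro h; exact hyT ((hφ1 _).mp h)
  have ht₀2 : t₀ ^ 2 = 1 := by
    rw [ht₀, ← map_pow]
    have : (⟨y, hyS⟩ : ↥S) ^ 2 = 1 := Subtype.ext (by simpa using hy2)
    rw [this, map_one]
  have hφinv : ∀ u : ↥S, (u : G) ^ 2 = 1 → φ u = if (u : G) ∈ T then 1 else t₀ := by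
    intro u hu
    split_ifs with h
    · exact (hφ1 u).mpr h
    · apply Cfsg.Agent.Helper13.cyclic_involution_unique _ _ (fun h' => h ((hφ1 u).mp h')) ht₀ne _ ht₀2
      rw [← map_pow]
      have : u ^ 2 = 1 := Subtype.ext (by simpa using hu)
      rw [this, map_one]
  have hV : MonoidHom.transfer φ y = 1 := htriv (MonoidHom.transfer φ) y
  rw [MonoidHom.transfer_eq_prod_quotient_orbitRel_zpowers_quot] at hV
  have hper : ∀ c : G ⧸ S, Function.minimalPeriod (y • ·) c = 1 ∨
      Function.minimalPeriod (y • ·) c = 2 := by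
    intro c
    have h1 : Function.IsPeriodicPt (y • ·) 2 c := by
      show (y • ·)^[2] c = c
      simp only [Function.iterate_succ, Function.iterate_zero, Function.comp_apply, id]
      rw [← mul_smul, ← pow_two, hy2, one_smul]
    have h2 := h1.minimalPeriod_dvd
    rcases (Nat.dvd_prime Nat.prime_two).mp h2 with h | h
    · exact Or.inl h
    · exact Or.inr h
  have hfac : ∀ q : Quotient (orbitRel (Subgroup.zpowers y) (G ⧸ S)),
      φ ⟨q.out.out⁻¹ * y ^ Function.minimalPeriod (y • ·) q.out * q.out.out,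
        QuotientGroup.out_conj_pow_minimalPeriod_mem S y q.out⟩ =
      if (y • q.out = q.out ∧ q.out.out⁻¹ * y * q.out.out ∉ T) then t₀ else 1 := by
    intro q
    rcases hper q.out with h | h
    · have hfix : y • q.out = q.out := Function.minimalPeriod_eq_one_iff_isFixedPt.mp h
      have hu2 : (q.out.out⁻¹ * y ^ Function.minimalPeriod (y • ·) q.out * q.out.out) ^ 2 = 1 := by
        rw [h, pow_one]
        have e : (q.out.out⁻¹ * y * q.out.out) ^ 2 = q.out.out⁻¹ * y ^ 2 * q.out.out := by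
          rw [pow_two, pow_two]; group
        rw [e, hy2]; group
      rw [hφinv _ hu2]
      have e2 : q.out.out⁻¹ * y ^ Function.minimalPeriod (y • ·) q.out * q.out.out =
          q.out.out⁻¹ * y * q.out.out := by rw [h, pow_one]
      by_cases hT : q.out.out⁻¹ * y * q.out.out ∈ T
      · have hT' : q.out.out⁻¹ * y ^ Function.minimalPeriod (y • ·) q.out * q.out.out ∈ T := by
          rw [e2]; exact hT
        rw [if_pos hT', if_neg (fun hc => hc.2 hT)]
      · have hT' : q.out.out⁻¹ * y ^ Function.minimalPeriod (y • ·) q.out * q.out.out ∉ T := by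
          rw [e2]; exact hT
        rw [if_neg hT', if_pos ⟨hfix, hT⟩]
    · have hnf : ¬ (y • q.out = q.out) := by
        intro hfix
        have h1 : Function.minimalPeriod (y • ·) q.out = 1 :=
          Function.minimalPeriod_eq_one_iff_isFixedPt.mpr hfix
        rw [h] at h1
        exact absurd h1 (by norm_num)
      rw [if_neg (fun hc => hnf hc.1)]
      have e : (⟨q.out.out⁻¹ * y ^ Function.minimalPeriod (y • ·) q.out * q.out.out,
          QuotientGroup.out_conj_pow_minimalPeriod_mem S y q.out⟩ : ↥S) = 1 := by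
        apply Subtype.ext
        show q.out.out⁻¹ * y ^ Function.minimalPeriod (y • ·) q.out * q.out.out = 1
        rw [h, hy2]; group
      rw [e, map_one]
  simp_rw [hfac] at hV
  rw [Finset.prod_ite, Finset.prod_const_one, mul_one, Finset.prod_const] at hV
  have hord : orderOf t₀ = 2 := orderOf_eq_prime ht₀2 ht₀ne
  have hdvd : 2 ∣ (Finset.univ.filter (fun q : Quotient (orbitRel (Subgroup.zpowers y) (G ⧸ S)) =>
      y • q.out = q.out ∧ q.out.out⁻¹ * y * q.out.out ∉ T)).card := by
    rw [← hord]; exact orderOf_dvd_of_pow_eq_one hV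
  have hcard : Set.ncard {c : G ⧸ S | y • c = c ∧ c.out⁻¹ * y * c.out ∉ T} =
      (Finset.univ.filter (fun q : Quotient (orbitRel (Subgroup.zpowers y) (G ⧸ S)) =>
        y • q.out = q.out ∧ q.out.out⁻¹ * y * q.out.out ∉ T)).card := by
    rw [Set.ncard_eq_toFinset_card', Set.toFinset_setOf]
    symm
    apply Finset.card_bij (fun q _ => q.out)
    · intro q hq
      rw [Finset.mem_filter] at hq ⊢
      exact ⟨Finset.mem_univ _, hq.2⟩
    · intro q₁ _ q₂ _ h
      exact Quotient.out_injective h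
    · intro c hc
      rw [Finset.mem_filter] at hc
      obtain ⟨-, hc1, hc2⟩ := hc
      have hout : (Quotient.mk'' c : Quotient (orbitRel (Subgroup.zpowers y) (G ⧸ S))).out = c := by
        have h1 := Quotient.mk_out (s := orbitRel (Subgroup.zpowers y) (G ⧸ S)) c
        obtain ⟨⟨g, hg⟩, hgc⟩ := h1
        obtain ⟨k, rfl⟩ := Subgroup.mem_zpowers_iff.mp hg
        have hfixk : (y ^ k) • c = c := by
          have hy' : y ∈ MulAction.stabilizer G c := hc1
          exact (MulAction.stabilizer G c).zpow_mem hy' k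
        rw [← hgc]; exact hfixk
      refine ⟨Quotient.mk'' c, ?_, hout⟩
      rw [Finset.mem_filter, hout]
      exact ⟨Finset.mem_univ _, hc1, hc2⟩
  rw [hcard]; exact hdvd


end Cfsg.Agent.Lead.XS
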