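import Mathlib
import Cfsg.Agent.Lead.XS17

/-!
# Extraspecial `O_2(C(z))` in groups with `O^2(G) = G`: `E` lies in every subgroup of index two (lead)
-/

set_option autoImplicit false
set_option linter.style.haveILetI false

namespace Cfsg.Agent.Lead.XS

open Cfsg

variable {G : Type*} [Group G]

/-- `Facts2` from the basic centralizer data. -/
theorem facts2_basic [Finite G] (Q : Subgroup G) (z : G) (hE : IsExtraspecial 2 ↥Q)
    (hzQ : z ∈ Q) (hz1 : z ≠ 1) (hQH : ∀ y ∈ Q, z * y = y * z)
    (hC : ∀ h : G, (∀ y ∈ Q, h * y = y * h) → h ∈ Q)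
    (hnorm : ∀ h : G, h * z = z * h → ∀ y ∈ Q, h * y * h⁻¹ ∈ Q) : Facts2 Q z := by
  have hzZ : z ∈ (Subgroup.center ↥Q).map Q.subtype := by
    refine ⟨⟨z, hzQ⟩, ?_, rfl⟩
    rw [SetLike.mem_coe, Subgroup.mem_center_iff]
    intro y
    apply Subtype.ext
    exact (hQH y y.2).symm
  have hL2 : Subgroup.centralizer (Q : Set G) = (Subgroup.center ↥Q).map Q.subtype := by
    ext h
    constructor
    · intro hh
      rw [Subgroup.mem_centralizer_iff] at hh
      have hhQ : h ∈ Q := hC h (fun y hy => (hh y hy).symm)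
      refine ⟨⟨h, hhQ⟩, ?_, rfl⟩
      rw [SetLike.mem_coe, Subgroup.mem_center_iff]
      intro y
      apply Subtype.ext
      exact hh y y.2
    · rintro ⟨c, hc, rfl⟩
      rw [Subgroup.mem_centralizer_iff]
      intro y hy
      have h1 := Subgroup.mem_center_iff.mp hc ⟨y, hy⟩
      exact congrArg Subtype.val h1
  have hL3 : Subgroup.centralizer (((Subgroup.center ↥Q).map Q.subtype : Subgroup G) : Set G) ≤
      Subgroup.normalizer (Q : Set G) := by
    apply le_nzr
    intro h hh y hy
    exact hnorm h (Subgroup.mem_centralizer_iff.mp hh z hzZ).symm y hy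
  exact facts2_of Q hE hL2 hL3 z hzZ hz1

/-- an involution of `C(z)` centralizing `C_Q(u)` is `u` or `uz`. -/
theorem cent_half (Q : Subgroup G) (z u : G) (F : Facts2 Q z) (huQ : u ∈ Q) (hu2 : u * u = 1)
    (hu1 : u ≠ 1) (huz : u ≠ z) (y : G) (hy1 : y ≠ 1) (hyz : y ≠ z)
    (hyc : ∀ r ∈ Q, r * u = u * r → y * r = r * y) : y = u ∨ y = u * z := by
  classical
  have F0 := F
  obtain ⟨⟨hzQ, hz2, hz1, hzc, cen, comm, hC⟩, hnorm, sq⟩ := F
  have hzu : z * u = u * z := hzc u huQ
  have hyz' : y * z = z * y := hyc z hzQ hzu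
  obtain ⟨t, ht, htu⟩ := exists_q Q z u huQ huz hu1 cen comm
  have hcov := half_cov Q z u F0 huQ t ht htu
  -- an element commuting with `C_Q(u)` and with `t` is `1` or `z`
  have hall : ∀ v : G, (∀ r ∈ Q, r * u = u * r → v * r = r * v) → v * t = t * v →
      v = 1 ∨ v = z := by
    intro v hv hvt
    have hvQ : ∀ s ∈ Q, v * s = s * v := by
      intro s hs
      rcases hcov s hs with h | h
      · exact hv s hs h
      · have e := hv _ (Q.mul_mem (Q.inv_mem ht) hs) h
        calc v * s = v * t * (t⁻¹ * s) := by group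
          _ = t * v * (t⁻¹ * s) := by rw [hvt]
          _ = t * (v * (t⁻¹ * s)) := by group
          _ = t * ((t⁻¹ * s) * v) := by rw [e]
          _ = s * v := by group
    exact cen v (hC v hvQ) hvQ
  have ht'Q : y * t * y⁻¹ ∈ Q := hnorm y hyz' t ht
  have hwQ : t⁻¹ * (y * t * y⁻¹) ∈ Q := Q.mul_mem (Q.inv_mem ht) ht'Q
  have hw : t⁻¹ * (y * t * y⁻¹) ∈ Subgroup.closure (insert z (({u} : Finset G) : Set G)) := by
    apply dcent F0.1 ({u} : Finset G)
    · intro v hv
      rw [Finset.mem_singleton] at hv
      rw [hv]; exact huQ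
    · exact hwQ
    · intro g hg hgS
      have hgu : g * u = u * g := hgS u (Finset.mem_singleton_self u)
      have hg' : (t * g * t⁻¹) * u = u * (t * g * t⁻¹) :=
        conj_comm Q z u F0 huQ t ht g (hzc g hg).symm hgu
      have c1 := hyc g hg hgu
      have c2 := hyc _ (Q.mul_mem (Q.mul_mem ht hg) (Q.inv_mem ht)) hg'
      have c3 : (y * t * y⁻¹) * g * (y * t * y⁻¹)⁻¹ = t * g * t⁻¹ := by
        have c1' : y⁻¹ * g * y = g := by
          calc y⁻¹ * g * y = y⁻¹ * (g * y) := by group
            _ = y⁻¹ * (y * g) := by rw [c1]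
            _ = g := by group
        calc (y * t * y⁻¹) * g * (y * t * y⁻¹)⁻¹ = y * t * (y⁻¹ * g * y) * t⁻¹ * y⁻¹ := by group
          _ = y * (t * g * t⁻¹) * y⁻¹ := by rw [c1']; group
          _ = (t * g * t⁻¹) * y * y⁻¹ := by rw [c2]
          _ = t * g * t⁻¹ := by group
      calc g * (t⁻¹ * (y * t * y⁻¹))
          = t⁻¹ * (t * g * t⁻¹) * (y * t * y⁻¹) := by group
        _ = t⁻¹ * ((y * t * y⁻¹) * g * (y * t * y⁻¹)⁻¹) * (y * t * y⁻¹) := by rw [c3]
        _ = t⁻¹ * (y * t * y⁻¹) * g := by group
  have hw' : t⁻¹ * (y * t * y⁻¹) ∈ Subgroup.closure ({z, u} : Set G) := by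
    have e : insert z (({u} : Finset G) : Set G) = ({z, u} : Set G) := by
      rw [Finset.coe_singleton]
    rw [e] at hw; exact hw
  have hyt : ∀ w : G, t⁻¹ * (y * t * y⁻¹) = w → y * t = t * w * y := by
    intro w hw
    calc y * t = t * (t⁻¹ * (y * t * y⁻¹)) * y := by group
      _ = t * w * y := by rw [hw]
  have hut : u * t = z * t * u := by
    have hzt : z * t = t * z := hzc t ht
    calc u * t = z * (z * u * t) := by rw [← mul_assoc, ← mul_assoc, hz2, one_mul]
      _ = z * (t * u) := by rw [htu]
      _ = z * t * u := by group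
  -- squares
  have hsq : ∀ w : G, t⁻¹ * (y * t * y⁻¹) = w → (t * w) * (t * w) = t * t := by
    intro w hw
    have e1 : y * t * y⁻¹ = t * w := by rw [← hw]; group
    have htt : y * (t * t) = (t * t) * y := by
      rcases sq t ht with h | h
      · rw [h, mul_one, one_mul]
      · rw [h]; exact hyz'
    calc (t * w) * (t * w) = (y * t * y⁻¹) * (y * t * y⁻¹) := by rw [e1]
      _ = (y * (t * t)) * y⁻¹ := by group
      _ = ((t * t) * y) * y⁻¹ := by rw [htt]
      _ = t * t := by group
  rcases (four_closure z u hz2 hu2 hzu _).mp hw' with h | h | h | h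
  · -- w = 1
    exfalso
    have e := hyt 1 h
    rw [mul_one] at e
    rcases hall y hyc e with h' | h'
    · exact hy1 h'
    · exact hyz h'
  · -- w = z
    have e := hyt z h
    have huy : (u * y) * t = t * (u * y) := by
      have hzt : z * t = t * z := hzc t ht
      calc (u * y) * t = u * (y * t) := by group
        _ = u * (t * z * y) := by rw [e]
        _ = (u * t) * z * y := by group
        _ = (z * t * u) * z * y := by rw [hut]
        _ = z * t * (u * z) * y := by group
        _ = z * t * (z * u) * y := by rw [hzu]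
        _ = (z * t) * z * u * y := by group
        _ = (t * z) * z * u * y := by rw [hzt]
        _ = t * (z * z) * u * y := by group
        _ = t * (u * y) := by rw [hz2]; group
    have huyc : ∀ r ∈ Q, r * u = u * r → (u * y) * r = r * (u * y) := by
      intro r hr hru
      have c := hyc r hr hru
      calc (u * y) * r = u * (y * r) := by group
        _ = u * (r * y) := by rw [c]
        _ = (u * r) * y := by group
        _ = (r * u) * y := by rw [hru]
        _ = r * (u * y) := by group
    have hui : u⁻¹ = u := inv_eq_of_mul_eq_one_left hu2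
    rcases hall (u * y) huyc huy with h' | h'
    · left
      calc y = u⁻¹ * (u * y) := by group
        _ = u := by rw [h', mul_one, hui]
    · right
      calc y = u⁻¹ * (u * y) := by group
        _ = u * z := by rw [h', hui]
  · -- w = u
    exfalso
    have e := hsq u h
    have e2 : (t * u) * (t * u) = z * (t * t) := by
      calc (t * u) * (t * u) = t * (u * t) * u := by group
        _ = t * (z * t * u) * u := by rw [hut]
        _ = (t * z) * t * (u * u) := by group
        _ = (z * t) * t * (u * u) := by rw [hzc t ht]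
        _ = z * (t * t) := by rw [hu2]; group
    rw [e2] at e
    exact hz1 (mul_eq_right.mp e)
  · -- w = u * z
    exfalso
    have e := hsq (u * z) h
    have e2 : (t * (u * z)) * (t * (u * z)) = z * (t * t) := by
      have hzt : z * t = t * z := hzc t ht
      calc (t * (u * z)) * (t * (u * z)) = t * u * (z * t) * (u * z) := by group
        _ = t * u * (t * z) * (u * z) := by rw [hzt]
        _ = t * (u * t) * (z * u) * z := by group
        _ = t * (z * t * u) * (u * z) * z := by rw [hut, hzu]
        _ = (t * z) * t * (u * u) * (z * z) := by group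
        _ = (z * t) * t * (u * u) * (z * z) := by rw [hzt]
        _ = z * (t * t) := by rw [hu2, hz2]; group
    rw [e2] at e
    exact hz1 (mul_eq_right.mp e)

end Cfsg.Agent.Lead.XS
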