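import Mathlib
import Cfsg.Agent.Lead.XS18

/-!
# Extraspecial `O_2(C(z))` in groups with `O^2(G) = G`: fusion of involutions (lead)
-/

set_option autoImplicit false
set_option linter.style.haveILetI false

namespace Cfsg.Agent.Lead.XS

open Cfsg

variable {G : Type*} [Group G]

theorem fix_iff (H : Subgroup G) (u x : G) :
    u • (x : G ⧸ H) = (x : G ⧸ H) ↔ x⁻¹ * u * x ∈ H := by
  rw [MulAction.Quotient.smul_mk, QuotientGroup.eq, smul_eq_mul]
  have e : (u * x)⁻¹ * x = (x⁻¹ * u * x)⁻¹ := by group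
  rw [e, Subgroup.inv_mem_iff]

/-- an involution `u ∈ Q` outside a normal subgroup `K` of index two of `C(z)` is conjugate
to `z`, when `O^2(G) = G`. -/
theorem fuse_u [Finite G] (hres : pResidual 2 G = ⊤) (z : G) (Q : Subgroup G)
    (F : Facts2 Q z) (hQ2 : IsPGroup 2 Q)
    (K : Subgroup G) (hKH : K ≤ Subgroup.centralizer ({z} : Set G))
    (hKn : ∀ h ∈ Subgroup.centralizer ({z} : Set G), ∀ k ∈ K, h * k * h⁻¹ ∈ K)
    (hKi : K.relIndex (Subgroup.centralizer ({z} : Set G)) = 2)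
    (u : G) (huQ : u ∈ Q) (huK : u ∉ K) (hu2 : u * u = 1) (huz : u ≠ z) :
    ∃ a : G, a * z * a⁻¹ = u := by
  classical
  haveI : Fact (Nat.Prime 2) := ⟨Nat.prime_two⟩
  have F0 := F
  obtain ⟨⟨hzQ, hz2, hz1, hzc, cen, comm, hC⟩, hnorm, sq⟩ := F
  have hu1 : u ≠ 1 := fun h => huK (h ▸ K.one_mem)
  have hzu : z * u = u * z := hzc u huQ
  obtain ⟨H, hH⟩ : ∃ H : Subgroup G, H = Subgroup.centralizer ({z} : Set G) := ⟨_, rfl⟩
  rw [← hH] at hKH hKn hKi
  have hmemH : ∀ x : G, x ∈ H ↔ z * x = x * z := by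
    intro x; rw [hH]; exact mem_cs
  have huH : u ∈ H := (hmemH u).mpr hzu
  haveI hKnorm : (K.subgroupOf H).Normal :=
    (Subgroup.normal_subgroupOf_iff_le_normalizer hKH).mpr (le_nzr _ K hKn)
  have hcardq : Nat.card (↥H ⧸ K.subgroupOf H) = 2 := hKi
  have hcyc : IsCyclic (↥H ⧸ K.subgroupOf H) := isCyclic_of_prime_card hcardq
  have hA : IsPGroup 2 (↥H ⧸ K.subgroupOf H) :=
    IsPGroup.of_card (n := 1) (by rw [hcardq, pow_one])
  have hcount := tr_count H K hcyc (fun ψ g => res_triv hres hA ψ g) u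
    (by rw [pow_two]; exact hu2) huH huK
  obtain ⟨O, hO⟩ : ∃ O : Set G,
      O = {y | ∃ x : G, y = x * z * x⁻¹ ∧ x⁻¹ * u * x ∈ H ∧ x⁻¹ * u * x ∉ K} := ⟨_, rfl⟩
  have himg : O = (fun c : G ⧸ H => c.out * z * c.out⁻¹) ''
      {c : G ⧸ H | u • c = c ∧ c.out⁻¹ * u * c.out ∉ K} := by
    rw [hO]
    ext y
    constructor
    · rintro ⟨x, rfl, hx1, hx2⟩
      obtain ⟨h, hh⟩ := QuotientGroup.mk_out_eq_mul H x
      have hzh : z * (h : G) = (h : G) * z := (hmemH _).mp h.2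
      refine ⟨(x : G ⧸ H), ⟨(fix_iff H u x).mpr hx1, ?_⟩, ?_⟩
      · rw [hh]
        intro hk
        apply hx2
        have h1 := hKn (h : G) h.2 _ hk
        have e : (h : G) * ((x * (h : G))⁻¹ * u * (x * (h : G))) * (h : G)⁻¹ = x⁻¹ * u * x := by
          group
        rw [e] at h1; exact h1
      · show (x : G ⧸ H).out * z * (x : G ⧸ H).out⁻¹ = x * z * x⁻¹
        rw [hh]
        calc x * (h : G) * z * (x * (h : G))⁻¹ = x * ((h : G) * z) * (h : G)⁻¹ * x⁻¹ := by group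
          _ = x * (z * (h : G)) * (h : G)⁻¹ * x⁻¹ := by rw [hzh]
          _ = x * z * x⁻¹ := by group
    · rintro ⟨c, ⟨hc1, hc2⟩, rfl⟩
      refine ⟨c.out, rfl, ?_, hc2⟩
      apply (fix_iff H u c.out).mp
      rw [QuotientGroup.out_eq']
      exact hc1
  have hinj : Function.Injective (fun c : G ⧸ H => c.out * z * c.out⁻¹) := by
    intro c1 c2 h
    have h' : c1.out * z * c1.out⁻¹ = c2.out * z * c2.out⁻¹ := h
    have e : z * (c1.out⁻¹ * c2.out) = (c1.out⁻¹ * c2.out) * z := by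
      calc z * (c1.out⁻¹ * c2.out) = c1.out⁻¹ * (c1.out * z * c1.out⁻¹) * c2.out := by group
        _ = c1.out⁻¹ * (c2.out * z * c2.out⁻¹) * c2.out := by rw [h']
        _ = (c1.out⁻¹ * c2.out) * z := by group
    have h2 : (c1.out : G ⧸ H) = (c2.out : G ⧸ H) := QuotientGroup.eq.mpr ((hmemH _).mpr e)
    rw [QuotientGroup.out_eq', QuotientGroup.out_eq'] at h2
    exact h2
  have h2O : 2 ∣ Nat.card ↥O := by
    rw [Nat.card_coe_set_eq, himg, Set.ncard_image_of_injective _ hinj]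
    exact hcount
  have hP : IsPGroup 2 ↥(Q ⊓ Subgroup.centralizer ({u} : Set G)) := hQ2.to_le inf_le_left
  have hOinv : ∀ r ∈ Q ⊓ Subgroup.centralizer ({u} : Set G), ∀ y ∈ O, r * y * r⁻¹ ∈ O := by
    intro r hr y hy
    rw [hO] at hy ⊢
    obtain ⟨x, rfl, hx1, hx2⟩ := hy
    have hru : u * r = r * u := mem_cs.mp (Subgroup.mem_inf.mp hr).2
    have e : (r * x)⁻¹ * u * (r * x) = x⁻¹ * u * x := by
      calc (r * x)⁻¹ * u * (r * x) = x⁻¹ * r⁻¹ * (u * r) * x := by group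
        _ = x⁻¹ * r⁻¹ * (r * u) * x := by rw [hru]
        _ = x⁻¹ * u * x := by group
    refine ⟨r * x, by group, ?_, ?_⟩
    · rw [e]; exact hx1
    · rw [e]; exact hx2
  have hzO : z ∈ O := by
    rw [hO]
    have e : (1 : G)⁻¹ * u * 1 = u := by group
    refine ⟨1, by group, ?_, ?_⟩
    · rw [e]; exact huH
    · rw [e]; exact huK
  have hzfix : ∀ r ∈ Q ⊓ Subgroup.centralizer ({u} : Set G), r * z * r⁻¹ = z := by
    intro r hr
    have h1 := hzc r (Subgroup.mem_inf.mp hr).1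
    rw [← h1]; group
  obtain ⟨y, hyO, hyz, hyfix⟩ :=
    fp_other (Q ⊓ Subgroup.centralizer ({u} : Set G)) hP O hOinv h2O z hzO hzfix
  rw [hO] at hyO
  obtain ⟨x, hyx, -, -⟩ := hyO
  have hy1 : y ≠ 1 := by
    intro h
    apply hz1
    rw [h] at hyx
    calc z = x⁻¹ * (x * z * x⁻¹) * x := by group
      _ = 1 := by rw [← hyx]; group
  have hyc : ∀ r ∈ Q, r * u = u * r → y * r = r * y := by
    intro r hr hru
    have h1 := hyfix r (Subgroup.mem_inf.mpr ⟨hr, mem_cs.mpr hru.symm⟩)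
    calc y * r = (r * y * r⁻¹) * r := by rw [h1]
      _ = r * y := by group
  rcases cent_half Q z u F0 huQ hu2 hu1 huz y hy1 hyz hyc with h | h
  · exact ⟨x, by rw [← hyx, h]⟩
  · obtain ⟨t, ht, htu⟩ := exists_q Q z u huQ huz hu1 cen comm
    refine ⟨t⁻¹ * x, ?_⟩
    calc t⁻¹ * x * z * (t⁻¹ * x)⁻¹ = t⁻¹ * (x * z * x⁻¹) * t := by group
      _ = t⁻¹ * (u * z) * t := by rw [← hyx, h]
      _ = t⁻¹ * (z * u * t) := by rw [hzu]; group
      _ = t⁻¹ * (t * u) := by rw [htu]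
      _ = u := by group

/-- a conjugate `u ≠ z` of `z` in `Q` is a commutator of two elements of `C(z)`. -/
theorem conj_in_comm [Finite G] (Q : Subgroup G) (z : G) (hE : IsExtraspecial 2 ↥Q)
    (F : Facts2 Q z) (hcard : 32 ≤ Nat.card Q) (a : G) (huQ : a * z * a⁻¹ ∈ Q)
    (huz : a * z * a⁻¹ ≠ z) :
    ∃ y1 y2 : G, y1 * z = z * y1 ∧ y2 * z = z * y2 ∧ y1 * y2 * y1⁻¹ * y2⁻¹ = a * z * a⁻¹ := by
  have F' := facts2_map Q z F a
  obtain ⟨⟨hzQ, hz2, hz1, hzc, cen, comm, hC⟩, hnorm, sq⟩ := F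
  have hzQ' : z ∈ Q.map (MulAut.conj a).toMonoidHom :=
    (mem_map_conj Q a z).mpr (main_gen Q hE z hzQ hz1 hz2 hzc cen hC hnorm a huQ)
  have F0' := F'
  obtain ⟨⟨huQ', hu2, hu1, huc, cen', comm', hC'⟩, hnorm', sq'⟩ := F'
  have hcard' : 32 ≤ Nat.card (Q.map (MulAut.conj a).toMonoidHom) := by
    rw [Subgroup.card_map_of_injective (MulAut.conj a).injective]; exact hcard
  obtain ⟨t, ht, htz⟩ := exists_q (Q.map (MulAut.conj a).toMonoidHom) (a * z * a⁻¹) z hzQ'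
    (Ne.symm huz) hz1 cen' comm'
  by_contra hcon
  push Not at hcon
  have hab : ∀ x ∈ Q.map (MulAut.conj a).toMonoidHom ⊓ Subgroup.centralizer ({z} : Set G),
      ∀ y ∈ Q.map (MulAut.conj a).toMonoidHom ⊓ Subgroup.centralizer ({z} : Set G),
      x * y = y * x := by
    intro x hx y hy
    obtain ⟨hxQ, hxz⟩ := Subgroup.mem_inf.mp hx
    obtain ⟨hyQ, hyz⟩ := Subgroup.mem_inf.mp hy
    rcases comm' x hxQ y hyQ with h | h
    · exact h
    · exfalso
      apply hcon x y (mem_cs.mp hxz).symm (mem_cs.mp hyz).symm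
      calc x * y * x⁻¹ * y⁻¹ = (x * y) * x⁻¹ * y⁻¹ := by group
        _ = (a * z * a⁻¹ * y * x) * x⁻¹ * y⁻¹ := by rw [h]
        _ = a * z * a⁻¹ := by group
  have hcov : ∀ s ∈ Q.map (MulAut.conj a).toMonoidHom,
      s ∈ Q.map (MulAut.conj a).toMonoidHom ⊓ Subgroup.centralizer ({z} : Set G) ∨
      t⁻¹ * s ∈ Q.map (MulAut.conj a).toMonoidHom ⊓ Subgroup.centralizer ({z} : Set G) := by
    intro s hs
    rcases half_cov _ (a * z * a⁻¹) z F0' hzQ' t ht htz s hs with h | h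
    · exact Or.inl (Subgroup.mem_inf.mpr ⟨hs, mem_cs.mpr h.symm⟩)
    · exact Or.inr (Subgroup.mem_inf.mpr
        ⟨Subgroup.mul_mem _ (Subgroup.inv_mem _ ht) hs, mem_cs.mpr h.symm⟩)
  have h8 := ab_half _ (a * z * a⁻¹) F0' _ inf_le_left t ht hcov hab
  omega

theorem s3299_main [Finite G] (hres : Cfsg.pResidual 2 G = ⊤) (z : G) (hz : orderOf z = 2)
    (E : Subgroup G)
    (hE : E = (Cfsg.pCore 2 ↥(Subgroup.centralizer ({z} : Set G))).map
      (Subgroup.centralizer ({z} : Set G)).subtype)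
    (hext : Cfsg.IsExtraspecial 2 ↥E) (hcent : Subgroup.centralizer (E : Set G) ≤ E) (n : ℕ)
    (hn : 2 ≤ n) (hcard : Nat.card ↥E = 2 ^ (2 * n + 1))
    (K : Subgroup G) (hKH : K ≤ Subgroup.centralizer ({z} : Set G))
    (hKn : ∀ h ∈ Subgroup.centralizer ({z} : Set G), K.map (MulAut.conj h).toMonoidHom = K)
    (hKi : K.relIndex (Subgroup.centralizer ({z} : Set G)) = 2) : E ≤ K := by
  classical
  have hEQ : E = QQ z := hE
  have hz1 : z ≠ 1 := by
    intro h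
    rw [h, orderOf_one] at hz
    omega
  have hzE : z ∈ E := by rw [hEQ]; exact zmem z hz
  have hQH : ∀ y ∈ E, z * y = y * z := by
    intro y hy
    rw [hEQ] at hy
    exact mem_cs.mp (QQ_le z hy)
  have hC : ∀ h : G, (∀ y ∈ E, h * y = y * h) → h ∈ E := by
    intro h hh
    apply hcent
    rw [Subgroup.mem_centralizer_iff]
    intro y hy
    exact (hh y hy).symm
  have hnorm : ∀ h : G, h * z = z * h → ∀ y ∈ E, h * y * h⁻¹ ∈ E := by
    intro h hh y hy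
    rw [hEQ] at hy ⊢
    exact QQ_conj_mem z (mem_cs.mpr hh.symm) hy
  have F := facts2_basic E z hext hzE hz1 hQH hC hnorm
  have hQ2 : IsPGroup 2 E := hext.1.1
  have hc32 : 32 ≤ Nat.card E := by
    rw [hcard]
    have h5 : 2 ^ 5 ≤ 2 ^ (2 * n + 1) := Nat.pow_le_pow_right (by norm_num) (by omega)
    omega
  have hKn' : ∀ h ∈ Subgroup.centralizer ({z} : Set G), ∀ k ∈ K, h * k * h⁻¹ ∈ K := by
    intro h hh k hk
    have h1 : h * k * h⁻¹ ∈ K.map (MulAut.conj h).toMonoidHom := ⟨k, hk, rfl⟩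
    rw [hKn h hh] at h1
    exact h1
  have hmulH : ∀ a ∈ Subgroup.centralizer ({z} : Set G),
      ∀ b ∈ Subgroup.centralizer ({z} : Set G), (a * b ∈ K ↔ (a ∈ K ↔ b ∈ K)) :=
    fun a ha b hb => Cfsg.Agent.Helper22.mul_mem_iff_of_relIndex_two hKi ha hb
  have hEH : E ≤ Subgroup.centralizer ({z} : Set G) := fun y hy => mem_cs.mpr (hQH y hy)
  have hcomm : ∀ y1 ∈ Subgroup.centralizer ({z} : Set G),
      ∀ y2 ∈ Subgroup.centralizer ({z} : Set G), y1 * y2 * y1⁻¹ * y2⁻¹ ∈ K := by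
    intro y1 h1 y2 h2
    have e : y1 * y2 * y1⁻¹ * y2⁻¹ = (y1 * y2 * y1⁻¹) * y2⁻¹ := by group
    rw [e, hmulH _ (Subgroup.mul_mem _ (Subgroup.mul_mem _ h1 h2) (Subgroup.inv_mem _ h1)) _
      (Subgroup.inv_mem _ h2), Subgroup.inv_mem_iff]
    constructor
    · intro h
      have h3 := hKn' y1⁻¹ (Subgroup.inv_mem _ h1) _ h
      have e2 : y1⁻¹ * (y1 * y2 * y1⁻¹) * y1⁻¹⁻¹ = y2 := by group
      rw [e2] at h3; exact h3
    · intro h
      exact hKn' y1 h1 y2 h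
  obtain ⟨⟨hzQ, hz2, -, hzc, cen, comm, -⟩, -, sq⟩ := F
  have F0 : Facts2 E z := facts2_basic E z hext hzE hz1 hQH hC hnorm
  have hzK : z ∈ K := by
    have hex : ∃ x ∈ E, x ≠ 1 ∧ x ≠ z := by
      by_contra hno
      push Not at hno
      have h2 : Nat.card E ≤ [1, z].length := by
        apply card_le_of_list E [1, z]
        intro s hs
        by_cases h1 : s = 1
        · rw [h1]; simp
        · rw [hno s hs h1]; simp
      have h3 : [1, z].length = 2 := rfl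
      omega
    obtain ⟨x, hx, hx1, hxz⟩ := hex
    obtain ⟨q, hq, hqx⟩ := exists_q E z x hx hxz hx1 cen comm
    have h4 := hcomm q (hEH hq) x (hEH hx)
    have e : q * x * q⁻¹ * x⁻¹ = z := by
      calc q * x * q⁻¹ * x⁻¹ = (q * x) * q⁻¹ * x⁻¹ := by group
        _ = (z * x * q) * q⁻¹ * x⁻¹ := by rw [hqx]
        _ = z := by group
    rw [e] at h4; exact h4
  by_contra hnot
  obtain ⟨x0, hx0E, hx0K⟩ := SetLike.not_le_iff_exists.mp hnot
  obtain ⟨u, huE, huK, hu2⟩ := exists_inv_out E z F0 hc32 K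
    (fun a ha b hb => hmulH a (hEH ha) b (hEH hb)) x0 hx0E hx0K
  have huz : u ≠ z := fun h => huK (h ▸ hzK)
  obtain ⟨a, ha⟩ := fuse_u hres z E F0 hQ2 K hKH hKn' hKi u huE huK hu2 huz
  obtain ⟨y1, y2, h1, h2, h3⟩ := conj_in_comm E z hext F0 hc32 a (by rw [ha]; exact huE)
    (by rw [ha]; exact huz)
  apply huK
  rw [← ha, ← h3]
  exact hcomm y1 (mem_cs.mpr h1.symm) y2 (mem_cs.mpr h2.symm)

end Cfsg.Agent.Lead.XS
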