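import Mathlib
import Cfsg.Prelude.Def_MonsterType
import Cfsg.Agent.Lead.XS14
import Cfsg.Agent.Lead.XS9
import Cfsg.Agent.Lead.XS6
import Cfsg.Agent.Helper1.Heis2

/-!
# Large extraspecial images under a homomorphism with kernel of order two (lead)
-/

set_option autoImplicit false
set_option linter.style.haveILetI false

namespace Cfsg.Agent.Lead.XS

open Cfsg
open scoped commutatorElement

variable {C : Type*} [Group C] {D : Type*} [Group D]

/-- Data for the quotient argument: `π` is onto with kernel `{1, t}`, `t` central; `P` is a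
`2`-group with centre `⟨t, z⟩`, commutators and squares in `⟨z⟩`. -/
structure QD (π : C →* D) (P : Subgroup C) (t z u : C) : Prop where
  surj : Function.Surjective π
  ker : ∀ x : C, π x = 1 ↔ x = 1 ∨ x = t
  tc : ∀ c : C, t * c = c * t
  t2 : t * t = 1
  t1 : t ≠ 1
  zP : z ∈ P
  z2 : z * z = 1
  z1 : z ≠ 1
  zt : z ≠ t
  zc : ∀ p ∈ P, z * p = p * z
  comm : ∀ a ∈ P, ∀ b ∈ P, a * b = b * a ∨ a * b = z * b * a
  sq : ∀ p ∈ P, p * p = 1 ∨ p * p = z
  cen : ∀ p ∈ P, (∀ q ∈ P, p * q = q * p) → p = 1 ∨ p = z ∨ p = t ∨ p = t * z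
  uP : u ∈ P
  u1 : u ≠ 1
  u2 : u * u = 1
  uz : u ≠ z
  ut : u ≠ t
  utz : u ≠ t * z
  h6 : ∀ c : C, c * z * c⁻¹ = z * t → False
  h7 : ∀ c : C, c * z = z * c → ∀ p ∈ P, c * p * c⁻¹ ∈ P
  h8 : ∀ c : C, c * z = z * c → (∀ p ∈ P, c * p * c⁻¹ = p ∨ c * p * c⁻¹ = p * t) → c ∈ P
  h9 : ∀ p ∈ P, ∃ j : ℕ, p ^ (2 ^ j) = 1

variable {π : C →* D} {P : Subgroup C} {t z u : C}

theorem QD.pit (H : QD π P t z u) : π t = 1 := (H.ker t).mpr (Or.inr rfl)

theorem QD.comm_ker (H : QD π P t z u) (a b : C) (h : π a * π b = π b * π a) :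
    a * b = b * a ∨ a * b = t * b * a := by
  have h1 : π (a * b * (b * a)⁻¹) = 1 := by
    rw [map_mul, map_inv, map_mul, map_mul, h, mul_inv_cancel]
  rcases (H.ker _).mp h1 with h2 | h2
  · left
    exact mul_inv_eq_one.mp h2
  · right
    have h3 : a * b = t * (b * a) := mul_inv_eq_iff_eq_mul.mp h2
    rw [h3, mul_assoc]

theorem QD.z_center (H : QD π P t z u) (hzm : π z ∈ P.map π) :
    (⟨π z, hzm⟩ : ↥(P.map π)) ∈ Subgroup.center ↥(P.map π) := by
  rw [Subgroup.mem_center_iff]
  intro y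
  obtain ⟨q, hq, hqy⟩ := y.2
  apply Subtype.ext
  show (y : D) * π z = π z * y
  rw [← hqy, ← map_mul, ← map_mul, H.zc q hq]

theorem qd_xs [Finite D] (H : QD π P t z u) : IsExtraspecial 2 ↥(P.map π) := by
  haveI : Fact (Nat.Prime 2) := ⟨Nat.prime_two⟩
  have hzm : π z ∈ P.map π := Subgroup.mem_map_of_mem π H.zP
  have hpz1 : π z ≠ 1 := by
    intro h
    rcases (H.ker z).mp h with h | h
    · exact H.z1 h
    · exact H.zt h
  have hpz2 : π z * π z = 1 := by rw [← map_mul, H.z2, map_one]
  have es : Cfsg.Agent.Helper1.ESData 2 ↥(P.map π) ⟨π z, hzm⟩ := by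
    refine ⟨?_, ?_, ?_, ?_, ?_⟩
    · intro h
      exact hpz1 (congrArg Subtype.val h)
    · apply Subtype.ext
      show (π z) ^ 2 = 1
      rw [pow_two, hpz2]
    · ext x
      obtain ⟨p, hp, hpx⟩ := x.2
      constructor
      · intro hc
        rw [Subgroup.mem_center_iff] at hc
        have hall : ∀ q ∈ P, p * q = q * p := by
          intro q hq
          have h1 := hc ⟨π q, Subgroup.mem_map_of_mem π hq⟩
          have h2 : π q * (x : D) = (x : D) * π q := congrArg Subtype.val h1
          rw [← hpx] at h2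
          rcases H.comm p hp q hq with h3 | h3
          · exact h3
          · exfalso
            rcases H.comm_ker p q h2.symm with h4 | h4
            · have h5 : z * (q * p) = 1 * (q * p) := by
                rw [one_mul, ← mul_assoc, ← h3, h4]
              exact H.z1 (mul_right_cancel h5)
            · have h5 : z * (q * p) = t * (q * p) := by
                rw [← mul_assoc, ← mul_assoc, ← h3, ← h4]
              exact H.zt (mul_right_cancel h5)
        rcases H.cen p hp hall with h | h | h | h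
        · have e : x = 1 := by
            apply Subtype.ext
            show (x : D) = 1
            rw [← hpx, h, map_one]
          rw [e]
          exact one_mem _
        · have e : x = ⟨π z, hzm⟩ := by
            apply Subtype.ext
            show (x : D) = π z
            rw [← hpx, h]
          rw [e]
          exact Subgroup.mem_zpowers _
        · have e : x = 1 := by
            apply Subtype.ext
            show (x : D) = 1
            rw [← hpx, h, H.pit]
          rw [e]
          exact one_mem _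
        · have e : x = ⟨π z, hzm⟩ := by
            apply Subtype.ext
            show (x : D) = π z
            rw [← hpx, h, map_mul, H.pit, one_mul]
          rw [e]
          exact Subgroup.mem_zpowers _
      · intro hz'
        exact (Subgroup.zpowers_le.mpr (H.z_center hzm)) hz'
    · intro a b
      obtain ⟨p, hp, hpa⟩ := a.2
      obtain ⟨q, hq, hqb⟩ := b.2
      rcases H.comm p hp q hq with h | h
      · have e : ⁅a, b⁆ = 1 := by
          rw [commutatorElement_eq_one_iff_mul_comm]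
          apply Subtype.ext
          show (a : D) * b = b * a
          rw [← hpa, ← hqb, ← map_mul, ← map_mul, h]
        rw [e]
        exact one_mem _
      · have e : ⁅a, b⁆ = ⟨π z, hzm⟩ := by
          apply Subtype.ext
          show (a : D) * b * (a : D)⁻¹ * (b : D)⁻¹ = π z
          rw [← hpa, ← hqb, ← map_mul, h, map_mul, map_mul]
          group
        rw [e]
        exact Subgroup.mem_zpowers _
    · intro a
      obtain ⟨p, hp, hpa⟩ := a.2
      rcases H.sq p hp with h | h
      · have e : a ^ 2 = 1 := by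
          apply Subtype.ext
          show (a : D) ^ 2 = 1
          rw [← hpa, ← map_pow, pow_two, h, map_one]
        rw [e]
        exact one_mem _
      · have e : a ^ 2 = ⟨π z, hzm⟩ := by
          apply Subtype.ext
          show (a : D) ^ 2 = π z
          rw [← hpa, ← map_pow, pow_two, h]
        rw [e]
        exact Subgroup.mem_zpowers _
  refine Cfsg.Agent.Helper1.extraspecial_of_esdata_two es
    ⟨⟨π u, Subgroup.mem_map_of_mem π H.uP⟩, ?_⟩
  intro hc
  rw [es.hcen] at hc
  have hz2' : (⟨π z, hzm⟩ : ↥(P.map π)) * ⟨π z, hzm⟩ = 1 := Subtype.ext hpz2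
  rcases zp_cases _ hz2' _ hc with h | h
  · have h1 : π u = 1 := congrArg Subtype.val h
    rcases (H.ker u).mp h1 with h2 | h2
    · exact H.u1 h2
    · exact H.ut h2
  · have h1 : π u = π z := congrArg Subtype.val h
    have h2 : π (u * z⁻¹) = 1 := by rw [map_mul, map_inv, h1, mul_inv_cancel]
    rcases (H.ker _).mp h2 with h3 | h3
    · exact H.uz (mul_inv_eq_one.mp h3)
    · exact H.utz (mul_inv_eq_iff_eq_mul.mp h3)

theorem qd_cent (H : QD π P t z u) :
    Subgroup.centralizer ((P.map π : Subgroup D) : Set D) =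
      (Subgroup.center ↥(P.map π)).map (P.map π).subtype := by
  apply le_antisymm
  · intro x hx
    obtain ⟨c, rfl⟩ := H.surj x
    rw [Subgroup.mem_centralizer_iff] at hx
    have hall : ∀ p ∈ P, c * p * c⁻¹ = p ∨ c * p * c⁻¹ = p * t := by
      intro p hp
      have h1 := hx (π p) (Subgroup.mem_map_of_mem π hp)
      rcases H.comm_ker c p h1.symm with h2 | h2
      · left
        rw [h2]
        group
      · right
        rw [h2, H.tc p]
        group
    have hcz : c * z = z * c := by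
      rcases hall z H.zP with h | h
      · calc c * z = c * z * c⁻¹ * c := by group
          _ = z * c := by rw [h]
      · exact (H.h6 c h).elim
    have hcP : c ∈ P := H.h8 c hcz hall
    refine ⟨⟨π c, Subgroup.mem_map_of_mem π hcP⟩, Subgroup.mem_center_iff.mpr ?_, rfl⟩
    intro y
    apply Subtype.ext
    exact hx y y.2
  · rintro _ ⟨x, hc, rfl⟩
    rw [Subgroup.mem_centralizer_iff]
    intro y hy
    have h1 := Subgroup.mem_center_iff.mp hc ⟨y, hy⟩
    exact congrArg Subtype.val h1

theorem qd_norm [Finite D] (H : QD π P t z u) :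
    Subgroup.centralizer (((Subgroup.center ↥(P.map π)).map (P.map π).subtype : Subgroup D) :
      Set D) ≤ Subgroup.normalizer ((P.map π : Subgroup D) : Set D) := by
  apply le_nzr
  intro x hx y hy
  obtain ⟨c, rfl⟩ := H.surj x
  obtain ⟨p, hp, rfl⟩ := hy
  rw [Subgroup.mem_centralizer_iff] at hx
  have hzm : π z ∈ P.map π := Subgroup.mem_map_of_mem π H.zP
  have h1 := hx (π z) ⟨⟨π z, hzm⟩, H.z_center hzm, rfl⟩
  have hcz : c * z = z * c := by
    rcases H.comm_ker c z h1.symm with h2 | h2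
    · exact h2
    · exfalso
      apply H.h6 c
      rw [h2, H.tc z]
      group
  have h3 := H.h7 c hcz p hp
  have e : π c * π p * (π c)⁻¹ = π (c * p * c⁻¹) := by rw [map_mul, map_mul, map_inv]
  rw [e]
  exact Subgroup.mem_map_of_mem π h3

theorem qd_large [Finite D] (H : QD π P t z u) (Qu : Subgroup C)
    (hQu2 : ∀ x ∈ Qu, ∃ j : ℕ, x ^ (2 ^ j) = 1) (hzQu : z ∈ Qu)
    (hQun : ∀ c : C, c * u = u * c → ∀ x ∈ Qu, c * x * c⁻¹ ∈ Qu)
    (q : C) (hq : q ∈ P) (hqu : q * u * q⁻¹ = z * u)
    (K : Subgroup D) (hK : Odd (Nat.card K))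
    (hPK : P.map π ≤ Subgroup.normalizer (K : Set D)) : K = ⊥ := by
  obtain ⟨m, hm⟩ : ∃ m, m = Nat.card K := ⟨_, rfl⟩
  have hmodd : Odd m := hm ▸ hK
  have hKm : ∀ k ∈ K, k ^ m = 1 := by
    intro k hk
    have h2 : ((⟨k, hk⟩ : ↥K) ^ Nat.card ↥K : ↥K) = 1 := pow_card_eq_one'
    have h3 := congrArg Subtype.val h2
    rw [Subgroup.coe_pow] at h3
    rw [hm]
    exact h3
  have tm : t ^ m = t := by
    obtain ⟨r, hr⟩ := hmodd
    rw [hr, pow_succ, pow_mul, pow_two, H.t2, one_pow, one_mul]
  have lift : ∀ k ∈ K, ∃ c : C, π c = k ∧ c ^ m = 1 := by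
    intro k hk
    obtain ⟨c, rfl⟩ := H.surj k
    have h1 : π (c ^ m) = 1 := by
      rw [map_pow]
      exact hKm _ hk
    rcases (H.ker _).mp h1 with h2 | h2
    · exact ⟨c, rfl, h2⟩
    · refine ⟨c * t, ?_, ?_⟩
      · rw [map_mul, H.pit, mul_one]
      · rw [(show Commute c t from (H.tc c).symm).mul_pow, h2, tm, H.t2]
  have hconj : ∀ p ∈ P, ∀ k ∈ K, π p * k * (π p)⁻¹ ∈ K := by
    intro p hp k hk
    have h1 := hPK (Subgroup.mem_map_of_mem π hp)
    exact (Subgroup.mem_normalizer_iff.mp h1 k).mp hk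
  have hconj' : ∀ p ∈ P, ∀ k ∈ K, (π p)⁻¹ * k * π p ∈ K := by
    intro p hp k hk
    have h1 := hconj p⁻¹ (P.inv_mem hp) k hk
    rwa [map_inv, inv_inv] at h1
  have sub : ∀ s k : C, k ^ m = 1 → π (s * k * s⁻¹ * k⁻¹) = 1 → s * k = k * s := by
    intro s k hk h
    rcases (H.ker _).mp h with h1 | h1
    · calc s * k = s * k * s⁻¹ * k⁻¹ * k * s := by group
        _ = k * s := by rw [h1]; group
    · exfalso
      have h2 : s * k * s⁻¹ = t * k := by
        calc s * k * s⁻¹ = s * k * s⁻¹ * k⁻¹ * k := by group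
          _ = t * k := by rw [h1]
      have h3 : (s * k * s⁻¹) ^ m = 1 := by
        rw [conj_pow, hk]
        group
      rw [h2, (show Commute t k from H.tc k).mul_pow, hk, tm, mul_one] at h3
      exact H.t1 h3
  have two : ∀ x : C, (∃ j : ℕ, x ^ (2 ^ j) = 1) → π x ∈ K → π x = 1 := by
    rintro x ⟨j, hj⟩ hx
    exact odd_pow_triv K hK (π x) hx j (by rw [← map_pow, hj, map_one])
  have odd1 : ∀ k : C, k ^ m = 1 → (∃ j : ℕ, k ^ (2 ^ j) = 1) → k = 1 := by
    rintro k hk ⟨j, hj⟩
    have h1 : orderOf k ∣ m := orderOf_dvd_of_pow_eq_one hk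
    have h2 : orderOf k ∣ 2 ^ j := orderOf_dvd_of_pow_eq_one hj
    have hcop : Nat.Coprime m (2 ^ j) := Nat.Coprime.pow_right j hmodd.coprime_two_right
    have h3 : orderOf k = 1 := (Nat.Coprime.coprime_dvd_left h1 hcop).eq_one_of_dvd h2
    exact orderOf_eq_one_iff.mp h3
  have main : ∀ k : C, k ^ m = 1 → π k ∈ K → k * z = z * k → k = 1 := by
    intro k hk hkK hkz
    have hcomm : ∀ p ∈ P, p * k = k * p := by
      intro p hp
      apply sub p k hk
      have h1 : p * k * p⁻¹ * k⁻¹ ∈ P := by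
        have h2 := H.h7 k hkz p⁻¹ (P.inv_mem hp)
        have e : p * k * p⁻¹ * k⁻¹ = p * (k * p⁻¹ * k⁻¹) := by group
        rw [e]
        exact P.mul_mem hp h2
      apply two _ (H.h9 _ h1)
      have e : π (p * k * p⁻¹ * k⁻¹) = π p * π k * (π p)⁻¹ * (π k)⁻¹ := by
        rw [map_mul, map_mul, map_mul, map_inv, map_inv]
      rw [e]
      exact K.mul_mem (hconj p hp _ hkK) (K.inv_mem hkK)
    have hkP : k ∈ P := by
      apply H.h8 k hkz
      intro p hp
      left
      rw [← hcomm p hp]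
      group
    exact odd1 k hk (H.h9 k hkP)
  have fz : ∀ k ∈ K, k * π z = π z * k → k = 1 := by
    intro k hk hkz
    obtain ⟨c, rfl, hc⟩ := lift k hk
    have h1 : z * c = c * z := by
      apply sub z c hc
      rw [map_mul, map_mul, map_mul, map_inv, map_inv, ← hkz]
      group
    rw [main c hc hk h1.symm, map_one]
  have fu : ∀ k ∈ K, k * π u = π u * k → k = 1 := by
    intro k hk hku
    obtain ⟨c, rfl, hc⟩ := lift k hk
    have h1 : u * c = c * u := by
      apply sub u c hc
      rw [map_mul, map_mul, map_mul, map_inv, map_inv, ← hku]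
      group
    have h2 : z * c = c * z := by
      apply sub z c hc
      have h3 : z * c * z⁻¹ * c⁻¹ ∈ Qu := by
        have h4 := hQun c h1.symm z⁻¹ (Qu.inv_mem hzQu)
        have e : z * c * z⁻¹ * c⁻¹ = z * (c * z⁻¹ * c⁻¹) := by group
        rw [e]
        exact Qu.mul_mem hzQu h4
      apply two _ (hQu2 _ h3)
      have e : π (z * c * z⁻¹ * c⁻¹) = π z * π c * (π z)⁻¹ * (π c)⁻¹ := by
        rw [map_mul, map_mul, map_mul, map_inv, map_inv]
      rw [e]
      exact K.mul_mem (hconj z H.zP _ hk) (K.inv_mem hk)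
    rw [main c hc hk h2.symm, map_one]
  have fzu : ∀ k ∈ K, k * π (z * u) = π (z * u) * k → k = 1 := by
    intro k hk hkzu
    have h1 : (π q)⁻¹ * k * π q ∈ K := hconj' q hq k hk
    have h2 : (π q)⁻¹ * k * π q = 1 := by
      apply fu _ h1
      have e : π (z * u) = π q * π u * (π q)⁻¹ := by
        rw [← hqu, map_mul, map_mul, map_inv]
      rw [e] at hkzu
      calc (π q)⁻¹ * k * π q * π u = (π q)⁻¹ * (k * (π q * π u * (π q)⁻¹)) * π q := by group
        _ = (π q)⁻¹ * ((π q * π u * (π q)⁻¹) * k) * π q := by rw [hkzu]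
        _ = π u * ((π q)⁻¹ * k * π q) := by group
    calc k = π q * ((π q)⁻¹ * k * π q) * (π q)⁻¹ := by group
      _ = 1 := by rw [h2]; group
  have iz := inverts_of_fpf K (π z) (by rw [← map_mul, H.z2, map_one]) (hconj z H.zP) fz
  have iu := inverts_of_fpf K (π u) (by rw [← map_mul, H.u2, map_one]) (hconj u H.uP) fu
  have hzu2 : (z * u) * (z * u) = 1 := by
    calc z * u * (z * u) = z * (u * z) * u := by group
      _ = z * (z * u) * u := by rw [H.zc u H.uP]
      _ = (z * z) * (u * u) := by group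
      _ = 1 := by rw [H.z2, H.u2, one_mul]
  have izu := inverts_of_fpf K (π (z * u)) (by rw [← map_mul, hzu2, map_one])
    (hconj (z * u) (P.mul_mem H.zP H.uP)) fzu
  rw [Subgroup.eq_bot_iff_forall]
  intro k hk
  have h1 := iz k hk
  have h2 := iu k hk
  have h3 := izu k hk
  have h4 : π (z * u) * k * (π (z * u))⁻¹ = k := by
    rw [map_mul]
    calc π z * π u * k * (π z * π u)⁻¹ = π z * (π u * k * (π u)⁻¹) * (π z)⁻¹ := by group
      _ = π z * k⁻¹ * (π z)⁻¹ := by rw [h2]
      _ = (π z * k * (π z)⁻¹)⁻¹ := by group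
      _ = k := by rw [h1, inv_inv]
  have h5 : k⁻¹ = k := h3.symm.trans h4
  have h6 : k * k = 1 := by
    nth_rewrite 1 [← h5]
    exact inv_mul_cancel k
  exact odd_pow_triv K hK k hk 1 (by rw [pow_one, pow_two]; exact h6)

theorem qd_main [Finite D] (H : QD π P t z u) (Qu : Subgroup C)
    (hQu2 : ∀ x ∈ Qu, ∃ j : ℕ, x ^ (2 ^ j) = 1) (hzQu : z ∈ Qu)
    (hQun : ∀ c : C, c * u = u * c → ∀ x ∈ Qu, c * x * c⁻¹ ∈ Qu)
    (q : C) (hq : q ∈ P) (hqu : q * u * q⁻¹ = z * u) :
    IsLargeExtraspecial (P.map π) :=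
  ⟨qd_xs H, qd_cent H, qd_norm H,
    fun K hK hPK => qd_large H Qu hQu2 hzQu hQun q hq hqu K hK hPK⟩

end Cfsg.Agent.Lead.XS
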