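import Mathlib
import Cfsg.Agent.Lead.XS20
import Cfsg.Agent.Lead.XS18

/-!
# The centralizer of a non-2-central involution of a large extraspecial subgroup (lead)
-/

set_option autoImplicit false
set_option linter.style.haveILetI false

namespace Cfsg.Agent.Lead.XS

open Cfsg

variable {G : Type*} [Group G]

set_option maxHeartbeats 1600000 in
theorem s5429_main [Finite G] (z : G) (hz : orderOf z = 2) (Q : Subgroup G)
    (hQC : Q ≤ Subgroup.centralizer ({z} : Set G))
    (hF : (Cfsg.generalizedFittingSubgroup ↥(Subgroup.centralizer ({z} : Set G))).map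
      (Subgroup.centralizer ({z} : Set G)).subtype = Q)
    (hQ : Cfsg.IsExtraspecial 2 ↥Q) (w : ℕ) (hw : 3 ≤ w) (hcard : Nat.card ↥Q = 2 ^ (2 * w + 1))
    (g : G) (hgQ : g * z * g⁻¹ ∈ Q) (hgZ : g * z * g⁻¹ ∉ ((Subgroup.center ↥Q).map Q.subtype))
    (t : G) (ht : orderOf t = 2) (htQ : t ∈ Q ⊓ (Q).map (MulAut.conj g).toMonoidHom)
    (htz : ¬ IsConj z t) (P : Subgroup G) (hP : P = Q ⊓ Subgroup.centralizer ({t} : Set G))
    (hCP : ∀ c ∈ Subgroup.centralizer ({z} : Set G),
      (∀ x ∈ P, ∃ y ∈ Subgroup.closure ({t, z} : Set G), c * x * c⁻¹ = x * y) ↔ c ∈ Q)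
    [hn : ((Subgroup.zpowers t).subgroupOf (Subgroup.centralizer ({t} : Set G))).Normal] :
    Cfsg.IsLargeExtraspecial ((P.subgroupOf (Subgroup.centralizer ({t} : Set G))).map
      (QuotientGroup.mk' ((Subgroup.zpowers t).subgroupOf
        (Subgroup.centralizer ({t} : Set G))))) ∧
    ∃ x ∈ P ⊔ ((Q).map (MulAut.conj g).toMonoidHom ⊓ Subgroup.centralizer ({t} : Set G)),
      x * (g * z * g⁻¹) * x⁻¹ = z := by
  obtain ⟨F2, -, -, hzp, -⟩ := fs_setup z hz Q hF hQ
  have F0 := F2
  obtain ⟨⟨hzQ, hz2, hz1, hzc, cen, comm, hC⟩, hnorm, sq⟩ := F0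
  have hzQu : z ∈ Q.map (MulAut.conj g).toMonoidHom :=
    (mem_map_conj Q g z).mpr (main_gen Q hQ z hzQ hz1 hz2 hzc cen hC hnorm g hgQ)
  have F2u := facts2_map Q z F2 g
  obtain ⟨u, hu⟩ : ∃ u, u = g * z * g⁻¹ := ⟨_, rfl⟩
  rw [← hu] at hgQ hgZ F2u ⊢
  obtain ⟨Qu, hQu⟩ : ∃ Qu, Qu = Q.map (MulAut.conj g).toMonoidHom := ⟨_, rfl⟩
  rw [← hQu] at hzQu F2u htQ ⊢
  have F0u := F2u
  obtain ⟨⟨huQu, hu2, hu1, huc, cenu, commu, hCu⟩, hnormu, squ⟩ := F0u
  rw [hzp] at hgZ
  have huz : u ≠ z := by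
    intro h
    apply hgZ
    rw [h]
    exact Subgroup.mem_zpowers z
  obtain ⟨htQ1, htQu⟩ := Subgroup.mem_inf.mp htQ
  have ht2 : t * t = 1 := by rw [← pow_two, ← ht, pow_orderOf_eq_one]
  have ht1 : t ≠ 1 := by
    intro h
    rw [h, orderOf_one] at ht
    omega
  have htz' : t ≠ z := by
    intro h
    apply htz
    rw [h]
  have htu : t ≠ u := by
    intro h
    apply htz
    rw [h, hu]
    exact isConj_iff.mpr ⟨g, rfl⟩
  have hzu : z * u = u * z := hzc u hgQ
  have hzt : z * t = t * z := hzc t htQ1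
  have hut : u * t = t * u := huc t htQu
  obtain ⟨q₀, hq₀, hq₀u⟩ := exists_q Q z u hgQ huz hu1 cen comm
  have htzu : t ≠ z * u := by
    intro h
    apply htz
    rw [h]
    refine isConj_iff.mpr ⟨q₀ * g, ?_⟩
    calc q₀ * g * z * (q₀ * g)⁻¹ = q₀ * (g * z * g⁻¹) * q₀⁻¹ := by group
      _ = q₀ * u * q₀⁻¹ := by rw [← hu]
      _ = z * u := by rw [hq₀u]; group
  have hPm : ∀ x, x ∈ P ↔ x ∈ Q ∧ t * x = x * t := by
    intro x
    rw [hP, Subgroup.mem_inf, mem_cs]
  -- the element `q ∈ P` moving `u` to `z u`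
  have hq : ∃ q ∈ Q, q * t = t * q ∧ q * u ≠ u * q := by
    by_contra hcon
    push Not at hcon
    rcases cent_half Q z t F2 htQ1 ht2 ht1 htz' u hu1 huz
      (fun r hr hrt => (hcon r hr hrt).symm) with h | h
    · exact htu h.symm
    · apply htzu
      rw [hzu, h, mul_assoc, hz2, mul_one]
  obtain ⟨q, hqQ, hqt, hqu⟩ := hq
  have hqu' : q * u = z * u * q := (comm q hqQ u hgQ).resolve_left hqu
  have hquc : q * u * q⁻¹ = z * u := by
    rw [hqu']
    group
  have hqP : q ∈ P := (hPm q).mpr ⟨hqQ, hqt.symm⟩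
  -- the element `r ∈ Qu` moving `z` to `u z`
  have hr : ∃ r ∈ Qu, r * t = t * r ∧ r * z ≠ z * r := by
    by_contra hcon
    push Not at hcon
    rcases cent_half Qu u t F2u htQu ht2 ht1 htu z hz1 (Ne.symm huz)
      (fun r hr hrt => (hcon r hr hrt).symm) with h | h
    · exact htz' h.symm
    · apply htzu
      rw [h, mul_assoc, hu2, mul_one]
  obtain ⟨r, hrQu, hrt, hrz⟩ := hr
  have hrz' : r * z = u * z * r := (commu r hrQu z hzQu).resolve_left hrz
  refine ⟨?_, r * q, Subgroup.mul_mem _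
    (Subgroup.mem_sup_right (Subgroup.mem_inf.mpr ⟨hrQu, mem_cs.mpr hrt.symm⟩))
    (Subgroup.mem_sup_left hqP), ?_⟩
  swap
  · calc r * q * u * (r * q)⁻¹ = r * (q * u * q⁻¹) * r⁻¹ := by group
      _ = r * (z * u) * r⁻¹ := by rw [hquc]
      _ = (r * z) * (u * r⁻¹) := by group
      _ = (u * z * r) * (u * r⁻¹) := by rw [hrz']
      _ = u * z * (r * u) * r⁻¹ := by group
      _ = u * z * (u * r) * r⁻¹ := by rw [huc r hrQu]
      _ = (u * z) * u := by group
      _ = (z * u) * u := by rw [hzu]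
      _ = z := by rw [mul_assoc, hu2, mul_one]
  -- the quotient
  have htC : t ∈ Subgroup.centralizer ({t} : Set G) := mem_cs.mpr rfl
  have hzC : z ∈ Subgroup.centralizer ({t} : Set G) := mem_cs.mpr hzt.symm
  have huC : u ∈ Subgroup.centralizer ({t} : Set G) := mem_cs.mpr hut.symm
  have hqC : q ∈ Subgroup.centralizer ({t} : Set G) := mem_cs.mpr hqt.symm
  have hPs : ∀ x : ↥(Subgroup.centralizer ({t} : Set G)),
      x ∈ P.subgroupOf (Subgroup.centralizer ({t} : Set G)) ↔ (x : G) ∈ Q := by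
    intro x
    rw [Subgroup.mem_subgroupOf, hP, Subgroup.mem_inf]
    exact ⟨fun h => h.1, fun h => ⟨h, x.2⟩⟩
  have HD : QD (QuotientGroup.mk' ((Subgroup.zpowers t).subgroupOf
      (Subgroup.centralizer ({t} : Set G)))) (P.subgroupOf (Subgroup.centralizer ({t} : Set G)))
      ⟨t, htC⟩ ⟨z, hzC⟩ ⟨u, huC⟩ := by
    refine { surj := QuotientGroup.mk'_surjective _, ker := ?_, tc := ?_, t2 := Subtype.ext ht2,
             t1 := fun h => ht1 (congrArg Subtype.val h), zP := (hPs _).mpr hzQ,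
             z2 := Subtype.ext hz2, z1 := fun h => hz1 (congrArg Subtype.val h),
             zt := fun h => htz' (congrArg Subtype.val h).symm, zc := ?_, comm := ?_, sq := ?_,
             cen := ?_, uP := (hPs _).mpr hgQ, u1 := fun h => hu1 (congrArg Subtype.val h),
             u2 := Subtype.ext hu2, uz := fun h => huz (congrArg Subtype.val h),
             ut := fun h => htu (congrArg Subtype.val h).symm, utz := ?_, h6 := ?_, h7 := ?_,
             h8 := ?_, h9 := ?_ }
    · intro x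
      rw [QuotientGroup.mk'_apply, QuotientGroup.eq_one_iff, Subgroup.mem_subgroupOf]
      constructor
      · intro h
        rcases zp_cases t ht2 _ h with h1 | h1
        · left
          exact Subtype.ext h1
        · right
          exact Subtype.ext h1
      · rintro (h | h)
        · rw [h]
          exact one_mem _
        · rw [h]
          exact Subgroup.mem_zpowers t
    · intro c
      apply Subtype.ext
      exact mem_cs.mp c.2
    · intro p hp
      apply Subtype.ext
      exact hzc _ ((hPs p).mp hp)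
    · intro a ha b hb
      rcases comm _ ((hPs a).mp ha) _ ((hPs b).mp hb) with h | h
      · left
        exact Subtype.ext h
      · right
        exact Subtype.ext h
    · intro p hp
      rcases sq _ ((hPs p).mp hp) with h | h
      · exact Or.inl (Subtype.ext h)
      · exact Or.inr (Subtype.ext h)
    · intro p hp hall
      by_cases h1 : (p : G) = 1
      · left
        exact Subtype.ext h1
      by_cases h2 : (p : G) = z
      · right
        left
        exact Subtype.ext h2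
      right
      right
      have hyc : ∀ r ∈ Q, r * t = t * r → (p : G) * r = r * p := by
        intro r hr hrt
        have hrC : r ∈ Subgroup.centralizer ({t} : Set G) := mem_cs.mpr hrt.symm
        have h3 := hall ⟨r, hrC⟩ ((hPs _).mpr hr)
        exact congrArg Subtype.val h3
      rcases cent_half Q z t F2 htQ1 ht2 ht1 htz' (p : G) h1 h2 hyc with h | h
      · left
        exact Subtype.ext h
      · right
        exact Subtype.ext h
    · intro h
      have h1 : u = t * z := congrArg Subtype.val h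
      apply htzu
      rw [h1, ← mul_assoc, hzt, mul_assoc, hz2, mul_one]
    · intro c hc
      have h1 : (c : G) * z * (c : G)⁻¹ = z * t := congrArg Subtype.val hc
      obtain ⟨q₁, hq₁, hq₁t⟩ := exists_q Q z t htQ1 htz' ht1 cen comm
      apply htz
      refine isConj_iff.mpr ⟨q₁⁻¹ * c, ?_⟩
      calc q₁⁻¹ * c * z * (q₁⁻¹ * c)⁻¹ = q₁⁻¹ * (c * z * (c : G)⁻¹) * q₁ := by group
        _ = q₁⁻¹ * (z * t) * q₁ := by rw [h1]
        _ = q₁⁻¹ * (z * t * q₁) := by group
        _ = q₁⁻¹ * (q₁ * t) := by rw [hq₁t]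
        _ = t := by group
    · intro c hc p hp
      have hcz : (c : G) * z = z * c := congrArg Subtype.val hc
      rw [hPs]
      exact hnorm c hcz p ((hPs p).mp hp)
    · intro c hc hall
      have hcz : (c : G) * z = z * c := congrArg Subtype.val hc
      rw [hPs]
      apply (hCP c (mem_cs.mpr hcz.symm)).mp
      intro x hx
      have hxQ : x ∈ Q ∧ t * x = x * t := (hPm x).mp hx
      have hxC : x ∈ Subgroup.centralizer ({t} : Set G) := mem_cs.mpr hxQ.2
      rcases hall ⟨x, hxC⟩ ((hPs _).mpr hxQ.1) with h | h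
      · refine ⟨1, one_mem _, ?_⟩
        rw [mul_one]
        exact congrArg Subtype.val h
      · exact ⟨t, Subgroup.subset_closure (by simp), congrArg Subtype.val h⟩
    · intro p hp
      obtain ⟨j, hj⟩ := hQ.1.1 ⟨(p : G), (hPs p).mp hp⟩
      refine ⟨j, Subtype.ext ?_⟩
      have h1 := congrArg Subtype.val hj
      rw [Subgroup.coe_pow] at h1
      show (p : G) ^ (2 ^ j) = 1
      exact h1
  have hQu2 : ∀ x ∈ Qu.subgroupOf (Subgroup.centralizer ({t} : Set G)),
      ∃ j : ℕ, x ^ (2 ^ j) = 1 := by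
    intro x hx
    rw [Subgroup.mem_subgroupOf, hQu] at hx
    obtain ⟨w', hw', hwx⟩ := hx
    obtain ⟨j, hj⟩ := hQ.1.1 ⟨w', hw'⟩
    have hj' : w' ^ (2 ^ j) = 1 := by
      have h1 := congrArg Subtype.val hj
      rwa [Subgroup.coe_pow] at h1
    refine ⟨j, Subtype.ext ?_⟩
    show (x : G) ^ (2 ^ j) = 1
    rw [← hwx, ← map_pow, hj', map_one]
  have hQun : ∀ c : ↥(Subgroup.centralizer ({t} : Set G)), c * ⟨u, huC⟩ = ⟨u, huC⟩ * c →
      ∀ x ∈ Qu.subgroupOf (Subgroup.centralizer ({t} : Set G)),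
        c * x * c⁻¹ ∈ Qu.subgroupOf (Subgroup.centralizer ({t} : Set G)) := by
    intro c hc x hx
    have hcu : (c : G) * u = u * c := congrArg Subtype.val hc
    rw [Subgroup.mem_subgroupOf] at hx ⊢
    exact hnormu c hcu x hx
  exact qd_main HD (Qu.subgroupOf (Subgroup.centralizer ({t} : Set G))) hQu2
    (Subgroup.mem_subgroupOf.mpr hzQu) hQun ⟨q, hqC⟩ ((hPs _).mpr hqQ) (Subtype.ext hquc)

end Cfsg.Agent.Lead.XS
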