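import Mathlib
import Cfsg.Prelude.Def_MonsterType
import Cfsg.Agent.Lead.XS20

/-!
# Large extraspecial images under a homomorphism with kernel of odd order (lead)
-/

set_option autoImplicit false
set_option linter.style.haveILetI false

namespace Cfsg.Agent.Lead.XS

open Cfsg
open scoped commutatorElement

variable {C : Type*} [Group C] {D : Type*} [Group D]

/-- Data for the quotient argument with a kernel `A` of odd order centralized by the
`2`-group `P`, whose centre is `⟨z⟩`. -/
structure QE (π : C →* D) (A P : Subgroup C) (z u : C) : Prop where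
  surj : Function.Surjective π
  ker : ∀ x : C, π x = 1 ↔ x ∈ A
  hA : ∀ a ∈ A, ∀ j : ℕ, a ^ (2 ^ j) = 1 → a = 1
  PA : ∀ r ∈ P, ∀ a ∈ A, r * a = a * r
  P2 : ∀ r ∈ P, ∃ j : ℕ, r ^ (2 ^ j) = 1
  zP : z ∈ P
  z2 : z * z = 1
  z1 : z ≠ 1
  zc : ∀ p ∈ P, z * p = p * z
  comm : ∀ a ∈ P, ∀ b ∈ P, a * b = b * a ∨ a * b = z * b * a
  sq : ∀ p ∈ P, p * p = 1 ∨ p * p = z
  cen : ∀ p ∈ P, (∀ q ∈ P, p * q = q * p) → p = 1 ∨ p = z
  uP : u ∈ P
  u1 : u ≠ 1
  u2 : u * u = 1
  uz : u ≠ z
  hX : ∀ c : C, (∀ p ∈ P, c * p = p * c) → π c = 1 ∨ π c = π z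
  h7 : ∀ c : C, c * z = z * c → ∀ p ∈ P, c * p * c⁻¹ ∈ P

variable {π : C →* D} {A P : Subgroup C} {z u : C}

theorem QE.lift_comm (H : QE π A P z u) (r k : C) (hr : r ∈ P)
    (h : π r * π k = π k * π r) : r * k = k * r := by
  obtain ⟨j, hj⟩ := H.P2 r hr
  obtain ⟨a, ha_def⟩ : ∃ a, a = k⁻¹ * (r * k * r⁻¹) := ⟨_, rfl⟩
  have ha : a ∈ A := by
    apply (H.ker a).mp
    rw [ha_def, map_mul, map_inv, map_mul, map_mul, map_inv, h]
    group
  have hka : r * k * r⁻¹ = k * a := by
    rw [ha_def]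
    group
  have hra : r * a = a * r := H.PA r hr a ha
  have hran : ∀ n : ℕ, r * a ^ n * r⁻¹ = a ^ n := by
    intro n
    have h1 : r * a ^ n = a ^ n * r := (show Commute r a from hra).pow_right n
    rw [h1]
    group
  have hpow : ∀ n : ℕ, r ^ n * k * (r ^ n)⁻¹ = k * a ^ n := by
    intro n
    induction n with
    | zero => simp
    | succ n ih =>
      calc r ^ (n + 1) * k * (r ^ (n + 1))⁻¹ = r * (r ^ n * k * (r ^ n)⁻¹) * r⁻¹ := by
            rw [pow_succ']
            group
        _ = r * (k * a ^ n) * r⁻¹ := by rw [ih]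
        _ = (r * k * r⁻¹) * (r * a ^ n * r⁻¹) := by group
        _ = (k * a) * a ^ n := by rw [hka, hran]
        _ = k * a ^ (n + 1) := by rw [pow_succ', mul_assoc]
  have h1 := hpow (2 ^ j)
  rw [hj, one_mul, inv_one, mul_one] at h1
  have h2 : a ^ (2 ^ j) = 1 := by
    have h3 : k * 1 = k * a ^ (2 ^ j) := by rw [mul_one]; exact h1
    exact (mul_left_cancel h3).symm
  have h3 : a = 1 := H.hA a ha j h2
  rw [h3, mul_one] at hka
  calc r * k = r * k * r⁻¹ * r := by group
    _ = k * r := by rw [hka]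

theorem QE.z_center (H : QE π A P z u) (hzm : π z ∈ P.map π) :
    (⟨π z, hzm⟩ : ↥(P.map π)) ∈ Subgroup.center ↥(P.map π) := by
  rw [Subgroup.mem_center_iff]
  intro y
  obtain ⟨q, hq, hqy⟩ := y.2
  apply Subtype.ext
  show (y : D) * π z = π z * y
  rw [← hqy, ← map_mul, ← map_mul, H.zc q hq]

theorem QE.piz (H : QE π A P z u) : π z ≠ 1 := by
  intro h
  have hzA := (H.ker z).mp h
  exact H.z1 (H.hA z hzA 1 (by rw [pow_one, pow_two]; exact H.z2))

theorem qe_xs [Finite D] (H : QE π A P z u) : IsExtraspecial 2 ↥(P.map π) := by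
  haveI : Fact (Nat.Prime 2) := ⟨Nat.prime_two⟩
  have hzm : π z ∈ P.map π := Subgroup.mem_map_of_mem π H.zP
  have hpz1 : π z ≠ 1 := H.piz
  have hpz2 : π z * π z = 1 := by rw [← map_mul, H.z2, map_one]
  have es : Cfsg.Agent.Helper1.ESData 2 ↥(P.map π) ⟨π z, hzm⟩ := by
    refine ⟨?_, ?_, ?_, ?_, ?_⟩
    · intro h
      exact hpz1 (congrArg Subtype.val h)
    · apply Subtype.ext
      show (π z) ^ 2 = 1
      rw [pow_two, hpz2]
    · ext x
      obtain ⟨p, hp, hpx⟩ := x.2
      constructor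
      · intro hc
        rw [Subgroup.mem_center_iff] at hc
        have hall : ∀ q ∈ P, p * q = q * p := by
          intro q hq
          have h1 := hc ⟨π q, Subgroup.mem_map_of_mem π hq⟩
          have h2 : π q * (x : D) = (x : D) * π q := congrArg Subtype.val h1
          rw [← hpx] at h2
          exact H.lift_comm p q hp h2.symm
        rcases H.cen p hp hall with h | h
        · have e : x = 1 := by
            apply Subtype.ext
            show (x : D) = 1
            rw [← hpx, h, map_one]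
          rw [e]
          exact one_mem _
        · have e : x = ⟨π z, hzm⟩ := by
            apply Subtype.ext
            show (x : D) = π z
            rw [← hpx, h]
          rw [e]
          exact Subgroup.mem_zpowers _
      · intro hz'
        exact (Subgroup.zpowers_le.mpr (H.z_center hzm)) hz'
    · intro a b
      obtain ⟨p, hp, hpa⟩ := a.2
      obtain ⟨q, hq, hqb⟩ := b.2
      rcases H.comm p hp q hq with h | h
      · have e : ⁅a, b⁆ = 1 := by
          rw [commutatorElement_eq_one_iff_mul_comm]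
          apply Subtype.ext
          show (a : D) * b = b * a
          rw [← hpa, ← hqb, ← map_mul, ← map_mul, h]
        rw [e]
        exact one_mem _
      · have e : ⁅a, b⁆ = ⟨π z, hzm⟩ := by
          apply Subtype.ext
          show (a : D) * b * (a : D)⁻¹ * (b : D)⁻¹ = π z
          rw [← hpa, ← hqb, ← map_mul, h, map_mul, map_mul]
          group
        rw [e]
        exact Subgroup.mem_zpowers _
    · intro a
      obtain ⟨p, hp, hpa⟩ := a.2
      rcases H.sq p hp with h | h
      · have e : a ^ 2 = 1 := by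
          apply Subtype.ext
          show (a : D) ^ 2 = 1
          rw [← hpa, ← map_pow, pow_two, h, map_one]
        rw [e]
        exact one_mem _
      · have e : a ^ 2 = ⟨π z, hzm⟩ := by
          apply Subtype.ext
          show (a : D) ^ 2 = π z
          rw [← hpa, ← map_pow, pow_two, h]
        rw [e]
        exact Subgroup.mem_zpowers _
  refine Cfsg.Agent.Helper1.extraspecial_of_esdata_two es
    ⟨⟨π u, Subgroup.mem_map_of_mem π H.uP⟩, ?_⟩
  intro hc
  rw [es.hcen] at hc
  have hz2' : (⟨π z, hzm⟩ : ↥(P.map π)) * ⟨π z, hzm⟩ = 1 := Subtype.ext hpz2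
  rcases zp_cases _ hz2' _ hc with h | h
  · have h1 : π u = 1 := congrArg Subtype.val h
    have huA := (H.ker u).mp h1
    exact H.u1 (H.hA u huA 1 (by rw [pow_one, pow_two]; exact H.u2))
  · have h1 : π u = π z := congrArg Subtype.val h
    have h2 : π (u * z) = 1 := by rw [map_mul, h1, hpz2]
    have huzA := (H.ker _).mp h2
    have h3 : (u * z) * (u * z) = 1 := by
      calc u * z * (u * z) = u * (z * u) * z := by group
        _ = u * (u * z) * z := by rw [H.zc u H.uP]
        _ = (u * u) * (z * z) := by group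
        _ = 1 := by rw [H.u2, H.z2, one_mul]
    have h4 : u * z = 1 := H.hA _ huzA 1 (by rw [pow_one, pow_two]; exact h3)
    apply H.uz
    calc u = u * (z * z) := by rw [H.z2, mul_one]
      _ = (u * z) * z := by group
      _ = z := by rw [h4, one_mul]

theorem qe_cent (H : QE π A P z u) :
    Subgroup.centralizer ((P.map π : Subgroup D) : Set D) =
      (Subgroup.center ↥(P.map π)).map (P.map π).subtype := by
  apply le_antisymm
  · intro x hx
    obtain ⟨c, rfl⟩ := H.surj x
    rw [Subgroup.mem_centralizer_iff] at hx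
    have hall : ∀ p ∈ P, c * p = p * c := by
      intro p hp
      have h1 := hx (π p) (Subgroup.mem_map_of_mem π hp)
      exact (H.lift_comm p c hp h1).symm
    have hmem : π c ∈ P.map π := by
      rcases H.hX c hall with h | h
      · rw [h]
        exact one_mem _
      · rw [h]
        exact Subgroup.mem_map_of_mem π H.zP
    refine ⟨⟨π c, hmem⟩, Subgroup.mem_center_iff.mpr ?_, rfl⟩
    intro y
    apply Subtype.ext
    exact hx y y.2
  · rintro _ ⟨x, hc, rfl⟩
    rw [Subgroup.mem_centralizer_iff]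
    intro y hy
    have h1 := Subgroup.mem_center_iff.mp hc ⟨y, hy⟩
    exact congrArg Subtype.val h1

theorem qe_norm [Finite D] (H : QE π A P z u) :
    Subgroup.centralizer (((Subgroup.center ↥(P.map π)).map (P.map π).subtype : Subgroup D) :
      Set D) ≤ Subgroup.normalizer ((P.map π : Subgroup D) : Set D) := by
  apply le_nzr
  intro x hx y hy
  obtain ⟨c, rfl⟩ := H.surj x
  obtain ⟨p, hp, rfl⟩ := hy
  rw [Subgroup.mem_centralizer_iff] at hx
  have hzm : π z ∈ P.map π := Subgroup.mem_map_of_mem π H.zP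
  have h1 := hx (π z) ⟨⟨π z, hzm⟩, H.z_center hzm, rfl⟩
  have hcz : c * z = z * c := (H.lift_comm z c H.zP h1).symm
  have h3 := H.h7 c hcz p hp
  have e : π c * π p * (π c)⁻¹ = π (c * p * c⁻¹) := by rw [map_mul, map_mul, map_inv]
  rw [e]
  exact Subgroup.mem_map_of_mem π h3

theorem qe_large [Finite D] (H : QE π A P z u) (Qu : Subgroup C)
    (hQu2 : ∀ x ∈ Qu, ∃ j : ℕ, x ^ (2 ^ j) = 1) (hzQu : z ∈ Qu)
    (hQun : ∀ c : C, c * u = u * c → ∀ x ∈ Qu, c * x * c⁻¹ ∈ Qu)
    (q : C) (hq : q ∈ P) (hqu : q * u * q⁻¹ = z * u)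
    (K : Subgroup D) (hK : Odd (Nat.card K))
    (hPK : P.map π ≤ Subgroup.normalizer (K : Set D)) : K = ⊥ := by
  have hconj : ∀ p ∈ P, ∀ k ∈ K, π p * k * (π p)⁻¹ ∈ K := by
    intro p hp k hk
    have h1 := hPK (Subgroup.mem_map_of_mem π hp)
    exact (Subgroup.mem_normalizer_iff.mp h1 k).mp hk
  have hconj' : ∀ p ∈ P, ∀ k ∈ K, (π p)⁻¹ * k * π p ∈ K := by
    intro p hp k hk
    have h1 := hconj p⁻¹ (P.inv_mem hp) k hk
    rwa [map_inv, inv_inv] at h1
  have two : ∀ x : C, (∃ j : ℕ, x ^ (2 ^ j) = 1) → π x ∈ K → π x = 1 := by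
    rintro x ⟨j, hj⟩ hx
    exact odd_pow_triv K hK (π x) hx j (by rw [← map_pow, hj, map_one])
  have main : ∀ k : C, π k ∈ K → k * z = z * k → π k = 1 := by
    intro k hkK hkz
    have hcomm : ∀ p ∈ P, k * p = p * k := by
      intro p hp
      have h1 : p * k * p⁻¹ * k⁻¹ ∈ P := by
        have h2 := H.h7 k hkz p⁻¹ (P.inv_mem hp)
        have e : p * k * p⁻¹ * k⁻¹ = p * (k * p⁻¹ * k⁻¹) := by group
        rw [e]
        exact P.mul_mem hp h2
      have h3 : π (p * k * p⁻¹ * k⁻¹) = 1 := by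
        apply two _ (H.P2 _ h1)
        have e : π (p * k * p⁻¹ * k⁻¹) = π p * π k * (π p)⁻¹ * (π k)⁻¹ := by
          rw [map_mul, map_mul, map_mul, map_inv, map_inv]
        rw [e]
        exact K.mul_mem (hconj p hp _ hkK) (K.inv_mem hkK)
      have h4 : π p * π k = π k * π p := by
        rw [map_mul, map_mul, map_mul, map_inv, map_inv] at h3
        calc π p * π k = (π p * π k * (π p)⁻¹ * (π k)⁻¹) * (π k * π p) := by group
          _ = π k * π p := by rw [h3, one_mul]
      exact (H.lift_comm p k hp h4).symm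
    rcases H.hX k hcomm with h | h
    · exact h
    · rw [h]
      apply two z ⟨1, by rw [pow_one, pow_two]; exact H.z2⟩
      rw [← h]
      exact hkK
  have fz : ∀ k ∈ K, k * π z = π z * k → k = 1 := by
    intro k hk hkz
    obtain ⟨c, rfl⟩ := H.surj k
    have h1 : z * c = c * z := H.lift_comm z c H.zP hkz.symm
    exact main c hk h1.symm
  have fu : ∀ k ∈ K, k * π u = π u * k → k = 1 := by
    intro k hk hku
    obtain ⟨c, rfl⟩ := H.surj k
    have h1 : u * c = c * u := H.lift_comm u c H.uP hku.symm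
    have h3 : z * c * z⁻¹ * c⁻¹ ∈ Qu := by
      have h4 := hQun c h1.symm z⁻¹ (Qu.inv_mem hzQu)
      have e : z * c * z⁻¹ * c⁻¹ = z * (c * z⁻¹ * c⁻¹) := by group
      rw [e]
      exact Qu.mul_mem hzQu h4
    have h5 : π (z * c * z⁻¹ * c⁻¹) = 1 := by
      apply two _ (hQu2 _ h3)
      have e : π (z * c * z⁻¹ * c⁻¹) = π z * π c * (π z)⁻¹ * (π c)⁻¹ := by
        rw [map_mul, map_mul, map_mul, map_inv, map_inv]
      rw [e]
      exact K.mul_mem (hconj z H.zP _ hk) (K.inv_mem hk)
    have h6 : π z * π c = π c * π z := by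
      rw [map_mul, map_mul, map_mul, map_inv, map_inv] at h5
      calc π z * π c = (π z * π c * (π z)⁻¹ * (π c)⁻¹) * (π c * π z) := by group
        _ = π c * π z := by rw [h5, one_mul]
    have h2 : z * c = c * z := H.lift_comm z c H.zP h6
    exact main c hk h2.symm
  have fzu : ∀ k ∈ K, k * π (z * u) = π (z * u) * k → k = 1 := by
    intro k hk hkzu
    have h1 : (π q)⁻¹ * k * π q ∈ K := hconj' q hq k hk
    have h2 : (π q)⁻¹ * k * π q = 1 := by
      apply fu _ h1
      have e : π (z * u) = π q * π u * (π q)⁻¹ := by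
        rw [← hqu, map_mul, map_mul, map_inv]
      rw [e] at hkzu
      calc (π q)⁻¹ * k * π q * π u = (π q)⁻¹ * (k * (π q * π u * (π q)⁻¹)) * π q := by group
        _ = (π q)⁻¹ * ((π q * π u * (π q)⁻¹) * k) * π q := by rw [hkzu]
        _ = π u * ((π q)⁻¹ * k * π q) := by group
    calc k = π q * ((π q)⁻¹ * k * π q) * (π q)⁻¹ := by group
      _ = 1 := by rw [h2]; group
  have iz := inverts_of_fpf K (π z) (by rw [← map_mul, H.z2, map_one]) (hconj z H.zP) fz
  have iu := inverts_of_fpf K (π u) (by rw [← map_mul, H.u2, map_one]) (hconj u H.uP) fu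
  have hzu2 : (z * u) * (z * u) = 1 := by
    calc z * u * (z * u) = z * (u * z) * u := by group
      _ = z * (z * u) * u := by rw [H.zc u H.uP]
      _ = (z * z) * (u * u) := by group
      _ = 1 := by rw [H.z2, H.u2, one_mul]
  have izu := inverts_of_fpf K (π (z * u)) (by rw [← map_mul, hzu2, map_one])
    (hconj (z * u) (P.mul_mem H.zP H.uP)) fzu
  rw [Subgroup.eq_bot_iff_forall]
  intro k hk
  have h1 := iz k hk
  have h2 := iu k hk
  have h3 := izu k hk
  have h4 : π (z * u) * k * (π (z * u))⁻¹ = k := by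
    rw [map_mul]
    calc π z * π u * k * (π z * π u)⁻¹ = π z * (π u * k * (π u)⁻¹) * (π z)⁻¹ := by group
      _ = π z * k⁻¹ * (π z)⁻¹ := by rw [h2]
      _ = (π z * k * (π z)⁻¹)⁻¹ := by group
      _ = k := by rw [h1, inv_inv]
  have h5 : k⁻¹ = k := h3.symm.trans h4
  have h6 : k * k = 1 := by
    nth_rewrite 1 [← h5]
    exact inv_mul_cancel k
  exact odd_pow_triv K hK k hk 1 (by rw [pow_one, pow_two]; exact h6)

theorem qe_main [Finite D] (H : QE π A P z u) (Qu : Subgroup C)
    (hQu2 : ∀ x ∈ Qu, ∃ j : ℕ, x ^ (2 ^ j) = 1) (hzQu : z ∈ Qu)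
    (hQun : ∀ c : C, c * u = u * c → ∀ x ∈ Qu, c * x * c⁻¹ ∈ Qu)
    (q : C) (hq : q ∈ P) (hqu : q * u * q⁻¹ = z * u) :
    IsLargeExtraspecial (P.map π) :=
  ⟨qe_xs H, qe_cent H, qe_norm H,
    fun K hK hPK => qe_large H Qu hQu2 hzQu hQun q hq hqu K hK hPK⟩

end Cfsg.Agent.Lead.XS
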