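import Mathlib
import Cfsg.Agent.Lead.XS22
import Cfsg.Agent.Lead.XS18
import Cfsg.Agent.Lead.Coprime
import Cfsg.Agent.Helper10.PComp
import Cfsg.Agent.Helper10.Layer
import Cfsg.Agent.S0219

/-!
# The centralizer of an odd-order subgroup acting on a large extraspecial subgroup (lead)
-/

set_option autoImplicit false
set_option linter.style.haveILetI false

namespace Cfsg.Agent.Lead.XS

open Cfsg

variable {G : Type*} [Group G]

/-- Coprime action on an extraspecial group: a non-central element `v` of `Q` fixed by the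
odd-order group `A` is moved by some element of `C_Q(A)`. -/
theorem exists_fix_q [Finite G] (Q : Subgroup G) (z : G) (F : Facts2 Q z) (hQ2 : IsPGroup 2 ↥Q)
    (A : Subgroup G) (hAz : ∀ a ∈ A, a * z = z * a) (hAodd : Odd (Nat.card A))
    (v : G) (hv : v ∈ Q) (hAv : ∀ a ∈ A, a * v = v * a) (hv1 : v ≠ 1) (hvz : v ≠ z) :
    ∃ q ∈ Q, (∀ a ∈ A, a * q = q * a) ∧ q * v = z * v * q := by
  haveI : Fact (Nat.Prime 2) := ⟨Nat.prime_two⟩
  obtain ⟨⟨hzQ, hz2, hz1, hzc, cen, comm, hC⟩, hnorm, sq⟩ := F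
  obtain ⟨x, hx, hxv⟩ := exists_q Q z v hv hvz hv1 cen comm
  have hAK : A ≤ Subgroup.normalizer (Q : Set G) :=
    le_nzr A Q (fun a ha q hq => hnorm a (hAz a ha) q hq)
  have hDmem : ∀ d, d ∈ Q ⊓ Subgroup.centralizer ({v} : Set G) ↔ d ∈ Q ∧ v * d = d * v := by
    intro d
    rw [Subgroup.mem_inf, mem_cs]
  have hAD : A ≤ Subgroup.normalizer
      ((Q ⊓ Subgroup.centralizer ({v} : Set G) : Subgroup G) : Set G) := by
    apply le_nzr
    intro a ha d hd
    obtain ⟨hdQ, hdv⟩ := (hDmem d).mp hd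
    refine (hDmem _).mpr ⟨hnorm a (hAz a ha) d hdQ, ?_⟩
    have hav := hAv a ha
    have hav' := hAv a⁻¹ (A.inv_mem ha)
    calc v * (a * d * a⁻¹) = (v * a) * d * a⁻¹ := by group
      _ = (a * v) * d * a⁻¹ := by rw [hav]
      _ = a * (v * d) * a⁻¹ := by group
      _ = a * (d * v) * a⁻¹ := by rw [hdv]
      _ = a * d * (v * a⁻¹) := by group
      _ = a * d * (a⁻¹ * v) := by rw [hav']
      _ = a * d * a⁻¹ * v := by group
  have hcop : (Nat.card A).Coprime (Nat.card Q) := by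
    obtain ⟨n, hn⟩ := hQ2.exists_card_eq
    rw [hn]
    exact Nat.Coprime.pow_right n hAodd.coprime_two_right
  have hsolv : Group.IsSolvable A ∨
      Group.IsSolvable ↥(Q ⊓ Subgroup.centralizer ({v} : Set G) : Subgroup G) := by
    right
    have hD2 : IsPGroup 2 ↥(Q ⊓ Subgroup.centralizer ({v} : Set G) : Subgroup G) :=
      hQ2.to_le inf_le_left
    haveI := hD2.isNilpotent
    infer_instance
  have hxD : ∀ a ∈ A, x⁻¹ * a * x * a⁻¹ ∈ Q ⊓ Subgroup.centralizer ({v} : Set G) := by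
    intro a ha
    have hxa : a * x * a⁻¹ ∈ Q := hnorm a (hAz a ha) x hx
    have e : x⁻¹ * a * x * a⁻¹ = x⁻¹ * (a * x * a⁻¹) := by group
    rw [e]
    refine (hDmem _).mpr ⟨Q.mul_mem (Q.inv_mem hx) hxa, ?_⟩
    have hav := hAv a ha
    have hav' := hAv a⁻¹ (A.inv_mem ha)
    have haz := hAz a ha
    have h1 : (a * x * a⁻¹) * v = z * v * (a * x * a⁻¹) := by
      calc a * x * a⁻¹ * v = a * x * (a⁻¹ * v) := by group
        _ = a * x * (v * a⁻¹) := by rw [hav']
        _ = a * (x * v) * a⁻¹ := by group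
        _ = a * (z * v * x) * a⁻¹ := by rw [hxv]
        _ = (a * z) * v * x * a⁻¹ := by group
        _ = (z * a) * v * x * a⁻¹ := by rw [haz]
        _ = z * (a * v) * x * a⁻¹ := by group
        _ = z * (v * a) * x * a⁻¹ := by rw [hav]
        _ = z * v * (a * x * a⁻¹) := by group
    have hzx : z * x⁻¹ = x⁻¹ * z := hzc x⁻¹ (Q.inv_mem hx)
    have h2 : v * x⁻¹ = z * x⁻¹ * v := by
      calc v * x⁻¹ = x⁻¹ * (x * v) * x⁻¹ := by group
        _ = x⁻¹ * (z * v * x) * x⁻¹ := by rw [hxv]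
        _ = (x⁻¹ * z) * v := by group
        _ = z * x⁻¹ * v := by rw [hzx]
    have h3 : v * (a * x * a⁻¹) = z * (a * x * a⁻¹) * v := by
      calc v * (a * x * a⁻¹) = (z * z) * v * (a * x * a⁻¹) := by rw [hz2, one_mul]
        _ = z * (z * v * (a * x * a⁻¹)) := by group
        _ = z * ((a * x * a⁻¹) * v) := by rw [h1]
        _ = z * (a * x * a⁻¹) * v := by group
    calc v * (x⁻¹ * (a * x * a⁻¹)) = (v * x⁻¹) * (a * x * a⁻¹) := by group
      _ = (z * x⁻¹ * v) * (a * x * a⁻¹) := by rw [h2]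
      _ = z * x⁻¹ * (v * (a * x * a⁻¹)) := by group
      _ = z * x⁻¹ * (z * (a * x * a⁻¹) * v) := by rw [h3]
      _ = (z * x⁻¹) * z * (a * x * a⁻¹) * v := by group
      _ = (x⁻¹ * z) * z * (a * x * a⁻¹) * v := by rw [hzx]
      _ = x⁻¹ * (z * z) * (a * x * a⁻¹) * v := by group
      _ = x⁻¹ * (a * x * a⁻¹) * v := by rw [hz2, mul_one]
  obtain ⟨n, hn, hc⟩ := Cfsg.Agent.Lead.exists_mul_mem_centralizer A Q
    (Q ⊓ Subgroup.centralizer ({v} : Set G)) hAK hAD inf_le_left hcop hsolv x hx hxD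
  obtain ⟨hnQ, hnv⟩ := (hDmem n).mp hn
  refine ⟨x * n, Q.mul_mem hx hnQ, ?_, ?_⟩
  · intro a ha
    exact Subgroup.mem_centralizer_iff.mp hc a ha
  · calc x * n * v = x * (n * v) := by group
      _ = x * (v * n) := by rw [hnv]
      _ = (x * v) * n := by group
      _ = (z * v * x) * n := by rw [hxv]
      _ = z * v * (x * n) := by group

/-- A group of order `2 · odd` with a central involution `z` and odd core inside `A`. -/
theorem x_struct [Finite G] (X A : Subgroup G) (z : G) (hzX : z ∈ X) (hz2 : z * z = 1)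
    (hz1 : z ≠ 1) (h4 : ¬ 4 ∣ Nat.card ↥X) (hO : (Cfsg.oddCore ↥X).map X.subtype ≤ A) :
    ∀ c ∈ X, c ∈ A ∨ c * z ∈ A := by
  haveI : Fact (Nat.Prime 2) := ⟨Nat.prime_two⟩
  have hz'2 : (⟨z, hzX⟩ : ↥X) * ⟨z, hzX⟩ = 1 := Subtype.ext hz2
  have hz'1 : (⟨z, hzX⟩ : ↥X) ≠ 1 := fun h => hz1 (congrArg Subtype.val h)
  have hord : orderOf (⟨z, hzX⟩ : ↥X) = 2 :=
    orderOf_eq_prime (by rw [pow_two]; exact hz'2) hz'1
  have h2 : 2 ∣ Nat.card ↥X := hord ▸ orderOf_dvd_natCard _
  obtain ⟨T⟩ := (Sylow.nonempty : Nonempty (Sylow 2 ↥X))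
  have hT2 : 2 ∣ Nat.card ↥(T : Subgroup ↥X) := T.dvd_card_of_dvd_card h2
  obtain ⟨k, hk⟩ := T.isPGroup'.exists_card_eq
  have hTdvd : Nat.card ↥(T : Subgroup ↥X) ∣ Nat.card ↥X := Subgroup.card_subgroup_dvd_card _
  have hk1 : k = 1 := by
    rcases k with _ | _ | k
    · rw [hk] at hT2
      norm_num at hT2
    · rfl
    · exfalso
      apply h4
      rw [hk] at hTdvd
      exact dvd_trans (Dvd.intro (2 ^ k) (by ring)) hTdvd
  have hTc : IsCyclic ↥(T : Subgroup ↥X) := by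
    rw [hk1, pow_one] at hk
    exact isCyclic_of_prime_card hk
  obtain ⟨Y, hY⟩ := Cfsg.Agent.S0219.result (even_iff_two_dvd.mpr h2) T hTc
  have hYn : Y.Normal := Subgroup.normal_of_index_eq_two hY
  have hcard : Nat.card ↥Y * 2 = Nat.card ↥X := by
    rw [← hY]
    exact Y.card_mul_index
  have hYodd : Odd (Nat.card ↥Y) := by
    rw [← Nat.not_even_iff_odd]
    intro he
    apply h4
    obtain ⟨r, hr⟩ := he
    rw [← hcard, hr]
    exact ⟨r, by ring⟩
  have hYle : Y ≤ Cfsg.oddCore ↥X :=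
    Cfsg.Agent.Helper10.le_pPrimeCore 2 hYn hYodd.coprime_two_right
  have hzY : (⟨z, hzX⟩ : ↥X) ∉ Y := by
    intro h
    exact hz'1 (odd_pow_triv Y hYodd _ h 1 (by rw [pow_one, pow_two]; exact hz'2))
  intro c hc
  by_cases hcY : (⟨c, hc⟩ : ↥X) ∈ Y
  · left
    exact hO ⟨⟨c, hc⟩, hYle hcY, rfl⟩
  · right
    have h5 : (⟨c, hc⟩ : ↥X) * ⟨z, hzX⟩ ∈ Y := by
      rw [Subgroup.mul_mem_iff_of_index_two hY]
      exact ⟨fun h => (hcY h).elim, fun h => (hzY h).elim⟩
    exact hO ⟨⟨c, hc⟩ * ⟨z, hzX⟩, hYle h5, rfl⟩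

set_option maxHeartbeats 1600000 in
theorem s5428_main [Finite G] (z : G) (hz : orderOf z = 2) (Q : Subgroup G)
    (hQC : Q ≤ Subgroup.centralizer ({z} : Set G))
    (hF : (Cfsg.generalizedFittingSubgroup ↥(Subgroup.centralizer ({z} : Set G))).map
      (Subgroup.centralizer ({z} : Set G)).subtype = Q)
    (hQ : Cfsg.IsExtraspecial 2 ↥Q) (A : Subgroup G)
    (hA : A ≤ Subgroup.centralizer ({z} : Set G))
    (hAodd : Odd (Nat.card ↥A)) (R : Subgroup G)
    (hR : R = Q ⊓ Subgroup.centralizer (A : Set G))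
    (hO : (Cfsg.oddCore ↥(Subgroup.centralizer ((A ⊔ R : Subgroup G) : Set G))).map
      (Subgroup.centralizer ((A ⊔ R : Subgroup G) : Set G)).subtype ≤ A)
    (h4 : ¬ 4 ∣ Nat.card ↥(Subgroup.centralizer ((A ⊔ R : Subgroup G) : Set G)))
    (g : G) (hgR : g * z * g⁻¹ ∈ R)
    (hgZ : g * z * g⁻¹ ∉ ((Subgroup.center ↥Q).map Q.subtype))
    (M : Subgroup G) (hM : M = Subgroup.centralizer (A : Set G) ⊔ A)
    [hn : (A.subgroupOf M).Normal] :
    (M ⊓ Subgroup.centralizer ((R ⊔ A : Subgroup G) : Set G)) ⊔ A =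
        A ⊔ ((Subgroup.center ↥Q).map Q.subtype) ∧
      Cfsg.IsLargeExtraspecial ((R.subgroupOf M).map (QuotientGroup.mk' (A.subgroupOf M))) ∧
      ∃ x ∈ R ⊔ ((Q).map (MulAut.conj g).toMonoidHom ⊓ Subgroup.centralizer (A : Set G)),
        x * (g * z * g⁻¹) * x⁻¹ = z := by
  haveI : Fact (Nat.Prime 2) := ⟨Nat.prime_two⟩
  obtain ⟨F2, -, -, hzp, -⟩ := fs_setup z hz Q hF hQ
  have F0 := F2
  obtain ⟨⟨hzQ, hz2, hz1, hzc, cen, comm, hC⟩, hnorm, sq⟩ := F0
  have hQ2 : IsPGroup 2 ↥Q := hQ.1.1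
  have hRm : ∀ x, x ∈ R ↔ x ∈ Q ∧ ∀ a ∈ A, a * x = x * a := by
    intro x
    rw [hR, Subgroup.mem_inf, Subgroup.mem_centralizer_iff]
    exact Iff.rfl
  have hgQ : g * z * g⁻¹ ∈ Q := ((hRm _).mp hgR).1
  have hzQu : z ∈ Q.map (MulAut.conj g).toMonoidHom :=
    (mem_map_conj Q g z).mpr (main_gen Q hQ z hzQ hz1 hz2 hzc cen hC hnorm g hgQ)
  have F2u := facts2_map Q z F2 g
  have hQu2' : IsPGroup 2 ↥(Q.map (MulAut.conj g).toMonoidHom) := hQ2.map _
  obtain ⟨u, hu⟩ : ∃ u, u = g * z * g⁻¹ := ⟨_, rfl⟩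
  rw [← hu] at hgQ hgR hgZ F2u ⊢
  obtain ⟨Qu, hQu⟩ : ∃ Qu, Qu = Q.map (MulAut.conj g).toMonoidHom := ⟨_, rfl⟩
  rw [← hQu] at hzQu F2u hQu2' ⊢
  have F0u := F2u
  obtain ⟨⟨huQu, hu2, hu1, huc, cenu, commu, hCu⟩, hnormu, squ⟩ := F0u
  rw [hzp] at hgZ ⊢
  have huz : u ≠ z := by
    intro h
    apply hgZ
    rw [h]
    exact Subgroup.mem_zpowers z
  have hAz : ∀ a ∈ A, a * z = z * a := fun a ha => (mem_cs.mp (hA ha)).symm
  have hAu : ∀ a ∈ A, a * u = u * a := ((hRm u).mp hgR).2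
  have hzu : z * u = u * z := hzc u hgQ
  obtain ⟨q, hqQ, hqA, hqu⟩ := exists_fix_q Q z F2 hQ2 A hAz hAodd u hgQ hAu hu1 huz
  have hqR : q ∈ R := (hRm q).mpr ⟨hqQ, hqA⟩
  have hquc : q * u * q⁻¹ = z * u := by
    rw [hqu]
    group
  obtain ⟨r, hrQu, hrA, hrz⟩ :=
    exists_fix_q Qu u F2u hQu2' A hAu hAodd z hzQu hAz hz1 (Ne.symm huz)
  have hzX : z ∈ Subgroup.centralizer ((A ⊔ R : Subgroup G) : Set G) := by
    rw [Subgroup.mem_centralizer_iff]
    intro h hh
    have hle : A ⊔ R ≤ Subgroup.centralizer ({z} : Set G) :=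
      sup_le hA (fun x hx => hQC ((hRm x).mp hx).1)
    exact (mem_cs.mp (hle hh)).symm
  have hXs := x_struct (Subgroup.centralizer ((A ⊔ R : Subgroup G) : Set G)) A z hzX hz2 hz1 h4 hO
  have hcomm' : (R ⊔ A : Subgroup G) = A ⊔ R := sup_comm _ _
  have hCM : Subgroup.centralizer (A : Set G) ≤ M := by
    rw [hM]
    exact le_sup_left
  have hAM : A ≤ M := by
    rw [hM]
    exact le_sup_right
  have hRM : R ≤ M := fun x hx => hCM (Subgroup.mem_centralizer_iff.mpr ((hRm x).mp hx).2)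
  have hzR : z ∈ R := (hRm z).mpr ⟨hzQ, hAz⟩
  refine ⟨?_, ?_, ?_⟩
  · apply le_antisymm
    · apply sup_le _ le_sup_left
      intro x hx
      have hx2 := (Subgroup.mem_inf.mp hx).2
      rw [hcomm'] at hx2
      rcases hXs x hx2 with h | h
      · exact Subgroup.mem_sup_left h
      · have e : x = (x * z) * z := by rw [mul_assoc, hz2, mul_one]
        rw [e]
        exact Subgroup.mul_mem _ (Subgroup.mem_sup_left h)
          (Subgroup.mem_sup_right (Subgroup.mem_zpowers z))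
    · apply sup_le le_sup_right
      rw [Subgroup.zpowers_le]
      apply Subgroup.mem_sup_left
      refine Subgroup.mem_inf.mpr ⟨hRM hzR, ?_⟩
      rw [hcomm']
      exact hzX
  · -- the quotient
    have hdec : ∀ c ∈ M, ∃ c₀ ∈ Subgroup.centralizer (A : Set G), ∃ a ∈ A, c = c₀ * a := by
      intro c hc
      rw [hM] at hc
      exact Cfsg.Agent.Helper10.mem_sup_of_comm
        (fun c₀ hc₀ a ha => ((Subgroup.mem_centralizer_iff.mp hc₀) a ha).symm) hc
    have hAnorm : ∀ c ∈ M, ∀ a ∈ A, c * a * c⁻¹ ∈ A := by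
      intro c hc a ha
      obtain ⟨c₀, hc₀, a₁, ha₁, rfl⟩ := hdec c hc
      have hmem : a₁ * a * a₁⁻¹ ∈ A := A.mul_mem (A.mul_mem ha₁ ha) (A.inv_mem ha₁)
      have h1 : c₀ * (a₁ * a * a₁⁻¹) = (a₁ * a * a₁⁻¹) * c₀ :=
        ((Subgroup.mem_centralizer_iff.mp hc₀) _ hmem).symm
      have e : c₀ * a₁ * a * (c₀ * a₁)⁻¹ = c₀ * (a₁ * a * a₁⁻¹) * c₀⁻¹ := by group
      rw [e, h1]
      have e2 : a₁ * a * a₁⁻¹ * c₀ * c₀⁻¹ = a₁ * a * a₁⁻¹ := by group
      rw [e2]
      exact hmem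
    have hzM : z ∈ M := hRM hzR
    have huM : u ∈ M := hRM hgR
    have hqM : q ∈ M := hRM hqR
    have hRs : ∀ x : ↥M, x ∈ R.subgroupOf M ↔
        (x : G) ∈ Q ∧ ∀ a ∈ A, a * (x : G) = (x : G) * a := by
      intro x
      rw [Subgroup.mem_subgroupOf]
      exact hRm _
    obtain ⟨π, hπ⟩ : ∃ π, π = QuotientGroup.mk' (A.subgroupOf M) := ⟨_, rfl⟩
    rw [← hπ]
    have hπz2 : π ⟨z, hzM⟩ * π ⟨z, hzM⟩ = 1 := by
      rw [← map_mul]
      have e : (⟨z, hzM⟩ : ↥M) * ⟨z, hzM⟩ = 1 := Subtype.ext hz2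
      rw [e, map_one]
    have hker : ∀ x : ↥M, π x = 1 ↔ x ∈ A.subgroupOf M := by
      intro x
      rw [hπ, QuotientGroup.mk'_apply, QuotientGroup.eq_one_iff]
    have HE : QE π (A.subgroupOf M) (R.subgroupOf M) ⟨z, hzM⟩ ⟨u, huM⟩ := by
      refine { surj := hπ ▸ QuotientGroup.mk'_surjective _, ker := hker, hA := ?_, PA := ?_,
               P2 := ?_, zP := (hRs _).mpr ⟨hzQ, hAz⟩, z2 := Subtype.ext hz2,
               z1 := fun h => hz1 (congrArg Subtype.val h), zc := ?_, comm := ?_, sq := ?_,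
               cen := ?_, uP := Subgroup.mem_subgroupOf.mpr hgR,
               u1 := fun h => hu1 (congrArg Subtype.val h), u2 := Subtype.ext hu2,
               uz := fun h => huz (congrArg Subtype.val h), hX := ?_, h7 := ?_ }
      · intro a ha j hj
        rw [Subgroup.mem_subgroupOf] at ha
        apply Subtype.ext
        have hj' : (a : G) ^ (2 ^ j) = 1 := by
          have h1 := congrArg Subtype.val hj
          rwa [Subgroup.coe_pow] at h1
        exact odd_pow_triv A hAodd (a : G) ha j hj'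
      · intro r hr a ha
        rw [Subgroup.mem_subgroupOf] at ha
        apply Subtype.ext
        exact (((hRs r).mp hr).2 (a : G) ha).symm
      · intro r hr
        obtain ⟨j, hj⟩ := hQ2 ⟨(r : G), ((hRs r).mp hr).1⟩
        refine ⟨j, Subtype.ext ?_⟩
        have h1 := congrArg Subtype.val hj
        rw [Subgroup.coe_pow] at h1
        show (r : G) ^ (2 ^ j) = 1
        exact h1
      · intro p hp
        apply Subtype.ext
        exact hzc _ ((hRs p).mp hp).1
      · intro a ha b hb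
        rcases comm _ ((hRs a).mp ha).1 _ ((hRs b).mp hb).1 with h | h
        · left
          exact Subtype.ext h
        · right
          exact Subtype.ext h
      · intro p hp
        rcases sq _ ((hRs p).mp hp).1 with h | h
        · exact Or.inl (Subtype.ext h)
        · exact Or.inr (Subtype.ext h)
      · intro p hp hall
        by_cases h1 : (p : G) = 1
        · left
          exact Subtype.ext h1
        by_cases h2 : (p : G) = z
        · right
          exact Subtype.ext h2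
        exfalso
        obtain ⟨hpQ, hpA⟩ := (hRs p).mp hp
        obtain ⟨q₁, hq₁Q, hq₁A, hq₁p⟩ :=
          exists_fix_q Q z F2 hQ2 A hAz hAodd (p : G) hpQ hpA h1 h2
        have hq₁R : q₁ ∈ R := (hRm q₁).mpr ⟨hq₁Q, hq₁A⟩
        have h3 := hall ⟨q₁, hRM hq₁R⟩ (Subgroup.mem_subgroupOf.mpr hq₁R)
        have h4 : (p : G) * q₁ = q₁ * p := congrArg Subtype.val h3
        apply hz1
        have h5 : z * ((p : G) * q₁) = 1 * ((p : G) * q₁) := by
          rw [one_mul, ← mul_assoc, ← hq₁p, h4]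
        exact mul_right_cancel h5
      · intro c hc
        obtain ⟨c₀, hc₀, a, ha, hca⟩ := hdec (c : G) c.2
        have hc₀R : ∀ r ∈ R, r * c₀ = c₀ * r := by
          intro r hr
          have h1 := hc ⟨r, hRM hr⟩ (Subgroup.mem_subgroupOf.mpr hr)
          have h2 : (c : G) * r = r * c := congrArg Subtype.val h1
          have h3' : a⁻¹ * r = r * a⁻¹ := ((hRm r).mp hr).2 a⁻¹ (A.inv_mem ha)
          have e : c₀ = (c : G) * a⁻¹ := by
            rw [hca]
            group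
          rw [e]
          calc r * ((c : G) * a⁻¹) = (r * c) * a⁻¹ := by group
            _ = ((c : G) * r) * a⁻¹ := by rw [h2]
            _ = (c : G) * (r * a⁻¹) := by group
            _ = (c : G) * (a⁻¹ * r) := by rw [h3']
            _ = (c : G) * a⁻¹ * r := by group
        have hc₀X : c₀ ∈ Subgroup.centralizer ((A ⊔ R : Subgroup G) : Set G) := by
          rw [Subgroup.mem_centralizer_iff]
          intro h hh
          have hle : A ⊔ R ≤ Subgroup.centralizer ({c₀} : Set G) :=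
            sup_le (fun a ha => mem_cs.mpr ((Subgroup.mem_centralizer_iff.mp hc₀ a ha).symm))
              (fun r hr => mem_cs.mpr (hc₀R r hr).symm)
          exact (mem_cs.mp (hle hh)).symm
        rcases hXs c₀ hc₀X with h | h
        · left
          rw [hker, Subgroup.mem_subgroupOf, hca]
          exact A.mul_mem h ha
        · right
          have h1 : (c : G) * z ∈ A := by
            rw [hca]
            have e : c₀ * a * z = (c₀ * z) * a := by
              rw [mul_assoc, hAz a ha, ← mul_assoc]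
            rw [e]
            exact A.mul_mem h ha
          have h2 : π (c * ⟨z, hzM⟩) = 1 := by
            rw [hker, Subgroup.mem_subgroupOf]
            exact h1
          rw [map_mul] at h2
          calc π c = π c * (π ⟨z, hzM⟩ * π ⟨z, hzM⟩) := by rw [hπz2, mul_one]
            _ = (π c * π ⟨z, hzM⟩) * π ⟨z, hzM⟩ := by rw [mul_assoc]
            _ = π ⟨z, hzM⟩ := by rw [h2, one_mul]
      · intro c hc p hp
        have hcz : (c : G) * z = z * c := congrArg Subtype.val hc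
        obtain ⟨hpQ, hpA⟩ := (hRs p).mp hp
        rw [hRs]
        refine ⟨hnorm c hcz p hpQ, ?_⟩
        intro a ha
        have h1 : (c : G)⁻¹ * a * c ∈ A := by
          have h0 := hAnorm (c : G)⁻¹ (M.inv_mem c.2) a ha
          rwa [inv_inv] at h0
        have h2 := hpA _ h1
        show a * ((c : G) * p * (c : G)⁻¹) = (c : G) * p * (c : G)⁻¹ * a
        calc a * ((c : G) * p * (c : G)⁻¹)
            = c * (((c : G)⁻¹ * a * c) * p) * (c : G)⁻¹ := by group
          _ = c * (p * ((c : G)⁻¹ * a * c)) * (c : G)⁻¹ := by rw [h2]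
          _ = (c : G) * p * (c : G)⁻¹ * a := by group
    have hQu2x : ∀ x ∈ Qu.subgroupOf M, ∃ j : ℕ, x ^ (2 ^ j) = 1 := by
      intro x hx
      rw [Subgroup.mem_subgroupOf] at hx
      obtain ⟨j, hj⟩ := hQu2' ⟨(x : G), hx⟩
      refine ⟨j, Subtype.ext ?_⟩
      have h1 := congrArg Subtype.val hj
      rw [Subgroup.coe_pow] at h1
      show (x : G) ^ (2 ^ j) = 1
      exact h1
    have hQun : ∀ c : ↥M, c * ⟨u, huM⟩ = ⟨u, huM⟩ * c →
        ∀ x ∈ Qu.subgroupOf M, c * x * c⁻¹ ∈ Qu.subgroupOf M := by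
      intro c hc x hx
      have hcu : (c : G) * u = u * c := congrArg Subtype.val hc
      rw [Subgroup.mem_subgroupOf] at hx ⊢
      exact hnormu c hcu x hx
    exact qe_main HE (Qu.subgroupOf M) hQu2x (Subgroup.mem_subgroupOf.mpr hzQu) hQun
      ⟨q, hqM⟩ (Subgroup.mem_subgroupOf.mpr hqR) (Subtype.ext hquc)
  · refine ⟨r * q, Subgroup.mul_mem _
      (Subgroup.mem_sup_right (Subgroup.mem_inf.mpr ⟨hrQu, Subgroup.mem_centralizer_iff.mpr hrA⟩))
      (Subgroup.mem_sup_left hqR), ?_⟩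
    calc r * q * u * (r * q)⁻¹ = r * (q * u * q⁻¹) * r⁻¹ := by group
      _ = r * (z * u) * r⁻¹ := by rw [hquc]
      _ = (r * z) * (u * r⁻¹) := by group
      _ = (u * z * r) * (u * r⁻¹) := by rw [hrz]
      _ = u * z * (r * u) * r⁻¹ := by group
      _ = u * z * (u * r) * r⁻¹ := by rw [huc r hrQu]
      _ = (u * z) * u := by group
      _ = (z * u) * u := by rw [hzu]
      _ = z := by rw [mul_assoc, hu2, mul_one]

end Cfsg.Agent.Lead.XS
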