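import Mathlib
import Cfsg.Prelude.Def_MonsterType
import Cfsg.Agent.Lead.XS22
import Cfsg.Agent.Lead.XS25

/-!
# The split extension of an elementary abelian 2-group by its automorphism group:
the large extraspecial subgroup of a point stabilizer (lead)
-/

set_option autoImplicit false
set_option linter.style.haveILetI false

namespace Cfsg.Agent.Lead.XS

open Cfsg

variable {G : Type*} [Group G]

theorem cj_fix (a z : G) (h : a * z = z * a) : a * z * a⁻¹ = z := by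
  rw [h]; group

theorem cj_comm (a z : G) (h : a * z * a⁻¹ = z) : a * z = z * a := by
  calc a * z = a * z * a⁻¹ * a := by group
    _ = z * a := by rw [h]

theorem cj_mul (a x y : G) : a * (x * y) * a⁻¹ = (a * x * a⁻¹) * (a * y * a⁻¹) := by group

/-- `G = U ⋊ M`, `U` elementary abelian 2-group, `M` acting faithfully as the full
automorphism group; `z` a non-identity element of `U`. -/
structure GB (U M : Subgroup G) (z : G) : Prop where
  unorm : ∀ g : G, ∀ u ∈ U, g * u * g⁻¹ ∈ U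
  ucomm : ∀ a ∈ U, ∀ b ∈ U, a * b = b * a
  usq : ∀ a ∈ U, a * a = 1
  disj : ∀ x ∈ U, x ∈ M → x = 1
  dec : ∀ g : G, ∃ u ∈ U, ∃ m ∈ M, g = u * m
  faith : ∀ m ∈ M, (∀ u ∈ U, m * u * m⁻¹ = u) → m = 1
  full : ∀ φ : ↥U ≃* ↥U, ∃ m ∈ M, ∀ u : ↥U, ((φ u : ↥U) : G) = m * u * m⁻¹
  zU : z ∈ U
  z1 : z ≠ 1

variable {U M : Subgroup G} {z : G}

theorem GB.z2 (B : GB U M z) : z * z = 1 := B.usq z B.zU

theorem GB.uniq (B : GB U M z) (a b : G) (ha : a ∈ M) (hb : b ∈ M)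
    (h : ∀ u ∈ U, a * u * a⁻¹ = b * u * b⁻¹) : a = b := by
  have h1 : b⁻¹ * a = 1 := by
    apply B.faith _ (M.mul_mem (M.inv_mem hb) ha)
    intro u hu
    calc b⁻¹ * a * u * (b⁻¹ * a)⁻¹ = b⁻¹ * (a * u * a⁻¹) * b := by group
      _ = b⁻¹ * (b * u * b⁻¹) * b := by rw [h u hu]
      _ = u := by group
  calc a = b * (b⁻¹ * a) := by group
    _ = b := by rw [h1, mul_one]

/-- `U` is self-centralizing. -/
theorem GB.cu (B : GB U M z) (g : G) (h : ∀ u ∈ U, g * u = u * g) : g ∈ U := by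
  obtain ⟨u, hu, m, hm, rfl⟩ := B.dec g
  have h1 : m = 1 := by
    apply B.faith m hm
    intro x hx
    have h2 := h x hx
    have h3 : u * x = x * u := B.ucomm u hu x hx
    have h4 : m * x = x * m := by
      calc m * x = u⁻¹ * (u * m * x) := by group
        _ = u⁻¹ * (x * (u * m)) := by rw [h2]
        _ = u⁻¹ * (x * u) * m := by group
        _ = u⁻¹ * (u * x) * m := by rw [h3]
        _ = x * m := by group
    rw [h4]
    group
  rw [h1, mul_one]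
  exact hu

/-- Generalized transvections are realized by elements of `M`. -/
theorem GB.tv (B : GB U M z) (P : G → Prop)
    (hP : ∀ x ∈ U, ∀ y ∈ U, (P (x * y) ↔ (P x ↔ P y))) (c : G) (hcU : c ∈ U) (hc : P c) :
    ∃ m ∈ M, (∀ x ∈ U, P x → m * x * m⁻¹ = x) ∧ (∀ x ∈ U, ¬ P x → m * x * m⁻¹ = x * c) := by
  have hcomm : ∀ x y : ↥U, x * y = y * x := fun x y => Subtype.ext (B.ucomm x x.2 y y.2)
  have hsq : ∀ x : ↥U, x * x = 1 := fun x => Subtype.ext (B.usq x x.2)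
  obtain ⟨φ, h1, h2⟩ := ea_tvP hcomm hsq (fun x : ↥U => P (x : G))
    (fun x y => hP x x.2 y y.2) ⟨c, hcU⟩ hc
  obtain ⟨m, hm, hφ⟩ := B.full φ
  refine ⟨m, hm, ?_, ?_⟩
  · intro x hx hPx
    have e : m * x * m⁻¹ = ((φ ⟨x, hx⟩ : ↥U) : G) := (hφ ⟨x, hx⟩).symm
    exact e.trans (congrArg Subtype.val (h1 ⟨x, hx⟩ hPx))
  · intro x hx hPx
    have e : m * x * m⁻¹ = ((φ ⟨x, hx⟩ : ↥U) : G) := (hφ ⟨x, hx⟩).symm
    exact e.trans (congrArg Subtype.val (h2 ⟨x, hx⟩ hPx))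

/-- Hyperplanes of `U` separating `a` from `c`. -/
theorem GB.hyper [Finite G] (B : GB U M z) (c a : G) (hc : c ∈ U) (ha : a ∈ U) (ha1 : a ≠ 1)
    (hac : a ≠ c) :
    ∃ H : Subgroup G, H ≤ U ∧ c ∈ H ∧ a ∉ H ∧
      (∀ x ∈ U, ∀ y ∈ U, (x * y ∈ H ↔ (x ∈ H ↔ y ∈ H))) ∧ Nat.card H * 2 = Nat.card U := by
  have hcomm : ∀ x y : ↥U, x * y = y * x := fun x y => Subtype.ext (B.ucomm x x.2 y y.2)
  have hsq : ∀ x : ↥U, x * x = 1 := fun x => Subtype.ext (B.usq x x.2)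
  obtain ⟨H', hH', hcH', haH'⟩ := ea_hyper hcomm hsq (⟨c, hc⟩ : ↥U) ⟨a, ha⟩
    (fun h => ha1 (congrArg Subtype.val h)) (fun h => hac (congrArg Subtype.val h))
  have hmem : ∀ x (hx : x ∈ U), x ∈ H'.map U.subtype ↔ (⟨x, hx⟩ : ↥U) ∈ H' := by
    intro x hx
    constructor
    · rintro ⟨y, hy, hyx⟩
      have e : y = ⟨x, hx⟩ := Subtype.ext hyx
      rw [← e]
      exact hy
    · intro h
      exact ⟨⟨x, hx⟩, h, rfl⟩
  refine ⟨H'.map U.subtype, Subgroup.map_subtype_le H', (hmem c hc).mpr hcH',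
    fun h => haH' ((hmem a ha).mp h), ?_, ?_⟩
  · intro x hx y hy
    rw [hmem (x * y) (U.mul_mem hx hy), hmem x hx, hmem y hy]
    exact Subgroup.mul_mem_iff_of_index_two hH' (a := ⟨x, hx⟩) (b := ⟨y, hy⟩)
  · rw [Subgroup.card_map_of_injective U.subtype_injective, ← hH']
    exact Subgroup.card_mul_index H'

/-- The kernel of the action on `U / ⟨z⟩` in the centralizer of `z`. -/
def IsQ0 (U : Subgroup G) (z : G) (Q₀ : Subgroup G) : Prop :=
  ∀ g : G, g ∈ Q₀ ↔ (g * z = z * g ∧ ∀ x ∈ U, g * x * g⁻¹ = x ∨ g * x * g⁻¹ = x * z)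

theorem GB.exQ (B : GB U M z) : ∃ Q₀ : Subgroup G, IsQ0 U z Q₀ := by
  refine ⟨{ carrier := {g | g * z = z * g ∧ ∀ x ∈ U, g * x * g⁻¹ = x ∨ g * x * g⁻¹ = x * z}
            mul_mem' := ?_
            one_mem' := ?_
            inv_mem' := ?_ }, fun g => Iff.rfl⟩
  · rintro a b ⟨haz, ha⟩ ⟨hbz, hb⟩
    refine ⟨?_, ?_⟩
    · calc a * b * z = a * (b * z) := by group
        _ = a * (z * b) := by rw [hbz]
        _ = (a * z) * b := by group
        _ = z * (a * b) := by rw [haz]; group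
    · intro x hx
      have e : a * b * x * (a * b)⁻¹ = a * (b * x * b⁻¹) * a⁻¹ := by group
      rw [e]
      rcases hb x hx with h | h
      · rw [h]
        exact ha x hx
      · rw [h, cj_mul, cj_fix a z haz]
        rcases ha x hx with h' | h'
        · right
          rw [h']
        · left
          rw [h', mul_assoc, B.z2, mul_one]
  · exact ⟨by rw [one_mul, mul_one], fun x _ => Or.inl (by group)⟩
  · rintro a ⟨haz, ha⟩
    have haz' : a⁻¹ * z = z * a⁻¹ := by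
      calc a⁻¹ * z = a⁻¹ * (z * a) * a⁻¹ := by group
        _ = a⁻¹ * (a * z) * a⁻¹ := by rw [haz]
        _ = z * a⁻¹ := by group
    refine ⟨haz', ?_⟩
    intro x hx
    rcases ha x hx with h | h
    · left
      calc a⁻¹ * x * a⁻¹⁻¹ = a⁻¹ * (a * x * a⁻¹) * a⁻¹⁻¹ := by rw [h]
        _ = x := by group
    · right
      have h2 : a * (x * z) * a⁻¹ = x := by
        calc a * (x * z) * a⁻¹ = (a * x * a⁻¹) * (a * z * a⁻¹) := by group
          _ = x * z * z := by rw [h, cj_fix a z haz]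
          _ = x := by rw [mul_assoc, B.z2, mul_one]
      calc a⁻¹ * x * a⁻¹⁻¹ = a⁻¹ * (a * (x * z) * a⁻¹) * a⁻¹⁻¹ := by rw [h2]
        _ = x * z := by group

variable {Q₀ : Subgroup G}

theorem GB.UleQ (B : GB U M z) (hQ : IsQ0 U z Q₀) : U ≤ Q₀ := by
  intro x hx
  refine (hQ x).mpr ⟨B.ucomm x hx z B.zU, fun y hy => Or.inl ?_⟩
  rw [B.ucomm x hx y hy]
  group

theorem GB.ez_mem (B : GB U M z) (e : G) (he : e = 1 ∨ e = z) : e ∈ U := by
  rcases he with h | h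
  · rw [h]
    exact U.one_mem
  · rw [h]
    exact B.zU

theorem GB.qact (_B : GB U M z) (hQ : IsQ0 U z Q₀) (a x : G) (ha : a ∈ Q₀)
    (hx : x ∈ U) : ∃ e, (e = 1 ∨ e = z) ∧ a * x * a⁻¹ = x * e := by
  rcases ((hQ a).mp ha).2 x hx with h | h
  · exact ⟨1, Or.inl rfl, by rw [h, mul_one]⟩
  · exact ⟨z, Or.inr rfl, h⟩

theorem GB.qfix (_B : GB U M z) (hQ : IsQ0 U z Q₀) (a e : G) (ha : a ∈ Q₀)
    (he : e = 1 ∨ e = z) : a * e * a⁻¹ = e := by
  rcases he with h | h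
  · rw [h]
    group
  · rw [h]
    exact cj_fix a z ((hQ a).mp ha).1

theorem GB.sqT (B : GB U M z) (hQ : IsQ0 U z Q₀) (t : G) (ht : t ∈ Q₀)
    (htM : t ∈ M) : t * t = 1 := by
  apply B.faith _ (M.mul_mem htM htM)
  intro x hx
  obtain ⟨e, he, h⟩ := B.qact hQ t x ht hx
  have he2 : e * e = 1 := B.usq e (B.ez_mem e he)
  calc t * t * x * (t * t)⁻¹ = t * (t * x * t⁻¹) * t⁻¹ := by group
    _ = t * (x * e) * t⁻¹ := by rw [h]
    _ = (t * x * t⁻¹) * (t * e * t⁻¹) := by group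
    _ = x * e * e := by rw [h, B.qfix hQ t e ht he]
    _ = x := by rw [mul_assoc, he2, mul_one]

theorem GB.commT (B : GB U M z) (hQ : IsQ0 U z Q₀) (s t : G) (hs : s ∈ Q₀)
    (hsM : s ∈ M) (ht : t ∈ Q₀) (htM : t ∈ M) : s * t = t * s := by
  apply B.uniq _ _ (M.mul_mem hsM htM) (M.mul_mem htM hsM)
  intro x hx
  obtain ⟨e, he, h⟩ := B.qact hQ s x hs hx
  obtain ⟨f, hf, h'⟩ := B.qact hQ t x ht hx
  have hef : e * f = f * e := B.ucomm e (B.ez_mem e he) f (B.ez_mem f hf)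
  calc s * t * x * (s * t)⁻¹ = s * (t * x * t⁻¹) * s⁻¹ := by group
    _ = s * (x * f) * s⁻¹ := by rw [h']
    _ = (s * x * s⁻¹) * (s * f * s⁻¹) := by group
    _ = x * e * f := by rw [h, B.qfix hQ s f hs hf]
    _ = x * f * e := by rw [mul_assoc, hef, ← mul_assoc]
    _ = (t * x * t⁻¹) * (t * e * t⁻¹) := by rw [h', B.qfix hQ t e ht he]
    _ = t * (x * e) * t⁻¹ := by group
    _ = t * (s * x * s⁻¹) * t⁻¹ := by rw [h]
    _ = t * s * x * (t * s)⁻¹ := by group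

theorem GB.qdec (B : GB U M z) (hQ : IsQ0 U z Q₀) (a : G) (ha : a ∈ Q₀) :
    ∃ u ∈ U, ∃ t ∈ M, t ∈ Q₀ ∧ a = u * t := by
  obtain ⟨u, hu, m, hm, rfl⟩ := B.dec a
  refine ⟨u, hu, m, hm, ?_, rfl⟩
  have e : m = u⁻¹ * (u * m) := by group
  rw [e]
  exact Q₀.mul_mem (Q₀.inv_mem (B.UleQ hQ hu)) ha

theorem GB.qcomm (B : GB U M z) (hQ : IsQ0 U z Q₀) (a b : G) (ha : a ∈ Q₀)
    (hb : b ∈ Q₀) : a * b = b * a ∨ a * b = z * b * a := by
  obtain ⟨u, hu, s, hsM, hs, rfl⟩ := B.qdec hQ a ha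
  obtain ⟨v, hv, t, htM, ht, rfl⟩ := B.qdec hQ b hb
  obtain ⟨e, he, h⟩ := B.qact hQ s v hs hv
  obtain ⟨f, hf, h'⟩ := B.qact hQ t u ht hu
  have hst := B.commT hQ s t hs hsM ht htM
  have huv := B.ucomm u hu v hv
  have hab : u * s * (v * t) = u * v * e * (s * t) := by
    calc u * s * (v * t) = u * (s * v * s⁻¹) * (s * t) := by group
      _ = u * (v * e) * (s * t) := by rw [h]
      _ = u * v * e * (s * t) := by group
  have hba : v * t * (u * s) = u * v * f * (s * t) := by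
    calc v * t * (u * s) = v * (t * u * t⁻¹) * (t * s) := by group
      _ = v * (u * f) * (t * s) := by rw [h']
      _ = v * u * f * (t * s) := by group
      _ = u * v * f * (s * t) := by rw [huv, hst]
  have hzuv : z * (u * v) = u * v * z := B.ucomm z B.zU (u * v) (U.mul_mem hu hv)
  rw [hab]
  rcases he with he | he <;> rcases hf with hf | hf
  · left
    rw [hba, he, hf]
  · right
    rw [mul_assoc z, hba, he, hf]
    calc u * v * 1 * (s * t) = u * v * (z * z) * (s * t) := by rw [B.z2]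
      _ = (u * v * z) * z * (s * t) := by group
      _ = z * (u * v) * z * (s * t) := by rw [hzuv]
      _ = z * (u * v * z * (s * t)) := by group
  · right
    rw [mul_assoc z, hba, he, hf]
    calc u * v * z * (s * t) = z * (u * v) * (s * t) := by rw [hzuv]
      _ = z * (u * v * 1 * (s * t)) := by group
  · left
    rw [hba, he, hf]

theorem GB.qsq (B : GB U M z) (hQ : IsQ0 U z Q₀) (p : G) (hp : p ∈ Q₀) :
    p * p = 1 ∨ p * p = z := by
  obtain ⟨u, hu, t, htM, ht, rfl⟩ := B.qdec hQ p hp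
  obtain ⟨e, he, h⟩ := B.qact hQ t u ht hu
  have h1 : u * t * (u * t) = e := by
    calc u * t * (u * t) = u * (t * u * t⁻¹) * (t * t) := by group
      _ = u * (u * e) * 1 := by rw [h, B.sqT hQ t ht htM]
      _ = (u * u) * e := by group
      _ = e := by rw [B.usq u hu, one_mul]
  rw [h1]
  exact he

/-- Elements of `U` outside `⟨z⟩` are moved by a transvection in `Q₀ ∩ M`. -/
theorem GB.move [Finite G] (B : GB U M z) (hQ : IsQ0 U z Q₀) (a : G)
    (ha : a ∈ U) (ha1 : a ≠ 1) (haz : a ≠ z) :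
    ∃ t ∈ M, t ∈ Q₀ ∧ t * a * t⁻¹ = a * z := by
  obtain ⟨H, -, hzH, haH, hpar, -⟩ := B.hyper z a B.zU ha ha1 haz
  obtain ⟨t, htM, h1, h2⟩ := B.tv (fun x => x ∈ H) hpar z B.zU hzH
  refine ⟨t, htM, (hQ t).mpr ⟨cj_comm t z (h1 z B.zU hzH), fun x hx => ?_⟩, h2 a ha haH⟩
  by_cases hxH : x ∈ H
  · exact Or.inl (h1 x hx hxH)
  · exact Or.inr (h2 x hx hxH)

theorem GB.qcen [Finite G] (B : GB U M z) (hQ : IsQ0 U z Q₀) (p : G)
    (hp : ∀ q ∈ Q₀, p * q = q * p) : p = 1 ∨ p = z := by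
  have hpU : p ∈ U := B.cu p (fun u hu => hp u (B.UleQ hQ hu))
  by_contra hne
  have hne' := not_or.mp hne
  obtain ⟨t, -, ht, h⟩ := B.move hQ p hpU hne'.1 hne'.2
  have h1 : p * t = t * p := hp t ht
  have h2 : t * p * t⁻¹ = p := by
    rw [← h1]
    group
  rw [h2] at h
  apply B.z1
  have h3 : p * 1 = p * z := by
    rw [mul_one]
    exact h
  exact (mul_left_cancel h3).symm

theorem GB.qnorm (B : GB U M z) (hQ : IsQ0 U z Q₀) (c : G) (hc : c * z = z * c)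
    (p : G) (hp : p ∈ Q₀) : c * p * c⁻¹ ∈ Q₀ := by
  obtain ⟨hpz, hpa⟩ := (hQ p).mp hp
  have hci : c⁻¹ * z = z * c⁻¹ := by
    calc c⁻¹ * z = c⁻¹ * (z * c) * c⁻¹ := by group
      _ = c⁻¹ * (c * z) * c⁻¹ := by rw [hc]
      _ = z * c⁻¹ := by group
  refine (hQ _).mpr ⟨?_, ?_⟩
  · calc c * p * c⁻¹ * z = c * p * (c⁻¹ * z) := by group
      _ = c * p * (z * c⁻¹) := by rw [hci]
      _ = c * (p * z) * c⁻¹ := by group
      _ = c * (z * p) * c⁻¹ := by rw [hpz]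
      _ = (c * z) * p * c⁻¹ := by group
      _ = z * c * p * c⁻¹ := by rw [hc]
      _ = z * (c * p * c⁻¹) := by group
  · intro x hx
    have hx' : c⁻¹ * x * c ∈ U := by
      have := B.unorm c⁻¹ x hx
      rwa [inv_inv] at this
    rcases hpa _ hx' with h | h
    · left
      calc c * p * c⁻¹ * x * (c * p * c⁻¹)⁻¹ = c * (p * (c⁻¹ * x * c) * p⁻¹) * c⁻¹ := by group
        _ = c * (c⁻¹ * x * c) * c⁻¹ := by rw [h]
        _ = x := by group
    · right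
      calc c * p * c⁻¹ * x * (c * p * c⁻¹)⁻¹ = c * (p * (c⁻¹ * x * c) * p⁻¹) * c⁻¹ := by group
        _ = c * (c⁻¹ * x * c * z) * c⁻¹ := by rw [h]
        _ = x * (c * z * c⁻¹) := by group
        _ = x * z := by rw [cj_fix c z hc]

theorem GB.qe [Finite G] (B : GB U M z) (hQ : IsQ0 U z Q₀) (u₀ : G)
    (hu : u₀ ∈ U) (hu1 : u₀ ≠ 1) (huz : u₀ ≠ z) : QE (MonoidHom.id G) ⊥ Q₀ z u₀ where
  surj := fun x => ⟨x, rfl⟩
  ker := fun x => ⟨fun h => Subgroup.mem_bot.mpr h, fun h => Subgroup.mem_bot.mp h⟩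
  hA := fun a ha _ _ => Subgroup.mem_bot.mp ha
  PA := fun r _ a ha => by rw [Subgroup.mem_bot.mp ha, mul_one, one_mul]
  P2 := fun r hr => ⟨2, by
    have e : r ^ (2 ^ 2) = (r * r) * (r * r) := by
      rw [show (2 : ℕ) ^ 2 = 2 * 2 from rfl, pow_mul, pow_two, pow_two]
    rw [e]
    rcases B.qsq hQ r hr with h | h
    · rw [h, one_mul]
    · rw [h, B.z2]⟩
  zP := B.UleQ hQ B.zU
  z2 := B.z2
  z1 := B.z1
  zc := fun p hp => ((hQ p).mp hp).1.symm
  comm := fun a ha b hb => B.qcomm hQ a b ha hb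
  sq := fun p hp => B.qsq hQ p hp
  cen := fun p _ h => B.qcen hQ p h
  uP := B.UleQ hQ hu
  u1 := hu1
  u2 := B.usq u₀ hu
  uz := huz
  hX := fun c h => B.qcen hQ c h
  h7 := fun c hc p hp => B.qnorm hQ c hc p hp

theorem GB.odd [Finite G] (B : GB U M z) (hUQ : U ≤ Q₀) (K' : Subgroup G)
    (hK : Odd (Nat.card K')) (hQK : Q₀ ≤ Subgroup.normalizer (K' : Set G)) : K' = ⊥ := by
  rw [Subgroup.eq_bot_iff_forall]
  intro k hk
  have hkU : k ∈ U := by
    apply B.cu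
    intro x hx
    have hxn := hQK (hUQ hx)
    have h1 : x * k * x⁻¹ ∈ K' := (Subgroup.mem_normalizer_iff.mp hxn k).mp hk
    have h2 : x * k * x⁻¹ * k⁻¹ ∈ K' := K'.mul_mem h1 (K'.inv_mem hk)
    have h3 : x * k * x⁻¹ * k⁻¹ ∈ U := by
      have h4 := B.unorm k x⁻¹ (U.inv_mem hx)
      have e : x * k * x⁻¹ * k⁻¹ = x * (k * x⁻¹ * k⁻¹) := by group
      rw [e]
      exact U.mul_mem hx h4
    have h5 : x * k * x⁻¹ * k⁻¹ = 1 :=
      odd_pow_triv K' hK _ h2 1 (by rw [pow_one, pow_two]; exact B.usq _ h3)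
    calc k * x = (x * k * x⁻¹ * k⁻¹)⁻¹ * (x * k) := by group
      _ = x * k := by rw [h5, inv_one, one_mul]
  exact odd_pow_triv K' hK k hk 1 (by rw [pow_one, pow_two]; exact B.usq k hkU)

theorem GB.large [Finite G] (B : GB U M z) (hQ : IsQ0 U z Q₀) (u₀ : G)
    (hu : u₀ ∈ U) (hu1 : u₀ ≠ 1) (huz : u₀ ≠ z) : IsLargeExtraspecial Q₀ := by
  have H := B.qe hQ u₀ hu hu1 huz
  have h : IsLargeExtraspecial (Q₀.map (MonoidHom.id G)) :=
    ⟨qe_xs H, qe_cent H, qe_norm H, fun K' hK hPK => by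
      rw [Subgroup.map_id] at hPK
      exact B.odd (B.UleQ hQ) K' hK hPK⟩
  rw [Subgroup.map_id] at h
  exact h

end Cfsg.Agent.Lead.XS
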