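import Mathlib
import Cfsg.Prelude.Def_MonsterType
import Cfsg.Agent.Lead.XS26

/-!
# The split extension of an elementary abelian 2-group by its automorphism group:
the complement `GL_n(2)` in a point stabilizer (lead)
-/

set_option autoImplicit false
set_option linter.style.haveILetI false

namespace Cfsg.Agent.Lead.XS

open Cfsg

variable {G : Type*} [Group G] {U M : Subgroup G} {z : G} {Q₀ W K : Subgroup G}

/-- `W` is a hyperplane of `U` not containing `z`. -/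
def IsW (U : Subgroup G) (z : G) (W : Subgroup G) : Prop :=
  W ≤ U ∧ z ∉ W ∧ ∀ x ∈ U, ∀ y ∈ U, (x * y ∈ W ↔ (x ∈ W ↔ y ∈ W))

/-- `K` is the stabilizer of `z` and `W` in `M`. -/
def IsK (M : Subgroup G) (z : G) (W K : Subgroup G) : Prop :=
  ∀ k : G, k ∈ K ↔ (k ∈ M ∧ k * z = z * k ∧ ∀ w, w ∈ W ↔ k * w * k⁻¹ ∈ W)

theorem GB.exW [Finite G] (B : GB U M z) :
    ∃ W : Subgroup G, IsW U z W ∧ Nat.card W * 2 = Nat.card U := by
  obtain ⟨H, hHU, -, hzH, hpar, hcard⟩ := B.hyper 1 z U.one_mem B.zU B.z1 B.z1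
  exact ⟨H, ⟨hHU, hzH, hpar⟩, hcard⟩

theorem exK (M : Subgroup G) (z : G) (W : Subgroup G) : ∃ K : Subgroup G, IsK M z W K := by
  refine ⟨M ⊓ Subgroup.centralizer ({z} : Set G) ⊓ Subgroup.normalizer (W : Set G), fun k => ?_⟩
  rw [Subgroup.mem_inf, Subgroup.mem_inf, mem_cs, Subgroup.mem_normalizer_iff]
  constructor
  · rintro ⟨⟨h1, h2⟩, h3⟩
    exact ⟨h1, h2.symm, h3⟩
  · rintro ⟨h1, h2, h3⟩
    exact ⟨⟨h1, h2.symm⟩, h3⟩

theorem IsW.mulz (hW : IsW U z W) (hzU : z ∈ U) (x : G) (hx : x ∈ U) (hxW : x ∉ W) :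
    x * z ∈ W :=
  (hW.2.2 x hx z hzU).mpr ⟨fun h => absurd h hxW, fun h => absurd h hW.2.1⟩

theorem GB.agree (B : GB U M z) (hW : IsW U z W) (a b : G) (ha : a * z = z * a)
    (hb : b * z = z * b) (h : ∀ w ∈ W, a * w * a⁻¹ = b * w * b⁻¹) :
    ∀ x ∈ U, a * x * a⁻¹ = b * x * b⁻¹ := by
  intro x hx
  by_cases hxW : x ∈ W
  · exact h x hxW
  · have h1 := h (x * z) (hW.mulz B.zU x hx hxW)
    have e : x = (x * z) * z := by rw [mul_assoc, B.z2, mul_one]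
    calc a * x * a⁻¹ = a * ((x * z) * z) * a⁻¹ := by rw [← e]
      _ = (a * (x * z) * a⁻¹) * (a * z * a⁻¹) := by group
      _ = (b * (x * z) * b⁻¹) * (b * z * b⁻¹) := by rw [h1, cj_fix a z ha, cj_fix b z hb]
      _ = b * ((x * z) * z) * b⁻¹ := by group
      _ = b * x * b⁻¹ := by rw [← e]

theorem GB.fixU (B : GB U M z) (hW : IsW U z W) (a : G) (ha : a * z = z * a)
    (h : ∀ w ∈ W, a * w * a⁻¹ = w) : ∀ x ∈ U, a * x * a⁻¹ = x := by
  intro x hx
  have h1 := B.agree hW a 1 ha (by rw [one_mul, mul_one])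
    (fun w hw => by rw [h w hw]; group) x hx
  rw [h1]
  group

theorem GB.nzrW (B : GB U M z) (hW : IsW U z W) (k : G) (hk : k * z = z * k)
    (h : ∀ w ∈ W, k * w * k⁻¹ ∈ W) : ∀ w, w ∈ W ↔ k * w * k⁻¹ ∈ W := by
  intro w
  refine ⟨h w, fun hkw => ?_⟩
  have hwU : w ∈ U := by
    have h1 := B.unorm k⁻¹ _ (hW.1 hkw)
    have e : k⁻¹ * (k * w * k⁻¹) * k⁻¹⁻¹ = w := by group
    rwa [e] at h1
  by_contra hwW
  have h2 := h (w * z) (hW.mulz B.zU w hwU hwW)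
  have e : k * (w * z) * k⁻¹ = (k * w * k⁻¹) * z := by
    rw [cj_mul, cj_fix k z hk]
  rw [e] at h2
  apply hW.2.1
  have e2 : z = (k * w * k⁻¹)⁻¹ * ((k * w * k⁻¹) * z) := by group
  rw [e2]
  exact W.mul_mem (W.inv_mem hkw) h2

/-- Extension of an injective endomorphism of `W` to an automorphism of `U` fixing `z`. -/
theorem GB.ext [Finite G] (B : GB U M z) (hW : IsW U z W) (ψ : G → G)
    (h1 : ∀ x ∈ W, ψ x ∈ W) (h2 : ∀ x ∈ W, ∀ y ∈ W, ψ (x * y) = ψ x * ψ y)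
    (h3 : ∀ x ∈ W, ψ x = 1 → x = 1) :
    ∃ m ∈ M, m * z = z * m ∧ ∀ x ∈ W, m * x * m⁻¹ = ψ x := by
  classical
  have hWU := hW.1
  have hzW := hW.2.1
  have hpar := hW.2.2
  have hψ1 : ψ 1 = 1 := by
    have h := h2 1 W.one_mem 1 W.one_mem
    rw [mul_one] at h
    have h4 : ψ 1 * 1 = ψ 1 * ψ 1 := by
      rw [mul_one]
      exact h
    exact (mul_left_cancel h4).symm
  let F : G → G := fun x => if x ∈ W then ψ x else z * ψ (z * x)
  have F1 : ∀ x, x ∈ W → F x = ψ x := fun x hx => if_pos hx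
  have F2 : ∀ x, x ∉ W → F x = z * ψ (z * x) := fun x hx => if_neg hx
  have hzx : ∀ x ∈ U, x ∉ W → z * x ∈ W := fun x hx hxW =>
    (hpar z B.zU x hx).mpr ⟨fun h => absurd h hzW, fun h => absurd h hxW⟩
  have FU : ∀ x ∈ U, F x ∈ U := by
    intro x hx
    by_cases hxW : x ∈ W
    · rw [F1 x hxW]
      exact hWU (h1 x hxW)
    · rw [F2 x hxW]
      exact U.mul_mem B.zU (hWU (h1 _ (hzx x hx hxW)))
  have Fmul : ∀ x ∈ U, ∀ y ∈ U, F (x * y) = F x * F y := by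
    intro x hx y hy
    have key := hpar x hx y hy
    by_cases hxW : x ∈ W <;> by_cases hyW : y ∈ W
    · rw [F1 x hxW, F1 y hyW, F1 _ (W.mul_mem hxW hyW), h2 x hxW y hyW]
    · have hxy : x * y ∉ W := fun h => hyW ((key.mp h).mp hxW)
      have hzy := hzx y hy hyW
      have e : z * (x * y) = x * (z * y) := by
        calc z * (x * y) = (z * x) * y := by group
          _ = (x * z) * y := by rw [B.ucomm z B.zU x hx]
          _ = x * (z * y) := by group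
      have hc : z * ψ x = ψ x * z := B.ucomm z B.zU _ (hWU (h1 x hxW))
      rw [F1 x hxW, F2 y hyW, F2 _ hxy, e, h2 x hxW _ hzy]
      calc z * (ψ x * ψ (z * y)) = (z * ψ x) * ψ (z * y) := by group
        _ = (ψ x * z) * ψ (z * y) := by rw [hc]
        _ = ψ x * (z * ψ (z * y)) := by group
    · have hxy : x * y ∉ W := fun h => hxW ((key.mp h).mpr hyW)
      have hzx' := hzx x hx hxW
      rw [F2 x hxW, F1 y hyW, F2 _ hxy, ← mul_assoc z x y, h2 _ hzx' y hyW]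
      group
    · have hxy : x * y ∈ W := key.mpr ⟨fun h => absurd h hxW, fun h => absurd h hyW⟩
      have hzx' := hzx x hx hxW
      have hzy := hzx y hy hyW
      have e : x * y = (z * x) * (z * y) := by
        have hc : x * z = z * x := B.ucomm x hx z B.zU
        calc x * y = (z * z) * x * y := by rw [B.z2, one_mul]
          _ = z * (z * x) * y := by group
          _ = z * (x * z) * y := by rw [hc]
          _ = (z * x) * (z * y) := by group
      have hc : ψ (z * x) * z = z * ψ (z * x) := B.ucomm _ (hWU (h1 _ hzx')) z B.zU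
      rw [F2 x hxW, F2 y hyW, F1 _ hxy]
      calc ψ (x * y) = ψ ((z * x) * (z * y)) := by rw [← e]
        _ = ψ (z * x) * ψ (z * y) := h2 _ hzx' _ hzy
        _ = (z * z) * ψ (z * x) * ψ (z * y) := by rw [B.z2, one_mul]
        _ = z * (z * ψ (z * x)) * ψ (z * y) := by group
        _ = z * (ψ (z * x) * z) * ψ (z * y) := by rw [hc]
        _ = z * ψ (z * x) * (z * ψ (z * y)) := by group
  let f : ↥U →* ↥U := MonoidHom.mk' (fun x => ⟨F x, FU x x.2⟩)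
    (fun a b => Subtype.ext (Fmul a a.2 b b.2))
  have hinj : Function.Injective f := by
    rw [injective_iff_map_eq_one]
    intro x hx
    have hFx : F x = 1 := congrArg Subtype.val hx
    apply Subtype.ext
    show (x : G) = 1
    by_cases hxW : (x : G) ∈ W
    · rw [F1 _ hxW] at hFx
      exact h3 _ hxW hFx
    · exfalso
      rw [F2 _ hxW] at hFx
      have hp := h1 _ (hzx x x.2 hxW)
      apply hzW
      have e : z = (ψ (z * x))⁻¹ := eq_inv_of_mul_eq_one_left hFx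
      rw [e]
      exact W.inv_mem hp
  let φ : ↥U ≃* ↥U := MulEquiv.ofBijective f ⟨hinj, Finite.surjective_of_injective hinj⟩
  obtain ⟨m, hm, hφ⟩ := B.full φ
  have hmF : ∀ x (hx : x ∈ U), m * x * m⁻¹ = F x := fun x hx => (hφ ⟨x, hx⟩).symm
  refine ⟨m, hm, ?_, ?_⟩
  · apply cj_comm
    rw [hmF z B.zU, F2 z hzW, B.z2, hψ1, mul_one]
  · intro x hx
    rw [hmF x (hWU hx), F1 x hx]

theorem GB.extW [Finite G] (B : GB U M z) (hW : IsW U z W) (ψ : ↥W ≃* ↥W) :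
    ∃ m ∈ M, m * z = z * m ∧ ∀ w : ↥W, m * w * m⁻¹ = ((ψ w : ↥W) : G) := by
  classical
  let ψ' : G → G := fun x => if h : x ∈ W then ((ψ ⟨x, h⟩ : ↥W) : G) else 1
  have hψ : ∀ x (h : x ∈ W), ψ' x = ((ψ ⟨x, h⟩ : ↥W) : G) := fun x h => dif_pos h
  have k1 : ∀ x ∈ W, ψ' x ∈ W := by
    intro x hx
    rw [hψ x hx]
    exact (ψ ⟨x, hx⟩).2
  have k2 : ∀ x ∈ W, ∀ y ∈ W, ψ' (x * y) = ψ' x * ψ' y := by
    intro x hx y hy
    rw [hψ x hx, hψ y hy, hψ _ (W.mul_mem hx hy)]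
    have e : (⟨x * y, W.mul_mem hx hy⟩ : ↥W) = ⟨x, hx⟩ * ⟨y, hy⟩ := rfl
    rw [e, map_mul]
    rfl
  have k3 : ∀ x ∈ W, ψ' x = 1 → x = 1 := by
    intro x hx h
    rw [hψ x hx] at h
    have h' : ψ ⟨x, hx⟩ = 1 := Subtype.ext h
    have h'' : (⟨x, hx⟩ : ↥W) = 1 := (MulEquiv.map_eq_one_iff ψ).mp h'
    exact congrArg Subtype.val h''
  obtain ⟨m, hm, hmz, hmW⟩ := B.ext hW ψ' k1 k2 k3
  refine ⟨m, hm, hmz, fun w => ?_⟩
  exact (hmW w w.2).trans (hψ w w.2)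

theorem GB.extK [Finite G] (B : GB U M z) (hW : IsW U z W) (hK : IsK M z W K)
    (ψ : ↥W ≃* ↥W) : ∃ m ∈ K, ∀ w : ↥W, m * w * m⁻¹ = ((ψ w : ↥W) : G) := by
  obtain ⟨m, hm, hmz, hmW⟩ := B.extW hW ψ
  refine ⟨m, (hK m).mpr ⟨hm, hmz, B.nzrW hW m hmz (fun w' hw' => ?_)⟩, hmW⟩
  have e : m * w' * m⁻¹ = ((ψ ⟨w', hw'⟩ : ↥W) : G) := hmW ⟨w', hw'⟩
  rw [e]
  exact (ψ ⟨w', hw'⟩).2

/-- The centralizer of `z` is `Q₀ K`. -/
theorem GB.split [Finite G] (B : GB U M z) (hQ : IsQ0 U z Q₀) (hW : IsW U z W)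
    (hK : IsK M z W K) (c : G) (hc : c * z = z * c) : ∃ q ∈ Q₀, ∃ k ∈ K, c = q * k := by
  obtain ⟨u, hu, m, hm, rfl⟩ := B.dec c
  have hWU := hW.1
  have hzW := hW.2.1
  have hpar := hW.2.2
  have huz : u * z = z * u := B.ucomm u hu z B.zU
  have hmz : m * z = z * m := by
    have h1 : u * (m * z) = u * (z * m) := by
      calc u * (m * z) = u * m * z := by group
        _ = z * (u * m) := hc
        _ = (z * u) * m := by group
        _ = (u * z) * m := by rw [huz]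
        _ = u * (z * m) := by group
    exact mul_left_cancel h1
  have hmiz : m⁻¹ * z * m = z := by
    calc m⁻¹ * z * m = m⁻¹ * (z * m) := by group
      _ = m⁻¹ * (m * z) := by rw [hmz]
      _ = z := by group
  have hmU : ∀ x ∈ U, m⁻¹ * x * m ∈ U := by
    intro x hx
    have := B.unorm m⁻¹ x hx
    rwa [inv_inv] at this
  have hPpar : ∀ x ∈ U, ∀ y ∈ U, ((x * y ∈ W ↔ m⁻¹ * (x * y) * m ∈ W) ↔
      ((x ∈ W ↔ m⁻¹ * x * m ∈ W) ↔ (y ∈ W ↔ m⁻¹ * y * m ∈ W))) := by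
    intro x hx y hy
    have e : m⁻¹ * (x * y) * m = (m⁻¹ * x * m) * (m⁻¹ * y * m) := by group
    have k1 := hpar x hx y hy
    have k2 := hpar _ (hmU x hx) _ (hmU y hy)
    rw [e, k1, k2]
    by_cases ha : x ∈ W <;> by_cases hb : y ∈ W <;> by_cases hc' : m⁻¹ * x * m ∈ W <;>
      by_cases hd : m⁻¹ * y * m ∈ W <;> simp [ha, hb, hc', hd]
  have hPz : (z ∈ W ↔ m⁻¹ * z * m ∈ W) :=
    ⟨fun h => absurd h hzW, fun h => absurd (by rwa [hmiz] at h) hzW⟩
  obtain ⟨t, htM, h1, h2⟩ := B.tv (fun x => (x ∈ W ↔ m⁻¹ * x * m ∈ W)) hPpar z B.zU hPz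
  have htQ : t ∈ Q₀ := by
    refine (hQ t).mpr ⟨cj_comm t z (h1 z B.zU hPz), fun x hx => ?_⟩
    by_cases hP : (x ∈ W ↔ m⁻¹ * x * m ∈ W)
    · exact Or.inl (h1 x hx hP)
    · exact Or.inr (h2 x hx hP)
  have htz : t * z = z * t := ((hQ t).mp htQ).1
  have hkz : t * m * z = z * (t * m) := by
    calc t * m * z = t * (m * z) := by group
      _ = t * (z * m) := by rw [hmz]
      _ = (t * z) * m := by group
      _ = z * (t * m) := by rw [htz]; group
  have hkW : ∀ w ∈ W, t * m * w * (t * m)⁻¹ ∈ W := by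
    intro w hw
    have hxU : m * w * m⁻¹ ∈ U := B.unorm m w (hWU hw)
    have hx' : m⁻¹ * (m * w * m⁻¹) * m = w := by group
    have e : t * m * w * (t * m)⁻¹ = t * (m * w * m⁻¹) * t⁻¹ := by group
    rw [e]
    by_cases hxW : m * w * m⁻¹ ∈ W
    · rw [h1 (m * w * m⁻¹) hxU
        (show (m * w * m⁻¹ ∈ W ↔ m⁻¹ * (m * w * m⁻¹) * m ∈ W) from
          ⟨fun _ => by rw [hx']; exact hw, fun _ => hxW⟩)]
      exact hxW
    · rw [h2 (m * w * m⁻¹) hxU
        (fun (hP : (m * w * m⁻¹ ∈ W ↔ m⁻¹ * (m * w * m⁻¹) * m ∈ W)) =>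
          hxW (hP.mpr (by rw [hx']; exact hw)))]
      exact hW.mulz B.zU _ hxU hxW
  have hkK : t * m ∈ K := (hK _).mpr ⟨M.mul_mem htM hm, hkz, B.nzrW hW _ hkz hkW⟩
  refine ⟨u * t⁻¹, Q₀.mul_mem (B.UleQ hQ hu) (Q₀.inv_mem htQ), t * m, hkK, ?_⟩
  group

/-- A normal 2-subgroup of `K` is trivial. -/
theorem GB.qk [Finite G] (B : GB U M z) (hW : IsW U z W) (hK : IsK M z W K)
    (hWcard : 2 ∣ Nat.card W) (N : Subgroup G) (hN2 : IsPGroup 2 N) (hNK : N ≤ K)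
    (hNn : ∀ k ∈ K, ∀ x ∈ N, k * x * k⁻¹ ∈ N) : N = ⊥ := by
  have hWU := hW.1
  have hcommW : ∀ x y : ↥W, x * y = y * x :=
    fun x y => Subtype.ext (B.ucomm x (hWU x.2) y (hWU y.2))
  have hsqW : ∀ x : ↥W, x * x = 1 := fun x => Subtype.ext (B.usq x (hWU x.2))
  have hO : ∀ r ∈ N, ∀ y ∈ (W : Set G), r * y * r⁻¹ ∈ (W : Set G) := by
    intro r hr y hy
    exact (((hK r).mp (hNK hr)).2.2 y).mp hy
  have h2 : 2 ∣ Nat.card (W : Set G) := hWcard
  obtain ⟨y, hyW, hy1, hyfix⟩ := fp_other N hN2 (W : Set G) hO h2 1 W.one_mem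
    (fun r _ => by group)
  have hall : ∀ r ∈ N, ∀ w ∈ W, r * w * r⁻¹ = w := by
    intro r hr w hw
    by_cases hw1 : w = 1
    · rw [hw1]
      group
    · obtain ⟨ψ, hψ⟩ := ea_trans hcommW hsqW (⟨y, hyW⟩ : ↥W) ⟨w, hw⟩
        (fun h => hy1 (congrArg Subtype.val h)) (fun h => hw1 (congrArg Subtype.val h))
      obtain ⟨m, hmK, hmW⟩ := B.extK hW hK ψ
      have hmy : m * y * m⁻¹ = w := (hmW ⟨y, hyW⟩).trans (congrArg Subtype.val hψ)
      have hr' : m⁻¹ * r * m ∈ N := by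
        have := hNn m⁻¹ (K.inv_mem hmK) r hr
        rwa [inv_inv] at this
      have h3 := hyfix _ hr'
      calc r * w * r⁻¹ = r * (m * y * m⁻¹) * r⁻¹ := by rw [hmy]
        _ = m * ((m⁻¹ * r * m) * y * (m⁻¹ * r * m)⁻¹) * m⁻¹ := by group
        _ = m * y * m⁻¹ := by rw [h3]
        _ = w := hmy
  rw [Subgroup.eq_bot_iff_forall]
  intro r hr
  have hrK := (hK r).mp (hNK hr)
  exact B.faith r hrK.1 (B.fixU hW r hrK.2.1 (hall r hr))

/-- The conjugation action of `K` on `W`. -/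
def conjW (K W : Subgroup G) (h : ∀ k ∈ K, ∀ w ∈ W, k * w * k⁻¹ ∈ W) : ↥K →* MulAut ↥W where
  toFun k :=
    { toFun := fun w => ⟨(k : G) * (w : G) * (k : G)⁻¹, h k k.2 w w.2⟩
      invFun := fun w => ⟨(k : G)⁻¹ * (w : G) * (k : G), by
        have := h (k : G)⁻¹ (K.inv_mem k.2) w w.2
        rwa [inv_inv] at this⟩
      left_inv := fun w => Subtype.ext (by
        show (k : G)⁻¹ * ((k : G) * (w : G) * (k : G)⁻¹) * (k : G) = w
        group)
      right_inv := fun w => Subtype.ext (by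
        show (k : G) * ((k : G)⁻¹ * (w : G) * (k : G)) * (k : G)⁻¹ = w
        group)
      map_mul' := fun a b => Subtype.ext (by
        show (k : G) * ((a : G) * (b : G)) * (k : G)⁻¹
          = ((k : G) * (a : G) * (k : G)⁻¹) * ((k : G) * (b : G) * (k : G)⁻¹)
        group) }
  map_one' := by
    apply MulEquiv.ext
    intro w
    apply Subtype.ext
    show ((1 : ↥K) : G) * (w : G) * ((1 : ↥K) : G)⁻¹ = w
    simp
  map_mul' := fun a b => by
    apply MulEquiv.ext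
    intro w
    apply Subtype.ext
    show ((a * b : ↥K) : G) * (w : G) * ((a * b : ↥K) : G)⁻¹
      = (a : G) * ((b : G) * (w : G) * (b : G)⁻¹) * (a : G)⁻¹
    simp [mul_assoc]

/-- `K` is isomorphic to `GL_n(2)`. -/
theorem GB.kgl [Finite G] (B : GB U M z) (hW : IsW U z W) (hK : IsK M z W K) (n : ℕ)
    (hcard : Nat.card W = 2 ^ n) : Nonempty (↥K ≃* GL (Fin n) (ZMod 2)) := by
  have hWU := hW.1
  have hcommW : ∀ x y : ↥W, x * y = y * x :=
    fun x y => Subtype.ext (B.ucomm x (hWU x.2) y (hWU y.2))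
  have hsqW : ∀ x : ↥W, x * x = 1 := fun x => Subtype.ext (B.usq x (hWU x.2))
  have hKW : ∀ k ∈ K, ∀ w ∈ W, k * w * k⁻¹ ∈ W :=
    fun k hk w hw => (((hK k).mp hk).2.2 w).mp hw
  have hinj : Function.Injective (conjW K W hKW) := by
    rw [injective_iff_map_eq_one]
    intro k hk
    have hkK := (hK k).mp k.2
    apply Subtype.ext
    show (k : G) = 1
    apply B.faith k hkK.1
    apply B.fixU hW k hkK.2.1
    intro w hw
    have h1 : conjW K W hKW k ⟨w, hw⟩ = ⟨w, hw⟩ := by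
      rw [hk]
      rfl
    exact congrArg Subtype.val h1
  have hsurj : Function.Surjective (conjW K W hKW) := by
    intro ψ
    obtain ⟨m, hmK, hmW⟩ := B.extK hW hK ψ
    refine ⟨⟨m, hmK⟩, ?_⟩
    apply MulEquiv.ext
    intro w
    apply Subtype.ext
    exact hmW w
  obtain ⟨e⟩ := ea_gl' hcommW hsqW n hcard
  exact ⟨(MulEquiv.ofBijective (conjW K W hKW) ⟨hinj, hsurj⟩).trans e⟩

end Cfsg.Agent.Lead.XS
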