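import Mathlib
import Cfsg.Prelude.Def_MonsterType
import Cfsg.Agent.Lead.XS27

/-!
# The split extension of an elementary abelian 2-group by its automorphism group:
order of the extraspecial subgroup and the main theorem (lead)
-/

set_option autoImplicit false
set_option linter.style.haveILetI false

namespace Cfsg.Agent.Lead.XS

open Cfsg

variable {G : Type*} [Group G] {U M : Subgroup G} {z : G} {Q₀ W K : Subgroup G}

theorem GB.dmul (B : GB U M z) (t x y : G) (hx : x ∈ U) (hy : y ∈ U) :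
    (x * y)⁻¹ * (t * (x * y) * t⁻¹) = (x⁻¹ * (t * x * t⁻¹)) * (y⁻¹ * (t * y * t⁻¹)) := by
  have ha : t * x * t⁻¹ ∈ U := B.unorm t x hx
  have h1 : y⁻¹ * (x⁻¹ * (t * x * t⁻¹)) = (x⁻¹ * (t * x * t⁻¹)) * y⁻¹ :=
    B.ucomm _ (U.inv_mem hy) _ (U.mul_mem (U.inv_mem hx) ha)
  calc (x * y)⁻¹ * (t * (x * y) * t⁻¹)
      = y⁻¹ * (x⁻¹ * (t * x * t⁻¹)) * (t * y * t⁻¹) := by group
    _ = (x⁻¹ * (t * x * t⁻¹)) * y⁻¹ * (t * y * t⁻¹) := by rw [h1]
    _ = (x⁻¹ * (t * x * t⁻¹)) * (y⁻¹ * (t * y * t⁻¹)) := by group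

theorem GB.dval (_B : GB U M z) (hQ : IsQ0 U z Q₀) (t x : G) (ht : t ∈ Q₀) (hx : x ∈ U) :
    x⁻¹ * (t * x * t⁻¹) = 1 ∨ x⁻¹ * (t * x * t⁻¹) = z := by
  rcases ((hQ t).mp ht).2 x hx with h | h
  · left
    rw [h, inv_mul_cancel]
  · right
    rw [h, inv_mul_cancel_left]

theorem GB.dmem (B : GB U M z) (hQ : IsQ0 U z Q₀) (t x : G) (ht : t ∈ Q₀) (hx : x ∈ U) :
    x⁻¹ * (t * x * t⁻¹) ∈ Subgroup.zpowers z := by
  rcases B.dval hQ t x ht hx with h | h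
  · rw [h]
    exact one_mem _
  · rw [h]
    exact Subgroup.mem_zpowers z

theorem GB.dmul2 (B : GB U M z) (hQ : IsQ0 U z Q₀) (s t x : G) (hs : s ∈ Q₀) (ht : t ∈ Q₀)
    (hx : x ∈ U) :
    x⁻¹ * ((s * t) * x * (s * t)⁻¹) = (x⁻¹ * (s * x * s⁻¹)) * (x⁻¹ * (t * x * t⁻¹)) := by
  have hfix := B.qfix hQ s _ hs (B.dval hQ t x ht hx)
  calc x⁻¹ * ((s * t) * x * (s * t)⁻¹)
      = x⁻¹ * (s * x * s⁻¹) * (s * (x⁻¹ * (t * x * t⁻¹)) * s⁻¹) := by group
    _ = x⁻¹ * (s * x * s⁻¹) * (x⁻¹ * (t * x * t⁻¹)) := by rw [hfix]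

/-- `|Q₀ ∩ M| = |W|`. -/
theorem GB.cardT [Finite G] (B : GB U M z) (hQ : IsQ0 U z Q₀) (hW : IsW U z W) :
    Nat.card ↥(Q₀ ⊓ M) = Nat.card W := by
  classical
  haveI : Fact (Nat.Prime 2) := ⟨Nat.prime_two⟩
  have hWU := hW.1
  have hzW := hW.2.1
  have hZs : Nat.card (Subgroup.zpowers z) = 2 := by
    rw [Nat.card_zpowers]
    exact orderOf_eq_prime (by rw [pow_two]; exact B.z2) B.z1
  have hcommW : ∀ x y : ↥W, x * y = y * x :=
    fun x y => Subtype.ext (B.ucomm x (hWU x.2) y (hWU y.2))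
  have hsqW : ∀ x : ↥W, x * x = 1 := fun x => Subtype.ext (B.usq x (hWU x.2))
  have hT : ∀ t : ↥(Q₀ ⊓ M), (t : G) ∈ Q₀ ∧ (t : G) ∈ M := fun t => Subgroup.mem_inf.mp t.2
  have hcommT : ∀ x y : ↥(Q₀ ⊓ M), x * y = y * x :=
    fun x y => Subtype.ext (B.commT hQ x y (hT x).1 (hT x).2 (hT y).1 (hT y).2)
  have hsqT : ∀ x : ↥(Q₀ ⊓ M), x * x = 1 :=
    fun x => Subtype.ext (B.sqT hQ x (hT x).1 (hT x).2)
  let f1 : ↥(Q₀ ⊓ M) → (↥W →* ↥(Subgroup.zpowers z)) := fun t =>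
    MonoidHom.mk' (fun w => ⟨(w : G)⁻¹ * ((t : G) * (w : G) * (t : G)⁻¹),
        B.dmem hQ t w (hT t).1 (hWU w.2)⟩)
      (fun a b => Subtype.ext (B.dmul t a b (hWU a.2) (hWU b.2)))
  have hf1 : Function.Injective f1 := by
    intro s t hst
    apply Subtype.ext
    apply B.uniq _ _ (hT s).2 (hT t).2
    apply B.agree hW _ _ ((hQ _).mp (hT s).1).1 ((hQ _).mp (hT t).1).1
    intro w hw
    have h1 := DFunLike.congr_fun hst ⟨w, hw⟩
    have h2 : w⁻¹ * ((s : G) * w * (s : G)⁻¹) = w⁻¹ * ((t : G) * w * (t : G)⁻¹) :=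
      congrArg Subtype.val h1
    exact mul_left_cancel h2
  let f2 : ↥W → (↥(Q₀ ⊓ M) →* ↥(Subgroup.zpowers z)) := fun w =>
    MonoidHom.mk' (fun t => ⟨(w : G)⁻¹ * ((t : G) * (w : G) * (t : G)⁻¹),
        B.dmem hQ t w (hT t).1 (hWU w.2)⟩)
      (fun a b => Subtype.ext (B.dmul2 hQ a b w (hT a).1 (hT b).1 (hWU w.2)))
  have hf2 : Function.Injective f2 := by
    intro w w' hww
    by_contra hne
    have haW : (w' : G)⁻¹ * (w : G) ∈ W := W.mul_mem (W.inv_mem w'.2) w.2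
    have ha1 : (w' : G)⁻¹ * (w : G) ≠ 1 := by
      intro h
      apply hne
      apply Subtype.ext
      calc (w : G) = (w' : G) * ((w' : G)⁻¹ * (w : G)) := by group
        _ = w' := by rw [h, mul_one]
    have haz : (w' : G)⁻¹ * (w : G) ≠ z := fun h => hzW (by rw [← h]; exact haW)
    obtain ⟨t, htM, htQ, ht⟩ := B.move hQ _ (hWU haW) ha1 haz
    have h1 := DFunLike.congr_fun hww ⟨t, Subgroup.mem_inf.mpr ⟨htQ, htM⟩⟩
    have h2 : (w : G)⁻¹ * (t * (w : G) * t⁻¹) = (w' : G)⁻¹ * (t * (w' : G) * t⁻¹) :=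
      congrArg Subtype.val h1
    have hpU : t * (w' : G) * t⁻¹ ∈ U := B.unorm t _ (hWU w'.2)
    have hr : t * (w : G) * t⁻¹ = (w : G) * ((w' : G)⁻¹ * (t * (w' : G) * t⁻¹)) := by
      rw [← h2]
      group
    have hfixa : t * ((w' : G)⁻¹ * (w : G)) * t⁻¹ = (w' : G)⁻¹ * (w : G) := by
      have c1 : (w : G) * (w' : G)⁻¹ * (t * (w' : G) * t⁻¹)
          = (t * (w' : G) * t⁻¹) * ((w : G) * (w' : G)⁻¹) :=
        B.ucomm _ (U.mul_mem (hWU w.2) (U.inv_mem (hWU w'.2))) _ hpU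
      have c2 : (w : G) * (w' : G)⁻¹ = (w' : G)⁻¹ * (w : G) :=
        B.ucomm _ (hWU w.2) _ (U.inv_mem (hWU w'.2))
      calc t * ((w' : G)⁻¹ * (w : G)) * t⁻¹
          = (t * (w' : G) * t⁻¹)⁻¹ * (t * (w : G) * t⁻¹) := by group
        _ = (t * (w' : G) * t⁻¹)⁻¹ * ((w : G) * ((w' : G)⁻¹ * (t * (w' : G) * t⁻¹))) := by
            rw [hr]
        _ = (t * (w' : G) * t⁻¹)⁻¹ * ((w : G) * (w' : G)⁻¹ * (t * (w' : G) * t⁻¹)) := by
            group
        _ = (t * (w' : G) * t⁻¹)⁻¹ * ((t * (w' : G) * t⁻¹) * ((w : G) * (w' : G)⁻¹)) := by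
            rw [c1]
        _ = (w : G) * (w' : G)⁻¹ := by group
        _ = (w' : G)⁻¹ * (w : G) := c2
    rw [hfixa] at ht
    apply B.z1
    have h3 : (w' : G)⁻¹ * (w : G) * 1 = (w' : G)⁻¹ * (w : G) * z := by
      rw [mul_one]
      exact ht
    exact (mul_left_cancel h3).symm
  haveI hfin1 : Finite (↥W →* ↥(Subgroup.zpowers z)) :=
    Finite.of_injective (fun f : ↥W →* ↥(Subgroup.zpowers z) => (f : ↥W → ↥(Subgroup.zpowers z)))
      DFunLike.coe_injective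
  haveI hfin2 : Finite (↥(Q₀ ⊓ M) →* ↥(Subgroup.zpowers z)) :=
    Finite.of_injective
      (fun f : ↥(Q₀ ⊓ M) →* ↥(Subgroup.zpowers z) => (f : ↥(Q₀ ⊓ M) → ↥(Subgroup.zpowers z)))
      DFunLike.coe_injective
  have le1 : Nat.card ↥(Q₀ ⊓ M) ≤ Nat.card W := by
    have h := Nat.card_le_card_of_injective f1 hf1
    rwa [ea_hom_card hcommW hsqW hZs] at h
  have le2 : Nat.card W ≤ Nat.card ↥(Q₀ ⊓ M) := by
    have h := Nat.card_le_card_of_injective f2 hf2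
    rwa [ea_hom_card hcommT hsqT hZs] at h
  exact le_antisymm le1 le2

/-- `|Q₀| = |U| |Q₀ ∩ M|`. -/
theorem GB.cardQ [Finite G] (B : GB U M z) (hQ : IsQ0 U z Q₀) :
    Nat.card Q₀ = Nat.card U * Nat.card ↥(Q₀ ⊓ M) := by
  have hUQ := B.UleQ hQ
  let f : ↥U × ↥(Q₀ ⊓ M) → ↥Q₀ := fun p =>
    ⟨(p.1 : G) * (p.2 : G), Q₀.mul_mem (hUQ p.1.2) (Subgroup.mem_inf.mp p.2.2).1⟩
  have hf : Function.Bijective f := by
    constructor
    · rintro ⟨u, t⟩ ⟨u', t'⟩ h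
      have h1 : (u : G) * (t : G) = (u' : G) * (t' : G) := congrArg Subtype.val h
      have h2 : (u' : G)⁻¹ * (u : G) = (t' : G) * (t : G)⁻¹ := by
        calc (u' : G)⁻¹ * (u : G) = (u' : G)⁻¹ * ((u : G) * (t : G)) * (t : G)⁻¹ := by group
          _ = (u' : G)⁻¹ * ((u' : G) * (t' : G)) * (t : G)⁻¹ := by rw [h1]
          _ = (t' : G) * (t : G)⁻¹ := by group
      have h3 : (u' : G)⁻¹ * (u : G) = 1 := by
        apply B.disj _ (U.mul_mem (U.inv_mem u'.2) u.2)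
        rw [h2]
        exact M.mul_mem (Subgroup.mem_inf.mp t'.2).2 (M.inv_mem (Subgroup.mem_inf.mp t.2).2)
      have h4 : (u : G) = u' := by
        calc (u : G) = (u' : G) * ((u' : G)⁻¹ * (u : G)) := by group
          _ = u' := by rw [h3, mul_one]
      have h5 : (t : G) = t' := by
        rw [h4] at h1
        exact mul_left_cancel h1
      exact Prod.ext (Subtype.ext h4) (Subtype.ext h5)
    · intro q
      obtain ⟨u, hu, t, htM, htQ, hq⟩ := B.qdec hQ q q.2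
      exact ⟨(⟨u, hu⟩, ⟨t, Subgroup.mem_inf.mpr ⟨htQ, htM⟩⟩), Subtype.ext hq.symm⟩
  rw [← Nat.card_prod]
  exact (Nat.card_eq_of_bijective f hf).symm

/-- The split extension of an elementary abelian group of order `2 ^ (n + 1)` by its full
automorphism group: `O_2` of a point stabilizer is a large extraspecial subgroup of order
`2 ^ (2 n + 1)`, complemented by `GL_n(2)`. -/
theorem s5423_main {G : Type*} [Group G] [Finite G] (n : ℕ) (hn : 1 ≤ n) (U M : Subgroup G)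
    [U.Normal] (hU : Cfsg.IsElementaryAbelian 2 U) (hUcard : Nat.card ↥U = 2 ^ (n + 1))
    (hUM : U ⊓ M = ⊥) (hUM' : U ⊔ M = ⊤)
    (hfaith : ∀ m ∈ M, (∀ u ∈ U, m * u * m⁻¹ = u) → m = 1)
    (hfull : ∀ φ : ↥U ≃* ↥U, ∃ m ∈ M, ∀ u : ↥U, ((φ u : ↥U) : G) = m * u * m⁻¹)
    (Z : Subgroup G) (hZU : Z ≤ U) (hZ : Nat.card ↥Z = 2) (Q : Subgroup G)
    (hQ : Q = (Cfsg.pCore 2 ↥(Subgroup.centralizer (Z : Set G))).map
      (Subgroup.centralizer (Z : Set G)).subtype) :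
    Cfsg.IsExtraspecial 2 ↥Q ∧ Nat.card ↥Q = 2 ^ (2 * n + 1) ∧
      (∃ E : Subgroup G, E ≤ Q ∧ Cfsg.IsElementaryAbelian 2 E ∧ Nat.card ↥E = 2 ^ (n + 1)) ∧
      Cfsg.IsLargeExtraspecial Q ∧
      ∃ K : Subgroup G, K ≤ Subgroup.centralizer (Z : Set G) ∧ Q ⊓ K = ⊥ ∧
        Q ⊔ K = Subgroup.centralizer (Z : Set G) ∧
        Nonempty (↥K ≃* Matrix.GeneralLinearGroup (Fin n) (ZMod 2)) := by
  classical
  obtain ⟨z', hz'1, hz'u⟩ := (Nat.card_eq_two_iff' (1 : ↥Z)).mp hZ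
  have hzZ : (z' : G) ∈ Z := z'.2
  have hz1 : (z' : G) ≠ 1 := fun h => hz'1 (Subtype.ext h)
  have hZel : ∀ y ∈ Z, y = 1 ∨ y = (z' : G) := by
    intro y hy
    by_cases h : y = 1
    · exact Or.inl h
    · right
      have h2 := hz'u ⟨y, hy⟩ (fun h' => h (congrArg Subtype.val h'))
      exact congrArg Subtype.val h2
  obtain ⟨z, hz⟩ : ∃ z : G, z = (z' : G) := ⟨_, rfl⟩
  rw [← hz] at hzZ hz1 hZel
  have hCeq : Subgroup.centralizer (Z : Set G) = Subgroup.centralizer ({z} : Set G) := by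
    ext c
    rw [mem_cs, Subgroup.mem_centralizer_iff]
    constructor
    · intro h
      exact h z hzZ
    · intro h y hy
      rcases hZel y hy with h1 | h1
      · rw [h1, one_mul, mul_one]
      · rw [h1]
        exact h
  rw [hCeq] at hQ
  rw [hCeq]
  have B : GB U M z :=
    { unorm := fun g u hu => (inferInstance : U.Normal).conj_mem u hu g
      ucomm := fun a ha b hb => congrArg Subtype.val (hU.1.is_comm.comm ⟨a, ha⟩ ⟨b, hb⟩)
      usq := fun a ha => by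
        rw [← pow_two]
        exact hU.2 a ha
      disj := fun x hxU hxM => by
        have h : x ∈ U ⊓ M := Subgroup.mem_inf.mpr ⟨hxU, hxM⟩
        rw [hUM] at h
        exact Subgroup.mem_bot.mp h
      dec := fun g => by
        have h1 : g ∈ ((U ⊔ M : Subgroup G) : Set G) := by
          rw [hUM']
          exact Subgroup.mem_top g
        rw [Subgroup.normal_mul] at h1
        obtain ⟨u, hu, m, hm, rfl⟩ := Set.mem_mul.mp h1
        exact ⟨u, hu, m, hm, rfl⟩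
      faith := hfaith
      full := hfull
      zU := hZU hzZ
      z1 := hz1 }
  obtain ⟨Q₀, hQ₀⟩ := B.exQ
  obtain ⟨W, hW, hWc⟩ := B.exW
  obtain ⟨K, hK⟩ := exK M z W
  have hWcard : Nat.card W = 2 ^ n := by
    rw [hUcard, pow_succ] at hWc
    exact Nat.eq_of_mul_eq_mul_right (by norm_num) hWc
  have h2W : 2 ∣ Nat.card W := by
    rw [hWcard]
    exact dvd_pow_self 2 (by omega)
  have hWnt : ∃ w ∈ W, w ≠ 1 := by
    by_contra hcon
    have hbot : W = ⊥ := by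
      rw [Subgroup.eq_bot_iff_forall]
      intro w hw
      by_contra hw1
      exact hcon ⟨w, hw, hw1⟩
    rw [hbot, Subgroup.card_bot] at hWcard
    have h21 : 2 ∣ 1 := by
      rw [hWcard]
      exact dvd_pow_self 2 (by omega)
    omega
  obtain ⟨u₀, hu₀W, hu₀1⟩ := hWnt
  have hu₀z : u₀ ≠ z := fun h => hW.2.1 (by rw [← h]; exact hu₀W)
  have hL := B.large hQ₀ u₀ (hW.1 hu₀W) hu₀1 hu₀z
  have H := B.qe hQ₀ u₀ (hW.1 hu₀W) hu₀1 hu₀z
  have hQQ : Q = QQ z := hQ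
  have hUQ₀ := B.UleQ hQ₀
  have hQ₀2 : IsPGroup 2 ↥Q₀ := by
    intro g
    obtain ⟨j, hj⟩ := H.P2 g g.2
    refine ⟨j, Subtype.ext ?_⟩
    rw [Subgroup.coe_pow]
    exact hj
  have hQ₀le : Q₀ ≤ QQ z := by
    apply le_QQ z Q₀ ?_ hQ₀2 ?_
    · intro q hq
      rw [mem_cs]
      exact ((hQ₀ q).mp hq).1.symm
    · intro c hc y hy
      exact B.qnorm hQ₀ c (mem_cs.mp hc).symm y hy
  have hNK : QQ z ⊓ K = ⊥ := by
    apply B.qk hW hK h2W (QQ z ⊓ K) ((QQ_pgroup z).to_le inf_le_left) inf_le_right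
    intro k hk x hx
    have hkK := (hK k).mp hk
    have hx' := Subgroup.mem_inf.mp hx
    refine Subgroup.mem_inf.mpr ⟨QQ_conj_mem z (mem_cs.mpr hkK.2.1.symm) hx'.1, ?_⟩
    exact K.mul_mem (K.mul_mem hk hx'.2) (K.inv_mem hk)
  have hQeq : QQ z = Q₀ := by
    apply le_antisymm _ hQ₀le
    intro q hq
    have hqz : q * z = z * q := (mem_cs.mp (QQ_le z hq)).symm
    obtain ⟨q₀, hq₀, k, hk, rfl⟩ := B.split hQ₀ hW hK q hqz
    have hkQ : k ∈ QQ z := by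
      have e : k = q₀⁻¹ * (q₀ * k) := by group
      rw [e]
      exact (QQ z).mul_mem ((QQ z).inv_mem (hQ₀le hq₀)) hq
    have hk1 : k = 1 := by
      have h : k ∈ QQ z ⊓ K := Subgroup.mem_inf.mpr ⟨hkQ, hk⟩
      rw [hNK] at h
      exact Subgroup.mem_bot.mp h
    rw [hk1, mul_one]
    exact hq₀
  rw [hQQ, hQeq]
  have hcardQ : Nat.card Q₀ = 2 ^ (2 * n + 1) := by
    rw [B.cardQ hQ₀, B.cardT hQ₀ hW, hUcard, hWcard, ← pow_add]
    congr 1
    omega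
  refine ⟨hL.1, hcardQ, ⟨U, hUQ₀, hU, hUcard⟩, hL, K, ?_, ?_, ?_, B.kgl hW hK n hWcard⟩
  · intro k hk
    rw [mem_cs]
    exact ((hK k).mp hk).2.1.symm
  · rw [← hQeq]
    exact hNK
  · apply le_antisymm
    · apply sup_le
      · rw [← hQeq]
        exact QQ_le z
      · intro k hk
        rw [mem_cs]
        exact ((hK k).mp hk).2.1.symm
    · intro c hc
      obtain ⟨q, hq, k, hk, rfl⟩ := B.split hQ₀ hW hK c (mem_cs.mp hc).symm
      exact Subgroup.mul_mem_sup hq hk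

end Cfsg.Agent.Lead.XS
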